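import Cfsg.Agent.H2.AltStd

/-! Alternating groups in projective special linear groups. -/

set_option autoImplicit false

namespace CfsgH2

open Subgroup Cfsg Matrix
open scoped commutatorElement

variable {F : Type*} [Field F] {n : ℕ}

theorem delta_sum (g : Fin (n + 1) → F) (u v : Fin (n + 1)) : 
    ∑ k : Fin n, (g k.castSucc - g (Fin.last n)) * ((if u = k.castSucc then (1 : F) else 0) - 
      (if v = k.castSucc then (1 : F) else 0)) = g u - g v := by
  have h1 : ∑ k : Fin (n + 1), (g k - g (Fin.last n)) * ((if u = k then (1 : F) else 0) - 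
      (if v = k then (1 : F) else 0)) = g u - g v := by
    simp only [mul_sub, mul_ite, mul_one, mul_zero, Finset.sum_sub_distrib, Finset.sum_ite_eq, Finset.mem_univ, if_true]
    ring
  rw [Fin.sum_univ_castSucc] at h1
  rw [sub_self, zero_mul, add_zero] at h1
  exact h1

/-- the standard representation on the sum-zero space -/
def altMat (F : Type*) [Field F] (n : ℕ) : Equiv.Perm (Fin (n + 1)) →* Matrix (Fin n) (Fin n) F where
  toFun σ := of (fun i j => (if σ j.castSucc = i.castSucc then (1 : F) else 0) - 
    (if σ (Fin.last n) = i.castSucc then (1 : F) else 0))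
  map_one' := by
    ext i j
    rw [of_apply, Equiv.Perm.one_apply, Equiv.Perm.one_apply, one_apply]
    have h1 : Fin.last n ≠ i.castSucc := (Fin.castSucc_lt_last i).ne'
    rw [if_neg h1, sub_zero]
    by_cases hij : i = j
    · rw [hij, if_pos rfl, if_pos rfl]
    · rw [if_neg hij, if_neg (fun h => hij (Fin.castSucc_injective n h).symm)]
  map_mul' := by
    intro σ τ
    ext i j
    rw [mul_apply]
    simp only [of_apply]
    have h1 := delta_sum (fun k => if σ k = i.castSucc then (1 : F) else 0) (τ j.castSucc) (τ (Fin.last n))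
    rw [h1]
    rfl

theorem altMat_apply (σ : Equiv.Perm (Fin (n + 1))) (i j : Fin n) : 
    altMat F n σ i j = (if σ j.castSucc = i.castSucc then (1 : F) else 0) - 
    (if σ (Fin.last n) = i.castSucc then (1 : F) else 0) := rfl

theorem exists_alt_PSL (hn : 5 ≤ n) : 
    ∃ f : alternatingGroup (Fin (n + 1)) →* Matrix.ProjectiveSpecialLinearGroup (Fin n) F, Function.Injective f := by
  haveI hsimp : IsSimpleGroup (alternatingGroup (Fin (n + 1))) := alternatingGroup.isSimpleGroup (by
    rw [Nat.card_eq_fintype_card, Fintype.card_fin]; omega)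
  have hperf : commutator (alternatingGroup (Fin (n + 1))) = ⊤ := by
    apply IsQuasisimple.commutator_top
    apply isQuasisimple_of_simple
    rw [alternatingGroup.isMulCommutative_iff_card_le_three, Nat.card_eq_fintype_card, Fintype.card_fin]
    omega
  obtain ⟨χ, hχ⟩ : ∃ χ : alternatingGroup (Fin (n + 1)) →* F, 
      χ = (Matrix.detMonoidHom).comp ((altMat F n).comp (alternatingGroup (Fin (n + 1))).subtype) := ⟨_, rfl⟩
  have hdet : ∀ a : alternatingGroup (Fin (n + 1)), (altMat F n a).det = 1 := by
    intro a
    have h1 : commutator (alternatingGroup (Fin (n + 1))) ≤ χ.ker := by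
      rw [_root_.commutator_def, commutator_le]
      intro x _ y _
      rw [MonoidHom.mem_ker, commutatorElement_def, map_mul, map_mul, map_mul]
      have h2 : χ x * χ x⁻¹ = 1 := by rw [← map_mul, mul_inv_cancel, map_one]
      have h3 : χ y * χ y⁻¹ = 1 := by rw [← map_mul, mul_inv_cancel, map_one]
      calc χ x * χ y * χ x⁻¹ * χ y⁻¹ = (χ x * χ x⁻¹) * (χ y * χ y⁻¹) := by ring
        _ = 1 := by rw [h2, h3, one_mul]
    rw [hperf] at h1
    have h2 : χ a = 1 := h1 (mem_top a)
    rw [hχ] at h2
    exact h2
  let ρ : alternatingGroup (Fin (n + 1)) →* SpecialLinearGroup (Fin n) F := 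
    { toFun := fun a => ⟨altMat F n a, hdet a⟩
      map_one' := by
        apply Subtype.ext
        exact map_one (altMat F n)
      map_mul' := by
        intro a b
        apply Subtype.ext
        exact map_mul (altMat F n) (a : Equiv.Perm (Fin (n + 1))) (b : Equiv.Perm (Fin (n + 1))) }
  let f : alternatingGroup (Fin (n + 1)) →* Matrix.ProjectiveSpecialLinearGroup (Fin n) F := 
    (QuotientGroup.mk' (center (SpecialLinearGroup (Fin n) F))).comp ρ
  refine ⟨f, ?_⟩
  rw [← MonoidHom.ker_eq_bot_iff]
  rcases (inferInstance : f.ker.Normal).eq_bot_or_eq_top with h | h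
  · exact h
  · exfalso
    let x : Fin n := ⟨0, by omega⟩
    let y : Fin n := ⟨1, by omega⟩
    let z : Fin n := ⟨2, by omega⟩
    have hxy : x.castSucc ≠ y.castSucc := by intro h; exact absurd (congrArg Fin.val h) (by simp [x, y])
    have hxz : x.castSucc ≠ z.castSucc := by intro h; exact absurd (congrArg Fin.val h) (by simp [x, z])
    have hyz : y.castSucc ≠ z.castSucc := by intro h; exact absurd (congrArg Fin.val h) (by simp [y, z])
    have hxz' : z ≠ x := by intro h; exact absurd (congrArg Fin.val h) (by simp [x, z])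
    have h1 : cyc3 hxy hxz ∈ f.ker := by rw [h]; exact mem_top _
    have h2 : ρ (cyc3 hxy hxz) ∈ center (SpecialLinearGroup (Fin n) F) := (QuotientGroup.eq_one_iff _).mp h1
    obtain ⟨r, -, hr⟩ := Matrix.SpecialLinearGroup.mem_center_iff.mp h2
    have h3 : altMat F n (cyc3 hxy hxz : alternatingGroup (Fin (n + 1))) = scalar (Fin n) r := hr.symm
    have h4 := congrFun (congrFun h3 z) x
    rw [altMat_apply, cyc3_apply hxy hxz hyz, if_pos rfl, 
      cyc3_fix hxy hxz (Fin.castSucc_lt_last x).ne' (Fin.castSucc_lt_last y).ne' (Fin.castSucc_lt_last z).ne',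
      if_neg (Fin.castSucc_lt_last z).ne', sub_zero, scalar_apply, diagonal_apply_ne _ hxz'] at h4
    exact one_ne_zero h4

end CfsgH2
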