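import Mathlib
import Cfsg.Agent.H2.FrobDiv
import Cfsg.Agent.H2.OmegaAct
import Cfsg.Agent.H3.Rank2
import Cfsg.Agent.H1.Basic

/-! # Counting cyclic subgroups of prime power order (helper2 library) -/

set_option autoImplicit false

namespace CfsgH2

open Subgroup

universe u v

theorem dvd_card_of_fibers {α : Type u} {β : Type v} [Finite α] (f : α → β) (d : ℕ)
    (h : ∀ a : α, d ∣ Nat.card {a' : α // f a' = f a}) : d ∣ Nat.card α := by
  classical
  letI : Fintype α := Fintype.ofFinite α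
  rw [Nat.card_eq_fintype_card, ← Finset.card_univ, Finset.card_eq_sum_card_image f Finset.univ]
  apply Finset.dvd_sum
  intro b hb
  obtain ⟨a, -, rfl⟩ := Finset.mem_image.1 hb
  have := h a
  rw [Nat.card_eq_fintype_card, Fintype.card_subtype] at this
  exact this

/-- elements of order `n` and cyclic subgroups of order `n` -/
theorem card_orderOf_zpowers {G : Type u} [Group G] [Finite G] (n : ℕ) (Q : Subgroup G → Prop) :
    Nat.card {g : G // orderOf g = n ∧ Q (zpowers g)} =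
      n.totient * Nat.card {X : Subgroup G // IsCyclic X ∧ Nat.card X = n ∧ Q X} := by
  classical
  letI : Fintype {X : Subgroup G // IsCyclic X ∧ Nat.card X = n ∧ Q X} := Fintype.ofFinite _
  let f : {g : G // orderOf g = n ∧ Q (zpowers g)} → {X : Subgroup G // IsCyclic X ∧ Nat.card X = n ∧ Q X} :=
    fun g => ⟨zpowers (g : G), inferInstance, by rw [Nat.card_zpowers]; exact g.2.1, g.2.2⟩
  rw [Nat.card_congr (Equiv.sigmaFiberEquiv f).symm, Nat.card_sigma]
  rw [Finset.sum_congr rfl (g := fun _ => n.totient)]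
  · rw [Finset.sum_const, Finset.card_univ, Nat.card_eq_fintype_card, smul_eq_mul, mul_comm]
  · rintro ⟨X, hXc, hXn, hQ⟩ -
    letI : Fintype X := Fintype.ofFinite _
    haveI := hXc
    have h2 : (Finset.univ.filter (fun a : X => orderOf a = n)).card = n.totient := by
      apply IsCyclic.card_orderOf_eq_totient
      rw [← Nat.card_eq_fintype_card, hXn]
    rw [← h2, ← Fintype.card_subtype, ← Nat.card_eq_fintype_card]
    refine Nat.card_congr ⟨fun g => ⟨⟨(g.1 : G), ?_⟩, ?_⟩, fun x => ⟨⟨((x : X) : G), ?_, ?_⟩, ?_⟩, ?_, ?_⟩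
    · have h3 : zpowers (g.1 : G) = X := congrArg Subtype.val g.2
      exact h3.le (mem_zpowers _)
    · rw [Subgroup.orderOf_mk]; exact g.1.2.1
    · rw [Subgroup.orderOf_coe]; exact x.2
    · have h3 : zpowers ((x : X) : G) = X := by
        apply Subgroup.eq_of_le_of_card_ge
        · rw [zpowers_le]; exact x.1.2
        · rw [Nat.card_zpowers, Subgroup.orderOf_coe, x.2, hXn]
      rw [h3]; exact hQ
    · apply Subtype.ext
      show zpowers ((x : X) : G) = X
      apply Subgroup.eq_of_le_of_card_ge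
      · rw [zpowers_le]; exact x.1.2
      · rw [Nat.card_zpowers, Subgroup.orderOf_coe, x.2, hXn]
    · intro g; rfl
    · intro x; rfl

section
variable {P : Type u} [Group P] [Finite P] {p : ℕ} [hp : Fact p.Prime]

theorem dvd_order_of_cyc {x : P} {s : ℕ} (hs : 1 < s) (hx : orderOf x = p ^ s) {k : ℤ} (h : (x ^ k) ^ p = 1) :
    ∃ j : ℤ, k = (p : ℤ) ^ (s - 1) * j := by
  have h1 : x ^ (k * p) = 1 := by rw [zpow_mul, zpow_natCast]; exact h
  have h2 := orderOf_dvd_iff_zpow_eq_one.2 h1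
  rw [hx] at h2
  obtain ⟨j, hj⟩ := h2
  refine ⟨j, ?_⟩
  have h3 : (p : ℤ) ≠ 0 := by exact_mod_cast hp.out.ne_zero
  apply mul_right_cancel₀ h3
  rw [hj]
  push_cast
  obtain ⟨t, rfl⟩ := Nat.exists_eq_add_of_lt hs
  have : 1 + t + 1 - 1 = t + 1 := by omega
  rw [this]; ring

/-- the class of cyclic subgroups of order `p^s` with given product with `E` -/
theorem cyc_class (hp2 : p ≠ 2) {E : Subgroup P} [hE : E.Normal] (hEab : ∀ a ∈ E, ∀ b ∈ E, a * b = b * a)
    (hEp : ∀ a ∈ E, a ^ p = 1) (hEc : Nat.card E = p ^ 2) {s : ℕ} (hs : 1 < s) {x : P} (hx : orderOf x = p ^ s)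
    (hN : E ≤ normalizer (zpowers x : Set P)) :
    p ^ s ∣ Nat.card {y : P // (orderOf y = p ^ s ∧ E ≤ normalizer (zpowers y : Set P)) ∧ zpowers y ⊔ E = zpowers x ⊔ E} := by
  have hcpow : ∀ c ∈ zpowers x ⊓ E, c ∈ zpowers (x ^ p ^ (s - 1)) := by
    rintro c ⟨⟨k, rfl⟩, hc⟩
    obtain ⟨j, hj⟩ := dvd_order_of_cyc hs hx (hEp _ hc)
    refine ⟨j, ?_⟩
    show (x ^ p ^ (s - 1)) ^ j = x ^ k
    rw [hj, zpow_mul, ← zpow_natCast x (p ^ (s - 1))]
    push_cast
    rfl
  have hcx : ∀ c ∈ zpowers x ⊓ E, c * x = x * c := by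
    rintro c ⟨⟨k, rfl⟩, hc⟩
    exact ((Commute.refl x).zpow_left k).eq
  have hcomm : ∀ (i : ℕ) (f : P), f ∈ E → (x ^ i)⁻¹ * (f * x ^ i * f⁻¹) ∈ zpowers x ⊓ E := by
    intro i f hf
    constructor
    · apply (zpowers x).mul_mem
      · exact (zpowers x).inv_mem ((zpowers x).pow_mem (mem_zpowers x) i)
      · exact (mem_normalizer_iff.1 (hN hf) _).1 ((zpowers x).pow_mem (mem_zpowers x) i)
    · have h1 : (x ^ i)⁻¹ * (f * x ^ i * f⁻¹) = ((x ^ i)⁻¹ * f * (x ^ i)⁻¹⁻¹) * f⁻¹ := by group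
      rw [h1]
      exact E.mul_mem (hE.conj_mem f hf _) (E.inv_mem hf)
  have hpow : ∀ (i : ℕ) (e : P), e ∈ E → (x ^ i * e) ^ p ^ (s - 1) = (x ^ i) ^ p ^ (s - 1) := by
    intro i e he
    obtain ⟨c, hc⟩ : ∃ c, c = (x ^ i)⁻¹ * (e * x ^ i * e⁻¹) := ⟨_, rfl⟩
    have hcm : c ∈ zpowers x ⊓ E := by rw [hc]; exact hcomm i e he
    have h1 := pow_mul_class_two (x := x ^ i) (y := e) (c := c) ?_ ?_ (hEab c hcm.2 e he) (p ^ (s - 1))
    · rw [h1]
      have h2 : p ∣ p ^ (s - 1) := dvd_pow_self p (by omega)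
      have h3 : e ^ p ^ (s - 1) = 1 := by
        obtain ⟨k, hk⟩ := h2
        rw [hk, pow_mul, hEp e he, one_pow]
      have h4 : p ∣ (p ^ (s - 1)).choose 2 := by
        rw [Nat.choose_two_right]
        have h5 : p ^ (s - 1) * (p ^ (s - 1) - 1) / 2 * 2 = p ^ (s - 1) * (p ^ (s - 1) - 1) :=
          Nat.div_mul_cancel (Nat.even_mul_pred_self _).two_dvd
        have h6 : p ∣ p ^ (s - 1) * (p ^ (s - 1) - 1) / 2 * 2 := by rw [h5]; exact h2.mul_right _
        exact ((Nat.coprime_primes hp.out Nat.prime_two).2 hp2).dvd_of_dvd_mul_right h6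
      have h7 : c ^ (p ^ (s - 1)).choose 2 = 1 := by
        obtain ⟨k, hk⟩ := h4
        rw [hk, pow_mul, hEp c hcm.2, one_pow]
      rw [h3, h7, mul_one, mul_one]
    · -- e x^i = x^i e c
      have h5 : e * c = c * e := hEab e he c hcm.2
      calc e * x ^ i = x ^ i * ((x ^ i)⁻¹ * (e * x ^ i * e⁻¹)) * e := by group
        _ = x ^ i * c * e := by rw [← hc]
        _ = x ^ i * (c * e) := by group
        _ = x ^ i * e * c := by rw [← h5]; group
    · exact ((show Commute c x from hcx c hcm).pow_right i).eq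
  have hxs : x ^ p ^ s = 1 := by rw [← hx]; exact pow_orderOf_eq_one x
  have hs1 : s - 1 + 1 = s := by omega
  have hord : ∀ (i : ℕ) (e : P), e ∈ E → ¬ p ∣ i → orderOf (x ^ i * e) = p ^ s := by
    intro i e he hpi
    rw [← hs1]
    apply orderOf_eq_prime_pow
    · rw [hpow i e he, ← pow_mul]
      intro h
      have h1 := orderOf_dvd_of_pow_eq_one h
      have h2 : p ^ (s - 1) * p ∣ p ^ (s - 1) * i := by
        rw [← pow_succ, hs1, ← hx, mul_comm _ i]; exact h1
      exact hpi (Nat.dvd_of_mul_dvd_mul_left (pow_pos hp.out.pos _) h2)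
    · rw [pow_succ, pow_mul, hpow i e he, ← pow_mul, ← pow_succ, hs1, ← pow_mul, mul_comm, pow_mul, hxs, one_pow]
  have hxi : ∀ i : ℕ, ¬ p ∣ i → x ∈ zpowers (x ^ i) := by
    intro i hpi
    rw [mem_zpowers_pow_iff, hx]
    exact Nat.Coprime.pow_right _ ((Nat.Prime.coprime_iff_not_dvd hp.out).2 hpi).symm
  have hnorm : ∀ (i : ℕ) (e : P), e ∈ E → ¬ p ∣ i → E ≤ normalizer (zpowers (x ^ i * e) : Set P) := by
    intro i e he hpi f hf
    set y := x ^ i * e with hy
    obtain ⟨c, hc⟩ : ∃ c, c = (x ^ i)⁻¹ * (f * x ^ i * f⁻¹) := ⟨_, rfl⟩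
    have hcm : c ∈ zpowers x ⊓ E := by rw [hc]; exact hcomm i f hf
    have h1 : f * y * f⁻¹ = y * c := by
      have h2 : f * e = e * f := hEab f hf e he
      have h3 : e * c = c * e := hEab e he c hcm.2
      calc f * y * f⁻¹ = f * x ^ i * (f⁻¹ * (f * e)) * f⁻¹ := by rw [hy]; group
        _ = f * x ^ i * (f⁻¹ * (e * f)) * f⁻¹ := by rw [h2]
        _ = x ^ i * ((x ^ i)⁻¹ * (f * x ^ i * f⁻¹)) * e := by group
        _ = x ^ i * c * e := by rw [← hc]
        _ = x ^ i * (c * e) := by group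
        _ = x ^ i * (e * c) := by rw [h3]
        _ = y * c := by rw [hy]; group
    have h2 : c ∈ zpowers y := by
      have h3 : y ^ p ^ (s - 1) = (x ^ p ^ (s - 1)) ^ i := by
        rw [hy, hpow i e he, ← pow_mul, ← pow_mul, mul_comm]
      have h4 := hcpow c hcm
      have h5 : x ^ p ^ (s - 1) ∈ zpowers ((x ^ p ^ (s - 1)) ^ i) := by
        rw [mem_zpowers_pow_iff]
        refine Nat.Coprime.coprime_dvd_right (orderOf_pow_dvd _) ?_
        rw [hx]
        exact Nat.Coprime.pow_right _ ((Nat.Prime.coprime_iff_not_dvd hp.out).2 hpi).symm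
      have h6 : zpowers (x ^ p ^ (s - 1)) ≤ zpowers y := by
        rw [zpowers_le]
        rw [← h3] at h5
        exact (zpowers_le.2 ((zpowers y).pow_mem (mem_zpowers y) _)) h5
      exact h6 h4
    apply Subgroup.mem_normalizer_fintype
    rintro _ ⟨k, rfl⟩
    show f * y ^ k * f⁻¹ ∈ zpowers y
    rw [← conj_zpow, h1]
    exact (zpowers y).zpow_mem ((zpowers y).mul_mem (mem_zpowers y) h2) k
  have hsup : ∀ (i : ℕ) (e : P), e ∈ E → ¬ p ∣ i → zpowers (x ^ i * e) ⊔ E = zpowers x ⊔ E := by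
    intro i e he hpi
    apply le_antisymm
    · refine sup_le ?_ le_sup_right
      rw [zpowers_le]
      exact mul_mem ((le_sup_left : zpowers x ≤ _) ((zpowers x).pow_mem (mem_zpowers x) i)) ((le_sup_right : E ≤ _) he)
    · refine sup_le ?_ le_sup_right
      have h1 : x ^ i ∈ zpowers (x ^ i * e) ⊔ E := by
        have h2 := mul_mem ((le_sup_left : zpowers (x ^ i * e) ≤ zpowers (x ^ i * e) ⊔ E) (mem_zpowers _))
          ((le_sup_right : E ≤ zpowers (x ^ i * e) ⊔ E) (E.inv_mem he))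
        rwa [mul_inv_cancel_right] at h2
      rw [zpowers_le]
      exact (zpowers_le.2 h1) (hxi i hpi)
  -- elements of M
  have hmemM : ∀ y : P, y ∈ zpowers x ⊔ E → ∃ (i : ℕ) (e : P), e ∈ E ∧ y = x ^ i * e := by
    intro y hy
    obtain ⟨w, hw, e, he, rfl⟩ := Subgroup.mem_sup_of_normal_right.1 hy
    rw [← mem_powers_iff_mem_zpowers] at hw
    obtain ⟨i, rfl⟩ := hw
    exact ⟨i, e, he, rfl⟩
  have hM1M : zpowers (x ^ p) ⊔ E ≤ zpowers x ⊔ E :=
    sup_le_sup_right (zpowers_le.2 ((zpowers x).pow_mem (mem_zpowers x) p)) _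
  have hxM1 : x ∉ zpowers (x ^ p) ⊔ E := by
    intro h
    obtain ⟨w, ⟨k, rfl⟩, e, he, hxe⟩ := Subgroup.mem_sup_of_normal_right.1 h
    have h1 : x ^ (1 - p * k : ℤ) = e := by
      rw [zpow_sub, zpow_one, zpow_mul, zpow_natCast]
      have h2 : (x ^ p) ^ k * e = x := hxe
      rw [eq_comm, ← inv_mul_eq_iff_eq_mul.2 h2.symm]
      exact ((Commute.refl x).pow_right p |>.zpow_right k).inv_right.eq.symm
    obtain ⟨j, hj⟩ := dvd_order_of_cyc hs hx (k := 1 - p * k) (by rw [h1]; exact hEp e he)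
    obtain ⟨t, ht⟩ := Nat.exists_eq_add_of_lt hs
    have h3 : s - 1 = t + 1 := by omega
    rw [h3, pow_succ] at hj
    have h4 : (p : ℤ) ∣ 1 := ⟨(p : ℤ) ^ t * j + k, by linarith⟩
    have h5 : (p : ℕ) ∣ 1 := by exact_mod_cast h4
    exact hp.out.one_lt.ne' (Nat.dvd_one.1 h5)
  have hset : {y : P | (orderOf y = p ^ s ∧ E ≤ normalizer (zpowers y : Set P)) ∧ zpowers y ⊔ E = zpowers x ⊔ E} =
      ((zpowers x ⊔ E : Subgroup P) : Set P) \ ((zpowers (x ^ p) ⊔ E : Subgroup P) : Set P) := by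
    ext y
    constructor
    · rintro ⟨⟨h1, h2⟩, h3⟩
      have h4 : y ∈ zpowers x ⊔ E := by rw [← h3]; exact (le_sup_left : zpowers y ≤ _) (mem_zpowers y)
      refine ⟨h4, fun h5 => ?_⟩
      have h6 : zpowers y ⊔ E ≤ zpowers (x ^ p) ⊔ E := sup_le (zpowers_le.2 h5) le_sup_right
      rw [h3] at h6
      exact hxM1 (h6 ((le_sup_left : zpowers x ≤ _) (mem_zpowers x)))
    · rintro ⟨h1, h2⟩
      obtain ⟨i, e, he, rfl⟩ := hmemM y h1
      have hpi : ¬ p ∣ i := by
        rintro ⟨k, rfl⟩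
        apply h2
        apply mul_mem ((le_sup_left : zpowers (x ^ p) ≤ _) ?_) ((le_sup_right : E ≤ _) he)
        rw [pow_mul]
        exact (zpowers (x ^ p)).pow_mem (mem_zpowers _) k
      exact ⟨⟨hord i e he hpi, hnorm i e he hpi⟩, hsup i e he hpi⟩
  have hdvd_inf : Nat.card (zpowers x ⊓ E : Subgroup P) ∣ p := by
    have h1 : zpowers x ⊓ E ≤ zpowers (x ^ p ^ (s - 1)) := fun c hc => hcpow c hc
    have h2 : Nat.card (zpowers (x ^ p ^ (s - 1))) = p := by
      rw [Nat.card_zpowers, orderOf_pow_of_dvd (pow_pos hp.out.pos _).ne' (by rw [hx]; exact pow_dvd_pow p (by omega)), hx,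
        Nat.pow_div (by omega) hp.out.pos]
      have : s - (s - 1) = 1 := by omega
      rw [this, pow_one]
    rw [← h2]
    exact Subgroup.card_dvd_of_le h1
  have hEn : ∀ K : Subgroup P, K ≤ normalizer (E : Set P) := fun K => le_normalizer_of_normal
  have hcardM : p ^ s ∣ Nat.card (zpowers x ⊔ E : Subgroup P) := by
    have h1 := CfsgH1.card_sup_mul_card_inf (hEn (zpowers x))
    rw [Nat.card_zpowers, hx, hEc] at h1
    obtain ⟨d, hd⟩ := hdvd_inf
    have h2 : Nat.card (zpowers x ⊔ E : Subgroup P) * p = (p ^ s * p * d) * p := by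
      calc _ = Nat.card (zpowers x ⊔ E : Subgroup P) * (Nat.card (zpowers x ⊓ E : Subgroup P) * d) := by rw [← hd]
        _ = (Nat.card (zpowers x ⊔ E : Subgroup P) * Nat.card (zpowers x ⊓ E : Subgroup P)) * d := by ring
        _ = _ := by rw [h1]; ring
    have h3 := Nat.eq_of_mul_eq_mul_right hp.out.pos h2
    rw [h3, mul_assoc]; exact Dvd.intro _ rfl
  have hcardM1 : p ^ s ∣ Nat.card (zpowers (x ^ p) ⊔ E : Subgroup P) := by
    have h1 := CfsgH1.card_sup_mul_card_inf (hEn (zpowers (x ^ p)))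
    have h2 : orderOf (x ^ p) = p ^ (s - 1) := by
      rw [orderOf_pow_of_dvd hp.out.ne_zero (by rw [hx]; exact dvd_pow_self p (by omega)), hx]
      have : p ^ s = p ^ (s - 1) * p := by rw [← pow_succ, hs1]
      rw [this, Nat.mul_div_cancel _ hp.out.pos]
    rw [Nat.card_zpowers, h2, hEc] at h1
    have h3 : Nat.card (zpowers (x ^ p) ⊓ E : Subgroup P) ∣ p :=
      (Subgroup.card_dvd_of_le (inf_le_inf_right E (zpowers_le.2 ((zpowers x).pow_mem (mem_zpowers x) p)))).trans hdvd_inf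
    obtain ⟨d, hd⟩ := h3
    have h4 : Nat.card (zpowers (x ^ p) ⊔ E : Subgroup P) * p = (p ^ s * d) * p := by
      calc _ = Nat.card (zpowers (x ^ p) ⊔ E : Subgroup P) * (Nat.card (zpowers (x ^ p) ⊓ E : Subgroup P) * d) := by rw [← hd]
        _ = (Nat.card (zpowers (x ^ p) ⊔ E : Subgroup P) * Nat.card (zpowers (x ^ p) ⊓ E : Subgroup P)) * d := by ring
        _ = p ^ (s - 1) * p ^ 2 * d := by rw [h1]
        _ = (p ^ (s - 1) * p) * d * p := by ring
        _ = _ := by rw [← pow_succ, hs1]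
    have h5 := Nat.eq_of_mul_eq_mul_right hp.out.pos h4
    rw [h5]; exact Dvd.intro _ rfl
  have hfin : Nat.card {y : P // (orderOf y = p ^ s ∧ E ≤ normalizer (zpowers y : Set P)) ∧ zpowers y ⊔ E = zpowers x ⊔ E} =
      Nat.card (zpowers x ⊔ E : Subgroup P) - Nat.card (zpowers (x ^ p) ⊔ E : Subgroup P) := by
    have h1 : Nat.card {y : P // (orderOf y = p ^ s ∧ E ≤ normalizer (zpowers y : Set P)) ∧ zpowers y ⊔ E = zpowers x ⊔ E} =
      ({y : P | (orderOf y = p ^ s ∧ E ≤ normalizer (zpowers y : Set P)) ∧ zpowers y ⊔ E = zpowers x ⊔ E} : Set P).ncard := rfl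
    rw [h1, hset, Set.ncard_sdiff hM1M]
    rfl
  rw [hfin]
  exact Nat.dvd_sub hcardM hcardM1

/-- conjugation action on the cyclic subgroups of order `n` satisfying an invariant condition -/
theorem card_cyc_modEq {G : Type u} [Group G] [Finite G] {p : ℕ} [Fact p.Prime] (n : ℕ) (Q : Subgroup G → Prop) (H : Subgroup G)
    (hH : IsPGroup p H) (hQ : ∀ h ∈ H, ∀ X : Subgroup G, Q X → Q (X.map (MulAut.conj h).toMonoidHom)) :
    Nat.card {X : Subgroup G // IsCyclic X ∧ Nat.card X = n ∧ Q X} ≡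
      Nat.card {X : Subgroup G // IsCyclic X ∧ Nat.card X = n ∧ (Q X ∧ H ≤ normalizer (X : Set G))} [MOD p] := by
  classical
  letI : MulAction H {X : Subgroup G // IsCyclic X ∧ Nat.card X = n ∧ Q X} :=
    { smul := fun h X => ⟨X.1.map (MulAut.conj (h : G)).toMonoidHom, by
        haveI := X.2.1
        refine ⟨?_, ?_, hQ h h.2 _ X.2.2.2⟩
        · exact isCyclic_of_surjective (X.1.equivMapOfInjective _ (MulAut.conj (h : G)).injective)
            (X.1.equivMapOfInjective _ (MulAut.conj (h : G)).injective).surjective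
        · exact (Nat.card_congr (X.1.equivMapOfInjective _ (MulAut.conj (h : G)).injective).symm.toEquiv).trans X.2.2.1⟩
      one_smul := fun X => by
        apply Subtype.ext
        show X.1.map (MulAut.conj ((1 : H) : G)).toMonoidHom = X.1
        rw [Subgroup.coe_one, map_one]
        exact Subgroup.map_id _
      mul_smul := fun a b X => by
        apply Subtype.ext
        show X.1.map (MulAut.conj ((a * b : H) : G)).toMonoidHom =
          (X.1.map (MulAut.conj (b : G)).toMonoidHom).map (MulAut.conj (a : G)).toMonoidHom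
        rw [Subgroup.map_map, Subgroup.coe_mul, map_mul]
        rfl }
  have h1 := hH.card_modEq_card_fixedPoints {X : Subgroup G // IsCyclic X ∧ Nat.card X = n ∧ Q X}
  refine h1.trans ?_
  have h2 : Nat.card (MulAction.fixedPoints H {X : Subgroup G // IsCyclic X ∧ Nat.card X = n ∧ Q X}) =
      Nat.card {X : Subgroup G // IsCyclic X ∧ Nat.card X = n ∧ (Q X ∧ H ≤ normalizer (X : Set G))} := by
    refine Nat.card_congr ⟨fun X => ⟨X.1.1, X.1.2.1, X.1.2.2.1, X.1.2.2.2, ?_⟩,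
      fun X => ⟨⟨X.1, X.2.1, X.2.2.1, X.2.2.2.1⟩, ?_⟩, fun X => rfl, fun X => rfl⟩
    · intro h hh
      have h3 : X.1.1.map (MulAut.conj h).toMonoidHom = X.1.1 := congrArg Subtype.val (X.2 ⟨h, hh⟩)
      apply Subgroup.mem_normalizer_fintype
      intro x hx
      have h4 : h * x * h⁻¹ ∈ X.1.1.map (MulAut.conj h).toMonoidHom := ⟨x, hx, rfl⟩
      rwa [h3] at h4
    · intro h
      apply Subtype.ext
      show X.1.map (MulAut.conj (h : G)).toMonoidHom = X.1
      ext x
      have h3 := X.2.2.2.2 h.2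
      rw [mem_normalizer_iff] at h3
      constructor
      · rintro ⟨y, hy, rfl⟩
        exact (h3 y).1 hy
      · intro hx
        refine ⟨(h : G)⁻¹ * x * h, ?_, ?_⟩
        · apply (h3 _).2
          have : (h : G) * ((h : G)⁻¹ * x * h) * (h : G)⁻¹ = x := by group
          rw [this]; exact hx
        · show (h : G) * ((h : G)⁻¹ * x * h) * (h : G)⁻¹ = x
          group
  rw [h2]

/-- noncyclic `p`-groups, `p` odd -/
theorem cyc_count_pgroup (hP : IsPGroup p P) (hp2 : p ≠ 2) (hnc : ¬ IsCyclic P) {s : ℕ} (hs : 1 < s) :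
    p ∣ Nat.card {X : Subgroup P // IsCyclic X ∧ Nat.card X = p ^ s ∧ True} := by
  obtain ⟨E, hEn, hEab, hEp, hEc⟩ := CfsgH3.exists_normal_sq hp2 hP hnc
  have h1 := card_cyc_modEq (p := p) (p ^ s) (fun _ : Subgroup P => True) E (hP.to_subgroup _) (fun _ _ _ _ => trivial)
  apply (Nat.modEq_zero_iff_dvd).1
  refine h1.trans ((Nat.modEq_zero_iff_dvd).2 ?_)
  have h2 := card_orderOf_zpowers (G := P) (p ^ s) (fun X => True ∧ E ≤ normalizer (X : Set P))
  have h3 : p ^ s ∣ Nat.card {g : P // orderOf g = p ^ s ∧ (True ∧ E ≤ normalizer (zpowers g : Set P))} := by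
    apply dvd_card_of_fibers (fun g : {g : P // orderOf g = p ^ s ∧ (True ∧ E ≤ normalizer (zpowers g : Set P))} =>
      zpowers (g : P) ⊔ E)
    rintro ⟨x, hx, -, hN⟩
    have h4 := cyc_class hp2 hEab hEp hEc hs hx hN
    have h5 : Nat.card {y : P // (orderOf y = p ^ s ∧ E ≤ normalizer (zpowers y : Set P)) ∧ zpowers y ⊔ E = zpowers x ⊔ E} =
        Nat.card {a' : {g : P // orderOf g = p ^ s ∧ (True ∧ E ≤ normalizer (zpowers g : Set P))} //
          zpowers (a' : P) ⊔ E = zpowers x ⊔ E} :=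
      Nat.card_congr ⟨fun y => ⟨⟨y.1, y.2.1.1, trivial, y.2.1.2⟩, y.2.2⟩,
        fun y => ⟨y.1.1, ⟨y.1.2.1, y.1.2.2.2⟩, y.2⟩, fun y => rfl, fun y => rfl⟩
    rw [h5] at h4
    exact h4
  rw [h2, Nat.totient_prime_pow hp.out (by omega)] at h3
  have h4 : p ^ s = p ^ (s - 1) * p := by rw [← pow_succ]; congr 1; omega
  generalize hN : Nat.card {X : Subgroup P // IsCyclic X ∧ Nat.card X = p ^ s ∧ (True ∧ E ≤ normalizer (X : Set P))} = N at h3 ⊢
  rw [h4, mul_assoc] at h3
  have h5 := Nat.dvd_of_mul_dvd_mul_left (pow_pos hp.out.pos _) h3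
  rcases hp.out.dvd_mul.1 h5 with h6 | h6
  · exfalso
    have h7 := Nat.le_of_dvd (by have := hp.out.two_le; omega) h6
    have := hp.out.two_le
    omega
  · exact h6

/-- groups with noncyclic Sylow `p`-subgroup, `p` odd -/
theorem cyc_count {G : Type u} [Group G] [Finite G] (hp2 : p ≠ 2) (S : Sylow p G) (hnc : ¬ IsCyclic (S : Subgroup G)) {s : ℕ}
    (hs : 1 < s) : p ∣ Nat.card {X : Subgroup G // IsCyclic X ∧ Nat.card X = p ^ s ∧ True} := by
  have h1 := card_cyc_modEq (p := p) (p ^ s) (fun _ : Subgroup G => True) S S.2 (fun _ _ _ _ => trivial)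
  have h2 := card_cyc_modEq (p := p) (p ^ s) (fun X : Subgroup G => X ≤ S) S S.2 (by
    rintro h hh X hX _ ⟨x, hx, rfl⟩
    exact mul_mem (mul_mem hh (hX hx)) (inv_mem hh))
  have h3 : Nat.card {X : Subgroup G // IsCyclic X ∧ Nat.card X = p ^ s ∧ (True ∧ (S : Subgroup G) ≤ normalizer (X : Set G))} =
      Nat.card {X : Subgroup G // IsCyclic X ∧ Nat.card X = p ^ s ∧ (X ≤ S ∧ (S : Subgroup G) ≤ normalizer (X : Set G))} := by
    refine Nat.card_congr ⟨fun X => ⟨X.1, X.2.1, X.2.2.1, ?_, X.2.2.2.2⟩, fun X => ⟨X.1, X.2.1, X.2.2.1, trivial, X.2.2.2.2⟩,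
      fun X => rfl, fun X => rfl⟩
    -- a p-group normalized by S is inside S
    have hX : IsPGroup p X.1 := by rw [IsPGroup.iff_card]; exact ⟨s, X.2.2.1⟩
    have h4 : IsPGroup p (X.1 ⊔ (S : Subgroup G) : Subgroup G) := by
      rw [sup_comm]
      exact S.2.to_sup_of_normal_right' hX X.2.2.2.2
    have h5 : X.1 ⊔ (S : Subgroup G) = S := S.3 h4 le_sup_right
    exact le_of_le_of_eq le_sup_left h5
  have h4 : Nat.card {X : Subgroup G // IsCyclic X ∧ Nat.card X = p ^ s ∧ X ≤ S} =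
      Nat.card {X : Subgroup (S : Subgroup G) // IsCyclic X ∧ Nat.card X = p ^ s ∧ True} := by
    refine Nat.card_congr ⟨fun X => ⟨X.1.subgroupOf S, ?_, ?_, trivial⟩,
      fun X => ⟨X.1.map (S : Subgroup G).subtype, ?_, ?_, ?_⟩, fun X => ?_, fun X => ?_⟩
    · haveI := X.2.1
      exact isCyclic_of_surjective (Subgroup.subgroupOfEquivOfLe X.2.2.2).symm (Subgroup.subgroupOfEquivOfLe X.2.2.2).symm.surjective
    · rw [Nat.card_congr (Subgroup.subgroupOfEquivOfLe X.2.2.2).toEquiv]; exact X.2.2.1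
    · haveI := X.2.1
      exact isCyclic_of_surjective (X.1.equivMapOfInjective _ (S : Subgroup G).subtype_injective)
        (X.1.equivMapOfInjective _ (S : Subgroup G).subtype_injective).surjective
    · exact (Nat.card_congr (X.1.equivMapOfInjective _ (S : Subgroup G).subtype_injective).symm.toEquiv).trans X.2.2.1
    · exact Subgroup.map_subtype_le _
    · apply Subtype.ext
      exact Subgroup.map_subgroupOf_eq_of_le X.2.2.2
    · apply Subtype.ext
      exact Subgroup.comap_map_eq_self_of_injective (S : Subgroup G).subtype_injective _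
  have h5 := cyc_count_pgroup S.2 hp2 hnc hs
  apply (Nat.modEq_zero_iff_dvd).1
  refine h1.trans ?_
  rw [h3]
  refine h2.symm.trans ?_
  rw [h4]
  exact (Nat.modEq_zero_iff_dvd).2 h5

end

end CfsgH2
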