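import Mathlib
import Cfsg.Prelude.Def_Transfer
import Cfsg.Agent.H1.Fit
import Cfsg.Agent.H1.Coprime
import Cfsg.Agent.H1.CopExtra
import Cfsg.Agent.H3.Dih
import Cfsg.Agent.S0058
import Cfsg.Agent.H2.ClassSize

/-! Thompson's dihedral lemma. -/

set_option autoImplicit false

namespace CfsgH2

open Subgroup
open scoped commutatorElement

variable {G : Type*} [Group G]

/-- `x` is a weight vector of `A` for the sign character `lam`. -/
def Wt (A : Subgroup G) (lam : A →* ℤˣ) (x : G) : Prop :=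
  ∀ b : A, (b : G) * x * (b : G)⁻¹ = x ^ ((lam b : ℤˣ) : ℤ)

theorem units_ne_one {u : ℤˣ} (h : u ≠ 1) : u = -1 := (Int.units_eq_one_or u).resolve_left h

theorem wt_of_fixed {A : Subgroup G} (hA : Cfsg.IsElementaryAbelian 2 A) {nu : A →* ℤˣ} {a₀ : A}
    (ha₀ : nu a₀ = -1) {z : G} (hz : ∀ b : A, nu b = 1 → (b : G) * z * (b : G)⁻¹ = z) :
    Wt A nu (z⁻¹ * ((a₀ : G) * z * (a₀ : G)⁻¹)) := by
  have hcomm : ∀ b c : A, (b : G) * c = c * b := fun b c => by
    have := hA.1.is_comm.comm b c
    simpa using congrArg Subtype.val this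
  have hsq : ∀ b : A, (b : G) * b = 1 := fun b => by rw [← pow_two]; exact hA.2 b b.2
  have h1 : ∀ b : A, nu b = 1 → (b : G) * (z⁻¹ * ((a₀ : G) * z * (a₀ : G)⁻¹)) * (b : G)⁻¹
      = z⁻¹ * ((a₀ : G) * z * (a₀ : G)⁻¹) := by
    intro b hb
    have e1 := hz b hb
    have e2 := hcomm b a₀
    have e3 : (b : G)⁻¹ = b := inv_eq_of_mul_eq_one_left (hsq b)
    have e4 : (a₀ : G)⁻¹ = a₀ := inv_eq_of_mul_eq_one_left (hsq a₀)
    calc (b : G) * (z⁻¹ * ((a₀ : G) * z * (a₀ : G)⁻¹)) * (b : G)⁻¹
        = ((b : G) * z * (b : G)⁻¹)⁻¹ * ((b : G) * a₀ * z * (a₀ : G)⁻¹ * (b : G)⁻¹) := by group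
      _ = z⁻¹ * ((b : G) * a₀ * z * (a₀ : G)⁻¹ * (b : G)⁻¹) := by rw [e1]
      _ = z⁻¹ * ((a₀ : G) * b * z * ((a₀ : G) * b)⁻¹) := by
          rw [← e2]; group
      _ = z⁻¹ * ((a₀ : G) * (b * z * (b : G)⁻¹) * (a₀ : G)⁻¹) := by group
      _ = _ := by rw [e1]
  have h2 : (a₀ : G) * (z⁻¹ * ((a₀ : G) * z * (a₀ : G)⁻¹)) * (a₀ : G)⁻¹
      = (z⁻¹ * ((a₀ : G) * z * (a₀ : G)⁻¹))⁻¹ := by
    have e4 : (a₀ : G)⁻¹ = a₀ := inv_eq_of_mul_eq_one_left (hsq a₀)
    calc (a₀ : G) * (z⁻¹ * ((a₀ : G) * z * (a₀ : G)⁻¹)) * (a₀ : G)⁻¹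
        = ((a₀ : G) * z * (a₀ : G)⁻¹)⁻¹ * (((a₀ : G) * a₀) * z * ((a₀ : G) * a₀)⁻¹) := by group
      _ = ((a₀ : G) * z * (a₀ : G)⁻¹)⁻¹ * z := by rw [hsq]; group
      _ = _ := by group
  intro b
  rcases Int.units_eq_one_or (nu b) with hb | hb
  · rw [h1 b hb, hb]; simp
  · have h3 : nu (a₀⁻¹ * b) = 1 := by
      rw [map_mul, map_inv, ha₀, hb]; decide
    have h4 := h1 _ h3
    rw [hb]
    have h5 : (b : G) = a₀ * ((a₀⁻¹ * b : A) : G) := by push_cast; group
    rw [h5]
    generalize ((a₀⁻¹ * b : A) : G) = c at h4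
    calc (a₀ : G) * c * (z⁻¹ * ((a₀ : G) * z * (a₀ : G)⁻¹)) * ((a₀ : G) * c)⁻¹
        = (a₀ : G) * (c * (z⁻¹ * ((a₀ : G) * z * (a₀ : G)⁻¹)) * c⁻¹) * (a₀ : G)⁻¹ := by group
      _ = (z⁻¹ * ((a₀ : G) * z * (a₀ : G)⁻¹))⁻¹ := by rw [h4, h2]
      _ = _ := by simp

/-- a weight vector outside the centraliser of `a` -/
theorem exists_weight [Finite G] {A F : Subgroup G} (hA : Cfsg.IsElementaryAbelian 2 A)
    (hFodd : Odd (Nat.card F)) (hAF : A ≤ normalizer (F : Set G)) {a : G} (ha : a ∈ A)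
    (hna : ∃ x ∈ F, a * x ≠ x * a) :
    ∃ lam : A →* ℤˣ, lam ⟨a, ha⟩ = -1 ∧ ∃ w ∈ F, w ≠ 1 ∧ Wt A lam w := by
  classical
  have hcomm : ∀ b ∈ A, ∀ c ∈ A, b * c = c * b := fun b hb c hc => by
    have := hA.1.is_comm.comm ⟨b, hb⟩ ⟨c, hc⟩
    simpa using congrArg Subtype.val this
  have hsq : ∀ b ∈ A, b * b = 1 := fun b hb => by rw [← pow_two]; exact hA.2 b hb
  -- maximal B
  let S : Set (Subgroup G) := {B | B ≤ A ∧ ∃ x ∈ F, (∀ b ∈ B, b * x = x * b) ∧ a * x ≠ x * a}
  have hSne : S.Nonempty := by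
    obtain ⟨x, hx, hax⟩ := hna
    exact ⟨⊥, bot_le, x, hx, fun b hb => by rw [mem_bot.mp hb]; simp, hax⟩
  obtain ⟨B, hB⟩ := (Set.toFinite S).exists_maximal hSne
  obtain ⟨⟨hBA, x, hxF, hBx, hax⟩, hmax⟩ := hB
  have haB : a ∉ B := fun h => hax (hBx a h)
  -- the key dichotomy
  have hkey : ∀ a' ∈ A, a' ∉ B → a * a' ∈ B := by
    intro a' ha' ha'B
    by_contra hB2
    -- V
    let V : Subgroup G := closure {a, a'}
    have hVA : V ≤ A := by
      rw [closure_le]
      rintro y (rfl | rfl)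
      · exact ha
      · exact ha'
    have hVmem : ∀ v ∈ V, v = 1 ∨ v = a ∨ v = a' ∨ v = a * a' := by
      intro v hv
      have e1 := hsq a ha
      have e2 := hsq a' ha'
      have e3 := hcomm a ha a' ha'
      induction hv using closure_induction with
      | mem v hv => rcases hv with rfl | rfl <;> tauto
      | one => left; rfl
      | mul u v _ _ hu hv =>
        rcases hu with rfl | rfl | rfl | rfl <;> rcases hv with rfl | rfl | rfl | rfl <;>
          first
          | (left; simp; done)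
          | (left; exact e1)
          | (left; exact e2)
          | (right; left; simp; done)
          | (right; right; left; simp; done)
          | (right; right; right; simp; done)
          | (right; right; right; exact e3.symm)
          | (right; right; left; rw [← mul_assoc, e1, one_mul]; done)
          | (right; left; rw [mul_assoc, e2, mul_one]; done)
          | (right; left; rw [e3, ← mul_assoc, e2, one_mul]; done)
          | (right; right; left; rw [mul_assoc, ← e3, ← mul_assoc, e1, one_mul]; done)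
          | (left; rw [mul_assoc, ← mul_assoc _ a, ← e3, mul_assoc a, e2, mul_one, e1]; done)
      | inv u hu hu2 =>
        have : u⁻¹ = u := inv_eq_of_mul_eq_one_left (hsq u (hVA hu))
        rw [this]; exact hu2
    have haV : a ∈ V := subset_closure (Or.inl rfl)
    have ha'V : a' ∈ V := subset_closure (Or.inr rfl)
    have hVc : IsMulCommutative V := ⟨⟨fun u v => Subtype.ext (hcomm u (hVA u.2) v (hVA v.2))⟩⟩
    have ha1 : a ≠ 1 := fun h => haB (h ▸ B.one_mem)
    have ha'1 : a' ≠ 1 := fun h => ha'B (h ▸ B.one_mem)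
    have haa' : a ≠ a' := by
      rintro rfl
      exact hB2 (by rw [hsq a ha]; exact B.one_mem)
    have hVnc : ¬ IsCyclic V := by
      intro hc
      obtain ⟨g, hg⟩ := hc.exists_generator
      have h1 : ∀ u : V, u = 1 ∨ u = g := by
        intro u
        obtain ⟨k, hk⟩ := hg u
        have hg2 : g * g = 1 := Subtype.ext (hsq g (hVA g.2))
        simp only at hk
        rcases Int.even_or_odd' k with ⟨m, rfl | rfl⟩
        · left
          rw [← hk, zpow_mul]
          have : g ^ (2 : ℤ) = 1 := by rw [zpow_two]; exact hg2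
          rw [this, one_zpow]
        · right
          rw [← hk, zpow_add, zpow_mul]
          have : g ^ (2 : ℤ) = 1 := by rw [zpow_two]; exact hg2
          rw [this, one_zpow, one_mul, zpow_one]
      rcases h1 ⟨a, haV⟩ with h2 | h2
      · exact ha1 (congrArg Subtype.val h2)
      · rcases h1 ⟨a', ha'V⟩ with h3 | h3
        · exact ha'1 (congrArg Subtype.val h3)
        · exact haa' (congrArg Subtype.val (h2.trans h3.symm))
    let K : Subgroup G := F ⊓ centralizer (B : Set G)
    have hVK : V ≤ normalizer (K : Set G) := by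
      rw [CfsgH1.le_normalizer_iff_conj]
      intro v hv k hk
      refine ⟨?_, ?_⟩
      · exact (CfsgH1.le_normalizer_iff_conj.mp (hVA.trans hAF)) v hv k hk.1
      · refine mem_centralizer_iff.mpr ?_
        intro b hb
        have h1 := mem_centralizer_iff.mp hk.2 b hb
        have h2 := hcomm b (hBA hb) v (hVA hv)
        calc b * (v * k * v⁻¹) = (b * v) * k * v⁻¹ := by group
          _ = v * (b * k) * v⁻¹ := by rw [h2]; group
          _ = v * k * (b * v⁻¹) := by rw [h1]; group
          _ = v * k * v⁻¹ * b := by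
            have : b * v⁻¹ = v⁻¹ * b := by
              rw [eq_inv_mul_iff_mul_eq, ← mul_assoc, ← h2]; group
            rw [this]; group
    have hcop : (Nat.card V).Coprime (Nat.card K) := by
      have hKodd : Odd (Nat.card K) := by
        obtain ⟨c, hc⟩ := card_dvd_of_le (inf_le_left : K ≤ F)
        rw [hc] at hFodd
        exact Nat.Odd.of_mul_left hFodd
      have hVp : IsPGroup 2 V := by
        intro v
        exact ⟨1, by rw [pow_one, pow_two]; exact Subtype.ext (hsq v (hVA v.2))⟩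
      obtain ⟨n, hn⟩ := (IsPGroup.iff_card (p := 2)).mp hVp
      rw [hn]
      exact Nat.Coprime.pow_left _ (Nat.coprime_two_left.mpr hKodd)
    have hgen := Cfsg.Agent.S0058.result V K hVnc hVK hcop
    have hone : ∀ v ∈ A, v ∉ B → K ⊓ centralizer {v} ≤ centralizer {a} := by
      intro v hv hvB k hk
      rw [mem_centralizer_singleton_iff']
      by_contra hka
      have hmem : B ⊔ zpowers v ∈ S := by
        refine ⟨sup_le hBA (by rwa [zpowers_le]), k, hk.1.1, ?_, hka⟩
        have hle2 : B ⊔ zpowers v ≤ centralizer {k} := by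
          refine sup_le ?_ ?_
          · intro b hb
            rw [mem_centralizer_singleton_iff']
            exact (mem_centralizer_iff.mp hk.1.2 b hb).symm
          · rw [zpowers_le, mem_centralizer_singleton_iff']
            exact (mem_centralizer_singleton_iff'.mp hk.2).symm
        intro b hb
        exact (mem_centralizer_singleton_iff'.mp (hle2 hb)).symm
      exact hvB (hmax hmem le_sup_left ((le_sup_right : zpowers v ≤ B ⊔ zpowers v) (mem_zpowers v)))
    have hle : K ≤ centralizer {a} := by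
      refine hgen.ge.trans ?_
      refine iSup₂_le ?_
      rintro v ⟨hv, hv1⟩
      rcases hVmem v hv with rfl | rfl | rfl | rfl
      · exact absurd rfl hv1
      · exact inf_le_right
      · exact hone _ ha' ha'B
      · exact hone _ (A.mul_mem ha ha') hB2
    refine hax (mem_centralizer_singleton_iff'.mp (hle ⟨hxF, mem_centralizer_iff.mpr ?_⟩))
    intro b hb
    exact hBx b hb
  -- the character
  have hmulB : ∀ b ∈ A, ∀ c ∈ A, b ∉ B → c ∉ B → b * c ∈ B := by
    intro b hb c hc hbB hcB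
    have h1 := hkey b hb hbB
    have h2 := hkey c hc hcB
    have h3 : b * c = (a * b) * (a * c) := by
      have := hcomm a ha b hb
      rw [this, mul_assoc, ← mul_assoc a a c, hsq a ha, one_mul]
    rw [h3]
    exact B.mul_mem h1 h2
  let lam : A →* ℤˣ := 
    { toFun := fun b => if (b : G) ∈ B then 1 else -1
      map_one' := by simp [B.one_mem]
      map_mul' := by
        intro b c
        simp only [coe_mul]
        by_cases hb : (b : G) ∈ B <;> by_cases hc : (c : G) ∈ B
        · rw [if_pos hb, if_pos hc, if_pos (B.mul_mem hb hc)]; rfl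
        · rw [if_pos hb, if_neg hc, if_neg (fun h => hc ((B.mul_mem_cancel_left hb).mp h))]; rfl
        · rw [if_neg hb, if_pos hc, if_neg (fun h => hb ((B.mul_mem_cancel_right hc).mp h))]; rfl
        · rw [if_neg hb, if_neg hc, if_pos (hmulB b b.2 c c.2 hb hc)]; rfl }
  have hlam : lam ⟨a, ha⟩ = -1 := if_neg haB
  refine ⟨lam, hlam, x⁻¹ * (a * x * a⁻¹), ?_, ?_, ?_⟩
  · exact F.mul_mem (F.inv_mem hxF) ((CfsgH1.le_normalizer_iff_conj.mp hAF) a ha x hxF)
  · intro h
    apply hax
    have : a * x * a⁻¹ = x := (inv_mul_eq_one.mp h).symm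
    exact mul_inv_eq_iff_eq_mul.mp this
  · refine wt_of_fixed hA (a₀ := ⟨a, ha⟩) hlam ?_
    intro b hb
    have hbB : (b : G) ∈ B := by
      by_contra h
      have : lam b = -1 := if_neg h
      rw [this] at hb
      exact absurd hb (by decide)
    rw [hBx b hbB, mul_inv_cancel_right]

/-- a small faithful family of characters -/
theorem exists_family [Finite G] {A : Subgroup G} {Λ : Set (A →* ℤˣ)} (hΛ : Λ.Nonempty)
    (hf : ∀ a : A, (∀ l ∈ Λ, l a = 1) → a = 1) : 
    ∀ (k : ℕ) (K : Subgroup A), Nat.card K ≤ 2 ^ k → 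
      ∃ f : Fin k → (A →* ℤˣ), (∀ i, f i ∈ Λ) ∧ ∀ a ∈ K, (∀ i, f i a = 1) → a = 1 := by
  intro k
  induction k with
  | zero =>
    intro K hK
    refine ⟨fun i => i.elim0, fun i => i.elim0, ?_⟩
    intro a ha _
    have : Nat.card K = 1 := le_antisymm (by simpa using hK) Nat.card_pos
    rw [card_eq_one] at this
    rw [this] at ha
    exact mem_bot.mp ha
  | succ k ih =>
    intro K hK
    by_cases hKb : K = ⊥
    · obtain ⟨l, hl⟩ := hΛ
      exact ⟨fun _ => l, fun _ => hl, fun a ha _ => by rw [hKb] at ha; exact mem_bot.mp ha⟩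
    · obtain ⟨a, haK, ha1⟩ := K.bot_or_exists_ne_one.resolve_left hKb
      have : ∃ l ∈ Λ, l a ≠ 1 := by
        by_contra h
        push Not at h
        exact ha1 (hf a h)
      obtain ⟨l, hl, hla⟩ := this
      have hle : K ⊓ l.ker ≤ K := inf_le_left
      have hcard : Nat.card (K ⊓ l.ker : Subgroup A) ≤ 2 ^ k := by
        obtain ⟨c, hc⟩ := card_dvd_of_le hle
        have hc1 : c ≠ 1 := by
          rintro rfl
          rw [mul_one] at hc
          have := eq_of_le_of_card_ge hle hc.le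
          have h2 : a ∈ K ⊓ l.ker := this.ge haK
          exact hla (MonoidHom.mem_ker.mp h2.2)
        have hc0 : c ≠ 0 := by
          rintro rfl
          rw [mul_zero] at hc
          exact (Nat.card_pos (α := K)).ne' hc
        have h2 : 2 ≤ c := by omega
        have h3 : Nat.card (K ⊓ l.ker : Subgroup A) * 2 ≤ 2 ^ k * 2 := by
          calc _ ≤ Nat.card (K ⊓ l.ker : Subgroup A) * c := Nat.mul_le_mul_left _ h2
            _ = Nat.card K := hc.symm
            _ ≤ 2 ^ (k + 1) := hK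
            _ = _ := pow_succ _ _
        omega
      obtain ⟨f, hf1, hf2⟩ := ih _ hcard
      refine ⟨Fin.cons l f, ?_, ?_⟩
      · intro i
        refine Fin.cases ?_ ?_ i
        · simpa using hl
        · intro j; simpa using hf1 j
      · intro b hb hfb
        refine hf2 b ⟨hb, ?_⟩ ?_
        · have := hfb 0
          simpa using this
        · intro i
          have := hfb i.succ
          simpa using this

/-- odd order elements: `x ^ 2 ∈ N → x ∈ N` -/
theorem mem_of_sq_mem_of_odd [Finite G] {N : Subgroup G} {x : G} (hx : Odd (orderOf x)) (h : x * x ∈ N) :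
    x ∈ N := by
  obtain ⟨k, hk⟩ := hx
  have h1 : x = (x * x) ^ (k + 1) := by
    have h2 : x ^ (2 * k + 1) = 1 := by rw [← hk]; exact pow_orderOf_eq_one x
    rw [← pow_two, ← pow_mul]
    have h3 : 2 * (k + 1) = (2 * k + 1) + 1 := by ring
    rw [h3, pow_succ, h2, one_mul]
  rw [h1]
  exact N.pow_mem h _

theorem le_normalizer_lcs {A F : Subgroup G} (hAF : A ≤ normalizer (F : Set G)) (n : ℕ) :
    A ≤ normalizer (F.lowerCentralSeries n : Set G) := by
  induction n with
  | zero => exact hAF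
  | succ n ih =>
    rw [CfsgH1.le_normalizer_iff_conj] at ih hAF ⊢
    intro g hg x hx
    rw [Subgroup.lowerCentralSeries_succ] at hx ⊢
    have h1 : ⁅F.lowerCentralSeries n, F⁆.map (MulAut.conj g).toMonoidHom ≤
        ⁅F.lowerCentralSeries n, F⁆ := by
      rw [map_commutator]
      refine commutator_mono ?_ ?_
      · rintro _ ⟨y, hy, rfl⟩
        exact ih g hg y hy
      · rintro _ ⟨y, hy, rfl⟩
        exact hAF g hg y hy
    exact h1 (mem_map_of_mem _ hx)

theorem lift_weight [Finite G] {A F : Subgroup G} (hA : Cfsg.IsElementaryAbelian 2 A)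
    (hFodd : Odd (Nat.card F)) (hAF : A ≤ normalizer (F : Set G)) {M : ℕ}
    (hM : F.lowerCentralSeries M = ⊥) {lam mu : A →* ℤˣ} {n : ℕ} {x y : G}
    (hx : x ∈ F.lowerCentralSeries n) (hy : y ∈ F) (hwx : Wt A lam x) (hwy : Wt A mu y)
    (hne : lam ≠ mu) (hxy : x * y ≠ y * x) :
    ∃ c, n + 1 ≤ c ∧ c < M ∧ ∃ w ∈ F.lowerCentralSeries c, w ≠ 1 ∧ Wt A (lam * mu) w := by
  classical
  set z : G := ⁅x, y⁆ with hz
  have hz1 : z ≠ 1 := by
    intro h
    exact hxy (commutatorElement_eq_one_iff_mul_comm.mp h)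
  have hzn : z ∈ F.lowerCentralSeries (n + 1) := by
    rw [Subgroup.lowerCentralSeries_succ]
    exact commutator_mem_commutator hx hy
  have hxF : x ∈ F := F.lowerCentralSeries_antitone (Nat.zero_le n) hx
  -- the last term containing z
  have hex : ∃ c, z ∉ F.lowerCentralSeries c := ⟨M, by rw [hM]; exact fun h => hz1 (mem_bot.mp h)⟩
  obtain ⟨c', hc'1, hc'2⟩ : ∃ c', z ∉ F.lowerCentralSeries c' ∧ ∀ m < c', z ∈ F.lowerCentralSeries m :=
    ⟨Nat.find hex, Nat.find_spec hex, fun m hm => by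
      have := Nat.find_min hex hm
      push Not at this
      exact this⟩
  have hc'n : n + 1 < c' := by
    by_contra h
    push Not at h
    exact hc'1 (F.lowerCentralSeries_antitone h hzn)
  obtain ⟨c, rfl⟩ : ∃ c, c' = c + 1 := ⟨c' - 1, by omega⟩
  have hzc := hc'2 c (by omega)
  have hcM : c < M := by
    by_contra h
    push Not at h
    have := F.lowerCentralSeries_antitone h hzc
    rw [hM] at this
    exact hz1 (mem_bot.mp this)
  set Nc := F.lowerCentralSeries c with hNc
  set N1 := F.lowerCentralSeries (c + 1) with hN1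
  have hN1F : F ≤ normalizer (N1 : Set G) := F.self_le_normalizer_lowerCentralSeries _
  have hN1le : N1 ≤ Nc := F.lowerCentralSeries_antitone (Nat.le_succ c)
  have hNcF : Nc ≤ F := F.lowerCentralSeries_antitone (Nat.zero_le c)
  have hN1c := CfsgH1.le_normalizer_iff_conj.mp hN1F
  have hAN1 : A ≤ normalizer (N1 : Set G) := le_normalizer_lcs hAF _
  have hANc : A ≤ normalizer (Nc : Set G) := le_normalizer_lcs hAF _
  -- conjugation by elements of F is trivial modulo N1
  have hcen : ∀ f ∈ F, ∀ u ∈ Nc, u⁻¹ * (f * u * f⁻¹) ∈ N1 := by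
    intro f hf u hu
    have h1 : ⁅u⁻¹, f⁆ ∈ N1 := by
      rw [hN1, Subgroup.lowerCentralSeries_succ]
      exact commutator_mem_commutator (Nc.inv_mem hu) hf
    rw [commutatorElement_def] at h1
    simpa [mul_assoc] using h1
  -- the action on z
  have hact1 : ∀ b : A, (lam * mu) b = 1 → z⁻¹ * ((b : G) * z * (b : G)⁻¹) ∈ N1 := by
    intro b hb
    have e1 : (b : G) * z * (b : G)⁻¹ = ⁅(b : G) * x * (b : G)⁻¹, (b : G) * y * (b : G)⁻¹⁆ := by
      rw [hz, commutatorElement_def, commutatorElement_def]; group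
    rw [hwx b, hwy b] at e1
    rw [MonoidHom.mul_apply] at hb
    rcases Int.units_eq_one_or (lam b) with h1 | h1 <;> rcases Int.units_eq_one_or (mu b) with h2 | h2
    · rw [e1, h1, h2]
      simp [← hz]
    · rw [h1, h2] at hb; exact absurd hb (by decide)
    · rw [h1, h2] at hb; exact absurd hb (by decide)
    · rw [e1, h1, h2]
      have h3 : ⁅x ^ (((-1 : ℤˣ)) : ℤ), y ^ (((-1 : ℤˣ)) : ℤ)⁆ = (x⁻¹ * y⁻¹) * z * (x⁻¹ * y⁻¹)⁻¹ := by
        rw [hz, commutatorElement_def, commutatorElement_def]; simp [mul_assoc]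
      rw [h3]
      exact hcen _ (F.mul_mem (F.inv_mem hxF) (F.inv_mem hy)) z hzc
  have hact2 : ∀ b : A, (lam * mu) b = -1 → ((b : G) * z * (b : G)⁻¹) * z ∈ N1 := by
    intro b hb
    have e1 : (b : G) * z * (b : G)⁻¹ = ⁅(b : G) * x * (b : G)⁻¹, (b : G) * y * (b : G)⁻¹⁆ := by
      rw [hz, commutatorElement_def, commutatorElement_def]; group
    rw [hwx b, hwy b] at e1
    rw [MonoidHom.mul_apply] at hb
    have key : ∀ f ∈ F, f * z⁻¹ * f⁻¹ * z ∈ N1 := by
      intro f hf
      have h1 := hcen f hf z⁻¹ (Nc.inv_mem hzc)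
      have h2 := hN1c z⁻¹ (F.inv_mem (hNcF hzc)) _ h1
      have h3 : f * z⁻¹ * f⁻¹ * z = z⁻¹ * (z⁻¹⁻¹ * (f * z⁻¹ * f⁻¹)) * z⁻¹⁻¹ := by group
      rw [h3]; exact h2
    rcases Int.units_eq_one_or (lam b) with h1 | h1 <;> rcases Int.units_eq_one_or (mu b) with h2 | h2
    · rw [h1, h2] at hb; exact absurd hb (by decide)
    · rw [e1, h1, h2]
      have h3 : ⁅x ^ (((1 : ℤˣ)) : ℤ), y ^ (((-1 : ℤˣ)) : ℤ)⁆ = y⁻¹ * z⁻¹ * (y⁻¹)⁻¹ := by
        rw [hz, commutatorElement_def, commutatorElement_def]; simp [mul_assoc]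
      rw [h3]
      exact key _ (F.inv_mem hy)
    · rw [e1, h1, h2]
      have h3 : ⁅x ^ (((-1 : ℤˣ)) : ℤ), y ^ (((1 : ℤˣ)) : ℤ)⁆ = x⁻¹ * z⁻¹ * (x⁻¹)⁻¹ := by
        rw [hz, commutatorElement_def, commutatorElement_def]; simp [mul_assoc]
      rw [h3]
      exact key _ (F.inv_mem hxF)
    · rw [h1, h2] at hb; exact absurd hb (by decide)
  -- fixed point
  let B : Subgroup G := (lam * mu).ker.map A.subtype
  have hBA : B ≤ A := map_subtype_le _
  have hBmem : ∀ b ∈ B, ∃ b' : A, (b' : G) = b ∧ (lam * mu) b' = 1 := by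
    rintro _ ⟨b, hb, rfl⟩
    exact ⟨b, rfl, hb⟩
  have hNodd : Odd (Nat.card Nc) := by
    obtain ⟨c, hc⟩ := card_dvd_of_le hNcF
    rw [hc] at hFodd
    exact Nat.Odd.of_mul_left hFodd
  have hBp : IsPGroup 2 B := by
    intro v
    exact ⟨1, by rw [pow_one]; exact Subtype.ext (hA.2 v (hBA v.2))⟩
  have hcop : (Nat.card B).Coprime (Nat.card Nc) := by
    obtain ⟨n, hn⟩ := (IsPGroup.iff_card (p := 2)).mp hBp
    rw [hn]
    exact Nat.Coprime.pow_left _ (Nat.coprime_two_left.mpr hNodd)
  have hsol : Group.IsSolvable B := by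
    have := hBp.isNilpotent
    infer_instance
  obtain ⟨z₁, hz₁, hz₁N⟩ := CfsgH1.coprime_fixed_quotient (hBA.trans hANc) hcop (Or.inl hsol) hN1le
    (hBA.trans hAN1) z hzc (by
      intro b hb
      obtain ⟨b', rfl, hb'⟩ := hBmem b hb
      exact hact1 b' hb')
  -- an element negated by lam * mu
  obtain ⟨a₀, ha₀⟩ : ∃ a₀ : A, (lam * mu) a₀ = -1 := by
    by_contra h
    push Not at h
    apply hne
    ext b
    have h1 : (lam * mu) b = 1 := (Int.units_eq_one_or _).resolve_right (h b)
    rw [MonoidHom.mul_apply] at h1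
    have h2 : lam b = mu b := by
      rcases Int.units_eq_one_or (lam b) with h1' | h1' <;> 
        rcases Int.units_eq_one_or (mu b) with h2 | h2 <;> rw [h1', h2] at h1 ⊢ <;> 
        exact absurd h1 (by decide)
    rw [h2]
  refine ⟨c, by omega, hcM, z₁⁻¹ * ((a₀ : G) * z₁ * (a₀ : G)⁻¹), ?_, ?_, ?_⟩
  · exact Nc.mul_mem (Nc.inv_mem hz₁.1) ((CfsgH1.le_normalizer_iff_conj.mp hANc) a₀ a₀.2 z₁ hz₁.1)
  · intro h
    have h1 : (a₀ : G) * z₁ * (a₀ : G)⁻¹ = z₁ := (inv_mul_eq_one.mp h).symm
    have h2 := hact2 a₀ ha₀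
    -- z₁ = z * u
    set u := z⁻¹ * z₁ with hu
    have h3 : z₁ = z * u := by rw [hu]; group
    have h4 := (CfsgH1.le_normalizer_iff_conj.mp hAN1) a₀ a₀.2 u hz₁N
    have h5 : z₁ * z₁ ∈ N1 := by
      have e : z₁ * z₁ = (((a₀ : G) * z * (a₀ : G)⁻¹) * z) * 
          (z⁻¹ * ((a₀ : G) * u * (a₀ : G)⁻¹) * z⁻¹⁻¹) * u := by
        calc z₁ * z₁ = ((a₀ : G) * z₁ * (a₀ : G)⁻¹) * z₁ := by rw [h1]
          _ = _ := by rw [h3]; group
      rw [e]
      exact N1.mul_mem (N1.mul_mem h2 (hN1c _ (F.inv_mem (hNcF hzc)) _ h4)) hz₁N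
    have h6 : Odd (orderOf z₁) := by
      have h7 : orderOf z₁ ∣ Nat.card Nc := by
        have := orderOf_dvd_natCard (⟨z₁, hz₁.1⟩ : Nc)
        rwa [orderOf_mk] at this
      obtain ⟨c, hc⟩ := h7
      rw [hc] at hNodd
      exact Nat.Odd.of_mul_left hNodd
    have h7 := mem_of_sq_mem_of_odd h6 h5
    apply hc'1
    have h8 : z = z₁ * u⁻¹ := by rw [h3]; group
    rw [h8]
    exact N1.mul_mem h7 (N1.inv_mem hz₁N)
  · refine wt_of_fixed hA ha₀ ?_
    intro b hb
    have h1 := mem_centralizer_iff.mp hz₁.2 (b : G) ⟨b, hb, rfl⟩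
    rw [h1]; group

theorem pi_bijective [Finite G] {A : Subgroup G} {d : ℕ} (hAd : Nat.card A = 2 ^ d)
    {f : Fin d → (A →* ℤˣ)} (hf : ∀ a : A, (∀ i, f i a = 1) → a = 1) :
    Function.Bijective (fun (a : A) (i : Fin d) => f i a) := by
  have hinj : Function.Injective (fun (a : A) (i : Fin d) => f i a) := by
    intro a b hab
    have h1 : ∀ i, f i (a * b⁻¹) = 1 := by
      intro i
      have := congrFun hab i
      simp only at this
      rw [map_mul, map_inv, this, mul_inv_cancel]
    exact mul_inv_eq_one.mp (hf _ h1)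
  refine hinj.bijective_of_nat_card_le ?_
  rw [hAd, Nat.card_eq_fintype_card, Fintype.card_fun, Fintype.card_units_int, Fintype.card_fin]

theorem commuting_family [Finite G] {A F : Subgroup G} (hA : Cfsg.IsElementaryAbelian 2 A)
    (hFodd : Odd (Nat.card F)) (hAF : A ≤ normalizer (F : Set G)) (hnil : Group.IsNilpotent F)
    {d : ℕ} (hd : 1 ≤ d) (hAd : Nat.card A = 2 ^ d) 
    (hfaith : ∀ a ∈ A, a ≠ 1 → ∃ x ∈ F, a * x ≠ x * a) :
    ∃ (f : Fin d → (A →* ℤˣ)) (x : Fin d → G), 
      (∀ i, x i ∈ F ∧ x i ≠ 1 ∧ Wt A (f i) (x i)) ∧ (∀ a : A, (∀ i, f i a = 1) → a = 1) ∧ 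
      ∀ i j, i ≠ j → x i * x j = x j * x i := by
  classical
  obtain ⟨M, hM⟩ := (isNilpotent_iff_lowerCentralSeries F).mp hnil
  let S : Set ℕ := {s | ∃ (f : Fin d → (A →* ℤˣ)) (t : Fin d → ℕ), 
    (∀ a : A, (∀ i, f i a = 1) → a = 1) ∧ 
    (∀ i, t i < M ∧ ∃ w ∈ F.lowerCentralSeries (t i), w ≠ 1 ∧ Wt A (f i) w) ∧ s = ∑ i, t i}
  have hbdd : BddAbove S := by
    refine ⟨d * M, ?_⟩
    rintro s ⟨f, t, -, h, rfl⟩
    calc ∑ i, t i ≤ ∑ _i : Fin d, M := Finset.sum_le_sum (fun i _ => (h i).1.le)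
      _ = d * M := by simp
  have hne : S.Nonempty := by
    let Λ : Set (A →* ℤˣ) := {lam | ∃ w ∈ F, w ≠ 1 ∧ Wt A lam w}
    have hΛf : ∀ a : A, (∀ l ∈ Λ, l a = 1) → a = 1 := by
      intro a ha
      by_contra ha1
      obtain ⟨lam, h1, h2⟩ := exists_weight hA hFodd hAF a.2 
        (hfaith a a.2 (fun h => ha1 (Subtype.ext h)))
      have := ha lam h2
      rw [h1] at this
      exact absurd this (by decide)
    have hΛ : Λ.Nonempty := by
      by_contra h
      rw [Set.not_nonempty_iff_eq_empty] at h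
      have h1 : ∀ a : A, a = 1 := fun a => hΛf a (by rw [h]; simp)
      have h2 : Nat.card A = 1 := by
        have : Subsingleton A := ⟨fun a b => (h1 a).trans (h1 b).symm⟩
        exact Nat.card_of_subsingleton 1
      rw [hAd] at h2
      have := Nat.pow_eq_one.mp h2
      omega
    obtain ⟨f, hf1, hf2⟩ := exists_family hΛ hΛf d ⊤ (by rw [card_top, hAd])
    refine ⟨_, f, fun _ => 0, fun a ha => hf2 a (mem_top a) ha, ?_, rfl⟩
    intro i
    obtain ⟨w, hw, hw1, hw2⟩ := hf1 i
    refine ⟨?_, w, hw, hw1, hw2⟩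
    by_contra h
    have : M = 0 := by
      simp only [not_lt, Nat.le_zero] at h
      exact h
    rw [this] at hM
    have h2 : w ∈ F.lowerCentralSeries 0 := hw
    rw [hM] at h2
    exact hw1 (mem_bot.mp h2)
  obtain ⟨f, t, hf, hw, hs⟩ := Nat.sSup_mem hne hbdd
  choose hwM x hxN hx1 hxw using hw
  refine ⟨f, x, fun i => ⟨F.lowerCentralSeries_antitone (Nat.zero_le _) (hxN i), hx1 i, hxw i⟩, hf, ?_⟩
  have hbij := pi_bijective hAd hf
  have key : ∀ i j, i ≠ j → t i ≤ t j → x j * x i = x i * x j := by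
    intro i j hij hle
    by_contra hc
    have hfne : f j ≠ f i := by
      intro h
      obtain ⟨a, ha⟩ := hbij.2 (Pi.mulSingle i (-1))
      have h1 := congrFun ha i
      have h2 := congrFun ha j
      simp only [Pi.mulSingle_eq_same] at h1
      simp only [Pi.mulSingle_eq_of_ne hij.symm] at h2
      rw [h, h1] at h2
      exact absurd h2 (by decide)
    obtain ⟨c, hc1, hcM, w, hwc, hw1, hww⟩ := lift_weight hA hFodd hAF hM (hxN j) 
      (F.lowerCentralSeries_antitone (Nat.zero_le _) (hxN i)) (hxw j) (hxw i) hfne hc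
    have hmem : ∑ k, Function.update t i c k ∈ S := by
      refine ⟨Function.update f i (f j * f i), Function.update t i c, ?_, ?_, rfl⟩
      · intro a ha
        apply hf
        intro k
        by_cases hk : k = i
        · subst hk
          have h1 := ha k
          have h2 := ha j
          rw [Function.update_self, MonoidHom.mul_apply] at h1
          rw [Function.update_of_ne hij.symm] at h2
          rw [h2, one_mul] at h1
          exact h1
        · have := ha k
          rwa [Function.update_of_ne hk] at this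
      · intro k
        by_cases hk : k = i
        · subst hk
          rw [Function.update_self, Function.update_self]
          exact ⟨hcM, w, hwc, hw1, hww⟩
        · rw [Function.update_of_ne hk, Function.update_of_ne hk]
          exact ⟨hwM k, x k, hxN k, hx1 k, hxw k⟩
    have hlt : ∑ k, t k < ∑ k, Function.update t i c k := by
      refine Finset.sum_lt_sum ?_ ⟨i, Finset.mem_univ _, ?_⟩
      · intro k _
        by_cases hk : k = i
        · subst hk; rw [Function.update_self]; omega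
        · rw [Function.update_of_ne hk]
      · rw [Function.update_self]; omega
    have hle2 := le_csSup hbdd hmem
    omega
  intro i j hij
  rcases le_total (t i) (t j) with h | h
  · exact (key i j hij h).symm
  · exact key j i hij.symm h

/-- Thompson's dihedral lemma. -/
theorem dihedral_lemma [Finite G] (L A : Subgroup G) (hLs : Group.IsSolvable ↥L) (hLodd : Odd (Nat.card ↥L)) (hA : Cfsg.IsElementaryAbelian 2 A) (d : ℕ) (hd : 1 ≤ d) (hAd : Nat.card ↥A = 2 ^ d) (hAL : A ≤ Subgroup.normalizer (L : Set G)) (hfaith : A ⊓ Subgroup.centralizer (L : Set G) = ⊥) : ∃ (Ai : Fin d → Subgroup G) (Li : Fin d → Subgroup G) (n : Fin d → ℕ), (∀ i, Ai i ≤ A ∧ Nat.card ↥(Ai i) = 2 ∧ Li i ≤ L ∧ Odd (n i) ∧ 3 ≤ n i ∧ Nonempty (↥(Ai i ⊔ Li i) ≃* DihedralGroup (n i))) ∧ (⨆ i, Ai i) = A ∧ ∀ i j, i ≠ j → ∀ x ∈ Ai i ⊔ Li i, ∀ y ∈ Ai j ⊔ Li j, x * y = y * x := by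
  classical
  have hcommA : ∀ b ∈ A, ∀ c ∈ A, b * c = c * b := fun b hb c hc => by
    have := hA.1.is_comm.comm ⟨b, hb⟩ ⟨c, hc⟩
    simpa using congrArg Subtype.val this
  have hsq : ∀ b ∈ A, b * b = 1 := fun b hb => by rw [← pow_two]; exact hA.2 b hb
  -- the Fitting subgroup
  let F : Subgroup G := (Cfsg.fittingSubgroup L).map L.subtype
  have hFL : F ≤ L := map_subtype_le _
  have hFodd : Odd (Nat.card F) := by
    obtain ⟨c, hc⟩ := card_dvd_of_le hFL
    rw [hc] at hLodd
    exact Nat.Odd.of_mul_left hLodd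
  have hAF : A ≤ normalizer (F : Set G) := hAL.trans (CfsgH1.normalizer_le_map_characteristic _)
  have hLF : L ≤ normalizer (F : Set G) := le_normalizer.trans (CfsgH1.normalizer_le_map_characteristic _)
  have hnil : Group.IsNilpotent F := by
    have h1 : Group.IsNilpotent (Cfsg.fittingSubgroup L) := inferInstance
    exact (Group.isNilpotent_congr (equivMapOfInjective _ _ L.subtype_injective)).mp h1
  have hcF : L ⊓ centralizer (F : Set G) ≤ F := by
    rintro x ⟨hxL, hx⟩
    have h1 := CfsgH1.centralizer_fitting_le (G := L)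
    refine ⟨⟨x, hxL⟩, h1 ?_, rfl⟩
    rw [mem_centralizer_iff]
    intro y hy
    exact Subtype.ext (mem_centralizer_iff.mp hx y ⟨y, hy, rfl⟩)
  have hfaithF : ∀ a ∈ A, a ≠ 1 → ∃ x ∈ F, a * x ≠ x * a := by
    intro a ha ha1
    by_contra hcon
    push Not at hcon
    let A₀ : Subgroup G := zpowers a
    have hA₀A : A₀ ≤ A := by rwa [zpowers_le]
    have hA₀L : A₀ ≤ normalizer (L : Set G) := hA₀A.trans hAL
    have hA₀C : A₀ ≤ centralizer (F : Set G) := by
      rw [zpowers_le, mem_centralizer_iff]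
      intro x hx
      exact (hcon x hx).symm
    have hFA₀ : ⁅F, A₀⁆ = ⊥ := by
      rw [commutator_comm, commutator_eq_bot_iff_le_centralizer]
      exact hA₀C
    have h1 : ⁅⁅L, F⁆, A₀⁆ = ⊥ := by
      rw [eq_bot_iff, ← hFA₀]
      refine commutator_mono ?_ le_rfl
      rw [commutator_comm]
      exact le_normalizer_iff_commutator_le_left.mp hLF
    have h2 : ⁅⁅F, A₀⁆, L⁆ = ⊥ := by
      rw [hFA₀, commutator_bot_left]
    have h3 : ⁅⁅A₀, L⁆, F⁆ = ⊥ := commutator_commutator_eq_bot_of_rotate h1 h2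
    have h4 : ⁅L, A₀⁆ ≤ F := by
      refine le_trans (le_inf ?_ ?_) hcF
      · exact le_normalizer_iff_commutator_le_left.mp hA₀L
      · rw [commutator_comm]
        exact commutator_eq_bot_iff_le_centralizer.mp h3
    have h5 : ⁅⁅L, A₀⁆, A₀⁆ = ⊥ := by
      rw [eq_bot_iff, ← hFA₀]
      exact commutator_mono h4 le_rfl
    have hcop : (Nat.card A₀).Coprime (Nat.card L) := by
      have hp : IsPGroup 2 A₀ := by
        intro v
        exact ⟨1, by rw [pow_one]; exact Subtype.ext (hA.2 v (hA₀A v.2))⟩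
      obtain ⟨n, hn⟩ := (IsPGroup.iff_card (p := 2)).mp hp
      rw [hn]
      exact Nat.Coprime.pow_left _ (Nat.coprime_two_left.mpr hLodd)
    have h6 := CfsgH1.coprime_commutator_eq_bot hA₀L hcop (Or.inr hLs) h5
    rw [commutator_comm, commutator_eq_bot_iff_le_centralizer] at h6
    have h7 : a ∈ A ⊓ centralizer (L : Set G) := ⟨ha, h6 (mem_zpowers a)⟩
    rw [hfaith] at h7
    exact ha1 (mem_bot.mp h7)
  obtain ⟨f, x, hx, hf, hcomm⟩ := commuting_family hA hFodd hAF hnil hd hAd hfaithF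
  have hbij := pi_bijective hAd hf
  choose a ha using fun i : Fin d => hbij.2 (Pi.mulSingle i (-1))
  have haii : ∀ i, f i (a i) = -1 := by
    intro i
    have := congrFun (ha i) i
    simpa using this
  have haij : ∀ i j, i ≠ j → f j (a i) = 1 := by
    intro i j hij
    have := congrFun (ha i) j
    simpa [Pi.mulSingle_eq_of_ne hij.symm] using this
  have hai1 : ∀ i, (a i : G) ≠ 1 := by
    intro i h
    have h1 : a i = 1 := Subtype.ext h
    have h2 := haii i
    rw [h1, map_one] at h2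
    exact absurd h2 (by decide)
  have hxL : ∀ i, x i ∈ L := fun i => hFL (hx i).1
  have hxodd : ∀ i, Odd (orderOf (x i)) := by
    intro i
    have h7 : orderOf (x i) ∣ Nat.card L := by
      have := orderOf_dvd_natCard (⟨x i, hxL i⟩ : L)
      rwa [orderOf_mk] at this
    obtain ⟨c, hc⟩ := h7
    rw [hc] at hLodd
    exact Nat.Odd.of_mul_left hLodd
  have hsup : ∀ i, zpowers (a i : G) ⊔ zpowers (x i) = closure {x i, (a i : G)} := by
    intro i
    rw [Set.insert_eq, Subgroup.closure_union, sup_comm, zpowers_eq_closure, zpowers_eq_closure]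
  have hAx : ∀ i, (a i : G) * x i * (a i : G)⁻¹ = (x i)⁻¹ := by
    intro i
    have := (hx i).2.2 (a i)
    rw [haii i] at this
    simpa using this
  have hord : ∀ i, orderOf (a i : G) = 2 := fun i => orderOf_eq_prime (hA.2 _ (a i).2) (hai1 i)
  have hnm : ∀ i, (a i : G) ∉ zpowers (x i) := by
    intro i hmem
    obtain ⟨k, hk⟩ := mem_zpowers_iff.mp hmem
    have h1 : orderOf (a i : G) ∣ orderOf (x i) := by
      rw [← hk]
      refine orderOf_dvd_of_pow_eq_one ?_
      rw [← zpow_natCast, ← zpow_mul, mul_comm, zpow_mul, zpow_natCast, pow_orderOf_eq_one, one_zpow]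
    rw [hord] at h1
    have := hxodd i
    rw [← Nat.not_even_iff_odd] at this
    exact this (even_iff_two_dvd.mpr h1)
  have hdih : ∀ i, Nonempty (↥(zpowers (a i : G) ⊔ zpowers (x i)) ≃* DihedralGroup (orderOf (x i))) := by
    intro i
    rw [hsup i]
    exact CfsgH3.nonempty_dihedral_equiv _ (x i) (a i : G) rfl (hsq _ (a i).2) (hAx i) (hnm i)
  refine ⟨fun i => zpowers (a i : G), fun i => zpowers (x i), fun i => orderOf (x i), ?_, ?_, ?_⟩
  · intro i
    refine ⟨by rw [zpowers_le]; exact (a i).2, by rw [Nat.card_zpowers, hord i], 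
      by rw [zpowers_le]; exact hxL i, hxodd i, ?_, hdih i⟩
    have h1 : orderOf (x i) ≠ 1 := fun h => (hx i).2.1 (orderOf_eq_one_iff.mp h)
    obtain ⟨k, hk⟩ := hxodd i
    change 3 ≤ orderOf (x i)
    omega
  · apply le_antisymm
    · refine iSup_le ?_
      intro i
      rw [zpowers_le]; exact (a i).2
    · intro b hb
      let Φ : A →* (Fin d → ℤˣ) := 
        { toFun := fun a i => f i a
          map_one' := by ext i; simp
          map_mul' := by intro u v; ext i; simp }
      let T : Subgroup A := (⨆ i, zpowers (a i : G)).subgroupOf A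
      have h1 : ∀ v : Fin d → ℤˣ, v ∈ T.map Φ := by
        intro v
        refine pi_mem_of_mulSingle_mem v ?_
        intro i
        rcases Int.units_eq_one_or (v i) with h | h
        · rw [h, Pi.mulSingle_one]
          exact one_mem _
        · rw [h]
          refine ⟨a i, ?_, ha i⟩
          change (a i : G) ∈ ⨆ i, zpowers (a i : G)
          exact (le_iSup (fun i => zpowers (a i : G)) i) (mem_zpowers _)
      obtain ⟨c, hc, hcb⟩ := h1 (Φ ⟨b, hb⟩)
      have h2 : c = ⟨b, hb⟩ := hbij.1 hcb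
      rw [h2] at hc
      exact hc
  · intro i j hij
    have h1 : zpowers (a i : G) ⊔ zpowers (x i) ≤ centralizer ((zpowers (a j : G) ⊔ zpowers (x j) : Subgroup G) : Set G) := by
      rw [le_centralizer_iff]
      simp only [hsup]
      rw [closure_le]
      have key : ∀ u ∈ ({x j, (a j : G)} : Set G), ∀ v ∈ ({x i, (a i : G)} : Set G), v * u = u * v := by
        rintro u (rfl | rfl) v (rfl | rfl)
        · exact hcomm i j hij
        · have := (hx j).2.2 (a i)
          rw [haij i j hij] at this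
          have h2 : (a i : G) * x j * (a i : G)⁻¹ = x j := by simpa using this
          exact mul_inv_eq_iff_eq_mul.mp h2
        · have := (hx i).2.2 (a j)
          rw [haij j i hij.symm] at this
          have h2 : (a j : G) * x i * (a j : G)⁻¹ = x i := by simpa using this
          exact (mul_inv_eq_iff_eq_mul.mp h2).symm
        · exact hcommA _ (a i).2 _ (a j).2
      intro u hu
      rw [SetLike.mem_coe, centralizer_closure]
      rw [mem_centralizer_iff]
      intro v hv
      exact key u hu v hv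
    intro u hu v hv
    exact (mem_centralizer_iff.mp (h1 hu) v hv).symm

end CfsgH2
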