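import Cfsg.Agent.H2.LocBal3

/-! Sylow subgroups that are direct factors. -/

set_option autoImplicit false

namespace CfsgH2

open Subgroup Cfsg

variable {G : Type*} [Group G]

/-- conjugates of `x` -/
def Cls (x : G) : Type _ := {a : G // ∃ g : G, g * x * g⁻¹ = a}

theorem card_Cls (x : G) : Nat.card (Cls x) = (centralizer ({x} : Set G)).index := by
  symm
  rw [Subgroup.index]
  apply Nat.card_congr
  have hiff : ∀ a b : G, a⁻¹ * b ∈ centralizer ({x} : Set G) ↔ a * x * a⁻¹ = b * x * b⁻¹ := by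
    intro a b
    rw [mem_centralizer_singleton_iff']
    constructor
    · intro h
      calc a * x * a⁻¹ = a * (x * (a⁻¹ * b)) * b⁻¹ := by group
        _ = a * ((a⁻¹ * b) * x) * b⁻¹ := by rw [h]
        _ = _ := by group
    · intro h
      calc x * (a⁻¹ * b) = a⁻¹ * (a * x * a⁻¹) * b := by group
        _ = a⁻¹ * (b * x * b⁻¹) * b := by rw [h]
        _ = _ := by group
  refine Equiv.ofBijective (Quotient.lift (fun g => (⟨g * x * g⁻¹, g, rfl⟩ : Cls x)) ?_) ⟨?_, ?_⟩
  · intro a b hab
    exact Subtype.ext ((hiff a b).mp (QuotientGroup.leftRel_apply.mp hab))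
  · intro a b
    induction a using QuotientGroup.induction_on with
    | H a =>
      induction b using QuotientGroup.induction_on with
      | H b =>
        intro hab
        exact QuotientGroup.eq.mpr ((hiff a b).mpr (congrArg Subtype.val hab))
  · rintro ⟨_, g, rfl⟩
    exact ⟨QuotientGroup.mk g, rfl⟩

theorem comm_of_card_mul [Finite G] {x y : G} (h : (centralizer ({x * y} : Set G)).index = 
    (centralizer ({x} : Set G)).index * (centralizer ({y} : Set G)).index) : x * y = y * x := by
  haveI : ∀ x : G, Finite (Cls x) := fun x => inferInstanceAs (Finite {a : G // ∃ g : G, g * x * g⁻¹ = a})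
  rw [← card_Cls, ← card_Cls, ← card_Cls, ← Nat.card_prod] at h
  let f : Cls (x * y) → Cls x × Cls y := fun c => 
    (⟨c.2.choose * x * c.2.choose⁻¹, _, rfl⟩, ⟨c.2.choose * y * c.2.choose⁻¹, _, rfl⟩)
  have hf : ∀ c : Cls (x * y), (f c).1.1 * (f c).2.1 = c.1 := by
    intro c
    change c.2.choose * x * c.2.choose⁻¹ * (c.2.choose * y * c.2.choose⁻¹) = c.1
    have := c.2.choose_spec
    conv_rhs => rw [← this]
    group
  have hinj : Function.Injective f := by
    intro c d hcd
    apply Subtype.ext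
    rw [← hf c, ← hf d, hcd]
  have hbij : Function.Bijective f := hinj.bijective_of_nat_card_le h.ge
  have huniq : ∀ u v : Cls x × Cls y, u.1.1 * u.2.1 = v.1.1 * v.2.1 → u = v := by
    intro u v huv
    obtain ⟨c, rfl⟩ := hbij.2 u
    obtain ⟨d, rfl⟩ := hbij.2 v
    congr 1
    apply Subtype.ext
    rw [← hf c, ← hf d, huv]
  have h1 := huniq (⟨x, 1, by group⟩, ⟨y, 1, by group⟩) 
    (⟨(x * y * x⁻¹) * x * (x * y * x⁻¹)⁻¹, _, rfl⟩, ⟨x * y * x⁻¹, x, rfl⟩) (by
      change x * y = (x * y * x⁻¹) * x * (x * y * x⁻¹)⁻¹ * (x * y * x⁻¹)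
      group)
  have h2 : y = x * y * x⁻¹ := congrArg (fun u : Cls x × Cls y => u.2.1) h1
  exact (eq_mul_inv_iff_mul_eq.mp h2).symm

theorem index_one_of_sylow [Finite G] (H : Subgroup G) 
    (h : ∀ (q : ℕ) (_ : Fact q.Prime), q ∣ Nat.card G → ∃ S : Sylow q G, (S : Subgroup G) ≤ H) : H = ⊤ := by
  rw [← index_eq_one]
  by_contra hne
  obtain ⟨q, hq, hqd⟩ := Nat.exists_prime_and_dvd hne
  haveI := Fact.mk hq
  obtain ⟨S, hS⟩ := h q ⟨hq⟩ (hqd.trans H.index_dvd_card)
  exact S.not_dvd_index (hqd.trans (index_dvd_of_le hS))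

theorem dirFac_iff [Finite G] (p : ℕ) [hp : Fact p.Prime] : 
    (∃ (P : Sylow p G) (K : Subgroup G), (P : Subgroup G).Normal ∧ K.Normal ∧ (P : Subgroup G) ⊓ K = ⊥ ∧ 
      (P : Subgroup G) ⊔ K = ⊤) ↔ 
    ∀ x y : G, (∃ a : ℕ, orderOf x = p ^ a) → (∃ q b : ℕ, q.Prime ∧ q ≠ p ∧ orderOf y = q ^ b) → 
      (centralizer ({x * y} : Set G)).index = (centralizer ({x} : Set G)).index * (centralizer ({y} : Set G)).index := by
  constructor
  · rintro ⟨P, K, hPn, hKn, hPK, hPK'⟩ x y ⟨a, ha⟩ ⟨q, b, hq, hqp, hb⟩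
    have hPc : ∀ u ∈ (P : Subgroup G), ∀ k ∈ K, u * k = k * u := by
      intro u hu k hk
      exact (Subgroup.commute_of_normal_of_disjoint _ _ hPn hKn (disjoint_iff.mpr hPK) u k hu hk).eq
    have hcardK : K.index = Nat.card P := by
      have h1 : K.relIndex (P : Subgroup G) = Nat.card P := by
        have h2 := inf_relIndex_left (P : Subgroup G) K
        rw [← h2, hPK, relIndex_bot_left]
      rw [← h1, ← relIndex_top_right, ← hPK', relIndex_sup_right]
    have hcop : (Nat.card P).Coprime (P : Subgroup G).index := by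
      obtain ⟨m, hm⟩ := IsPGroup.iff_card.mp P.isPGroup'
      have : Nat.card P = p ^ m := hm
      rw [this]
      exact Nat.Coprime.pow_left m ((Nat.Prime.coprime_iff_not_dvd hp.out).mpr P.not_dvd_index)
    have hxP : x ∈ (P : Subgroup G) := by
      have h1 : IsPGroup p (zpowers x) := by
        apply IsPGroup.of_card (n := a); rw [Nat.card_zpowers, ha]
      obtain ⟨R, hR⟩ := h1.exists_le_sylow
      obtain ⟨g, hg⟩ := MulAction.exists_smul_eq G R P
      have h2 : g * x * g⁻¹ ∈ (P : Subgroup G) := by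
        rw [← hg]
        exact ⟨x, hR (mem_zpowers x), rfl⟩
      have h3 := hPn.conj_mem _ h2 g⁻¹
      have h4 : g⁻¹ * (g * x * g⁻¹) * g⁻¹⁻¹ = x := by group
      rwa [h4] at h3
    have hyK : y ∈ K := by
      have h1 : orderOf (QuotientGroup.mk' K y) ∣ q ^ b := by
        rw [← hb]; exact orderOf_map_dvd _ _
      have h2 : orderOf (QuotientGroup.mk' K y) ∣ Nat.card P := by
        rw [← hcardK]; exact orderOf_dvd_natCard _
      obtain ⟨m, hm⟩ := IsPGroup.iff_card.mp P.isPGroup'
      have hm' : Nat.card P = p ^ m := hm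
      rw [hm'] at h2
      have h3 := Nat.eq_one_of_dvd_coprimes (Nat.Coprime.pow b m ((Nat.coprime_primes hq hp.out).mpr hqp)) h1 h2
      rw [orderOf_eq_one_iff] at h3
      exact (QuotientGroup.eq_one_iff y).mp h3
    have hC : centralizer ({x * y} : Set G) = centralizer ({x} : Set G) ⊓ centralizer ({y} : Set G) := by
      ext g
      rw [mem_inf, mem_centralizer_singleton_iff', mem_centralizer_singleton_iff', mem_centralizer_singleton_iff']
      constructor
      · intro h
        have h1 : g * x * g⁻¹ * (g * y * g⁻¹) = x * y := by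
          calc g * x * g⁻¹ * (g * y * g⁻¹) = g * (x * y) * g⁻¹ := by group
            _ = (x * y) * g * g⁻¹ := by rw [h]
            _ = _ := by group
        have h2 : x⁻¹ * (g * x * g⁻¹) = y * (g * y * g⁻¹)⁻¹ := by
          rw [inv_mul_eq_iff_eq_mul, ← mul_assoc, ← h1]; group
        have h3 : x⁻¹ * (g * x * g⁻¹) ∈ (P : Subgroup G) ⊓ K := by
          refine ⟨(P : Subgroup G).mul_mem ((P : Subgroup G).inv_mem hxP) (hPn.conj_mem x hxP g), ?_⟩
          rw [h2]
          exact K.mul_mem hyK (K.inv_mem (hKn.conj_mem y hyK g))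
        rw [hPK, mem_bot] at h3
        have h4 : g * x * g⁻¹ = x := (inv_mul_eq_one.mp h3).symm
        rw [h3, eq_comm, mul_inv_eq_one] at h2
        exact ⟨(mul_inv_eq_iff_eq_mul.mp h4).symm, (mul_inv_eq_iff_eq_mul.mp h2.symm).symm⟩
      · rintro ⟨h1, h2⟩
        rw [mul_assoc, h2, ← mul_assoc, h1, mul_assoc]
    rw [hC]
    have hKx : K ≤ centralizer ({x} : Set G) := fun k hk => mem_centralizer_singleton_iff'.mpr (hPc x hxP k hk)
    have hPy : (P : Subgroup G) ≤ centralizer ({y} : Set G) := fun u hu => 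
      mem_centralizer_singleton_iff'.mpr (hPc u hu y hyK).symm
    have hcop2 : (centralizer ({x} : Set G)).index.Coprime (centralizer ({y} : Set G)).index := by
      refine Nat.Coprime.coprime_dvd_left (index_dvd_of_le hKx) 
        (Nat.Coprime.coprime_dvd_right (index_dvd_of_le hPy) ?_)
      rw [hcardK]; exact hcop
    refine le_antisymm index_inf_le ?_
    refine Nat.le_of_dvd (Nat.pos_of_ne_zero index_ne_zero_of_finite) ?_
    exact Nat.Coprime.mul_dvd_of_dvd_of_dvd hcop2 (index_dvd_of_le inf_le_left) (index_dvd_of_le inf_le_right)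
  · intro h
    obtain ⟨P⟩ : Nonempty (Sylow p G) := inferInstance
    have hcomm : ∀ x ∈ (P : Subgroup G), ∀ (q : ℕ) (_ : Fact q.Prime) (y : G) (b : ℕ), q ≠ p → orderOf y = q ^ b → 
        x * y = y * x := by
      intro x hx q hq y b hqp hb
      obtain ⟨a, ha⟩ := IsPGroup.iff_orderOf.mp P.isPGroup' ⟨x, hx⟩
      refine comm_of_card_mul (h x y ⟨a, ?_⟩ ⟨q, b, hq.out, hqp, hb⟩)
      rw [← ha, ← Subgroup.orderOf_coe]
    -- P is normal
    have hPn : (P : Subgroup G).Normal := by
      rw [← normalizer_eq_top_iff]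
      apply index_one_of_sylow
      intro q hq _
      by_cases hqp : q = p
      · subst hqp
        exact ⟨P, le_normalizer⟩
      · obtain ⟨S⟩ : Nonempty (Sylow q G) := inferInstance
        refine ⟨S, fun y hy => ?_⟩
        obtain ⟨b, hb⟩ := IsPGroup.iff_orderOf.mp S.isPGroup' ⟨y, hy⟩
        rw [← Subgroup.orderOf_coe] at hb
        apply centralizer_le_normalizer
        refine mem_centralizer_iff.mpr ?_
        intro x hx
        exact hcomm x hx q hq y b hqp hb
    have hcop : (Nat.card P).Coprime (P : Subgroup G).index := by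
      obtain ⟨m, hm⟩ := IsPGroup.iff_card.mp P.isPGroup'
      have : Nat.card P = p ^ m := hm
      rw [this]
      exact Nat.Coprime.pow_left m ((Nat.Prime.coprime_iff_not_dvd hp.out).mpr P.not_dvd_index)
    obtain ⟨K, hK⟩ := exists_right_complement'_of_coprime hcop
    have hKc : K ≤ centralizer (P : Set G) := by
      rw [← subgroupOf_eq_top]
      apply index_one_of_sylow
      intro q hq hqd
      have hqp : q ≠ p := by
        rintro rfl
        have h1 : Nat.card K = (P : Subgroup G).index := hK.symm.index_eq_card.symm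
        rw [h1] at hqd
        exact P.not_dvd_index hqd
      obtain ⟨S⟩ : Nonempty (Sylow q K) := inferInstance
      refine ⟨S, fun y hy => ?_⟩
      obtain ⟨b, hb⟩ := IsPGroup.iff_orderOf.mp S.isPGroup' ⟨y, hy⟩
      rw [← Subgroup.orderOf_coe, ← Subgroup.orderOf_coe] at hb
      rw [mem_subgroupOf]
      refine mem_centralizer_iff.mpr ?_
      intro x hx
      exact hcomm x hx q hq y b hqp hb
    have hsup : (P : Subgroup G) ⊔ K = ⊤ := hK.sup_eq_top
    refine ⟨P, K, hPn, ?_, hK.disjoint.eq_bot, hsup⟩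
    rw [← normalizer_eq_top_iff, eq_top_iff, ← hsup]
    refine sup_le ?_ le_normalizer
    intro x hx
    apply centralizer_le_normalizer
    refine mem_centralizer_iff.mpr ?_
    intro k hk
    exact (mem_centralizer_iff.mp (hKc hk) x hx).symm

end CfsgH2
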