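import Cfsg.Agent.H2.Fitting
import Cfsg.Agent.H1.CoprimeSylow
import Cfsg.Agent.H1.ConjAct
import Cfsg.Agent.H1.Solv
import Cfsg.Agent.H1.PUnique
import Cfsg.Agent.H1.FrobComp
import Cfsg.Agent.H2.ClassSize
import Cfsg.Agent.H3.NilNPC

/-! # Equal order cosets (helper2 library) -/

set_option autoImplicit false

open scoped Pointwise commutatorElement

namespace CfsgH2

open Subgroup Cfsg

section
variable {G : Type*} [Group G] [Finite G]

theorem order_contra {N : Subgroup G} (heq : ∀ x : G, x ∉ N → ∀ n ∈ N, orderOf (x * n) = orderOf x) {x y : G}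
    (hx : x ∉ N) (hy : y ∈ N) (hxy : x * y = y * x) (hcop : (orderOf x).Coprime (orderOf y)) : y = 1 := by
  have h1 := heq x hx y hy
  have hc : Commute x y := hxy
  rw [hc.orderOf_mul_eq_mul_orderOf_of_coprime hcop] at h1
  rw [← orderOf_eq_one_iff]
  have h2 : 0 < orderOf x := orderOf_pos x
  exact Nat.eq_of_mul_eq_mul_left h2 (by rw [h1, mul_one])

theorem primes_of_pCore_not_le {N : Subgroup G} [hN : N.Normal] 
    (heq : ∀ x : G, x ∉ N → ∀ n ∈ N, orderOf (x * n) = orderOf x) {p : ℕ} [hp : Fact p.Prime]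
    (h : ¬ pCore p G ≤ N) : IsPGroup p N := by
  obtain ⟨x, hxP, hxN⟩ := SetLike.not_le_iff_exists.1 h
  have hPp : IsPGroup p (pCore p G) := isPGroup_pCore p
  haveI hPn : (pCore p G).Normal := inferInstance
  have key : ∀ q : ℕ, q.Prime → q ∣ Nat.card N → q = p := by
    intro q hq hqN
    by_contra hqp
    haveI : Fact q.Prime := ⟨hq⟩
    obtain ⟨Q, hQ⟩ := CfsgH1.exists_isSylowOf q N
    have hQN := CfsgH1.isSylowOf_le hQ
    have hQq := CfsgH1.isSylowOf_isPGroup hQ
    have hQb : Q ≠ ⊥ := by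
      intro e
      have := (CfsgH1.isSylowOf_iff.1 hQ).2.2
      rw [e, relIndex_bot_left] at this
      exact this hqN
    obtain ⟨j, hj⟩ := IsPGroup.iff_card.1 hPp
    obtain ⟨i, hi⟩ := IsPGroup.iff_card.1 hQq
    have hcop : (Nat.card Q).Coprime (Nat.card (pCore p G)) := by
      rw [hj, hi]; exact Nat.Coprime.pow _ _ ((Nat.coprime_primes hq hp.out).2 hqp)
    obtain ⟨c, hc, hcx⟩ := CfsgH1.coprime_fixed_quotient (A := Q) (K := pCore p G) (CfsgH1.le_normalizer_of_normal _ _)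
      hcop (Or.inl (CfsgH1.isSolvable_of_isPGroup hQq)) (N := pCore p G ⊓ N) inf_le_left 
      (CfsgH1.le_normalizer_of_normal _ _) x hxP (by
        intro a ha
        refine Subgroup.mem_inf.2 ⟨(pCore p G).mul_mem ((pCore p G).inv_mem hxP) (hPn.conj_mem x hxP a), ?_⟩
        have h1 : x⁻¹ * (a * x * a⁻¹) = (x⁻¹ * a * x⁻¹⁻¹) * a⁻¹ := by group
        rw [h1]
        exact N.mul_mem (hN.conj_mem a (hQN ha) x⁻¹) (N.inv_mem (hQN ha)))
    obtain ⟨hcP, hcQ⟩ := Subgroup.mem_inf.1 hc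
    have hcN : c ∉ N := by
      intro hcN
      apply hxN
      have := N.mul_mem hcN (N.inv_mem (Subgroup.mem_inf.1 hcx).2)
      rwa [mul_inv_rev, inv_inv, mul_inv_cancel_left] at this
    obtain ⟨y, hy⟩ := Subgroup.ne_bot_iff_exists_ne_one.1 hQb
    apply hy
    apply Subtype.ext
    refine order_contra heq hcN (hQN y.2) (mem_centralizer_iff.1 hcQ y y.2).symm ?_
    have h1 : orderOf c ∣ Nat.card (pCore p G) := Subgroup.orderOf_dvd_natCard _ hcP
    have h2 : orderOf (y : G) ∣ Nat.card Q := Subgroup.orderOf_dvd_natCard _ y.2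
    exact (Nat.Coprime.coprime_dvd_left h1 (Nat.Coprime.coprime_dvd_right h2 hcop.symm))
  exact IsPGroup.of_card (Nat.eq_prime_pow_of_unique_prime_dvd Nat.card_pos.ne' (fun {q} hq hd => key q hq hd))

theorem exists_pCore_not_le {N : Subgroup G} (h : ¬ fittingSubgroup G ≤ N) : 
    ∃ p : ℕ, ∃ _ : Fact p.Prime, ¬ pCore p G ≤ N := by
  by_contra hcon
  push Not at hcon
  apply h
  rw [fittingSubgroup_eq_iSup_pCore]
  apply iSup_le
  intro p
  exact hcon p ⟨Nat.prime_of_mem_primeFactors p.2⟩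

theorem eq_order_fitting {N : Subgroup G} [hN : N.Normal] (hN1 : N ≠ ⊥)
    (heq : ∀ x : G, x ∉ N → ∀ n ∈ N, orderOf (x * n) = orderOf x) :
    (N ≤ fittingSubgroup G ∨ fittingSubgroup G ≤ N) ∧ 
    (N < fittingSubgroup G → IsPrimePow (Nat.card (fittingSubgroup G))) := by
  constructor
  · by_cases h : fittingSubgroup G ≤ N
    · exact Or.inr h
    · obtain ⟨p, hp, hpN⟩ := exists_pCore_not_le h
      left
      exact le_fittingSubgroup hN (primes_of_pCore_not_le heq hpN).isNilpotent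
  · intro hlt
    obtain ⟨p, hp, hpN⟩ := exists_pCore_not_le (not_le_of_gt hlt)
    have hNp := primes_of_pCore_not_le heq hpN
    have h1 : fittingSubgroup G ≤ pCore p G := by
      rw [fittingSubgroup_eq_iSup_pCore]
      apply iSup_le
      intro q
      haveI : Fact (q : ℕ).Prime := ⟨Nat.prime_of_mem_primeFactors q.2⟩
      by_cases hqp : (q : ℕ) = p
      · rw [hqp]
      · have h2 : pCore (q : ℕ) G ≤ N := by
          by_contra hq
          have hNq := primes_of_pCore_not_le heq hq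
          apply hN1
          have := IsPGroup.disjoint_of_ne (q : ℕ) p hqp N N hNq hNp
          exact disjoint_self.1 this
        have h3 := IsPGroup.disjoint_of_ne (q : ℕ) p hqp (pCore (q : ℕ) G) N (isPGroup_pCore _) hNp
        have h4 : pCore (q : ℕ) G = ⊥ := by
          rw [eq_bot_iff]
          exact h3 le_rfl h2
        rw [h4]; exact bot_le
    have h2 : IsPGroup p (fittingSubgroup G) := (isPGroup_pCore p).to_le h1
    obtain ⟨k, hk⟩ := IsPGroup.iff_card.1 h2
    rw [hk]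
    have hk0 : k ≠ 0 := by
      intro e
      rw [e, pow_zero] at hk
      have := Subgroup.eq_bot_of_card_eq _ hk
      rw [this] at hlt
      exact not_lt_bot hlt
    exact (Nat.Prime.isPrimePow hp.out).pow hk0

theorem eq_order_sylow {N : Subgroup G} [hN : N.Normal] (hN1 : N ≠ ⊥)
    (heq : ∀ x : G, x ∉ N → ∀ n ∈ N, orderOf (x * n) = orderOf x) (hnil : Group.IsNilpotent N)
    (hnpp : ¬ IsPrimePow (Nat.card N)) (q : ℕ) [hq : Fact q.Prime] (Q : Sylow q (G ⧸ N)) : 
    IsCyclic (Q : Subgroup (G ⧸ N)) ∨ ∃ n : ℕ, Nonempty ((Q : Subgroup (G ⧸ N)) ≃* QuaternionGroup (2 ^ n)) := by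
  -- a prime `r ≠ q` dividing `|N|`
  obtain ⟨r, hr, hrN, hrq⟩ : ∃ r : ℕ, r.Prime ∧ r ∣ Nat.card N ∧ r ≠ q := by
    by_contra hcon
    push Not at hcon
    apply hnpp
    have h1 := Nat.eq_prime_pow_of_unique_prime_dvd (n := Nat.card N) (p := q) Nat.card_pos.ne' 
      (fun {r} hr hd => hcon r hr hd)
    rw [h1]
    apply (Nat.Prime.isPrimePow hq.out).pow
    intro e
    rw [e, pow_zero] at h1
    exact hN1 (Subgroup.eq_bot_of_card_eq _ h1)
  haveI : Fact r.Prime := ⟨hr⟩
  obtain ⟨M, hMn, hMc, k, hk⟩ := CfsgH3.hasNPC_of_isNilpotent (G := N) (p := r)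
  haveI := hMn
  have hMmem : ∀ y : N, y ∈ M ↔ (orderOf y).Coprime r := by
    intro y
    constructor
    · intro hy
      exact Nat.Coprime.coprime_dvd_left (Subgroup.orderOf_dvd_natCard M hy) hMc
    · intro hy
      have h1 : IsPGroup r (N ⧸ M) := IsPGroup.of_card (n := k) hk
      have h2 := CfsgH3.map_eq_one_of_coprime h1 (QuotientGroup.mk' M) hy
      rwa [← MonoidHom.mem_ker, QuotientGroup.ker_mk'] at h2
  set C := M.map N.subtype with hC
  have hCN : C ≤ N := map_subtype_le _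
  have hCmem : ∀ y : G, y ∈ C ↔ y ∈ N ∧ (orderOf y).Coprime r := by
    intro y
    constructor
    · rintro ⟨z, hz, rfl⟩
      exact ⟨z.2, by rw [Subgroup.coe_subtype, Subgroup.orderOf_coe]; exact (hMmem z).1 hz⟩
    · rintro ⟨h1, h2⟩
      exact ⟨⟨y, h1⟩, (hMmem _).2 (by rwa [Subgroup.orderOf_mk]), rfl⟩
  haveI hCn : C.Normal := by
    constructor
    intro y hy g
    rw [hCmem] at hy ⊢
    refine ⟨hN.conj_mem y hy.1 g, ?_⟩
    have h4 : orderOf (g * y * g⁻¹) = orderOf y := 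
      orderOf_injective (MulAut.conj g).toMonoidHom (MulAut.conj g).injective y
    rw [h4]; exact hy.2
  set π := QuotientGroup.mk' C with hπ
  have hsur : Function.Surjective π := QuotientGroup.mk'_surjective C
  set K := N.map π with hK
  haveI hKn : K.Normal := hN.map π hsur
  have hKcard : Nat.card K = r ^ k := by
    have h1 := CfsgH1.card_map_mul_card_ker_of_le π N (by rw [QuotientGroup.ker_mk']; exact hCN)
    have h0 : Nat.card C = Nat.card M := card_map_of_injective N.subtype_injective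
    rw [QuotientGroup.ker_mk', h0, ← hK, ← Subgroup.card_mul_index M, hk, mul_comm] at h1
    exact Nat.eq_of_mul_eq_mul_left Nat.card_pos h1
  have hKr : IsPGroup r K := IsPGroup.of_card hKcard
  have hKb : K ≠ ⊥ := by
    intro e
    rw [e, card_bot] at hKcard
    have hk0 : k = 0 := by
      rcases Nat.eq_zero_or_pos k with h | h
      · exact h
      · exact absurd hKcard (Nat.one_lt_pow h.ne' hr.one_lt).ne
    rw [hk0, pow_zero] at hk
    have h1 := Subgroup.card_mul_index M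
    rw [hk, mul_one] at h1
    rw [← h1] at hrN
    exact hr.one_lt.ne' (Nat.eq_one_of_dvd_coprimes hMc hrN dvd_rfl)
  -- nontrivial `q`-elements act fixed point freely on `K`
  let S : Sylow r N := default
  haveI hSn : (S : Subgroup N).Normal := S.normal_of_normalizerCondition Group.normalizerCondition_of_isNilpotent
  have hmixed : ∀ y n : G, n ∈ N → (∃ j, orderOf n = r ^ j) → y * n * y⁻¹ * n⁻¹ ∈ C → y * n = n * y := by
    intro y n hn hno hc
    have h1 : ∀ m : N, (∃ j, orderOf m = r ^ j) → m ∈ (S : Subgroup N) := by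
      intro m ⟨j, hj⟩
      have h2 : IsPGroup r (zpowers m) := IsPGroup.of_card (n := j) (by rw [Nat.card_zpowers, hj])
      obtain ⟨T, hT⟩ := h2.exists_le_sylow
      haveI := Sylow.unique_of_normal S hSn
      rw [Subsingleton.elim S T]
      exact hT (mem_zpowers m)
    have h2 : (⟨n, hn⟩ : N) ∈ (S : Subgroup N) := by
      apply h1
      obtain ⟨j, hj⟩ := hno
      exact ⟨j, by rw [Subgroup.orderOf_mk, hj]⟩
    have h3 : (⟨y * n * y⁻¹, hN.conj_mem n hn y⟩ : N) ∈ (S : Subgroup N) := by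
      apply h1
      obtain ⟨j, hj⟩ := hno
      refine ⟨j, ?_⟩
      rw [Subgroup.orderOf_mk, ← hj]
      exact orderOf_injective (MulAut.conj y).toMonoidHom (MulAut.conj y).injective n
    have h4 := (S : Subgroup N).mul_mem h3 ((S : Subgroup N).inv_mem h2)
    obtain ⟨j, hj⟩ := (IsPGroup.iff_orderOf.1 S.2) ⟨_, h4⟩
    rw [Subgroup.orderOf_mk] at hj
    have h5 : orderOf (y * n * y⁻¹ * n⁻¹) = r ^ j := by
      rw [← hj, ← Subgroup.orderOf_coe]; rfl
    have h6 := ((hCmem _).1 hc).2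
    have h7 : y * n * y⁻¹ * n⁻¹ = 1 := by
      rw [← orderOf_eq_one_iff]
      exact Nat.eq_one_of_dvd_coprimes (h6.pow_right j) dvd_rfl (by rw [h5])
    rw [mul_inv_eq_one, mul_inv_eq_iff_eq_mul] at h7
    exact h7
  have hfpf : ∀ y : G ⧸ C, (∃ j, orderOf y = q ^ j) → y ≠ 1 → ∀ n ∈ K, y * n = n * y → n = 1 := by
    rintro y ⟨j, hj⟩ hy1 n hn hyn
    obtain ⟨y0, rfl⟩ := hsur y
    obtain ⟨y, -, hyy, i, hi⟩ := exists_pElement_lift q π y0 hj
    rw [← hyy] at hy1 hyn
    have hnr : ∃ j, orderOf n = r ^ j := by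
      obtain ⟨j, hj⟩ := (IsPGroup.iff_orderOf.1 hKr) ⟨n, hn⟩
      exact ⟨j, by rw [← hj, Subgroup.orderOf_mk]⟩
    obtain ⟨n0, hn0, rfl⟩ := hn
    obtain ⟨l, hl⟩ := hnr
    obtain ⟨m, hm0, hmm, l', hl'⟩ := exists_pElement_lift r π n0 hl
    have hmN : m ∈ N := (zpowers_le.2 hn0) hm0
    rw [← hmm] at hyn ⊢
    have hc : y * m * y⁻¹ * m⁻¹ ∈ C := by
      have : π (y * m * y⁻¹ * m⁻¹) = 1 := by
        rw [map_mul, map_mul, map_mul, map_inv, map_inv, hyn]; group
      exact (QuotientGroup.eq_one_iff _).1 this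
    have hcomm := hmixed y m hmN ⟨l', hl'⟩ hc
    have hyN : y ∉ N := by
      intro hyN
      apply hy1
      have h1 : y ∈ C := by
        rw [hCmem]
        refine ⟨hyN, ?_⟩
        rw [hi]
        exact Nat.Coprime.pow_left _ ((Nat.coprime_primes hq.out hr).2 hrq.symm)
      exact (QuotientGroup.eq_one_iff _).2 h1
    have h1 := order_contra heq hyN hmN hcomm (by
      rw [hi, hl']
      exact Nat.Coprime.pow _ _ ((Nat.coprime_primes hq.out hr).2 hrq.symm))
    rw [h1, map_one]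
  -- the map `G/C → G/N`
  let f : G ⧸ C →* G ⧸ N := QuotientGroup.map C N (MonoidHom.id G) (by
    intro x hx; exact hCN hx)
  have hfsur : Function.Surjective f := by
    intro z
    obtain ⟨g, rfl⟩ := QuotientGroup.mk'_surjective N z
    exact ⟨π g, rfl⟩
  have hfker : ∀ z : G ⧸ C, f z = 1 → z ∈ K := by
    intro z hz
    obtain ⟨g, rfl⟩ := hsur z
    have h1 : (QuotientGroup.mk' N g) = 1 := hz
    exact ⟨g, (QuotientGroup.eq_one_iff g).1 h1, rfl⟩
  let T : Sylow q (G ⧸ C) := default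
  have hTel : ∀ t ∈ (T : Subgroup (G ⧸ C)), ∃ j, orderOf t = q ^ j := by
    intro t ht
    obtain ⟨j, hj⟩ := (IsPGroup.iff_orderOf.1 T.2) ⟨t, ht⟩
    exact ⟨j, by rw [← hj, Subgroup.orderOf_mk]⟩
  have hcopTK : (Nat.card (T : Subgroup (G ⧸ C))).Coprime (Nat.card K) := by
    obtain ⟨j, hj⟩ := IsPGroup.iff_card.1 T.2
    rw [hj, hKcard]
    exact Nat.Coprime.pow _ _ ((Nat.coprime_primes hq.out hr).2 hrq.symm)
  have e0 : Function.Injective (f.subgroupMap (T : Subgroup (G ⧸ C))) := by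
    rw [injective_iff_map_eq_one]
    intro t ht
    have h1 : f (t : G ⧸ C) = 1 := congrArg Subtype.val ht
    have h2 := hfker _ h1
    have h3 : (T : Subgroup (G ⧸ C)) ⊓ K = ⊥ := CfsgH1.inf_eq_bot_of_coprime hcopTK
    have h4 : (t : G ⧸ C) ∈ (T : Subgroup (G ⧸ C)) ⊓ K := Subgroup.mem_inf.2 ⟨t.2, h2⟩
    rw [h3, mem_bot] at h4
    exact Subtype.ext h4
  have e1 : (T : Subgroup (G ⧸ C)) ≃* (T.mapSurjective hfsur : Sylow q (G ⧸ N)) :=
    MulEquiv.ofBijective (f.subgroupMap (T : Subgroup (G ⧸ C))) ⟨e0, f.subgroupMap_surjective _⟩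
  have e2 : (T : Subgroup (G ⧸ C)) ≃* (Q : Subgroup (G ⧸ N)) := e1.trans (Sylow.equiv _ _)
  have e3 : ((⊤ : Subgroup (T : Subgroup (G ⧸ C))) : Type _) ≃* (Q : Subgroup (G ⧸ N)) := Subgroup.topEquiv.trans e2
  have hTp : IsPGroup q (⊤ : Subgroup (T : Subgroup (G ⧸ C))) := T.2.to_subgroup _
  have huniq := CfsgH1.frob_sylow_unique (K := K) (H := (T : Subgroup (G ⧸ C))) (CfsgH1.le_normalizer_of_normal _ _) hKb hcopTK
    (fun e he he1 k hk hek => hfpf e (hTel e he) he1 k hk hek) (p := q) (P := ⊤) hTp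
  rcases CfsgH1.punique_classification hTp huniq with h | ⟨-, n, ⟨e⟩⟩
  · left
    exact isCyclic_of_surjective e3.toMonoidHom e3.surjective
  · right
    exact ⟨n, ⟨e3.symm.trans e⟩⟩

end

end CfsgH2
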