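import Cfsg.Agent.H4.Classes
import Cfsg.Agent.H4.Tools
import Cfsg.Agent.H4.Main

/-! # Frobenius–Schur indicators (helper2 library) -/

set_option autoImplicit false
open scoped ComplexConjugate TensorProduct
open Cfsg CfsgH4

namespace CfsgH2

/-- trace of (swap) ∘ (f ⊗ g) is trace of g ∘ f -/
theorem trace_comm_map {n : ℕ} (f g : (Fin n → ℂ) →ₗ[ℂ] (Fin n → ℂ)) :
    LinearMap.trace ℂ _ ((TensorProduct.comm ℂ (Fin n → ℂ) (Fin n → ℂ)).toLinearMap ∘ₗ TensorProduct.map f g) =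
      LinearMap.trace ℂ _ (g ∘ₗ f) := by
  classical
  let b := Pi.basisFun ℂ (Fin n)
  rw [LinearMap.trace_eq_matrix_trace ℂ (b.tensorProduct b), LinearMap.trace_eq_matrix_trace ℂ b,
    LinearMap.toMatrix_comp b b b, Matrix.trace, Matrix.trace, Fintype.sum_prod_type]
  refine Finset.sum_congr rfl fun i _ => ?_
  rw [Matrix.diag_apply, Matrix.mul_apply]
  refine Finset.sum_congr rfl fun j _ => ?_
  rw [Matrix.diag_apply, LinearMap.toMatrix_apply, Module.Basis.tensorProduct_apply]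
  simp only [LinearMap.comp_apply, TensorProduct.map_tmul, LinearEquiv.coe_coe, TensorProduct.comm_tmul,
    Module.Basis.tensorProduct_repr_tmul_apply, LinearMap.toMatrix_apply]
  rw [smul_eq_mul, mul_comm]

/-- an idempotent endomorphism has natural trace -/
theorem trace_idem_nat {V : Type*} [AddCommGroup V] [Module ℂ V] [FiniteDimensional ℂ V] {f : Module.End ℂ V}
    (h : f * f = f) : ∃ n : ℕ, LinearMap.trace ℂ V f = n := by
  have h1 : IsIdempotentElem f := h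
  exact ⟨_, (LinearMap.IsIdempotentElem.isProj_range f h1).trace⟩

variable {G : Type*} [Group G] [Fintype G]

theorem avg_idem {V : Type*} [AddCommGroup V] [Module ℂ V] (σ : Representation ℂ G V) :
    ((Nat.card G : ℂ)⁻¹ • ∑ g : G, (σ g : Module.End ℂ V)) * ((Nat.card G : ℂ)⁻¹ • ∑ g : G, (σ g : Module.End ℂ V)) =
      (Nat.card G : ℂ)⁻¹ • ∑ g : G, (σ g : Module.End ℂ V) := by
  have h1 : ∀ g : G, (σ g : Module.End ℂ V) * ∑ h : G, (σ h : Module.End ℂ V) = ∑ h : G, (σ h : Module.End ℂ V) := by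
    intro g
    rw [Finset.mul_sum]
    refine Fintype.sum_equiv (Equiv.mulLeft g) _ _ fun h => ?_
    rw [Equiv.coe_mulLeft, map_mul]
  rw [smul_mul_smul_comm, Finset.sum_mul, Finset.sum_congr rfl (fun g _ => h1 g), Finset.sum_const, Finset.card_univ,
    ← Nat.cast_smul_eq_nsmul ℂ, smul_smul, Nat.card_eq_fintype_card]
  have : (Fintype.card G : ℂ) ≠ 0 := by exact_mod_cast Fintype.card_ne_zero
  congr 1
  field_simp

theorem half_idem {R : Type*} [Ring R] [Algebra ℂ R] (P τ : R) (hPP : P * P = P) (hττ : τ * τ = 1)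
    (hτP : τ * P = P * τ) :
    ((2 : ℂ)⁻¹ • (P + P * τ)) * ((2 : ℂ)⁻¹ • (P + P * τ)) = (2 : ℂ)⁻¹ • (P + P * τ) ∧
    ((2 : ℂ)⁻¹ • (P - P * τ)) * ((2 : ℂ)⁻¹ • (P - P * τ)) = (2 : ℂ)⁻¹ • (P - P * τ) ∧
    P * τ + (2 : ℂ)⁻¹ • (P - P * τ) = (2 : ℂ)⁻¹ • (P + P * τ) := by
  have e1 : P * τ * P = P * τ := by
    rw [mul_assoc, hτP, ← mul_assoc, hPP]
  have e2 : P * τ * (P * τ) = P := by
    rw [← mul_assoc, e1, mul_assoc, hττ, mul_one]
  have e3 : P * (P * τ) = P * τ := by rw [← mul_assoc, hPP]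
  refine ⟨?_, ?_, ?_⟩
  · rw [smul_mul_smul_comm, mul_add, add_mul, add_mul, hPP, e1, e2, e3]
    rw [show P + P * τ + (P * τ + P) = (2 : ℂ) • (P + P * τ) by rw [two_smul]; abel, smul_smul]
    norm_num
  · rw [smul_mul_smul_comm, mul_sub, sub_mul, sub_mul, hPP, e1, e2, e3]
    rw [show P - P * τ - (P * τ - P) = (2 : ℂ) • (P - P * τ) by rw [two_smul]; abel, smul_smul]
    norm_num
  · have h : P * τ = (2 : ℂ)⁻¹ • (P * τ) + (2 : ℂ)⁻¹ • (P * τ) := by
      rw [← add_smul]; norm_num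
    rw [smul_sub, smul_add]
    nth_rewrite 1 [h]
    abel

/-- The Frobenius–Schur indicator of a character is an integer. -/
theorem exists_int_indicator {χ : G → ℂ} (hχ : IsCharacter G χ) :
    ∃ z : ℤ, (Nat.card G : ℂ)⁻¹ * ∑ g : G, χ (g * g) = z := by
  obtain ⟨n, ρ, rfl⟩ := hχ
  set σ := ρ.tprod ρ with hσ
  set P : Module.End ℂ ((Fin n → ℂ) ⊗[ℂ] (Fin n → ℂ)) := (Nat.card G : ℂ)⁻¹ • ∑ g : G, (σ g : Module.End ℂ _) with hP
  have hPP : P * P = P := avg_idem σ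
  set τ : Module.End ℂ ((Fin n → ℂ) ⊗[ℂ] (Fin n → ℂ)) :=
    (TensorProduct.comm ℂ (Fin n → ℂ) (Fin n → ℂ)).toLinearMap with hτ
  have hττ : τ * τ = 1 := by
    apply TensorProduct.ext'
    intro x y
    simp [hτ]
  have hτσ : ∀ g : G, τ * (σ g : Module.End ℂ _) = (σ g : Module.End ℂ _) * τ := by
    intro g
    apply TensorProduct.ext'
    intro x y
    simp [hτ, hσ]
  have hτP : τ * P = P * τ := by
    rw [hP, mul_smul_comm, smul_mul_assoc, Finset.mul_sum, Finset.sum_mul]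
    congr 1
    exact Finset.sum_congr rfl fun g _ => hτσ g
  have htr : LinearMap.trace ℂ _ (τ * P) = (Nat.card G : ℂ)⁻¹ * ∑ g : G, ρ.character (g * g) := by
    rw [hP, mul_smul_comm, map_smul, Finset.mul_sum, map_sum, smul_eq_mul]
    congr 1
    refine Finset.sum_congr rfl fun g _ => ?_
    have := trace_comm_map (ρ g) (ρ g)
    rw [Representation.character, ρ.map_mul]
    exact this
  obtain ⟨hQ1, hQ2, hQ3⟩ := half_idem P τ hPP hττ hτP
  obtain ⟨a, ha⟩ := trace_idem_nat hQ1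
  obtain ⟨b, hb⟩ := trace_idem_nat hQ2
  refine ⟨(a : ℤ) - b, ?_⟩
  rw [← htr, hτP]
  have h9 := congrArg (LinearMap.trace ℂ _) hQ3
  rw [map_add, ha, hb] at h9
  push_cast
  linear_combination h9

/-- The number of solutions of `x ^ 2 = 1` via indicators. -/
theorem card_sq_eq_one [DecidableEq G] :
    (Nat.card {x : G // x ^ 2 = 1} : ℂ) =
      ∑ χ : IrrCharacter G, ((Nat.card G : ℂ)⁻¹ * ∑ g : G, (χ : G → ℂ) (g * g)) * (χ : G → ℂ) 1 := by
  have h0 : (Nat.card G : ℂ) ≠ 0 := card_ne_zero G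
  have h1 : ∑ χ : IrrCharacter G, ((Nat.card G : ℂ)⁻¹ * ∑ g : G, (χ : G → ℂ) (g * g)) * (χ : G → ℂ) 1 =
      (Nat.card G : ℂ)⁻¹ * ∑ g : G, ∑ χ : IrrCharacter G, (χ : G → ℂ) 1 * (χ : G → ℂ) (g * g) := by
    rw [Finset.sum_comm, Finset.mul_sum]
    refine Finset.sum_congr rfl fun χ _ => ?_
    rw [← Finset.mul_sum]; ring
  rw [h1]
  simp_rw [sum_one_mul]
  rw [← Finset.sum_filter, Finset.sum_const, nsmul_eq_mul]
  rw [Nat.card_eq_fintype_card (α := {x : G // x ^ 2 = 1}), Fintype.card_subtype]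
  have : (Finset.univ.filter fun x : G => x ^ 2 = 1) = Finset.univ.filter fun x : G => x * x = 1 := by
    ext x; simp [pow_two]
  rw [this]
  field_simp

end CfsgH2
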