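import Cfsg.Agent.H7.WellPlaced
import Cfsg.Agent.H3.NilNPC
import Cfsg.Agent.H3.ThompsonNPC
import Cfsg.Agent.H1.CoprimeSylow
import Cfsg.Agent.H1.Schmidt
import Cfsg.Agent.H2.PReg

/-! # Nilpotent maximal subgroups (helper2 library) -/

set_option autoImplicit false

open scoped commutatorElement Pointwise

namespace CfsgH2

open Subgroup CfsgH3 CfsgH7

universe u

section
variable {G : Type u} [Group G] [Finite G] {p : ℕ} [hp : Fact p.Prime]

/-- fusion when every nontrivial normal subgroup of a Sylow subgroup of class at most two has a nilpotent normalizer -/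
theorem npc_class_two (S : Sylow p G) (hSb : (S : Subgroup G) ≠ ⊥)
    (hcl : ∀ a ∈ (S : Subgroup G), ∀ b ∈ (S : Subgroup G), ⁅a, b⁆ ∈ centralizer ((S : Subgroup G) : Set G))
    (hnorm : ∀ X : Subgroup G, X ≠ ⊥ → X ≤ (S : Subgroup G) → (S : Subgroup G) ≤ normalizer (X : Set G) →
      Group.IsNilpotent (normalizer (X : Set G))) : HasNPC p G := by
  have key : ∀ U ∈ FN p (S : Subgroup G), ∀ y ∈ normalizer (U : Set G), ∃ s ∈ (S : Subgroup G), ∀ u ∈ U, y * u * y⁻¹ = s * u * s⁻¹ := by
    rintro U ⟨hUS, hUN⟩ y hy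
    have hCN : centralizer (U : Set G) ≤ normalizer (U : Set G) := CfsgH1.le_normalizer_of_le_centralizer le_rfl
    have hNC : normalizer (U : Set G) ≤ normalizer ((centralizer (U : Set G) : Subgroup G) : Set G) := by
      rw [CfsgH1.le_normalizer_iff_conj]
      intro h hh c hc
      rw [mem_centralizer_iff] at hc ⊢
      intro u hu
      have h6 : h⁻¹ * u * h ∈ U := by
        have := (mem_normalizer_iff.1 (Subgroup.inv_mem _ hh) u).1 hu
        rwa [inv_inv] at this
      have := hc _ h6
      calc u * (h * c * h⁻¹) = h * ((h⁻¹ * u * h) * c) * h⁻¹ := by group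
        _ = h * (c * (h⁻¹ * u * h)) * h⁻¹ := by rw [this]
        _ = _ := by group
    have h1 := IsSyl.inf hUN hCN hNC
    set T := NS (S : Subgroup G) U ⊓ centralizer (U : Set G) with hT
    have hTeq : T = (S : Subgroup G) ⊓ centralizer (U : Set G) := by
      rw [hT]
      apply le_antisymm
      · exact inf_le_inf_right _ inf_le_left
      · exact le_inf (le_inf inf_le_left (inf_le_right.trans hCN)) inf_le_right
    obtain ⟨c, hc, z, hz, hyz⟩ := IsSyl.frattini h1 hCN hNC hy
    obtain ⟨hz1, hz2⟩ := Subgroup.mem_inf.1 hz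
    set U1 := U ⊔ T with hU1
    have hTS : T ≤ (S : Subgroup G) := by rw [hTeq]; exact inf_le_left
    have hU1S : U1 ≤ (S : Subgroup G) := sup_le hUS hTS
    have hzU1 : z ∈ normalizer (U1 : Set G) := by
      have := CfsgH1.le_normalizer_sup (A := zpowers z) (zpowers_le.2 hz1) (zpowers_le.2 hz2)
      exact this (mem_zpowers z)
    -- the centre of `S` is in `T`
    have hZT : (S : Subgroup G) ⊓ centralizer ((S : Subgroup G) : Set G) ≤ T := by
      rw [hTeq]
      exact inf_le_inf_left _ (centralizer_le hUS)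
    have hSU1 : (S : Subgroup G) ≤ normalizer (U1 : Set G) := by
      rw [CfsgH1.le_normalizer_iff_conj]
      intro s hs u hu
      have h2 : ⁅s, u⁆ ∈ U1 := by
        apply le_sup_right (a := U)
        apply hZT
        refine Subgroup.mem_inf.2 ⟨?_, hcl s hs u (hU1S hu)⟩
        have hu' := hU1S hu
        rw [commutatorElement_def]
        exact Subgroup.mul_mem _ (Subgroup.mul_mem _ (Subgroup.mul_mem _ hs hu') (Subgroup.inv_mem _ hs)) (Subgroup.inv_mem _ hu')
      have h3 := U1.mul_mem h2 hu
      rwa [commutatorElement_def, inv_mul_cancel_right] at h3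
    have hU1b : U1 ≠ ⊥ := by
      intro e
      have hSn : Group.IsNilpotent (S : Subgroup G) := S.2.isNilpotent
      have h2 := CfsgH1.inf_centralizer_ne_bot_of_nilpotent hSn le_rfl Subgroup.le_normalizer hSb
      apply h2
      rw [eq_bot_iff, ← e]
      exact hZT.trans le_sup_right
    have hnil := hnorm U1 hU1b hU1S hSU1
    set N := normalizer (U1 : Set G) with hN
    -- decompose `z`
    obtain ⟨a, b, hzab, -, ha, hb, haz, hbz⟩ := exists_pPart' p z
    have haN : a ∈ N := (zpowers_le.2 hzU1) haz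
    have hbN : b ∈ N := (zpowers_le.2 hzU1) hbz
    have hcomm : ∀ s ∈ (S : Subgroup G), s * a = a * s := by
      intro s hs
      obtain ⟨k, hk⟩ := isPel_of_mem_sylow hs
      have := commute_of_nilpotent N (⟨s, hSU1 hs⟩ : N) ⟨a, haN⟩ (p ^ k) (orderOf a) (Subtype.ext (by
        push_cast
        rw [← hk]; exact pow_orderOf_eq_one s)) (Subtype.ext (by push_cast; exact pow_orderOf_eq_one a))
        (Nat.Coprime.pow_left k ha.symm)
      exact congrArg Subtype.val this
    have hbS : b ∈ (S : Subgroup G) := by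
      -- `S` is normal in `N`
      have hSN : N ≤ normalizer ((S : Subgroup G) : Set G) := by
        let S' : Sylow p N := S.subtype hSU1
        haveI : (S' : Subgroup N).Normal := S'.normal_of_normalizerCondition Group.normalizerCondition_of_isNilpotent
        exact CfsgH1.le_normalizer_of_normal_subgroupOf hSU1 this
      exact mem_sylow_of_normalizes hb S (hSN hbN)
    refine ⟨b, hbS, ?_⟩
    intro u hu
    have huS := hUS hu
    have h2 : b * u * b⁻¹ ∈ (S : Subgroup G) := Subgroup.mul_mem _ (Subgroup.mul_mem _ hbS huS) (Subgroup.inv_mem _ hbS)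
    have h3 : z * u * z⁻¹ = b * u * b⁻¹ := by
      have e1 : z * u * z⁻¹ = a * (b * u * b⁻¹) * a⁻¹ := by rw [hzab]; group
      rw [e1, ← hcomm _ h2, mul_inv_cancel_right]
    have h4 : z * u * z⁻¹ ∈ U := (mem_normalizer_iff.1 hz1 u).1 hu
    have h5 : y * u * y⁻¹ = c * (z * u * z⁻¹) * c⁻¹ := by rw [hyz]; group
    rw [h5, ← mem_centralizer_iff.1 hc _ h4, mul_inv_cancel_right, h3]
  apply hasNPC_of_controls S
  intro x hx g hg
  have hA : zpowers x ≤ (S : Subgroup G) := zpowers_le.2 hx
  have hgA : cj g (zpowers x) ≤ (S : Subgroup G) := by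
    rintro _ ⟨w, ⟨i, rfl⟩, rfl⟩
    change g * x ^ i * g⁻¹ ∈ (S : Subgroup G)
    rw [← conj_zpow]
    exact Subgroup.zpow_mem _ hg i
  have hch := alperin_FN S hA hgA
  have : ∃ s ∈ (S : Subgroup G), ∀ a ∈ zpowers x, g * a * g⁻¹ = s * a * s⁻¹ := by
    clear hgA hg
    induction hch with
    | one => exact ⟨1, one_mem _, fun a _ => rfl⟩
    | @step c y U _ hU hy hc ih =>
      obtain ⟨s, hs, hsa⟩ := ih
      obtain ⟨s', hs', hsa'⟩ := key U hU y hy
      refine ⟨s' * s, mul_mem hs' hs, ?_⟩
      intro a ha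
      have h1 : c * a * c⁻¹ ∈ U := hc ⟨a, ha, rfl⟩
      calc y * c * a * (y * c)⁻¹ = y * (c * a * c⁻¹) * y⁻¹ := by group
        _ = s' * (c * a * c⁻¹) * s'⁻¹ := hsa' _ h1
        _ = s' * (s * a * s⁻¹) * s'⁻¹ := by rw [hsa a ha]
        _ = _ := by group
  obtain ⟨s, hs, hsa⟩ := this
  exact ⟨s, hs, (hsa x (mem_zpowers x)).symm⟩

/-- a core free nilpotent maximal subgroup with all relevant normal `p`-complements -/
theorem isSolvable_of_nil_coatom {M : Subgroup G} (hM : IsCoatom M) (hnil : Group.IsNilpotent M)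
    (_hcore : ∀ X : Subgroup G, X ≤ M → X.Normal → X = ⊥)
    (hnpc : ∀ p : ℕ, ∀ _ : Fact p.Prime, p ∣ Nat.card M → HasNPC p G)
    (hidx : ∀ p : ℕ, p.Prime → p ∣ Nat.card M → ¬ p ∣ M.index) : Group.IsSolvable G := by
  set K : Subgroup G := ⨅ p : {p : ℕ // p.Prime ∧ p ∣ Nat.card M}, Cfsg.pResidual (p : ℕ) G with hK
  haveI hKn : K.Normal := by
    rw [hK]
    apply Subgroup.normal_iInf_normal
    intro p
    haveI : Fact (p : ℕ).Prime := ⟨p.2.1⟩
    exact pResidual_normal' p G
  have hKcop : ∀ p : ℕ, p.Prime → p ∣ Nat.card M → (Nat.card K).Coprime p := by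
    intro p hp hpM
    haveI : Fact p.Prime := ⟨hp⟩
    have h1 : K ≤ Cfsg.pResidual p G := iInf_le (fun p : {p : ℕ // p.Prime ∧ p ∣ Nat.card M} => Cfsg.pResidual (p : ℕ) G) ⟨p, hp, hpM⟩
    exact Nat.Coprime.coprime_dvd_left (card_dvd_of_le h1) (hasNPC_iff_card.1 (hnpc p ⟨hp⟩ hpM))
  have hcop : (Nat.card M).Coprime (Nat.card K) := by
    apply Nat.coprime_of_dvd
    intro p hp h1 h2
    exact hp.one_lt.ne' (Nat.eq_one_of_dvd_coprimes (hKcop p hp h1) h2 dvd_rfl)
  have hKM : M ⊓ K = ⊥ := CfsgH1.inf_eq_bot_of_coprime hcop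
  have hMs : Group.IsSolvable M := CfsgH1.isNilpotent_isSolvable hnil
  have hKb : K ≠ ⊥ := by
    intro e
    have h1 : M.index ≠ 1 := fun h => hM.1 (Subgroup.index_eq_one.1 h)
    obtain ⟨r, hr, hrd⟩ := Nat.exists_prime_and_dvd h1
    haveI : Fact r.Prime := ⟨hr⟩
    obtain ⟨x, hx⟩ := exists_prime_orderOf_dvd_card' r (hrd.trans (Subgroup.index_dvd_card M))
    have h2 : x ∈ K := by
      rw [hK, Subgroup.mem_iInf]
      intro p
      haveI : Fact (p : ℕ).Prime := ⟨p.2.1⟩
      apply mem_pResidual
      rw [hx]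
      apply (Nat.coprime_primes hr p.2.1).2
      intro e2
      exact hidx p p.2.1 p.2.2 (e2 ▸ hrd)
    rw [e, mem_bot] at h2
    rw [h2, orderOf_one] at hx
    exact hr.one_lt.ne hx
  have hK1 : Nat.card K ≠ 1 := fun h => hKb (Subgroup.eq_bot_of_card_eq _ h)
  obtain ⟨q, hq, hqK⟩ := Nat.exists_prime_and_dvd hK1
  haveI : Fact q.Prime := ⟨hq⟩
  obtain ⟨Q, hQ, hQM⟩ := (CfsgH1.coprime_sylow (A := M) (K := K) (CfsgH1.le_normalizer_of_normal _ _) hcop (Or.inl hMs) q).1
  have hQb : Q ≠ ⊥ := by
    intro e
    have := (CfsgH1.isSylowOf_iff.1 hQ).2.2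
    rw [e, relIndex_bot_left] at this
    exact this hqK
  have hQK := CfsgH1.isSylowOf_le hQ
  have hQq := CfsgH1.isSylowOf_isPGroup hQ
  have hsup : M ⊔ Q = ⊤ := by
    apply hM.2
    apply lt_of_le_of_ne le_sup_left
    intro e
    apply hQb
    rw [eq_bot_iff, ← hKM]
    have h1 : Q ≤ M := by rw [e]; exact le_sup_right
    exact le_inf h1 hQK
  have hQs : Group.IsSolvable Q := CfsgH1.isSolvable_of_isPGroup hQq
  have hQn : Q.Normal := by
    rw [← normalizer_eq_top_iff, eq_top_iff, ← hsup]
    exact sup_le hQM Subgroup.le_normalizer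
  exact CfsgH1.isSolvable_of_normal_sup Q hQs hMs (by rw [sup_comm]; exact hsup)

end

/-- S4039, S4040 together -/
theorem isSolvable_of_nil_coatom_aux : ∀ (n : ℕ) (G : Type u) [Group G] [Finite G], Nat.card G = n →
    ∀ M : Subgroup G, IsCoatom M → Group.IsNilpotent M → (Odd (Nat.card M) ∨ ∀ a b c : M, ⁅⁅a, b⁆, c⁆ = 1) →
    Group.IsSolvable G := by
  intro n
  induction n using Nat.strong_induction_on with
  | _ n ih =>
  intro G _ _ hn M hM hnil hor
  haveI := hnil
  by_cases hcore : M.normalCore = ⊥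
  · by_cases hMb : M = ⊥
    · subst hMb
      exact CfsgH1.isSolvable_of_bot_isCoatom hM
    have hnn : ∀ X : Subgroup G, X ≤ M → X.Normal → X = ⊥ := by
      intro X hX hXn
      rw [← le_bot_iff, ← hcore]
      haveI := hXn
      exact Subgroup.normal_le_normalCore.2 hX
    -- Sylow subgroups of `M`
    have hsyl : ∀ p : ℕ, ∀ _ : Fact p.Prime, p ∣ Nat.card M → ∃ P : Sylow p G, (P : Subgroup G) ≠ ⊥ ∧ (P : Subgroup G) ≤ M ∧
        M ≤ normalizer ((P : Subgroup G) : Set G) := by
      intro p hp hpM
      let P' : Sylow p M := default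
      have hP'n : (P' : Subgroup M).Normal := P'.normal_of_normalizerCondition Group.normalizerCondition_of_isNilpotent
      set P := (P' : Subgroup M).map M.subtype with hP
      have hPM : P ≤ M := map_subtype_le _
      have hPp : IsPGroup p P := P'.2.map _
      have hPb : P ≠ ⊥ := by
        intro e
        rw [hP, Subgroup.map_eq_bot_iff_of_injective _ M.subtype_injective] at e
        have h3 := P'.card_eq_multiplicity
        rw [e, card_bot] at h3
        have h4 : 0 < (Nat.card M).factorization p := hp.out.factorization_pos_of_dvd Nat.card_pos.ne' hpM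
        have h5 := Nat.one_lt_pow h4.ne' hp.out.one_lt
        omega
      have hMP : M ≤ normalizer (P : Set G) := by
        apply CfsgH1.le_normalizer_of_normal_subgroupOf hPM
        rw [hP, Subgroup.subgroupOf, Subgroup.comap_map_eq_self_of_injective M.subtype_injective]
        exact hP'n
      have hNP : normalizer (P : Set G) = M := by
        rcases hM.le_iff.1 hMP with h | h
        · exact absurd (hnn P hPM (Subgroup.normalizer_eq_top_iff.1 h)) hPb
        · exact h
      obtain ⟨S, hS⟩ := hPp.exists_le_sylow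
      have hSP : (S : Subgroup G) = P := by
        by_contra hne
        have hlt : P < (S : Subgroup G) := lt_of_le_of_ne hS (Ne.symm hne)
        have h1 := lt_inf_normalizer S.isPGroup' hlt
        rw [hNP] at h1
        -- `S ⊓ M` is a `p`-subgroup of `M` containing `P`
        have h2 : ((S : Subgroup G) ⊓ M).subgroupOf M = (P' : Subgroup M) := by
          apply P'.is_maximal'
          · exact (S.2.to_le inf_le_left).comap_of_injective M.subtype M.subtype_injective
          · intro x hx
            rw [mem_subgroupOf]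
            exact Subgroup.mem_inf.2 ⟨hS ⟨x, hx, rfl⟩, x.2⟩
        have h3 : (S : Subgroup G) ⊓ M = P := by
          rw [hP, ← h2, Subgroup.subgroupOf_map_subtype, inf_assoc, inf_idem]
        rw [h3] at h1
        exact lt_irrefl _ h1
      refine ⟨S, ?_, ?_, ?_⟩
      · rw [hSP]; exact hPb
      · rw [hSP]; exact hPM
      · rw [hSP]; exact hMP
    apply isSolvable_of_nil_coatom hM hnil hnn
    · intro p hp hpM
      obtain ⟨P, hPb, hPM, hMP⟩ := hsyl p hp hpM
      have hnorm : ∀ X : Subgroup G, X ≠ ⊥ → X ≤ (P : Subgroup G) → M ≤ normalizer (X : Set G) →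
          Group.IsNilpotent (normalizer (X : Set G)) := by
        intro X hXb hXP hXn
        rcases hM.le_iff.1 hXn with h | h
        · exact absurd (hnn X (hXP.trans hPM) (Subgroup.normalizer_eq_top_iff.1 h)) hXb
        · rw [h]; exact hnil
      rcases hor with hodd | hcl
      · apply thompson_npc_of_normalizers (p := p) (by
          rintro rfl
          exact (Nat.not_even_iff_odd.2 hodd) (even_iff_two_dvd.2 hpM)) P
        intro X hXb hXP hXn
        haveI := hnorm X hXb hXP (hMP.trans hXn)
        exact hasNPC_of_isNilpotent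
      · apply npc_class_two P hPb
        · intro a ha b hb
          rw [mem_centralizer_iff]
          intro c hc
          have h1 := hcl ⟨a, hPM ha⟩ ⟨b, hPM hb⟩ ⟨c, hPM hc⟩
          have h2 : ⁅⁅a, b⁆, c⁆ = 1 := congrArg Subtype.val h1
          exact (commutatorElement_eq_one_iff_mul_comm.1 h2).symm
        · intro X hXb hXP hXn
          apply hnorm X hXb hXP
          -- `M` normalizes `X`
          intro m hm
          obtain ⟨a, b, hmab, -, ha, hb, ham, hbm⟩ := exists_pPart' p m
          have haM : a ∈ M := (zpowers_le.2 hm) ham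
          have hbM : b ∈ M := (zpowers_le.2 hm) hbm
          have hbP : b ∈ (P : Subgroup G) := mem_sylow_of_normalizes hb P (hMP hbM)
          rw [hmab]
          apply Subgroup.mul_mem _ _ (hXn hbP)
          apply (CfsgH1.le_normalizer_of_le_centralizer (le_refl (centralizer (X : Set G))))
          rw [mem_centralizer_iff]
          intro s hs
          obtain ⟨k, hk⟩ := isPel_of_mem_sylow (hXP hs)
          have := commute_of_nilpotent M (⟨s, hPM (hXP hs)⟩ : M) ⟨a, haM⟩ (p ^ k) (orderOf a) (Subtype.ext (by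
            push_cast
            rw [← hk]; exact pow_orderOf_eq_one s)) (Subtype.ext (by push_cast; exact pow_orderOf_eq_one a))
            (Nat.Coprime.pow_left k ha.symm)
          exact congrArg Subtype.val this
    · intro p hp hpM hpI
      haveI : Fact p.Prime := ⟨hp⟩
      obtain ⟨P, hPb, hPM, hMP⟩ := hsyl p ⟨hp⟩ hpM
      exact P.not_dvd_index (hpI.trans (Subgroup.index_dvd_of_le hPM))
  · set N := M.normalCore with hN
    have hNM : N ≤ M := Subgroup.normalCore_le M
    have hNs : Group.IsSolvable N := CfsgH1.isSolvable_of_le (CfsgH1.isNilpotent_isSolvable hnil) hNM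
    refine CfsgH1.isSolvable_of_normal_quotient N hNs ?_
    have hsurM : Function.Surjective ((QuotientGroup.mk' N).subgroupMap M) := MonoidHom.subgroupMap_surjective _ _
    refine ih (Nat.card (G ⧸ N)) (hn ▸ CfsgH1.card_quotient_lt hcore) (G ⧸ N) rfl (M.map (QuotientGroup.mk' N))
      (isCoatom_map_mk hNM hM) ?_ ?_
    · exact Group.nilpotent_of_surjective ((QuotientGroup.mk' N).subgroupMap M) hsurM
    · rcases hor with h | h
      · left
        have : Nat.card (M.map (QuotientGroup.mk' N)) ∣ Nat.card M := Subgroup.card_map_dvd M _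
        exact Odd.of_dvd_nat h this
      · right
        intro a b c
        obtain ⟨a, rfl⟩ := hsurM a
        obtain ⟨b, rfl⟩ := hsurM b
        obtain ⟨c, rfl⟩ := hsurM c
        rw [← map_commutatorElement, ← map_commutatorElement, h a b c, map_one]

end CfsgH2
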