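import Mathlib
import Cfsg.Agent.H1.PUnique
import Cfsg.Agent.H1.FrobComp
import Cfsg.Agent.H1.PGrp2
import Cfsg.Agent.H2.Misc13

set_option autoImplicit false

/-! # `p`-groups in which subgroups of the same order are isomorphic (helper2 library) -/

open Subgroup Cfsg

universe u

namespace CfsgH2

theorem quaternion_iso_sub {P : Type u} [Group P] [Finite P]
    (hiso : ∀ H K : Subgroup P, Nat.card H = Nat.card K → Nonempty (H ≃* K)) {n : ℕ} (e : P ≃* QuaternionGroup (2 ^ n)) :
    n ≤ 1 := by
  by_contra hn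
  push Not at hn
  haveI : NeZero (2 ^ n) := ⟨by positivity⟩
  haveI : Fact (Nat.Prime 2) := ⟨Nat.prime_two⟩
  have ha1 : orderOf (QuaternionGroup.a 1 : QuaternionGroup (2 ^ n)) = 8 * 2 ^ (n - 2) := by
    rw [QuaternionGroup.orderOf_a_one]
    obtain ⟨m, rfl⟩ := Nat.exists_eq_add_of_le hn
    have : 1 + 1 + m - 2 = m := by omega
    rw [this]; ring
  set a' := e.symm (QuaternionGroup.a 1) with ha'
  have hoa : orderOf a' = 8 * 2 ^ (n - 2) := by rw [ha', MulEquiv.orderOf_eq, ha1]
  have h8 : orderOf (a' ^ (2 ^ (n - 2))) = 8 := by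
    rw [orderOf_pow_of_dvd (by positivity) (by rw [hoa]; exact Dvd.intro_left _ rfl), hoa]
    exact Nat.mul_div_cancel _ (by positivity)
  set x' := e.symm (QuaternionGroup.xa 0) with hx'
  have hox : orderOf x' = 4 := by rw [hx', MulEquiv.orderOf_eq, QuaternionGroup.orderOf_xa]
  have hPc : Nat.card P = 2 ^ (n + 2) := by
    rw [Nat.card_congr e.toEquiv, Nat.card_eq_fintype_card, QuaternionGroup.card]; ring
  obtain ⟨K, hKc, hK⟩ := Sylow.exists_subgroup_card_pow_succ (G := P) (p := 2) (n := 2)
    (by rw [hPc]; exact pow_dvd_pow 2 (by omega)) (H := zpowers x') (by rw [Nat.card_zpowers, hox]; norm_num)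
  obtain ⟨f⟩ := hiso (zpowers (a' ^ (2 ^ (n - 2)))) K (by rw [Nat.card_zpowers, h8, hKc]; norm_num)
  haveI : IsCyclic K := isCyclic_of_surjective f f.surjective
  obtain ⟨y, hy⟩ := IsCyclic.exists_generator (α := K)
  have hoy : orderOf y = 8 := by rw [orderOf_eq_card_of_forall_mem_zpowers hy, hKc]; norm_num
  have hoy' : orderOf (e (y : P)) = 8 := by rw [MulEquiv.orderOf_eq, Subgroup.orderOf_coe, hoy]
  obtain ⟨k, hk⟩ := mem_zpowers_iff.1 (hy ⟨x', hK (mem_zpowers _)⟩)
  have hk' : (e (y : P)) ^ k = QuaternionGroup.xa 0 := by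
    have h1 : (y : P) ^ k = x' := congrArg Subtype.val hk
    rw [← map_zpow, h1, hx', MulEquiv.apply_symm_apply]
  have hne : ∀ i : ZMod (2 * 2 ^ n), e (y : P) ≠ QuaternionGroup.xa i := by
    intro i h
    rw [h, QuaternionGroup.orderOf_xa] at hoy'
    omega
  rcases hcase : e (y : P) with i | i
  · rw [hcase] at hk'
    have hmem : ∀ z : QuaternionGroup (2 ^ n), z ∈ zpowers (QuaternionGroup.a 1 : QuaternionGroup (2 ^ n)) →
        z ≠ QuaternionGroup.xa 0 := by
      rintro z ⟨j, rfl⟩ h
      have h1 : ∃ m : ℕ, (QuaternionGroup.a 1 : QuaternionGroup (2 ^ n)) ^ j = QuaternionGroup.a 1 ^ m := by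
        have h2 : (QuaternionGroup.a 1 : QuaternionGroup (2 ^ n)) ^ j ∈ zpowers (QuaternionGroup.a 1 : QuaternionGroup (2 ^ n)) := ⟨j, rfl⟩
        rw [← mem_powers_iff_mem_zpowers] at h2
        obtain ⟨m, hm⟩ := h2
        exact ⟨m, hm.symm⟩
      obtain ⟨m, hm⟩ := h1
      have h3 : (QuaternionGroup.a 1 : QuaternionGroup (2 ^ n)) ^ j = QuaternionGroup.xa 0 := h
      rw [hm, QuaternionGroup.a_one_pow] at h3
      cases h3
    refine hmem ((QuaternionGroup.a i : QuaternionGroup (2 ^ n)) ^ k) ?_ hk'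
    apply Subgroup.zpow_mem
    refine ⟨(i.val : ℤ), ?_⟩
    show (QuaternionGroup.a 1 : QuaternionGroup (2 ^ n)) ^ (i.val : ℤ) = _
    rw [zpow_natCast, QuaternionGroup.a_one_pow, ZMod.natCast_zmod_val]
  · exact hne i hcase

theorem nonab_exp_p {P : Type u} [Group P] [Finite P] {p : ℕ} [hp : Fact p.Prime] (hP : IsPGroup p P)
    (hexp : ∀ x : P, x ^ p = 1) (hna : ¬ ∀ x y : P, x * y = y * x)
    (hiso : ∀ H K : Subgroup P, Nat.card H = Nat.card K → Nonempty (H ≃* K)) : Nat.card P = p ^ 3 := by
  -- x in the second centre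
  have hord : ∀ x : P, x ≠ 1 → orderOf x = p := fun x hx => orderOf_eq_prime (hexp x) hx
  obtain ⟨x, hxZ, hx2⟩ : ∃ x : P, x ∉ center P ∧ ∀ g : P, x * g * x⁻¹ * g⁻¹ ∈ center P := by
    haveI : Nontrivial (P ⧸ center P) := by
      rw [← not_subsingleton_iff_nontrivial]
      intro h
      apply hna
      intro x y
      have h1 : center P = ⊤ := QuotientGroup.subsingleton_iff.1 h
      have h2 : y ∈ center P := by rw [h1]; exact mem_top _
      exact mem_center_iff.1 h2 x
    haveI := (hP.to_quotient (center P)).center_nontrivial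
    obtain ⟨x', hx'⟩ := exists_ne (1 : center (P ⧸ center P))
    obtain ⟨x, hx⟩ := QuotientGroup.mk_surjective (x' : P ⧸ center P)
    refine ⟨x, ?_, ?_⟩
    · intro h
      apply hx'
      apply Subtype.ext
      rw [← hx]
      exact (QuotientGroup.eq_one_iff x).2 h
    · intro g
      have h1 := mem_center_iff.1 x'.2 (g : P ⧸ center P)
      rw [← hx] at h1
      rw [← QuotientGroup.eq_one_iff]
      rw [QuotientGroup.mk_mul, QuotientGroup.mk_mul, QuotientGroup.mk_mul, QuotientGroup.mk_inv, QuotientGroup.mk_inv, ← h1]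
      group
  obtain ⟨y, hxy⟩ : ∃ y : P, x * y ≠ y * x := by
    by_contra hcon
    push Not at hcon
    exact hxZ (mem_center_iff.2 fun g => (hcon g).symm)
  have hx1 : x ≠ 1 := by rintro rfl; exact hxZ (one_mem _)
  have hy1 : y ≠ 1 := by rintro rfl; exact hxy (by simp)
  have hox := hord x hx1
  have hoy := hord y hy1
  set z := x * y * x⁻¹ * y⁻¹ with hz
  have hzZ : z ∈ center P := hx2 y
  have hz1 : z ≠ 1 := by
    intro h
    apply hxy
    have h1 : x * y * x⁻¹ * y⁻¹ = 1 := h
    exact mul_inv_eq_iff_eq_mul.1 (mul_inv_eq_one.1 h1)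
  have hoz := hord z hz1
  have hprime_inf : ∀ (a : P) (H : Subgroup P), orderOf a = p → a ∉ H → zpowers a ⊓ H = ⊥ := by
    intro a H ha haH
    have h1 : Nat.card (zpowers a ⊓ H : Subgroup P) ∣ p := by
      rw [← ha, ← Nat.card_zpowers]
      exact Subgroup.card_dvd_of_le inf_le_left
    rcases (Nat.dvd_prime hp.out).1 h1 with h2 | h2
    · exact Subgroup.card_eq_one.1 h2
    · exfalso
      apply haH
      have h3 : zpowers a ⊓ H = zpowers a := Subgroup.eq_of_le_of_card_ge inf_le_left (by rw [h2, Nat.card_zpowers, ha])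
      have h4 : a ∈ zpowers a ⊓ H := by rw [h3]; exact mem_zpowers a
      exact h4.2
  -- general facts on abelian subgroups
  set E : Subgroup P := zpowers x ⊔ zpowers z with hE
  have hzn : zpowers x ≤ normalizer (zpowers z : Set P) := by
    rw [zpowers_le, mem_normalizer_iff]
    intro g
    have hc : ∀ w ∈ zpowers z, x * w = w * x := by
      intro w hw
      exact (mem_center_iff.1 ((zpowers_le.2 hzZ) hw) x)
    constructor
    · intro hg
      rw [hc g hg, mul_inv_cancel_right]; exact hg
    · intro hg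
      have h1 := hc _ hg
      have h2 : x * g * x⁻¹ = g := by
        have h3 : x * (x * g * x⁻¹) = x * g := by rw [h1]; group
        exact mul_left_cancel h3
      rwa [h2] at hg
  have hEc : Nat.card E = p * p := by
    rw [hE, CfsgH1.card_sup_of_disjoint hzn (hprime_inf x _ hox (fun h => hxZ ((zpowers_le.2 hzZ) h))), Nat.card_zpowers,
      Nat.card_zpowers, hox, hoz]
  have hEab : ∀ a ∈ E, ∀ b ∈ E, a * b = b * a := by
    have h1 : E ≤ centralizer {x} := by
      rw [hE]
      refine sup_le ?_ ?_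
      · rw [zpowers_le]; exact mem_centralizer_singleton_iff'.2 rfl
      · rw [zpowers_le]; exact mem_centralizer_singleton_iff'.2 (mem_center_iff.1 hzZ x)
    intro a ha
    have h2 : E ≤ centralizer {a} := by
      rw [hE]
      refine sup_le ?_ ?_
      · rw [zpowers_le]; exact mem_centralizer_singleton_iff'.2 (mem_centralizer_singleton_iff'.1 (h1 ha)).symm
      · rw [zpowers_le]; exact mem_centralizer_singleton_iff'.2 (mem_center_iff.1 hzZ a)
    intro b hb
    exact mem_centralizer_singleton_iff'.1 (h2 hb)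
  have hxE : x ∈ E := (le_sup_left : zpowers x ≤ E) (mem_zpowers x)
  have hzE : z ∈ E := (le_sup_right : zpowers z ≤ E) (mem_zpowers z)
  -- y normalizes E
  have hyE : zpowers y ≤ normalizer (E : Set P) := by
    rw [zpowers_le]
    apply Subgroup.mem_normalizer_fintype
    have h1 : E ≤ E.comap (MulAut.conj y).toMonoidHom := by
      nth_rewrite 1 [hE]
      refine sup_le ?_ ?_
      · rw [zpowers_le, mem_comap]
        show y * x * y⁻¹ ∈ E
        have h2 : y * x * y⁻¹ = z⁻¹ * x := by rw [hz]; group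
        rw [h2]; exact E.mul_mem (E.inv_mem hzE) hxE
      · rw [zpowers_le, mem_comap]
        show y * z * y⁻¹ ∈ E
        rw [mem_center_iff.1 hzZ y, mul_inv_cancel_right]; exact hzE
    intro n hn
    exact h1 hn
  have hynE : y ∉ E := fun h => hxy (hEab x hxE y h)
  have hKc : Nat.card (zpowers y ⊔ E : Subgroup P) = p ^ 3 := by
    rw [CfsgH1.card_sup_of_disjoint hyE (hprime_inf y _ hoy hynE), Nat.card_zpowers, hoy, hEc]; ring
  -- abelian subgroups are small
  have habs : ∀ A : Subgroup P, (∀ a ∈ A, ∀ b ∈ A, a * b = b * a) → Nat.card A ≤ p ^ 2 := by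
    intro A hA
    obtain ⟨k, hk⟩ := IsPGroup.iff_card.1 (hP.to_subgroup A)
    rw [hk]
    apply Nat.pow_le_pow_right hp.out.pos
    by_contra hk3
    push Not at hk3
    obtain ⟨B, hB⟩ := Sylow.exists_subgroup_card_pow_prime (G := A) p (n := 3) (by rw [hk]; exact pow_dvd_pow p hk3)
    have hB' : Nat.card (B.map A.subtype) = p ^ 3 := by
      rw [← hB]; exact Nat.card_congr (B.equivMapOfInjective _ A.subtype_injective).symm.toEquiv
    obtain ⟨f⟩ := hiso (zpowers y ⊔ E) (B.map A.subtype) (by rw [hKc, hB'])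
    apply hxy
    have h1 : x ∈ zpowers y ⊔ E := (le_sup_right : E ≤ _) hxE
    have h2 : y ∈ zpowers y ⊔ E := (le_sup_left : zpowers y ≤ _) (mem_zpowers y)
    have h3 : (⟨x, h1⟩ : (zpowers y ⊔ E : Subgroup P)) * ⟨y, h2⟩ = ⟨y, h2⟩ * ⟨x, h1⟩ := by
      apply f.injective
      rw [map_mul, map_mul]
      apply Subtype.ext
      have hmem : ∀ w : (B.map A.subtype : Subgroup P), (w : P) ∈ A := by
        rintro ⟨_, ⟨w, hw, rfl⟩⟩; exact w.2
      exact hA _ (hmem _) _ (hmem _)
    exact congrArg Subtype.val h3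
  -- the centre has order p
  have hZc : Nat.card (center P) ≤ p := by
    have h1 : zpowers x ≤ normalizer (center P : Set P) := le_normalizer_of_normal
    have h2 := CfsgH1.card_sup_of_disjoint h1 (hprime_inf x _ hox hxZ)
    have h3 := habs (zpowers x ⊔ center P) ?_
    · rw [h2, Nat.card_zpowers, hox, pow_two] at h3
      exact Nat.le_of_mul_le_mul_left h3 hp.out.pos
    · have h1 : zpowers x ⊔ center P ≤ centralizer {x} := by
        refine sup_le ?_ (center_le_centralizer _)
        rw [zpowers_le]; exact mem_centralizer_singleton_iff'.2 rfl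
      intro a ha
      have h2 : zpowers x ⊔ center P ≤ centralizer {a} := by
        refine sup_le ?_ (center_le_centralizer _)
        rw [zpowers_le]; exact mem_centralizer_singleton_iff'.2 (mem_centralizer_singleton_iff'.1 (h1 ha)).symm
      intro b hb
      exact mem_centralizer_singleton_iff'.1 (h2 hb)
  -- the centralizer of x
  have hCc : Nat.card (centralizer {x}) ≤ p ^ 2 := by
    have h1 : centralizer {x} ≤ E := by
      intro c hc
      by_contra hcE
      have hcx : x * c = c * x := mem_centralizer_singleton_iff'.1 hc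
      have hc1 : c ≠ 1 := by rintro rfl; exact hcE (one_mem _)
      have hcE' : E ≤ centralizer {c} := by
        rw [hE]
        refine sup_le ?_ ?_
        · rw [zpowers_le]; exact mem_centralizer_singleton_iff'.2 hcx.symm
        · rw [zpowers_le]; exact mem_centralizer_singleton_iff'.2 (mem_center_iff.1 hzZ c)
      have hcn : zpowers c ≤ normalizer (E : Set P) := by
        rw [zpowers_le, mem_normalizer_iff]
        have hc : ∀ w ∈ E, c * w = w * c := fun w hw => mem_centralizer_singleton_iff'.1 (hcE' hw)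
        intro g
        constructor
        · intro hg
          rw [hc g hg, mul_inv_cancel_right]; exact hg
        · intro hg
          have h1 := hc _ hg
          have h2 : c * g * c⁻¹ = g := by
            have h3 : c * (c * g * c⁻¹) = c * g := by rw [h1]; group
            exact mul_left_cancel h3
          rwa [h2] at hg
      have h2 := CfsgH1.card_sup_of_disjoint hcn (hprime_inf c _ (hord c hc1) hcE)
      have h3 := habs (zpowers c ⊔ E) ?_
      · rw [h2, Nat.card_zpowers, hord c hc1, hEc] at h3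
        have h4 : p * (p * p) = p ^ 2 * p := by ring
        rw [h4] at h3
        have h5 : p ^ 2 * p ≤ p ^ 2 * 1 := by rwa [mul_one]
        exact absurd (Nat.le_of_mul_le_mul_left h5 (pow_pos hp.out.pos 2)) (not_le.2 hp.out.one_lt)
      · have h5 : zpowers c ⊔ E ≤ centralizer {c} := sup_le (by rw [zpowers_le]; exact mem_centralizer_singleton_iff'.2 rfl) hcE'
        have h6 : ∀ e ∈ E, zpowers c ⊔ E ≤ centralizer {e} := by
          intro e he
          refine sup_le ?_ ?_
          · rw [zpowers_le]; exact mem_centralizer_singleton_iff'.2 (mem_centralizer_singleton_iff'.1 (hcE' he)).symm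
          · intro e' he'
            exact mem_centralizer_singleton_iff'.2 (hEab e he e' he')
        intro a ha
        have h7 : zpowers c ⊔ E ≤ centralizer {a} := by
          refine sup_le ?_ ?_
          · rw [zpowers_le]; exact mem_centralizer_singleton_iff'.2 (mem_centralizer_singleton_iff'.1 (h5 ha)).symm
          · intro e he
            exact mem_centralizer_singleton_iff'.2 (mem_centralizer_singleton_iff'.1 (h6 e he ha)).symm
        intro b hb
        exact mem_centralizer_singleton_iff'.1 (h7 hb)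
    calc Nat.card (centralizer {x}) ≤ Nat.card E := Nat.card_le_card_of_injective _ (Subgroup.inclusion_injective h1)
      _ = p ^ 2 := by rw [hEc]; ring
  have hidx : (centralizer {x}).index ≤ Nat.card (center P) := by
    apply index_le_card_of_map (centralizer {x}) (fun g : P => (⟨x * g * x⁻¹ * g⁻¹, hx2 g⟩ : center P))
    intro h k hhk
    have h1 : x * h * x⁻¹ * h⁻¹ = x * k * x⁻¹ * k⁻¹ := congrArg Subtype.val hhk
    rw [mem_centralizer_singleton_iff']
    have h2 : h * x⁻¹ * h⁻¹ = k * x⁻¹ * k⁻¹ := by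
      have : x * (h * x⁻¹ * h⁻¹) = x * (k * x⁻¹ * k⁻¹) := by
        simpa only [mul_assoc] using h1
      exact mul_left_cancel this
    have h3 : h⁻¹ * k * x⁻¹ = x⁻¹ * (h⁻¹ * k) := by
      calc h⁻¹ * k * x⁻¹ = h⁻¹ * (k * x⁻¹ * k⁻¹) * k := by group
        _ = h⁻¹ * (h * x⁻¹ * h⁻¹) * k := by rw [h2]
        _ = _ := by group
    calc x * (h⁻¹ * k) = x * (h⁻¹ * k * x⁻¹) * x := by group
      _ = x * (x⁻¹ * (h⁻¹ * k)) * x := by rw [h3]
      _ = _ := by group
  have h1 := (centralizer {x}).card_mul_index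
  have h2 : Nat.card P ≤ p ^ 3 := by
    rw [← h1]
    calc _ ≤ p ^ 2 * p := Nat.mul_le_mul hCc (hidx.trans hZc)
      _ = p ^ 3 := by ring
  have h3 : p ^ 3 ∣ Nat.card P := by rw [← hKc]; exact Subgroup.card_subgroup_dvd_card _
  exact le_antisymm h2 (Nat.le_of_dvd Nat.card_pos h3)

/-- classification of `p`-groups in which subgroups of the same order are isomorphic -/
theorem iso_subgroups_classify {P : Type u} [Group P] [Finite P] {p : ℕ} [hp : Fact p.Prime] (hP : IsPGroup p P)
    (hiso : ∀ H K : Subgroup P, Nat.card H = Nat.card K → Nonempty (H ≃* K)) :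
    IsCyclic P ∨ ((∀ x y : P, x * y = y * x) ∧ ∀ x : P, x ^ p = 1) ∨ (p = 2 ∧ Nonempty (P ≃* QuaternionGroup 2)) ∨
      (p ≠ 2 ∧ (¬ ∀ x y : P, x * y = y * x) ∧ Nat.card P = p ^ 3 ∧ ∀ x : P, x ^ p = 1) := by
  by_cases hE : ∃ E : Subgroup P, Nat.card E = p ^ 2 ∧ (∀ e ∈ E, e ^ p = 1) ∧ (∀ x ∈ E, ∀ y ∈ E, x * y = y * x)
  · obtain ⟨E, hEc, hEp, hEab⟩ := hE
    have hexp : ∀ x : P, x ^ p = 1 := by
      intro x
      by_contra hx
      -- an element of order p^2
      obtain ⟨k, hk⟩ := IsPGroup.iff_orderOf.1 hP x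
      have hk2 : 2 ≤ k := by
        by_contra h
        push Not at h
        apply hx
        apply orderOf_dvd_iff_pow_eq_one.1
        rw [hk]
        calc p ^ k ∣ p ^ 1 := pow_dvd_pow p (by omega)
          _ = p := pow_one p
      have h1 : orderOf (x ^ p ^ (k - 2)) = p ^ 2 := by
        rw [orderOf_pow_of_dvd (pow_pos hp.out.pos _).ne' (by rw [hk]; exact pow_dvd_pow p (by omega)), hk,
          Nat.pow_div (by omega) hp.out.pos]
        congr 1; omega
      obtain ⟨f⟩ := hiso (zpowers (x ^ p ^ (k - 2))) E (by rw [Nat.card_zpowers, h1, hEc])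
      have h2 : orderOf (f ⟨_, mem_zpowers _⟩) = p ^ 2 := by
        rw [MulEquiv.orderOf_eq, Subgroup.orderOf_mk, h1]
      have h3 : (f ⟨x ^ p ^ (k - 2), mem_zpowers _⟩) ^ p = 1 := Subtype.ext (hEp _ (f ⟨_, mem_zpowers _⟩).2)
      have h4 := orderOf_dvd_of_pow_eq_one h3
      rw [h2] at h4
      have h5 := Nat.le_of_dvd hp.out.pos h4
      have h6 : p * 1 < p * p := Nat.mul_lt_mul_of_pos_left hp.out.one_lt hp.out.pos
      rw [mul_one, ← pow_two] at h6
      omega
    by_cases hab : ∀ x y : P, x * y = y * x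
    · exact Or.inr (Or.inl ⟨hab, hexp⟩)
    · right; right; right
      refine ⟨?_, hab, nonab_exp_p hP hexp hab hiso, hexp⟩
      rintro rfl
      apply hab
      intro x y
      have h1 : ∀ x : P, x⁻¹ = x := fun x => by
        rw [inv_eq_iff_mul_eq_one, ← pow_two]; exact hexp x
      calc x * y = (x * y)⁻¹ := (h1 _).symm
        _ = y⁻¹ * x⁻¹ := mul_inv_rev _ _
        _ = y * x := by rw [h1, h1]
  · have h1 := CfsgH1.unique_order_p_of_no_elementary hP (fun E h1 h2 h3 => hE ⟨E, h1, h2, h3⟩)
    rcases CfsgH1.punique_classification hP h1 with h2 | ⟨rfl, n, ⟨e⟩⟩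
    · exact Or.inl h2
    · have h3 := quaternion_iso_sub hiso e
      interval_cases n
      · left
        have e' : P ≃* QuaternionGroup 1 := e
        haveI := QuaternionGroup.quaternionGroup_one_isCyclic
        exact isCyclic_of_surjective e'.symm e'.symm.surjective
      · right; right; left
        exact ⟨rfl, ⟨e⟩⟩

end CfsgH2
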