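import Mathlib
import Cfsg.Agent.H1.PSolv
import Cfsg.Agent.H1.Hall
import Cfsg.Agent.H2.Cores

set_option autoImplicit false

/-! # Hall `p'`-subgroups of `p`-soluble groups and fixed vectors (helper2 library) -/

namespace CfsgH2

open Subgroup Cfsg

universe u v w

theorem mul_of_coprime_index' {G : Type u} [Group G] [Finite G] {K P : Subgroup G} (h : K.index.Coprime P.index) (g : G) :
    ∃ k ∈ K, ∃ x ∈ P, g = k * x := by
  have h1 : P.relIndex K * K.index = (P ⊓ K).index := by
    rw [← Subgroup.inf_relIndex_right]; exact Subgroup.relIndex_mul_index inf_le_right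
  have h2 : (P ⊓ K).relIndex P * P.index = (P ⊓ K).index := Subgroup.relIndex_mul_index inf_le_left
  have h3 : P.index ∣ P.relIndex K := by
    apply h.symm.dvd_of_dvd_mul_right
    rw [h1, ← h2]; exact Dvd.intro_left _ rfl
  have h4 : (MulAction.stabilizer K ((1 : G) : G ⧸ P)).index = P.relIndex K := by
    have h5 : MulAction.stabilizer K ((1 : G) : G ⧸ P) = P.subgroupOf K := by
      ext k
      rw [MulAction.mem_stabilizer_iff, mem_subgroupOf]
      show (((k : G) * 1 : G) : G ⧸ P) = ((1 : G) : G ⧸ P) ↔ _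
      rw [mul_one]
      constructor
      · intro h6
        have := QuotientGroup.eq.1 h6.symm
        simpa using this
      · intro h6
        exact (QuotientGroup.eq.2 (by simpa using h6)).symm
    rw [h5]; rfl
  rw [MulAction.index_stabilizer] at h4
  have h5 : MulAction.orbit K ((1 : G) : G ⧸ P) = Set.univ := by
    apply Set.eq_of_subset_of_ncard_le (Set.subset_univ _)
    rw [Set.ncard_univ, h4, ← Subgroup.index_eq_card]
    exact Nat.le_of_dvd (Nat.pos_of_ne_zero Subgroup.index_ne_zero_of_finite) h3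
  have h6 : ((g : G) : G ⧸ P) ∈ MulAction.orbit K ((1 : G) : G ⧸ P) := by rw [h5]; exact Set.mem_univ _
  obtain ⟨k, hk⟩ := h6
  have hk' : (((k : G) * 1 : G) : G ⧸ P) = (g : G ⧸ P) := hk
  rw [mul_one] at hk'
  exact ⟨k, k.2, (k : G)⁻¹ * g, QuotientGroup.eq.1 hk', by group⟩

theorem hallD_psolvable {G : Type u} [Group G] [Finite G] {p : ℕ} [hp : Fact p.Prime] (h : IsPSolvable p G) :
    CfsgH1.HallD ({p}ᶜ : Set ℕ) G := by
  refine CfsgH1.hallD_induction (π := ({p}ᶜ : Set ℕ)) (fun G _ => IsPSolvable p G) ?_ (Nat.card G) G rfl h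
  intro G _ _ _ hG
  rcases CfsgH1.IsPSolvable.core_ne_bot hG with h1 | h1
  · have h2 : IsPGroup p (pCore p G) := isPGroup_pCore p
    refine ⟨pCore p G, inferInstance, h1, CfsgH1.IsPSolvable.map hG (QuotientGroup.mk' _) (QuotientGroup.mk'_surjective _), Or.inr ⟨?_, Or.inl ?_⟩⟩
    · rw [compl_compl]
      obtain ⟨k, hk⟩ := IsPGroup.iff_card.1 h2
      rw [hk]
      exact CfsgH1.PiNum.pow hp.out rfl
    · exact CfsgH1.isSolvable_of_isPGroup h2
  · refine ⟨pPrimeCore p G, inferInstance, h1, CfsgH1.IsPSolvable.map hG (QuotientGroup.mk' _) (QuotientGroup.mk'_surjective _), Or.inl ?_⟩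
    have h2 := coprime_card_pPrimeCore (G := G) p
    intro q hq hqd
    rw [Set.mem_compl_iff, Set.mem_singleton_iff]
    rintro rfl
    have := Nat.eq_one_of_dvd_coprimes h2 hqd dvd_rfl
    exact hq.one_lt.ne' this

/-- in a `p`-soluble group `G = K P` -/
theorem exists_pcompl {G : Type u} [Group G] [Finite G] {p : ℕ} [hp : Fact p.Prime] (h : IsPSolvable p G) (P : Subgroup G)
    (hP : ¬ p ∣ P.index) : ∃ K : Subgroup G, ¬ p ∣ Nat.card K ∧ ∀ g : G, ∃ k ∈ K, ∃ x ∈ P, g = k * x := by
  obtain ⟨K, hK1, hK2, -⟩ := hallD_psolvable h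
  refine ⟨K, ?_, ?_⟩
  · intro hd
    exact hK1 p hp.out hd rfl
  · intro g
    rw [compl_compl] at hK2
    -- indices are coprime
    have hcop : K.index.Coprime P.index := by
      rw [Nat.coprime_iff_gcd_eq_one]
      by_contra hne
      obtain ⟨q, hq, hqd⟩ := Nat.exists_prime_and_dvd hne
      have h1 := hK2 q hq (hqd.trans (Nat.gcd_dvd_left _ _))
      rw [Set.mem_singleton_iff] at h1
      subst h1
      exact hP (hqd.trans (Nat.gcd_dvd_right _ _))
    exact mul_of_coprime_index' hcop g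

section
variable {k : Type u} {V : Type v} {H : Type w} [Field k] (p : ℕ) [Fact p.Prime] [CharP k p] [AddCommGroup V] [Module k V]
    [Group H] [Finite H]

/-- vectors fixed by a `p'`-subgroup whose translates of `a` span -/
theorem fixed_of_span (K : Subgroup H) (hK : ¬ p ∣ Nat.card K) (ρ : Representation k H V) (a : V)
    (hspan : Submodule.span k {u : V | ∃ h ∈ K, ρ h a = u} = ⊤) (v : V) (hv : ∀ x ∈ K, ρ x v = v) :
    ∃ c : k, v = c • ∑ᶠ x : K, ρ (x : H) a := by
  classical
  letI : Fintype K := Fintype.ofFinite K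
  rw [finsum_eq_sum_of_fintype]
  let T : V →ₗ[k] V := ∑ x : K, ρ (x : H)
  have hT : ∀ w, T w = ∑ x : K, ρ (x : H) w := fun w => by simp [T]
  have hcK : (Nat.card K : k) ≠ 0 := by
    intro h
    exact hK ((CharP.cast_eq_zero_iff k p _).1 h)
  have h1 : T v = (Nat.card K : k) • v := by
    rw [hT, Finset.sum_congr rfl (fun (x : K) _ => hv x x.2), Finset.sum_const, Finset.card_univ, Nat.card_eq_fintype_card, Nat.cast_smul_eq_nsmul]
  have h2 : ∀ w : V, ∃ c : k, T w = c • ∑ x : K, ρ (x : H) a := by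
    intro w
    have hw : w ∈ Submodule.span k {u : V | ∃ h ∈ K, ρ h a = u} := by rw [hspan]; exact Submodule.mem_top
    induction hw using Submodule.span_induction with
    | mem u hu =>
      obtain ⟨h, hh, rfl⟩ := hu
      refine ⟨1, ?_⟩
      rw [one_smul, hT]
      have h3 : ∀ x : K, ρ (x : H) (ρ h a) = ρ ((x * ⟨h, hh⟩ : K) : H) a := by
        intro x
        rw [Subgroup.coe_mul, map_mul]; rfl
      rw [Finset.sum_congr rfl (fun x _ => h3 x)]
      exact Equiv.sum_comp (Equiv.mulRight (⟨h, hh⟩ : K)) (fun x : K => ρ (x : H) a)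
    | zero => exact ⟨0, by simp⟩
    | add u u' _ _ h3 h4 =>
      obtain ⟨c, hc⟩ := h3
      obtain ⟨c', hc'⟩ := h4
      exact ⟨c + c', by rw [map_add, hc, hc', add_smul]⟩
    | smul d u _ h3 =>
      obtain ⟨c, hc⟩ := h3
      exact ⟨d * c, by rw [map_smul, hc, mul_smul]⟩
  obtain ⟨c, hc⟩ := h2 v
  refine ⟨(Nat.card K : k)⁻¹ * c, ?_⟩
  rw [mul_smul, ← hc, h1, smul_smul, inv_mul_cancel₀ hcK, one_smul]

end

end CfsgH2
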