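import Mathlib
import Cfsg.Agent.H2.PermA

/-! # Blocks, primitivity criteria (helper2 library) -/

set_option autoImplicit false

namespace CfsgH2

open Subgroup Equiv MulAction
open scoped Pointwise

universe u v

theorem isBlock_of_forall {G : Type u} {X : Type v} [Group G] [MulAction G X] {B : Set X}
    (h : ∀ g : G, ∀ x ∈ B, g • x ∈ B → ∀ y ∈ B, g • y ∈ B) : IsBlock G B := by
  rw [isBlock_iff_disjoint_smul_of_ne]
  intro g hne
  by_contra hdis
  apply hne
  rw [Set.not_disjoint_iff] at hdis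
  obtain ⟨_, ⟨x, hx, rfl⟩, hgx⟩ := hdis
  change g • x ∈ B at hgx
  apply Set.Subset.antisymm
  · rintro _ ⟨y, hy, rfl⟩
    exact h g x hx hgx y hy
  · intro y hy
    refine ⟨g⁻¹ • y, h g⁻¹ (g • x) hgx (by rw [inv_smul_smul]; exact hx) y hy, smul_inv_smul g y⟩

theorem block_mem {G : Type u} {X : Type v} [Group G] [MulAction G X] {B : Set X} (hB : IsBlock G B) {g : G} {x y : X}
    (hx : x ∈ B) (hgx : g • x ∈ B) (hy : y ∈ B) : g • y ∈ B := by
  rw [isBlock_iff_disjoint_smul_of_ne] at hB
  have h1 : g • B = B := by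
    by_contra hne
    exact Set.disjoint_left.1 (hB hne) ⟨x, hx, rfl⟩ hgx
  rw [← h1]
  exact ⟨y, hy, rfl⟩

theorem card_prime_of_bot_coatom {G : Type u} [Group G] (h : IsCoatom (⊥ : Subgroup G)) : (Nat.card G).Prime := by
  have hmax : ∀ x : G, x ≠ 1 → zpowers x = ⊤ := by
    intro x hx
    apply h.2
    rw [bot_lt_iff_ne_bot, Ne, zpowers_eq_bot]
    exact hx
  obtain ⟨g, hg⟩ : ∃ g : G, g ≠ 1 := by
    by_contra hno
    push Not at hno
    apply h.1
    rw [eq_comm, Subgroup.eq_bot_iff_forall]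
    exact fun x _ => hno x
  have hcard : ∀ x : G, x ≠ 1 → Nat.card G = orderOf x := by
    intro x hx
    rw [← Nat.card_zpowers, hmax x hx, Subgroup.card_top]
  by_cases h0 : orderOf g = 0
  · -- infinite order
    exfalso
    have h2 : g ^ 2 ≠ 1 := by
      intro h3
      have := orderOf_dvd_of_pow_eq_one h3
      rw [h0] at this
      exact absurd (Nat.eq_zero_of_zero_dvd this) (by norm_num)
    have h3 : g ∈ zpowers (g ^ 2) := by rw [hmax _ h2]; trivial
    obtain ⟨k, hk⟩ := h3
    have h4 : g ^ (2 * k - 1) = 1 := by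
      rw [zpow_sub_one, zpow_mul, zpow_ofNat]
      change (g ^ 2) ^ k = g at hk
      rw [hk, mul_inv_cancel]
    have h5 := orderOf_dvd_iff_zpow_eq_one.2 h4
    rw [h0] at h5
    have h6 : (2 * k - 1 : ℤ) = 0 := by simpa using h5
    omega
  · have h1 : orderOf g ≠ 1 := fun h2 => hg (orderOf_eq_one_iff.1 h2)
    have hp := Nat.minFac_prime h1
    have h2 : orderOf (g ^ (orderOf g / (orderOf g).minFac)) = (orderOf g).minFac :=
      orderOf_pow_orderOf_div h0 (Nat.minFac_dvd _)
    have h3 : g ^ (orderOf g / (orderOf g).minFac) ≠ 1 := by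
      intro h4
      rw [h4, orderOf_one] at h2
      exact hp.ne_one h2.symm
    rw [hcard _ h3, h2]
    exact hp

theorem prim_stab_ne {α : Type u} (G : Subgroup (Perm α)) [hG : IsPreprimitive G α]
    (h : ¬ (Nat.card α).Prime ∨ ∃ a : α, stabilizer G a ≠ ⊥) {a b : α} (hab : a ≠ b) :
    stabilizer G a ≠ stabilizer G b := by
  intro heq
  haveI : Nontrivial α := ⟨a, b, hab⟩
  have hmax : IsCoatom (stabilizer G a) := IsPreprimitive.isCoatom_stabilizer_of_isPreprimitive G a
  obtain ⟨g, hg⟩ := MulAction.exists_smul_eq G a b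
  have hconj : ∀ (k : G) (c : α), ∀ s : G, s ∈ stabilizer G c ↔ k * s * k⁻¹ ∈ stabilizer G (k • c) := by
    intro k c s
    rw [mem_stabilizer_iff, mem_stabilizer_iff, mul_smul, mul_smul, inv_smul_smul]
    exact ⟨fun h => by rw [h], fun h => smul_left_cancel k h⟩
  have hgN : g ∈ normalizer ((stabilizer G a : Subgroup G) : Set G) := by
    rw [mem_normalizer_iff]
    intro s
    have h1 := hconj g a s
    rw [hg] at h1
    rw [h1, ← heq]
  have hga : g ∉ stabilizer G a := by
    rw [mem_stabilizer_iff, hg]; exact hab.symm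
  have hlt : stabilizer G a < normalizer ((stabilizer G a : Subgroup G) : Set G) :=
    lt_of_le_of_ne le_normalizer (fun h1 => hga (by rw [h1]; exact hgN))
  have hn : (stabilizer G a).Normal := normalizer_eq_top_iff.1 (hmax.2 _ hlt)
  have hall : ∀ c : α, stabilizer G c = stabilizer G a := by
    intro c
    obtain ⟨k, rfl⟩ := MulAction.exists_smul_eq G a c
    ext s
    have h1 := hconj k a (k⁻¹ * s * k)
    have h2 : k * (k⁻¹ * s * k) * k⁻¹ = s := by group
    rw [h2] at h1
    rw [← h1]
    constructor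
    · intro h3
      have := hn.conj_mem _ h3 k
      rwa [h2] at this
    · intro h3
      have := hn.conj_mem _ h3 k⁻¹
      rwa [inv_inv] at this
  have hbot : ∀ c : α, stabilizer G c = ⊥ := by
    intro c
    rw [hall, Subgroup.eq_bot_iff_forall]
    intro x hx
    apply Subtype.ext
    ext d
    have : x ∈ stabilizer G d := by rw [hall d]; exact hx
    exact this
  rcases h with h | ⟨c, hc⟩
  · apply h
    rw [hbot a] at hmax
    have h1 := card_prime_of_bot_coatom hmax
    have h2 : Nat.card α = Nat.card G := by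
      symm
      apply Nat.card_eq_of_bijective (fun k : G => k • a)
      constructor
      · intro k l hkl
        have h3 : l⁻¹ * k ∈ stabilizer G a := by
          rw [mem_stabilizer_iff, mul_smul]
          change l⁻¹ • (k • a) = a
          rw [show k • a = l • a from hkl, inv_smul_smul]
        rw [hbot a, Subgroup.mem_bot, inv_mul_eq_one] at h3
        exact h3.symm
      · intro d
        exact MulAction.exists_smul_eq G a d
    rw [h2]; exact h1
  · exact hc (hbot c)

theorem prim_max_invariant {α : Type u} [Finite α] (H : Subgroup (Perm α)) [IsPreprimitive H α] (N : Subgroup H) [N.Normal]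
    (hN : N ≠ ⊥) (a : α) (X : Subgroup H) (hX : X ≤ N) (hKX : stabilizer H a ⊓ N ≤ X)
    (hinv : stabilizer H a ≤ normalizer (X : Set H)) : X = stabilizer H a ⊓ N ∨ X = N := by
  haveI : Nontrivial α := by
    by_contra hnt
    rw [not_nontrivial_iff_subsingleton] at hnt
    apply hN
    rw [Subgroup.eq_bot_iff_forall]
    intro x _
    exact Subtype.ext (Subsingleton.elim _ _)
  have hmax : IsCoatom (stabilizer H a) := IsPreprimitive.isCoatom_stabilizer_of_isPreprimitive H a
  rcases hmax.le_iff.1 (le_sup_left : stabilizer H a ≤ stabilizer H a ⊔ X) with h | h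
  · right
    apply le_antisymm hX
    intro n hn
    have h1 : n ∈ stabilizer H a ⊔ X := by rw [h]; trivial
    obtain ⟨k, hk, x, hx, rfl⟩ := (CfsgH1.mem_sup_of_le_normalizer hinv).1 h1
    have h2 : k ∈ N := by
      have := N.mul_mem hn (N.inv_mem (hX hx))
      rwa [mul_inv_cancel_right] at this
    exact X.mul_mem (hKX ⟨hk, h2⟩) hx
  · left
    apply le_antisymm _ hKX
    exact le_inf (by rw [← h]; exact le_sup_right) hX

theorem higman_prim {G : Type u} [Group G] {Ω : Type v} [MulAction G Ω] [IsPretransitive G Ω] :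
    IsPreprimitive G Ω ↔ ∀ a b : Ω, a ≠ b →
      (SimpleGraph.fromRel fun x y : Ω => ∃ g : G, g • a = x ∧ g • b = y).Connected := by
  constructor
  · intro h a b hab
    obtain ⟨Γ, hΓ⟩ : ∃ Γ, Γ = (SimpleGraph.fromRel fun x y : Ω => ∃ g : G, g • a = x ∧ g • b = y) := ⟨_, rfl⟩
    rw [← hΓ]
    have hadj : ∀ (g : G) (x y : Ω), Γ.Adj x y → Γ.Adj (g • x) (g • y) := by
      intro g x y hxy
      rw [hΓ, SimpleGraph.fromRel_adj] at hxy ⊢
      refine ⟨fun h1 => hxy.1 (smul_left_cancel g h1), ?_⟩
      rcases hxy.2 with ⟨k, h1, h2⟩ | ⟨k, h1, h2⟩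
      · exact Or.inl ⟨g * k, by rw [mul_smul, h1], by rw [mul_smul, h2]⟩
      · exact Or.inr ⟨g * k, by rw [mul_smul, h1], by rw [mul_smul, h2]⟩
    have hreach : ∀ (g : G) (x y : Ω), Γ.Reachable x y → Γ.Reachable (g • x) (g • y) := by
      intro g x y hxy
      let f : Γ →g Γ := ⟨fun x => g • x, fun {a b} hab => hadj g a b hab⟩
      exact hxy.map f
    have hB : IsBlock G {x | Γ.Reachable a x} := by
      apply isBlock_of_forall
      intro g x hx hgx y hy
      have h1 : Γ.Reachable (g • x) (g • a) := (hreach g a x hx).symm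
      exact hgx.trans (h1.trans (hreach g a y hy))
    have hab' : Γ.Reachable a b := by
      apply SimpleGraph.Adj.reachable
      rw [hΓ, SimpleGraph.fromRel_adj]
      exact ⟨hab, Or.inl ⟨1, one_smul _ _, one_smul _ _⟩⟩
    rcases h.isTrivialBlock_of_isBlock hB with h1 | h1
    · exact absurd (h1 (SimpleGraph.Reachable.refl a) hab') hab
    · haveI : Nonempty Ω := ⟨a⟩
      refine SimpleGraph.Connected.mk (fun x y => ?_)
      have hx : x ∈ {x | Γ.Reachable a x} := by rw [h1]; trivial
      have hy : y ∈ {x | Γ.Reachable a x} := by rw [h1]; trivial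
      exact hx.symm.trans hy
  · intro h
    refine ⟨fun {B} hB => ?_⟩
    by_cases hs : B.Subsingleton
    · exact Or.inl hs
    · right
      rw [Set.not_subsingleton_iff] at hs
      obtain ⟨a, ha, b, hb, hab⟩ := hs
      have hcon := h a b hab
      have key : ∀ x y : Ω, (SimpleGraph.fromRel fun x y : Ω => ∃ g : G, g • a = x ∧ g • b = y).Adj x y → x ∈ B → y ∈ B := by
        intro x y hxy hx
        rw [SimpleGraph.fromRel_adj] at hxy
        rcases hxy.2 with ⟨g, rfl, rfl⟩ | ⟨g, rfl, rfl⟩
        · exact block_mem hB ha hx hb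
        · exact block_mem hB hb hx ha
      have key2 : ∀ x y : Ω, (SimpleGraph.fromRel fun x y : Ω => ∃ g : G, g • a = x ∧ g • b = y).Walk x y → x ∈ B → y ∈ B := by
        intro x y w
        induction w with
        | nil => exact fun hx => hx
        | cons hadj w ih => exact fun hx => ih (key _ _ hadj hx)
      rw [Set.eq_univ_iff_forall]
      intro x
      obtain ⟨w⟩ := hcon.preconnected a x
      exact key2 a x w ha

theorem two_homog_pair {α : Type u} [DecidableEq α] {G : Subgroup (Perm α)} (h2 : IsPretransitive G (Set.powersetCard α 2))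
    {a b c d : α} (hab : a ≠ b) (hcd : c ≠ d) : ∃ g ∈ G, (g a = c ∧ g b = d) ∨ (g a = d ∧ g b = c) := by
  obtain ⟨g, hg⟩ := h2.exists_smul_eq (⟨{a, b}, by rw [Set.powersetCard.mem_iff, Finset.card_pair hab]⟩ : Set.powersetCard α 2)
    ⟨{c, d}, by rw [Set.powersetCard.mem_iff, Finset.card_pair hcd]⟩
  have h1 : g • ({a, b} : Finset α) = {c, d} := congrArg Subtype.val hg
  refine ⟨g, g.2, ?_⟩
  have ha : (g : Perm α) a ∈ ({c, d} : Finset α) := by
    rw [← h1]; exact Finset.smul_mem_smul_finset (Finset.mem_insert_self a _)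
  have hb : (g : Perm α) b ∈ ({c, d} : Finset α) := by
    rw [← h1]; exact Finset.smul_mem_smul_finset (Finset.mem_insert_of_mem (Finset.mem_singleton_self b))
  have hne : (g : Perm α) a ≠ (g : Perm α) b := fun h => hab ((g : Perm α).injective h)
  rw [Finset.mem_insert, Finset.mem_singleton] at ha hb
  rcases ha with ha | ha <;> rcases hb with hb | hb
  · exact absurd (ha.trans hb.symm) hne
  · exact Or.inl ⟨ha, hb⟩
  · exact Or.inr ⟨ha, hb⟩
  · exact absurd (ha.trans hb.symm) hne

theorem two_homog {α : Type u} [Fintype α] [DecidableEq α] (G : Subgroup (Perm α)) (h2 : IsPretransitive G (Set.powersetCard α 2))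
    (hα : 3 ≤ Fintype.card α) : (Even (Nat.card G) → IsMultiplyPretransitive G α 2) ∧ (G ≠ ⊥ → IsPreprimitive G α) := by
  have hthird : ∀ a b : α, ∃ c, c ≠ a ∧ c ≠ b := by
    intro a b
    have h1 : ({a, b} : Finset α).card ≤ 2 := Finset.card_le_two
    obtain ⟨c, hc⟩ := Finset.exists_mem_notMem_of_card_lt_card (s := {a, b}) (t := Finset.univ) (by
      rw [Finset.card_univ]; omega)
    have h2 := hc.2
    rw [Finset.mem_insert, Finset.mem_singleton, not_or] at h2
    exact ⟨c, h2.1, h2.2⟩
  constructor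
  · intro heven
    rw [is_two_pretransitive_iff]
    intro a b c d hab hcd
    haveI : Fact (Nat.Prime 2) := ⟨Nat.prime_two⟩
    obtain ⟨s, hs⟩ := exists_prime_orderOf_dvd_card' 2 heven.two_dvd
    have hs2 : s * s = 1 := by rw [← pow_two, ← hs]; exact pow_orderOf_eq_one s
    obtain ⟨x, hx⟩ : ∃ x, (s : Perm α) x ≠ x := by
      by_contra hno
      push Not at hno
      have : s = 1 := Subtype.ext (Equiv.ext hno)
      rw [this, orderOf_one] at hs
      exact absurd hs (by norm_num)
    have hsx : (s : Perm α) ((s : Perm α) x) = x := congrArg (fun y : G => (y : Perm α) x) hs2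
    obtain ⟨g, hg, h1⟩ := two_homog_pair h2 hab hx.symm
    obtain ⟨k, hk, h3⟩ := two_homog_pair h2 hx.symm hcd
    have hmm : ∀ z : α, ∀ p q r : Perm α, (p * q * r) z = p (q (r z)) := fun _ _ _ _ => rfl
    rcases h1 with ⟨h1, h1'⟩ | ⟨h1, h1'⟩ <;> rcases h3 with ⟨h3, h3'⟩ | ⟨h3, h3'⟩
    · refine ⟨⟨k * 1 * g, G.mul_mem (G.mul_mem hk G.one_mem) hg⟩, ?_, ?_⟩
      · change (k * 1 * g) a = c; rw [hmm, h1]; exact h3
      · change (k * 1 * g) b = d; rw [hmm, h1']; exact h3'
    · refine ⟨⟨k * s * g, G.mul_mem (G.mul_mem hk s.2) hg⟩, ?_, ?_⟩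
      · change (k * s * g) a = c; rw [hmm, h1]; exact h3'
      · change (k * s * g) b = d; rw [hmm, h1', hsx]; exact h3
    · refine ⟨⟨k * s * g, G.mul_mem (G.mul_mem hk s.2) hg⟩, ?_, ?_⟩
      · change (k * s * g) a = c; rw [hmm, h1, hsx]; exact h3
      · change (k * s * g) b = d; rw [hmm, h1']; exact h3'
    · refine ⟨⟨k * 1 * g, G.mul_mem (G.mul_mem hk G.one_mem) hg⟩, ?_, ?_⟩
      · change (k * 1 * g) a = c; rw [hmm, h1]; exact h3'
      · change (k * 1 * g) b = d; rw [hmm, h1']; exact h3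
  · intro hne
    obtain ⟨s, hs, hs1⟩ := (Subgroup.ne_bot_iff_exists_ne_one.1 hne) |>.elim (fun a ha => (⟨a.1, a.2, fun h => ha (Subtype.ext h)⟩ : ∃ s ∈ G, s ≠ 1))
    obtain ⟨x, hx⟩ : ∃ x, s x ≠ x := by
      by_contra hno
      push Not at hno
      exact hs1 (Equiv.ext hno)
    haveI : IsPretransitive G α := by
      rw [trans_iff]
      have key : ∀ y : α, ∃ g ∈ G, g x = y := by
        intro y
        by_cases hy : y = x
        · exact ⟨1, G.one_mem, hy.symm⟩
        · obtain ⟨g, hg, h1⟩ := two_homog_pair h2 hx.symm (Ne.symm hy)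
          rcases h1 with ⟨h1, h1'⟩ | ⟨h1, h1'⟩
          · exact ⟨g * s, G.mul_mem hg hs, h1'⟩
          · exact ⟨g, hg, h1⟩
      intro a b
      obtain ⟨g, hg, rfl⟩ := key a
      obtain ⟨k, hk, rfl⟩ := key b
      refine ⟨k * g⁻¹, G.mul_mem hk (G.inv_mem hg), ?_⟩
      change k (g⁻¹ (g x)) = k x
      rw [show g⁻¹ (g x) = x from g.symm_apply_apply x]
    refine ⟨fun {B} hB => ?_⟩
    by_cases hs : B.Subsingleton
    · exact Or.inl hs
    · right
      rw [Set.not_subsingleton_iff] at hs
      obtain ⟨a, ha, b, hb, hab⟩ := hs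
      rw [Set.eq_univ_iff_forall]
      intro c
      by_cases hca : c = a
      · rw [hca]; exact ha
      · obtain ⟨g, hg, h1⟩ := two_homog_pair h2 hab (Ne.symm hca)
        rcases h1 with ⟨h1, h1'⟩ | ⟨h1, h1'⟩
        · have := block_mem hB (g := (⟨g, hg⟩ : G)) ha (by change g a ∈ B; rw [h1]; exact ha) hb
          change g b ∈ B at this
          rwa [h1'] at this
        · have := block_mem hB (g := (⟨g, hg⟩ : G)) hb (by change g b ∈ B; rw [h1']; exact ha) ha
          change g a ∈ B at this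
          rwa [h1] at this

theorem affine_prim {p : ℕ} [hp : Fact p.Prime] {V : Type u} [AddCommGroup V] [Module (ZMod p) V] [Finite V]
    (G₀ : Subgroup (V ≃ₗ[ZMod p] V)) (G : Subgroup (Perm V))
    (hG : ∀ σ : Perm V, σ ∈ G ↔ ∃ g ∈ G₀, ∃ b : V, ∀ x : V, σ x = (g : V ≃ₗ[ZMod p] V) x + b) :
    IsPreprimitive G V ↔ ∀ W : Submodule (ZMod p) V, (∀ g ∈ G₀, ∀ v ∈ W, (g : V ≃ₗ[ZMod p] V) v ∈ W) → W = ⊥ ∨ W = ⊤ := by
  have htr : ∀ b : V, ∃ σ : G, ∀ x : V, (σ : Perm V) x = x + b := by
    intro b
    exact ⟨⟨Equiv.addRight b, (hG _).2 ⟨1, G₀.one_mem, b, fun x => rfl⟩⟩, fun x => rfl⟩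
  have hlin : ∀ g ∈ G₀, ∃ σ : G, ∀ x : V, (σ : Perm V) x = (g : V ≃ₗ[ZMod p] V) x := by
    intro g hg
    exact ⟨⟨g.toEquiv, (hG _).2 ⟨g, hg, 0, fun x => (add_zero _).symm⟩⟩, fun x => rfl⟩
  haveI : IsPretransitive G V := by
    refine ⟨fun a b => ?_⟩
    obtain ⟨σ, hσ⟩ := htr (b - a)
    exact ⟨σ, by change (σ : Perm V) a = b; rw [hσ]; abel⟩
  constructor
  · intro h W hW
    have hB : IsBlock G (W : Set V) := by
      apply isBlock_of_forall
      intro σ x hx hσx y hy
      obtain ⟨g, hg, b, hb⟩ := (hG σ).1 σ.2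
      change (σ : Perm V) x ∈ W at hσx
      change (σ : Perm V) y ∈ W
      rw [hb] at hσx ⊢
      have h1 : b ∈ W := by
        have := W.sub_mem hσx (hW g hg x hx)
        rwa [add_sub_cancel_left] at this
      exact W.add_mem (hW g hg y hy) h1
    rcases h.isTrivialBlock_of_isBlock hB with h1 | h1
    · left
      rw [Submodule.eq_bot_iff]
      intro x hx
      exact h1 hx W.zero_mem
    · right
      rw [Submodule.eq_top_iff']
      intro x
      have : x ∈ (W : Set V) := by rw [h1]; trivial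
      exact this
  · intro h
    apply IsPreprimitive.of_isTrivialBlock_base (0 : V)
    intro B h0 hB
    have hadd : ∀ x ∈ B, ∀ y ∈ B, x + y ∈ B := by
      intro x hx y hy
      obtain ⟨σ, hσ⟩ := htr y
      have := block_mem hB (g := σ) h0 (by change (σ : Perm V) 0 ∈ B; rw [hσ, zero_add]; exact hy) hx
      change (σ : Perm V) x ∈ B at this
      rwa [hσ] at this
    let S : AddSubgroup V :=
      { carrier := B
        add_mem' := fun {a b} ha hb => hadd a ha b hb
        zero_mem' := h0
        neg_mem' := by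
          intro x hx
          obtain ⟨σ, hσ⟩ := htr (-x)
          have := block_mem hB (g := σ) hx (by change (σ : Perm V) x ∈ B; rw [hσ, add_neg_cancel]; exact h0) h0
          change (σ : Perm V) 0 ∈ B at this
          rwa [hσ, zero_add] at this }
    have hW := h (AddSubgroup.toZModSubmodule p S) (by
      intro g hg v hv
      obtain ⟨σ, hσ⟩ := hlin g hg
      have := block_mem hB (g := σ) h0 (by change (σ : Perm V) 0 ∈ B; rw [hσ, map_zero]; exact h0) hv
      change (σ : Perm V) v ∈ B at this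
      rwa [hσ] at this)
    rcases hW with hW | hW
    · left
      intro x hx y hy
      have h1 : ∀ z ∈ B, z = 0 := by
        intro z hz
        have : z ∈ AddSubgroup.toZModSubmodule p S := hz
        rw [hW] at this
        exact (Submodule.mem_bot _).1 this
      rw [h1 x hx, h1 y hy]
    · right
      rw [Set.eq_univ_iff_forall]
      intro x
      have : x ∈ AddSubgroup.toZModSubmodule p S := by rw [hW]; trivial
      exact this

end CfsgH2
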