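import Mathlib

set_option autoImplicit false

/-! # Weights on finite posets (helper2 library) -/

namespace CfsgH2

open Finset

universe u

variable {α : Type u} [PartialOrder α]

open scoped Classical in
theorem exists_wt (n : ℕ) : ∀ S : Finset α, S.card = n → ∃ w : α → ℤ, (∀ a, a ∉ S → w a = 0) ∧
    ∀ a ∈ S, ∑ b ∈ S with a ≤ b, w b = 1 := by
  induction n with
  | zero =>
    intro S hS
    rw [Finset.card_eq_zero] at hS
    subst hS
    exact ⟨fun _ => 0, fun _ _ => rfl, fun a ha => absurd ha (Finset.notMem_empty a)⟩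
  | succ n ih =>
    intro S hS
    have hne : S.Nonempty := by rw [← Finset.card_pos]; omega
    obtain ⟨a, haS, hmin⟩ := S.exists_minimal hne
    obtain ⟨w, hw0, hw⟩ := ih (S.erase a) (by rw [Finset.card_erase_of_mem haS]; omega)
    refine ⟨Function.update w a (1 - ∑ b ∈ S.erase a with a ≤ b, w b), ?_, ?_⟩
    · intro b hb
      have hba : b ≠ a := fun h => hb (h ▸ haS)
      rw [Function.update_of_ne hba]
      exact hw0 b (fun h => hb (Finset.mem_of_mem_erase h))
    · intro b hb
      by_cases hba : b = a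
      · subst hba
        have h1 : (S.filter (fun c => b ≤ c)) = insert b ((S.erase b).filter (fun c => b ≤ c)) := by
          ext c
          simp only [Finset.mem_filter, Finset.mem_insert, Finset.mem_erase]
          constructor
          · rintro ⟨h1, h2⟩
            by_cases hc : c = b
            · exact Or.inl hc
            · exact Or.inr ⟨⟨hc, h1⟩, h2⟩
          · rintro (rfl | ⟨⟨-, h1⟩, h2⟩)
            · exact ⟨hb, le_rfl⟩
            · exact ⟨h1, h2⟩
        rw [h1, Finset.sum_insert (by simp), Function.update_self]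
        have h2 : ∑ c ∈ S.erase b with b ≤ c, Function.update w b (1 - ∑ b' ∈ S.erase b with b ≤ b', w b') c = 
            ∑ c ∈ S.erase b with b ≤ c, w c := by
          apply Finset.sum_congr rfl
          intro c hc
          rw [Finset.mem_filter, Finset.mem_erase] at hc
          rw [Function.update_of_ne hc.1.1]
        rw [h2]; ring
      · have hbS : b ∈ S.erase a := Finset.mem_erase.2 ⟨hba, hb⟩
        rw [← hw b hbS]
        have h1 : (S.filter (fun c => b ≤ c)) = ((S.erase a).filter (fun c => b ≤ c)) := by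
          ext c
          simp only [Finset.mem_filter, Finset.mem_erase]
          constructor
          · rintro ⟨h1, h2⟩
            refine ⟨⟨?_, h1⟩, h2⟩
            rintro rfl
            exact hba (le_antisymm h2 (hmin hb h2))
          · rintro ⟨⟨-, h1⟩, h2⟩
            exact ⟨h1, h2⟩
        rw [h1]
        apply Finset.sum_congr rfl
        intro c hc
        rw [Finset.mem_filter, Finset.mem_erase] at hc
        rw [Function.update_of_ne hc.1.1]

noncomputable def pwt (S : Finset α) : α → ℤ := Classical.choose (exists_wt S.card S rfl)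

theorem pwt_zero {S : Finset α} {a : α} (h : a ∉ S) : pwt S a = 0 := (Classical.choose_spec (exists_wt S.card S rfl)).1 a h

open scoped Classical in
theorem pwt_sum {S : Finset α} {a : α} (h : a ∈ S) : ∑ b ∈ S with a ≤ b, pwt S b = 1 := (Classical.choose_spec (exists_wt S.card S rfl)).2 a h

open scoped Classical in
theorem sum_filter_le {S : Finset α} {a : α} (h : a ∈ S) (w : α → ℤ) : ∑ b ∈ S with a ≤ b, w b = w a + ∑ b ∈ S with a < b, w b := by
  have h1 : (S.filter (fun c => a ≤ c)) = insert a (S.filter (fun c => a < c)) := by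
    ext c
    simp only [Finset.mem_filter, Finset.mem_insert]
    constructor
    · rintro ⟨h1, h2⟩
      rcases eq_or_lt_of_le h2 with h3 | h3
      · exact Or.inl h3.symm
      · exact Or.inr ⟨h1, h3⟩
    · rintro (rfl | ⟨h1, h2⟩)
      · exact ⟨h, le_rfl⟩
      · exact ⟨h1, h2.le⟩
  rw [h1, Finset.sum_insert (by simp)]

open scoped Classical in
theorem pwt_unique {S : Finset α} {w : α → ℤ} (hw : ∀ a ∈ S, ∑ b ∈ S with a ≤ b, w b = 1) : ∀ a ∈ S, w a = pwt S a := by
  have key : ∀ n : ℕ, ∀ a ∈ S, (S.filter (fun b => a < b)).card = n → w a = pwt S a := by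
    intro n
    induction n using Nat.strong_induction_on with
    | _ n ih =>
    intro a ha hn
    have h1 := hw a ha
    have h2 := pwt_sum ha
    rw [sum_filter_le ha] at h1 h2
    have h3 : ∑ b ∈ S with a < b, w b = ∑ b ∈ S with a < b, pwt S b := by
      apply Finset.sum_congr rfl
      intro b hb
      rw [Finset.mem_filter] at hb
      refine ih _ ?_ b hb.1 rfl
      rw [← hn]
      apply Finset.card_lt_card
      rw [Finset.ssubset_iff_of_subset]
      · exact ⟨b, Finset.mem_filter.2 hb, fun h => lt_irrefl _ (Finset.mem_filter.1 h).2⟩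
      · intro c hc
        rw [Finset.mem_filter] at hc ⊢
        exact ⟨hc.1, hb.2.trans hc.2⟩
    rw [h3] at h1
    linarith
  exact fun a ha => key _ a ha rfl

open scoped Classical in
theorem pwt_upper {S T : Finset α} (hTS : T ⊆ S) (hup : ∀ a ∈ T, ∀ b ∈ S, a ≤ b → b ∈ T) : ∀ a ∈ T, pwt S a = pwt T a := by
  apply pwt_unique
  intro a ha
  rw [← pwt_sum (hTS ha)]
  apply Finset.sum_congr _ (fun _ _ => rfl)
  ext b
  simp only [Finset.mem_filter]
  exact ⟨fun h => ⟨hTS h.1, h.2⟩, fun h => ⟨hup a ha b h.1 h.2, h.2⟩⟩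

open scoped Classical in
theorem sum_pwt_retract {A B : Finset α} (hBA : B ⊆ A) (r : α → α) (hr : ∀ a ∈ A, r a ∈ B) (hra : ∀ a ∈ A, r a ≤ a)
    (hrb : ∀ b ∈ B, ∀ a ∈ A, b ≤ a → b ≤ r a) : ∑ a ∈ A, pwt A a = ∑ b ∈ B, pwt B b := by
  have h1 : ∀ b ∈ B, (∑ a ∈ A with r a = b, pwt A a) = pwt B b := by
    apply pwt_unique (w := fun b => ∑ a ∈ A with r a = b, pwt A a)
    intro b hb
    rw [← pwt_sum (hBA hb)]
    rw [← Finset.sum_fiberwise_of_maps_to (s := A.filter (fun a => b ≤ a)) (t := B.filter (fun c => b ≤ c)) (g := r)]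
    · apply Finset.sum_congr rfl
      intro c hc
      rw [Finset.mem_filter] at hc
      apply Finset.sum_congr _ (fun _ _ => rfl)
      ext a
      simp only [Finset.mem_filter]
      constructor
      · rintro ⟨h1, h2⟩
        exact ⟨⟨h1, (hc.2.trans h2.ge).trans (hra a h1)⟩, h2⟩
      · rintro ⟨⟨h1, -⟩, h2⟩
        exact ⟨h1, h2⟩
    · intro a ha
      rw [Finset.mem_filter] at ha ⊢
      exact ⟨hr a ha.1, hrb b hb a ha.1 ha.2⟩
  rw [← Finset.sum_fiberwise_of_maps_to (s := A) (t := B) (g := r) hr]
  exact Finset.sum_congr rfl h1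

end CfsgH2
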