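import Mathlib
import Cfsg.Agent.H2.ZCop
import Cfsg.Agent.H2.CycCount

set_option autoImplicit false

/-! # Power graphs determine prime graphs (helper2 library) -/

namespace CfsgH2

open Subgroup Cfsg

universe u v

def padj {G : Type u} [Group G] (x y : G) : Prop := x ∈ zpowers y ∨ y ∈ zpowers x

section one
variable {G : Type u} [Group G] [Finite G]

theorem padj_comm {x y : G} : padj x y ↔ padj y x := or_comm

theorem padj_self (x : G) : padj x x := Or.inl (mem_zpowers x)

theorem padj_one (x : G) : padj 1 x := Or.inl (one_mem _)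

theorem mem_zp {g x y : G} (hx : x ∈ zpowers g) (hy : y ∈ zpowers g) (h : orderOf x ∣ orderOf y) : x ∈ zpowers y := by
  obtain ⟨k, hk⟩ := h
  have hx0 : orderOf x ≠ 0 := (orderOf_pos x).ne'
  have hy0 : orderOf y ≠ 0 := (orderOf_pos y).ne'
  have hk0 : k ≠ 0 := by rintro rfl; rw [mul_zero] at hk; exact hy0 hk
  have h1 : orderOf (y ^ k) = orderOf x := by
    rw [orderOf_pow_of_dvd hk0 (hk ▸ dvd_mul_left k _), hk, Nat.mul_div_cancel _ (Nat.pos_of_ne_zero hk0)]
  have h2 : zpowers (⟨y ^ k, pow_mem hy k⟩ : zpowers g) = zpowers (⟨x, hx⟩ : zpowers g) := by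
    apply zpowers_eq_of_cyclic
    rw [Subgroup.orderOf_mk, Subgroup.orderOf_mk, h1]
  have h3 : (⟨x, hx⟩ : zpowers g) ∈ zpowers (⟨y ^ k, pow_mem hy k⟩ : zpowers g) := by rw [h2]; exact mem_zpowers _
  obtain ⟨j, hj⟩ := h3
  have h4 : (y ^ k) ^ j = x := congrArg Subtype.val hj
  rw [← h4]
  exact zpow_mem (pow_mem (mem_zpowers y) k) j

theorem order_dvd_of_mem {x y : G} (h : x ∈ zpowers y) : orderOf x ∣ orderOf y := by
  have := orderOf_dvd_natCard (⟨x, h⟩ : zpowers y)
  rwa [Subgroup.orderOf_mk, Nat.card_zpowers] at this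

theorem not_padj_primes {x y : G} {s t : ℕ} (hs : s.Prime) (ht : t.Prime) (hst : s ≠ t) (hx : orderOf x = s) (hy : orderOf y = t) : ¬ padj x y := by
  rintro (h | h)
  · have := order_dvd_of_mem h
    rw [hx, hy] at this
    exact hst ((Nat.prime_dvd_prime_iff_eq hs ht).1 this)
  · have := order_dvd_of_mem h
    rw [hx, hy] at this
    exact hst.symm ((Nat.prime_dvd_prime_iff_eq ht hs).1 this)

theorem exists_pow_order {g : G} {d : ℕ} (hd : d ∣ orderOf g) : ∃ x ∈ zpowers g, orderOf x = d := by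
  obtain ⟨k, hk⟩ := hd
  have hg0 : orderOf g ≠ 0 := (orderOf_pos g).ne'
  have hk0 : k ≠ 0 := by rintro rfl; rw [mul_zero] at hk; exact hg0 hk
  refine ⟨g ^ k, pow_mem (mem_zpowers g) k, ?_⟩
  rw [orderOf_pow_of_dvd hk0 (hk ▸ dvd_mul_left k _), hk, Nat.mul_div_cancel _ (Nat.pos_of_ne_zero hk0)]

/-- a nonidentity dominating element generates the group (if at least two primes divide the order) -/
theorem dominating {p q : ℕ} (hp : p.Prime) (hq : q.Prime) (hpq : p ≠ q) (hpG : p ∣ Nat.card G) (hqG : q ∣ Nat.card G)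
    {u : G} (hu1 : u ≠ 1) (hu : ∀ x, padj x u) : ∀ x, x ∈ zpowers u := by
  have key : ∀ s : ℕ, s.Prime → s ∣ Nat.card G → s ∣ orderOf u := by
    intro s hs hsG
    haveI : Fact s.Prime := ⟨hs⟩
    obtain ⟨a, ha⟩ := exists_prime_orderOf_dvd_card' s hsG
    rcases hu a with h | h
    · rw [← ha]; exact order_dvd_of_mem h
    · have h1 := order_dvd_of_mem h
      rw [ha] at h1
      rcases (Nat.dvd_prime hs).1 h1 with h2 | h2
      · exact absurd (orderOf_eq_one_iff.1 h2) hu1
      · rw [h2]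
  -- elements of prime power order
  have hpp : ∀ r k : ℕ, r.Prime → ∀ x : G, orderOf x = r ^ k → x ∈ zpowers u := by
    intro r k hr x hx
    rcases hu x with h | h
    · exact h
    · exfalso
      have h1 := order_dvd_of_mem h
      rw [hx] at h1
      have h2 := (Nat.prime_dvd_prime_iff_eq hp hr).1 (hp.dvd_of_dvd_pow ((key p hp hpG).trans h1))
      have h3 := (Nat.prime_dvd_prime_iff_eq hq hr).1 (hq.dvd_of_dvd_pow ((key q hq hqG).trans h1))
      exact hpq (h2.trans h3.symm)
  intro x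
  -- induction on the order: use that x is a product of prime power parts
  have main : ∀ n : ℕ, ∀ x : G, orderOf x = n → x ∈ zpowers u := by
    intro n
    induction n using Nat.strong_induction_on with
    | _ n ih =>
    intro x hx
    by_cases hx1 : n = 1
    · rw [hx1, orderOf_eq_one_iff] at hx
      rw [hx]; exact one_mem _
    obtain ⟨r, hr, hrn⟩ := Nat.exists_prime_and_dvd hx1
    have hn0 : n ≠ 0 := by rw [← hx]; exact (orderOf_pos x).ne'
    obtain ⟨k, m, hm, hkm⟩ := Nat.exists_eq_pow_mul_and_not_dvd hn0 r hr.ne_one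
    by_cases hm1 : m = 1
    · exact hpp r k hr x (by rw [hx, hkm, hm1, mul_one])
    have hk0 : k ≠ 0 := by
      rintro rfl
      rw [pow_zero, one_mul] at hkm
      exact hm (hkm ▸ hrn)
    have hm0 : m ≠ 0 := by rintro rfl; exact hm (dvd_zero r)
    have hcop : Nat.Coprime (r ^ k) m := Nat.Coprime.pow_left _ ((Nat.Prime.coprime_iff_not_dvd hr).2 hm)
    have h1 : x ^ (r ^ k) ∈ zpowers u := by
      have ho : orderOf (x ^ (r ^ k)) = m := by
        rw [orderOf_pow_of_dvd (pow_pos hr.pos k).ne' (by rw [hx, hkm]; exact dvd_mul_right _ _), hx, hkm, Nat.mul_div_cancel_left _ (pow_pos hr.pos k)]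
      apply ih m _ _ ho
      rw [hkm]
      exact lt_mul_of_one_lt_left (Nat.pos_of_ne_zero hm0) (Nat.one_lt_pow hk0 hr.one_lt)
    have h2 : x ^ m ∈ zpowers u := by
      have ho : orderOf (x ^ m) = r ^ k := by
        rw [orderOf_pow_of_dvd hm0 (by rw [hx, hkm]; exact dvd_mul_left _ _), hx, hkm, Nat.mul_div_cancel _ (Nat.pos_of_ne_zero hm0)]
      exact hpp r k hr _ ho
    have h3 := Nat.gcd_eq_gcd_ab (r ^ k) m
    rw [Nat.Coprime.gcd_eq_one hcop] at h3
    have h4 : x = (x ^ (r ^ k)) ^ (Nat.gcdA (r ^ k) m) * (x ^ m) ^ (Nat.gcdB (r ^ k) m) := by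
      rw [← zpow_natCast, ← zpow_natCast, ← zpow_mul, ← zpow_mul, ← zpow_add, ← h3]
      simp
    rw [h4]
    exact mul_mem (zpow_mem h1 _) (zpow_mem h2 _)
  exact main _ x rfl

/-- dominating elements of a cyclic subgroup -/
theorem dominating_zpowers {p q : ℕ} (hp : p.Prime) (hq : q.Prime) (hpq : p ≠ q) {g : G} (hpG : p ∣ orderOf g) (hqG : q ∣ orderOf g)
    {c : G} (hc : c ∈ zpowers g) (hc1 : c ≠ 1) (hu : ∀ x ∈ zpowers g, padj x c) : zpowers c = zpowers g := by
  apply le_antisymm (by rw [zpowers_le]; exact hc)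
  have h1 := dominating (G := zpowers g) hp hq hpq (by rw [Nat.card_zpowers]; exact hpG) (by rw [Nat.card_zpowers]; exact hqG)
    (u := ⟨c, hc⟩) (fun h => hc1 (congrArg Subtype.val h)) (by
      rintro ⟨x, hx⟩
      rcases hu x hx with ⟨k, hk⟩ | ⟨k, hk⟩
      · exact Or.inl ⟨k, Subtype.ext hk⟩
      · exact Or.inr ⟨k, Subtype.ext hk⟩)
  rw [zpowers_le]
  obtain ⟨k, hk⟩ := h1 ⟨g, mem_zpowers g⟩
  exact ⟨k, congrArg Subtype.val hk⟩

/-- no ordinal decomposition -/
theorem no_split {p q : ℕ} (hp : p.Prime) (hq : q.Prime) (hpq : p ≠ q) {g : G} (hpG : p ∣ orderOf g) (hqG : q ∣ orderOf g)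
    (B : G → Prop) (hB : ∀ l ∈ zpowers g, ∀ v ∈ zpowers g, (¬ ∀ x ∈ zpowers g, padj x l) → (¬ ∀ x ∈ zpowers g, padj x v) → B l → ¬ B v → padj l v) :
    (∀ c ∈ zpowers g, (¬ ∀ x ∈ zpowers g, padj x c) → B c) ∨ (∀ c ∈ zpowers g, (¬ ∀ x ∈ zpowers g, padj x c) → ¬ B c) := by
  have hg0 : orderOf g ≠ 0 := (orderOf_pos g).ne'
  -- the full parts
  have hX : ∀ s : ℕ, ∃ x ∈ zpowers g, orderOf x = s ^ (orderOf g).factorization s := fun s => exists_pow_order (Nat.ordProj_dvd _ _)
  choose X hXg hXo using hX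
  have hXp : ∀ s : ℕ, s.Prime → s ∣ orderOf g → s ∣ orderOf (X s) := by
    intro s hs hsg
    rw [hXo]
    exact dvd_pow_self s (hs.factorization_pos_of_dvd hg0 hsg).ne'
  have hXX : ∀ s t : ℕ, s.Prime → t.Prime → s ≠ t → s ∣ orderOf g → t ∣ orderOf g → ¬ padj (X s) (X t) := by
    intro s t hs ht hst hsg htg
    rintro (h | h)
    · have h1 := (hXp s hs hsg).trans (order_dvd_of_mem h)
      rw [hXo] at h1
      exact hst ((Nat.prime_dvd_prime_iff_eq hs ht).1 (hs.dvd_of_dvd_pow h1))
    · have h1 := (hXp t ht htg).trans (order_dvd_of_mem h)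
      rw [hXo] at h1
      exact hst.symm ((Nat.prime_dvd_prime_iff_eq ht hs).1 (ht.dvd_of_dvd_pow h1))
  have hother : ∀ s : ℕ, ∃ t : ℕ, t.Prime ∧ t ∣ orderOf g ∧ s ≠ t := by
    intro s
    by_cases hsp : s = p
    · exact ⟨q, hq, hqG, by rw [hsp]; exact hpq⟩
    · exact ⟨p, hp, hpG, hsp⟩
  have hXnd : ∀ s : ℕ, s.Prime → s ∣ orderOf g → ¬ ∀ x ∈ zpowers g, padj x (X s) := by
    intro s hs hsg h
    obtain ⟨t, ht, htg, hst⟩ := hother s
    exact hXX t s ht hs hst.symm htg hsg (h _ (hXg t))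
  have hc : ∀ c ∈ zpowers g, (¬ ∀ x ∈ zpowers g, padj x c) → ∃ s : ℕ, s.Prime ∧ s ∣ orderOf g ∧ ¬ padj (X s) c := by
    intro c hcg hnd
    have hc1 : c ≠ 1 := by
      rintro rfl
      exact hnd (fun x _ => padj_comm.1 (padj_one x))
    have h1 : ¬ orderOf g ∣ orderOf c := by
      intro h
      apply hnd
      intro x hx
      have h2 : g ∈ zpowers c := mem_zp (mem_zpowers g) hcg h
      left
      exact (zpowers_le.2 h2) hx
    obtain ⟨s, hs, hsf⟩ : ∃ s : ℕ, s.Prime ∧ ¬ s ^ (orderOf g).factorization s ∣ orderOf c := by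
      by_contra hcon
      push Not at hcon
      apply h1
      rw [← Nat.factorization_le_iff_dvd hg0 (orderOf_pos c).ne']
      intro s
      by_cases hs : s.Prime
      · exact (hs.pow_dvd_iff_le_factorization (orderOf_pos c).ne').1 (hcon s hs)
      · rw [Nat.factorization_eq_zero_of_not_prime _ hs]; exact Nat.zero_le _
    have hsg : s ∣ orderOf g := by
      by_contra h
      rw [Nat.factorization_eq_zero_of_not_dvd h, pow_zero] at hsf
      exact hsf (one_dvd _)
    by_cases hcX : c ∈ zpowers (X s)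
    · obtain ⟨t, ht, htg, hst⟩ := hother s
      refine ⟨t, ht, htg, ?_⟩
      have h2 := order_dvd_of_mem hcX
      rw [hXo] at h2
      rintro (h | h)
      · have h3 := ((hXp t ht htg).trans (order_dvd_of_mem h)).trans h2
        exact hst.symm ((Nat.prime_dvd_prime_iff_eq ht hs).1 (ht.dvd_of_dvd_pow h3))
      · have h3 := order_dvd_of_mem h
        rw [hXo] at h3
        have h4 := Nat.dvd_gcd h2 h3
        rw [Nat.Coprime.gcd_eq_one (Nat.Coprime.pow _ _ ((Nat.coprime_primes hs ht).2 hst))] at h4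
        exact hc1 (orderOf_eq_one_iff.1 (Nat.dvd_one.1 h4))
    · refine ⟨s, hs, hsg, ?_⟩
      rintro (h | h)
      · apply hsf
        rw [← hXo]
        exact order_dvd_of_mem h
      · exact hcX h
  by_cases hBp : B (X p)
  · left
    have hBs : ∀ s : ℕ, s.Prime → s ∣ orderOf g → B (X s) := by
      intro s hs hsg
      by_cases hsp : s = p
      · rw [hsp]; exact hBp
      · by_contra hn
        exact hXX p s hp hs (Ne.symm hsp) hpG hsg (hB _ (hXg p) _ (hXg s) (hXnd p hp hpG) (hXnd s hs hsg) hBp hn)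
    intro c hcg hnd
    obtain ⟨s, hs, hsg, hns⟩ := hc c hcg hnd
    by_contra hn
    exact hns (hB _ (hXg s) c hcg (hXnd s hs hsg) hnd (hBs s hs hsg) hn)
  · right
    have hBs : ∀ s : ℕ, s.Prime → s ∣ orderOf g → ¬ B (X s) := by
      intro s hs hsg
      by_cases hsp : s = p
      · rw [hsp]; exact hBp
      · intro hn
        exact hXX s p hs hp hsp hsg hpG (hB _ (hXg s) _ (hXg p) (hXnd s hs hsg) (hXnd p hp hpG) hn hBp)
    intro c hcg hnd hn
    obtain ⟨s, hs, hsg, hns⟩ := hc c hcg hnd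
    exact hns (padj_comm.1 (hB c hcg _ (hXg s) hnd (hXnd s hs hsg) hn (hBs s hs hsg)))

/-- twins of an element of prime order -/
theorem twin_prime {s t : ℕ} (hs : s.Prime) (ht : t.Prime) (hst : s ≠ t) {g : G} (hsg : s ∣ orderOf g) (htg : t ∣ orderOf g)
    (hmax : ∀ x, g ∈ zpowers x → x ∈ zpowers g) {c1 c : G} (hc1g : c1 ∈ zpowers g) (hc1 : orderOf c1 = s)
    (htw : ∀ x, padj x c ↔ padj x c1) : orderOf c = s := by
  have hcg : c ∈ zpowers g := by
    rcases (htw g).2 (Or.inr hc1g) with h | h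
    · exact hmax _ h
    · exact h
  have hst' : s * t ∣ orderOf g := ((Nat.coprime_primes hs ht).2 hst).mul_dvd_of_dvd_of_dvd hsg htg
  obtain ⟨b, hb, hbo⟩ := exists_pow_order htg
  obtain ⟨w, hw, hwo⟩ := exists_pow_order hst'
  rcases (htw c).1 (padj_self c) with h | h
  · have h1 := order_dvd_of_mem h
    rw [hc1] at h1
    rcases (Nat.dvd_prime hs).1 h1 with h2 | h2
    · exfalso
      rw [orderOf_eq_one_iff] at h2
      have h3 := (htw b).1 (by rw [h2]; exact padj_comm.1 (padj_one b))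
      exact not_padj_primes ht hs hst.symm hbo hc1 h3
    · exact h2
  · have h1 := order_dvd_of_mem h
    rw [hc1] at h1
    have htc : ¬ t ∣ orderOf c := by
      intro h2
      have h3 : b ∈ zpowers c := mem_zp hb hcg (by rw [hbo]; exact h2)
      exact not_padj_primes ht hs hst.symm hbo hc1 ((htw b).1 (Or.inl h3))
    have h2 : padj w c := (htw w).2 (Or.inr (mem_zp hc1g hw (by rw [hc1, hwo]; exact dvd_mul_right _ _)))
    rcases h2 with h3 | h3
    · have h4 := order_dvd_of_mem h3
      rw [hwo] at h4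
      exact absurd ((dvd_mul_left t s).trans h4) htc
    · have h4 := order_dvd_of_mem h3
      rw [hwo] at h4
      have h5 : orderOf c ∣ s := (((Nat.Prime.coprime_iff_not_dvd ht).2 htc).symm).dvd_of_dvd_mul_right h4
      exact Nat.dvd_antisymm h5 h1

theorem card_order_in_zpowers {g : G} {d : ℕ} (hd : d ∣ orderOf g) : Nat.card {c : G // orderOf c = d ∧ zpowers c ≤ zpowers g} = d.totient := by
  rw [card_orderOf_zpowers d (fun X => X ≤ zpowers g)]
  have h1 : Nat.card {X : Subgroup G // IsCyclic X ∧ Nat.card X = d ∧ X ≤ zpowers g} = 1 := by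
    rw [Nat.card_eq_one_iff_unique]
    have hgen : ∀ X : Subgroup G, IsCyclic X → ∃ x ∈ X, X = zpowers x := by
      intro X hX
      obtain ⟨x, hx⟩ := hX.exists_generator
      refine ⟨x, x.2, le_antisymm ?_ (by rw [zpowers_le]; exact x.2)⟩
      intro w hw
      obtain ⟨k, hk⟩ := hx ⟨w, hw⟩
      exact ⟨k, congrArg Subtype.val hk⟩
    constructor
    · constructor
      rintro ⟨X, hX, hXc, hXg⟩ ⟨Y, hY, hYc, hYg⟩
      obtain ⟨x, hxX, rfl⟩ := hgen X hX
      obtain ⟨y, hyY, rfl⟩ := hgen Y hY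
      rw [Nat.card_zpowers] at hXc hYc
      apply Subtype.ext
      apply le_antisymm
      · rw [zpowers_le]
        exact mem_zp (hXg hxX) (hYg hyY) (by rw [hXc, hYc])
      · rw [zpowers_le]
        exact mem_zp (hYg hyY) (hXg hxX) (by rw [hXc, hYc])
    · obtain ⟨x, hx, hxo⟩ := exists_pow_order hd
      exact ⟨⟨zpowers x, inferInstance, by rw [Nat.card_zpowers, hxo], by rw [zpowers_le]; exact hx⟩⟩
  rw [h1, mul_one]

end one

theorem prime_pow_of_adj {H : Type v} [Group H] [Finite H] {h : H} (hh : h ≠ 1) (hadj : ∀ x ∈ zpowers h, ∀ y ∈ zpowers h, padj x y) :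
    ∃ r a : ℕ, r.Prime ∧ 0 < a ∧ orderOf h = r ^ a := by
  have h1 : orderOf h ≠ 1 := fun h' => hh (orderOf_eq_one_iff.1 h')
  obtain ⟨r, hr, hrd⟩ := Nat.exists_prime_and_dvd h1
  have h2 := Nat.eq_prime_pow_of_unique_prime_dvd (n := orderOf h) (p := r) (orderOf_pos h).ne' (by
    intro d hd hdd
    by_contra hne
    obtain ⟨x, hx, hxo⟩ := exists_pow_order hdd
    obtain ⟨y, hy, hyo⟩ := exists_pow_order hrd
    exact not_padj_primes hd hr hne hxo hyo (hadj x hx y hy))
  refine ⟨r, _, hr, ?_, h2⟩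
  rw [Nat.pos_iff_ne_zero]
  intro h3
  rw [h3, pow_zero] at h2
  exact h1 h2

theorem power_graph_dir {G : Type u} {H : Type v} [Group G] [Finite G] [Group H] [Finite H] (e : G ≃ H)
    (he : ∀ x y : G, padj x y ↔ padj (e x) (e y)) {p q : ℕ} (hp : p.Prime) (hq : q.Prime) (hpq : p < q)
    (hG : ∃ g : G, orderOf g = p * q) : ∃ h : H, orderOf h = p * q := by
  by_contra hno'
  have hno : ∀ y : H, ¬ p * q ∣ orderOf y := by
    intro y hy
    obtain ⟨x, -, hx⟩ := exists_pow_order hy
    exact hno' ⟨x, hx⟩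
  have hcard : Nat.card G = Nat.card H := Nat.card_congr e
  have hpqd : ∀ m : ℕ, p ∣ m → q ∣ m → p * q ∣ m := fun m h1 h2 => ((Nat.coprime_primes hp hq).2 hpq.ne).mul_dvd_of_dvd_of_dvd h1 h2
  obtain ⟨g00, hg00⟩ := hG
  have hpH : p ∣ Nat.card H := by
    rw [← hcard]; exact (hg00 ▸ dvd_mul_right p q : p ∣ orderOf g00).trans (orderOf_dvd_natCard g00)
  have hqH : q ∣ Nat.card H := by
    rw [← hcard]; exact (hg00 ▸ dvd_mul_left q p : q ∣ orderOf g00).trans (orderOf_dvd_natCard g00)
  have domH : ∀ y : H, (∀ z, padj z y) → y = 1 := by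
    intro y hy
    by_contra hy1
    have h1 := dominating hp hq hpq.ne hpH hqH hy1 hy
    have h2 : orderOf y = Nat.card H := orderOf_eq_card_of_forall_mem_zpowers h1
    exact hno y (by rw [h2]; exact hpqd _ hpH hqH)
  have he1 : e 1 = 1 := by
    apply domH
    intro z
    obtain ⟨x, rfl⟩ := e.surjective z
    exact (he x 1).1 (padj_comm.1 (padj_one x))
  -- choice of g
  haveI : Nonempty {x : G // p * q ∣ orderOf x} := ⟨⟨g00, by rw [hg00]⟩⟩
  obtain ⟨g0, hg0⟩ := Finite.exists_max (fun x : {x : G // p * q ∣ orderOf x} => orderOf (x : G))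
  haveI : Nonempty {c : G // zpowers c = zpowers (g0 : G)} := ⟨⟨g0, rfl⟩⟩
  obtain ⟨g1, hg1⟩ := Finite.exists_max (fun c : {c : G // zpowers c = zpowers (g0 : G)} => orderOf (e c))
  obtain ⟨g, hgz⟩ := g1
  have hgo : orderOf g = orderOf (g0 : G) := by rw [← Nat.card_zpowers, hgz, Nat.card_zpowers]
  have hpqg : p * q ∣ orderOf g := by rw [hgo]; exact g0.2
  have hpg : p ∣ orderOf g := (dvd_mul_right p q).trans hpqg
  have hqg : q ∣ orderOf g := (dvd_mul_left q p).trans hpqg
  have hgmax : ∀ c : G, zpowers c = zpowers g → orderOf (e c) ≤ orderOf (e g) := fun c hc => hg1 ⟨c, hc.trans hgz⟩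
  have hmax : ∀ x : G, g ∈ zpowers x → x ∈ zpowers g := by
    intro x hx
    have h1 := order_dvd_of_mem hx
    have h2 : orderOf x ≤ orderOf g := by
      rw [hgo]
      exact hg0 ⟨x, hpqg.trans h1⟩
    have h3 : orderOf x = orderOf g := le_antisymm h2 (Nat.le_of_dvd (orderOf_pos x) h1)
    exact mem_zp (mem_zpowers x) hx (dvd_of_eq h3)
  have hg1' : g ≠ 1 := by
    rintro rfl
    rw [orderOf_one] at hpg
    exact hp.one_lt.ne' (Nat.dvd_one.1 hpg)
  have hN : ∀ x : G, padj x g ↔ x ∈ zpowers g := by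
    intro x
    constructor
    · rintro (h | h)
      · exact h
      · exact hmax x h
    · exact fun h => Or.inl h
  have hdom1 : ∀ c ∈ zpowers g, (∀ x ∈ zpowers g, padj x c) → c = 1 ∨ zpowers c = zpowers g := by
    intro c hc hd
    by_cases h1 : c = 1
    · exact Or.inl h1
    · exact Or.inr (dominating_zpowers hp hq hpq.ne hpg hqg hc h1 hd)
  set h := e g with hh
  have hadjh : ∀ c ∈ zpowers g, padj (e c) h := fun c hc => (he c g).1 ((hN c).2 hc)
  have hgen : ∀ c : G, zpowers c = zpowers g → e c ∈ zpowers h := by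
    intro c hc
    rcases hadjh c (hc ▸ mem_zpowers c) with h1 | h1
    · exact h1
    · have h2 := order_dvd_of_mem h1
      have h3 := hgmax c hc
      exact mem_zp (mem_zpowers (e c)) h1 (dvd_of_eq (le_antisymm h3 (Nat.le_of_dvd (orderOf_pos _) h2)))
  have h1h : h ≠ 1 := by
    intro h1
    apply hg1'
    apply e.injective
    rw [he1]; exact h1
  have hback : ∀ y ∈ zpowers h, e.symm y ∈ zpowers g := by
    intro y hy
    rw [← hN, he, e.apply_symm_apply]
    exact Or.inl hy
  rcases no_split hp hq hpq.ne hpg hqg (fun c => e c ∈ zpowers h) (by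
    intro l hl v hv _ _ hBl hBv
    rw [he]
    rcases hadjh v hv with h1 | h1
    · exact absurd h1 hBv
    · exact Or.inl ((zpowers_le.2 h1) hBl)) with hcase | hcase
  · -- everything lies in zpowers h
    have hall : ∀ c ∈ zpowers g, e c ∈ zpowers h := by
      intro c hc
      by_cases hd : ∀ x ∈ zpowers g, padj x c
      · rcases hdom1 c hc hd with h1 | h1
        · rw [h1, he1]; exact one_mem _
        · exact hgen c h1
      · exact hcase c hc hd
    have h2 : Nat.card (zpowers g) = Nat.card (zpowers h) := by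
      refine Nat.card_congr ⟨fun c => ⟨e c, hall c c.2⟩, fun y => ⟨e.symm y, hback y y.2⟩, ?_, ?_⟩
      · intro c; exact Subtype.ext (e.symm_apply_apply _)
      · intro c; exact Subtype.ext (e.apply_symm_apply _)
    rw [Nat.card_zpowers, Nat.card_zpowers] at h2
    exact hno h (h2 ▸ hpqg)
  · -- h has prime power order
    have hdomh : ∀ y ∈ zpowers h, ∀ x ∈ zpowers g, padj x (e.symm y) := by
      intro y hy
      by_contra hd
      apply hcase (e.symm y) (hback y hy) hd
      rw [e.apply_symm_apply]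
      exact hy
    obtain ⟨r, a, hr, ha, hra⟩ := prime_pow_of_adj h1h (by
      intro x hx y hy
      have h2 := (he _ _).1 (hdomh y hy _ (hback x hx))
      rwa [e.apply_symm_apply, e.apply_symm_apply] at h2)
    -- lower bound
    have hlow : (orderOf g).totient + 1 ≤ orderOf h := by
      have h2 : Nat.card (Option {c : G // orderOf c = orderOf g ∧ zpowers c ≤ zpowers g}) ≤ Nat.card (zpowers h) := by
        have hcz : ∀ c : {c : G // orderOf c = orderOf g ∧ zpowers c ≤ zpowers g}, zpowers (c : G) = zpowers g := by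
          intro c
          apply CfsgH1.eq_of_le_of_card_le c.2.2
          rw [Nat.card_zpowers, Nat.card_zpowers, c.2.1]
        let f : Option {c : G // orderOf c = orderOf g ∧ zpowers c ≤ zpowers g} → zpowers h := fun o => 
          match o with
          | none => 1
          | some c => ⟨e c, hgen c (hcz c)⟩
        apply Nat.card_le_card_of_injective f
        intro o1 o2 ho
        rcases o1 with _ | c1 <;> rcases o2 with _ | c2
        · rfl
        · exfalso
          have h3 : (1 : H) = e c2 := congrArg Subtype.val ho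
          rw [← he1] at h3
          have h4 := e.injective h3
          have h5 := c2.2.1
          rw [← h4, orderOf_one] at h5
          exact hg1' (orderOf_eq_one_iff.1 h5.symm)
        · exfalso
          have h3 : e c1 = (1 : H) := congrArg Subtype.val ho
          rw [← he1] at h3
          have h4 := e.injective h3
          have h5 := c1.2.1
          rw [h4, orderOf_one] at h5
          exact hg1' (orderOf_eq_one_iff.1 h5.symm)
        · have h3 : e c1 = e c2 := congrArg Subtype.val ho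
          rw [Subtype.ext (e.injective h3)]
      rw [Finite.card_option, card_order_in_zpowers dvd_rfl, Nat.card_zpowers] at h2
      exact h2
    obtain ⟨c1, hc1g, hc1⟩ := exists_pow_order hpg
    obtain ⟨b, hbg, hb⟩ := exists_pow_order hqg
    have hc1n : ¬ ∀ x ∈ zpowers g, padj x c1 := fun hd => not_padj_primes hq hp hpq.ne' hb hc1 (hd b hbg)
    have hy1 := hcase c1 hc1g hc1n
    have hhy1 : h ∈ zpowers (e c1) := (hadjh c1 hc1g).resolve_left hy1
    have hup : (orderOf (e c1)).totient ≤ p.totient := by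
      rw [← card_order_in_zpowers (dvd_refl (orderOf (e c1))), ← card_order_in_zpowers hpg]
      have hz : ∀ z : {c : H // orderOf c = orderOf (e c1) ∧ zpowers c ≤ zpowers (e c1)}, zpowers (z : H) = zpowers (e c1) := by
        intro c
        apply CfsgH1.eq_of_le_of_card_le c.2.2
        rw [Nat.card_zpowers, Nat.card_zpowers, c.2.1]
      have htw : ∀ z : {c : H // orderOf c = orderOf (e c1) ∧ zpowers c ≤ zpowers (e c1)}, ∀ x : G, padj x (e.symm z) ↔ padj x c1 := by
        intro z x
        rw [he, he x c1, e.apply_symm_apply]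
        unfold padj
        have h8 : (z : H) ∈ zpowers (e x) ↔ e c1 ∈ zpowers (e x) := by
          rw [← zpowers_le, hz z, zpowers_le]
        rw [hz z, h8]
      have hzo : ∀ z : {c : H // orderOf c = orderOf (e c1) ∧ zpowers c ≤ zpowers (e c1)}, 
          orderOf (e.symm (z : H)) = p ∧ zpowers (e.symm (z : H)) ≤ zpowers g := by
        intro z
        refine ⟨twin_prime hp hq hpq.ne hpg hqg hmax hc1g hc1 (htw z), ?_⟩
        rw [zpowers_le, ← hN]
        exact padj_comm.1 ((htw z g).2 (Or.inr hc1g))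
      exact Nat.card_le_card_of_injective (fun z => (⟨e.symm (z : H), hzo z⟩ : {c : G // orderOf c = p ∧ zpowers c ≤ zpowers g})) (by
        intro z1 z2 hz12
        have h3 : e.symm (z1 : H) = e.symm z2 := congrArg Subtype.val hz12
        exact Subtype.ext (e.symm.injective h3))
    -- arithmetic
    have h5 : (r ^ a).totient ≤ (orderOf (e c1)).totient := by
      apply Nat.le_of_dvd (Nat.totient_pos.2 (orderOf_pos _))
      apply Nat.totient_dvd_of_dvd
      rw [← hra]
      exact order_dvd_of_mem hhy1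
    have h6 : (p * q).totient ≤ (orderOf g).totient := by
      apply Nat.le_of_dvd (Nat.totient_pos.2 (orderOf_pos _))
      exact Nat.totient_dvd_of_dvd hpqg
    rw [Nat.totient_mul ((Nat.coprime_primes hp hq).2 hpq.ne), Nat.totient_prime hp, Nat.totient_prime hq] at h6
    rw [Nat.totient_prime hp] at hup
    rw [Nat.totient_prime_pow hr ha] at h5
    rw [hra] at hlow
    have h7 : r ^ a ≤ 2 * (r ^ (a - 1) * (r - 1)) := by
      have h8 : r ^ a = r ^ (a - 1) * r := by
        rw [← pow_succ]; congr 1; omega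
      rw [h8]
      have h9 : r ≤ 2 * (r - 1) := by have := hr.two_le; omega
      calc r ^ (a - 1) * r ≤ r ^ (a - 1) * (2 * (r - 1)) := Nat.mul_le_mul_left _ h9
        _ = 2 * (r ^ (a - 1) * (r - 1)) := by ring
    have hq2 : 2 ≤ q - 1 := by have := hp.two_le; omega
    have h10 : (p - 1) * 2 ≤ (p - 1) * (q - 1) := Nat.mul_le_mul_left _ hq2
    omega

end CfsgH2
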