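import Cfsg.Agent.H2.SqFree2

set_option autoImplicit false

open scoped Pointwise commutatorElement

namespace CfsgH2

open Subgroup Cfsg

theorem not_dvd_card_of_not_dvd_csz {G : Type*} [Group G] [Finite G] (hZ : center G = ⊥) {p : ℕ} (hp : p.Prime)
    (h : ∀ y : G, ¬ p ∣ csz y) : ¬ p ∣ Nat.card G := by
  haveI : Fact p.Prime := ⟨hp⟩
  intro hd
  let P : Sylow p G := default
  have h1 : centralizer ((P : Subgroup G) : Set G) = ⊤ := by
    apply eq_top_of_conj_cover
    intro y
    obtain ⟨Q, hQ⟩ := (not_dvd_csz_iff y).1 (h y)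
    obtain ⟨g, hg⟩ := MulAction.exists_smul_eq G P Q
    refine ⟨g, ?_⟩
    rw [mem_centralizer_iff] at hQ ⊢
    intro x hx
    have h2 : g * x * g⁻¹ ∈ (Q : Subgroup G) := by
      rw [← hg, Sylow.coe_subgroup_smul, Subgroup.mem_pointwise_smul_iff_inv_smul_mem, ← map_inv, MulAut.smul_def,
        MulAut.conj_apply, inv_inv]
      have : g⁻¹ * (g * x * g⁻¹) * g = x := by group
      rw [this]; exact hx
    have h3 := hQ _ h2
    have h4 : x * (g⁻¹ * y * g) = g⁻¹ * ((g * x * g⁻¹) * y) * g := by group
    rw [h4, h3]; group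
  have h2 : (P : Subgroup G) ≤ center G := by
    intro x hx
    rw [mem_center_iff]
    intro g
    have hg : g ∈ centralizer ((P : Subgroup G) : Set G) := by rw [h1]; trivial
    exact ((mem_centralizer_iff.1 hg) x hx).symm
  rw [hZ, le_bot_iff] at h2
  have h3 := P.card_eq_multiplicity
  rw [h2, card_bot] at h3
  have h4 : 0 < (Nat.card G).factorization p := hp.factorization_pos_of_dvd Nat.card_pos.ne' hd
  have h5 := Nat.one_lt_pow h4.ne' hp.one_lt
  omega

theorem csz_mul_card {G : Type*} [Group G] [Finite G] (y : G) :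
    csz y * Nat.card (centralizer ({y} : Set G)) = Nat.card G := by
  rw [mul_comm]; exact Subgroup.card_mul_index _

theorem factorization_csz {G : Type*} [Group G] [Finite G] (y : G) (p : ℕ) :
    (csz y).factorization p + (Nat.card (centralizer ({y} : Set G))).factorization p = (Nat.card G).factorization p := by
  rw [← csz_mul_card y, Nat.factorization_mul (csz_ne_zero y) Nat.card_pos.ne']
  rfl

theorem factorization_le_of_disconnected {G : Type*} [Group G] [Finite G] (hZ : center G = ⊥) {m : ℕ} (hm : m ≠ 0)
    (A : Set ℕ) (h1 : ∀ y : G, csz y ∣ m) 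
    (h2 : ∀ y : G, y ≠ 1 → (∀ p : ℕ, p.Prime → p ∈ A → (csz y).factorization p = m.factorization p) ∨
      (∀ p : ℕ, p.Prime → p ∉ A → (csz y).factorization p = m.factorization p))
    (h3 : ∀ y : G, csz y ≠ m) {b : ℕ} (hb : b.Prime) (hbA : b ∉ A) (hbm : b ∣ m) (hbG : b ∣ Nat.card G)
    {p : ℕ} (hp : p.Prime) (hpA : p ∈ A) : (Nat.card G).factorization p = m.factorization p := by
  haveI : Fact p.Prime := ⟨hp⟩
  haveI : Fact b.Prime := ⟨hb⟩
  have hpb : p ≠ b := fun e => hbA (e ▸ hpA)
  have hne : ∀ y : G, ¬ ((∀ p : ℕ, p.Prime → p ∈ A → (csz y).factorization p = m.factorization p) ∧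
      (∀ p : ℕ, p.Prime → p ∉ A → (csz y).factorization p = m.factorization p)) := by
    rintro y ⟨ha, hb⟩
    apply h3 y
    apply Nat.eq_of_factorization_eq (csz_ne_zero y) hm
    intro q
    by_cases hq : q.Prime
    · by_cases hqA : q ∈ A
      · exact ha q hq hqA
      · exact hb q hq hqA
    · rw [Nat.factorization_eq_zero_of_not_prime _ hq, Nat.factorization_eq_zero_of_not_prime _ hq]
  -- commuting coprime elements have the same type
  have hcomm : ∀ u y : G, u ≠ 1 → u * y = y * u → (orderOf u).Coprime (orderOf y) →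
      (∀ p : ℕ, p.Prime → p ∈ A → (csz y).factorization p = m.factorization p) →
      (∀ p : ℕ, p.Prime → p ∈ A → (csz u).factorization p = m.factorization p) := by
    intro u y hu1 huy hco hy
    rcases h2 u hu1 with h | h
    · exact h
    exfalso
    have hd1 : csz u ∣ csz (u * y) ∧ csz y ∣ csz (u * y) := by
      have hle : ∀ w : G, u * y * w = w * (u * y) → u * w = w * u ∧ y * w = w * y := by
        intro w hw
        obtain ⟨e, he1, he2⟩ := Nat.chineseRemainder hco 1 0
        have hcm : Commute u y := huy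
        have hue : u = (u * y) ^ e := by
          rw [hcm.mul_pow]
          have e1 : u ^ e = u ^ 1 := pow_eq_pow_iff_modEq.2 he1
          have e2 : y ^ e = y ^ 0 := pow_eq_pow_iff_modEq.2 he2
          rw [e1, e2, pow_one, pow_zero, mul_one]
        have hw' : Commute (u * y) w := hw
        have h5 : Commute u w := by
          rw [hue]; exact hw'.pow_left e
        refine ⟨h5, ?_⟩
        have h6 : u * (y * w) = u * (w * y) := by
          rw [← mul_assoc, hw, ← mul_assoc, ← mul_assoc, h5.eq]
        exact mul_left_cancel h6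
      constructor
      · apply Subgroup.index_dvd_of_le
        intro w hw
        rw [mem_centralizer_singleton_iff'] at hw ⊢
        exact (hle w hw).1
      · apply Subgroup.index_dvd_of_le
        intro w hw
        rw [mem_centralizer_singleton_iff'] at hw ⊢
        exact (hle w hw).2
    apply hne (u * y)
    constructor
    · intro q hq hqA
      apply le_antisymm
      · exact (Nat.factorization_le_iff_dvd (csz_ne_zero _) hm).2 (h1 _) q
      · rw [← hy q hq hqA]
        exact (Nat.factorization_le_iff_dvd (csz_ne_zero _) (csz_ne_zero _)).2 hd1.2 q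
    · intro q hq hqA
      apply le_antisymm
      · exact (Nat.factorization_le_iff_dvd (csz_ne_zero _) hm).2 (h1 _) q
      · rw [← h q hq hqA]
        exact (Nat.factorization_le_iff_dvd (csz_ne_zero _) (csz_ne_zero _)).2 hd1.1 q
  -- a central element of a Sylow subgroup
  have hcen : ∀ {q : ℕ} [Fact q.Prime] (Q : Sylow q G), (Q : Subgroup G) ≠ ⊥ → 
      ∃ z ∈ (Q : Subgroup G), z ≠ 1 ∧ ∀ w ∈ (Q : Subgroup G), w * z = z * w := by
    intro q _ Q hQ
    haveI : Nontrivial (Q : Subgroup G) := (Subgroup.nontrivial_iff_ne_bot _).2 hQ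
    have := Q.2.center_nontrivial
    obtain ⟨z, hz⟩ := exists_ne (1 : center (Q : Subgroup G))
    refine ⟨(z : (Q : Subgroup G)), (z : (Q : Subgroup G)).2, ?_, ?_⟩
    · intro e
      apply hz
      apply Subtype.ext
      apply Subtype.ext
      exact e
    · intro w hw
      have := mem_center_iff.1 z.2 ⟨w, hw⟩
      exact congrArg Subtype.val this
  have hcsz : ∀ {q : ℕ} [Fact q.Prime] (Q : Sylow q G) (z : G), (∀ w ∈ (Q : Subgroup G), w * z = z * w) → ¬ q ∣ csz z := by
    intro q _ Q z hz
    rw [not_dvd_csz_iff]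
    exact ⟨Q, mem_centralizer_iff.2 hz⟩
  have hbot : ∀ {q : ℕ} [Fact q.Prime] (Q : Sylow q G), q ∣ Nat.card G → (Q : Subgroup G) ≠ ⊥ := by
    intro q hq Q hd h0
    have h3 := Q.card_eq_multiplicity
    rw [h0, card_bot] at h3
    have h4 : 0 < (Nat.card G).factorization q := hq.out.factorization_pos_of_dvd Nat.card_pos.ne' hd
    have h5 := Nat.one_lt_pow h4.ne' hq.out.one_lt
    omega
  let R : Sylow b G := default
  obtain ⟨y, hyR, hy1, hyc⟩ := hcen R (hbot R hbG)
  have hyA : ∀ p : ℕ, p.Prime → p ∈ A → (csz y).factorization p = m.factorization p := by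
    rcases h2 y hy1 with h | h
    · exact h
    exfalso
    have h4 := h b hb hbA
    have h5 : 0 < m.factorization b := hb.factorization_pos_of_dvd hm hbm
    have h6 : (csz y).factorization b = 0 := Nat.factorization_eq_zero_of_not_dvd (hcsz R y hyc)
    omega
  have hyb : ∃ k, orderOf y = b ^ k := isPel_of_mem_sylow hyR
  apply le_antisymm
  · by_contra hlt
    push Not at hlt
    have hpG : p ∣ Nat.card G := by
      by_contra h
      rw [Nat.factorization_eq_zero_of_not_dvd h] at hlt
      omega
    have hpm : 0 < m.factorization p := by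
      by_contra h0
      apply not_dvd_card_of_not_dvd_csz hZ hp _ hpG
      intro y hd
      apply h0
      exact hp.factorization_pos_of_dvd hm (hd.trans (h1 y))
    set C := centralizer ({y} : Set G) with hC
    let P1' : Sylow p C := default
    set P1 : Subgroup G := (P1' : Subgroup C).map C.subtype with hP1
    have hP1C : P1 ≤ C := map_subtype_le _
    have hP1card : Nat.card P1 = p ^ ((Nat.card C).factorization p) := by
      rw [hP1, card_map_of_injective C.subtype_injective]; exact P1'.card_eq_multiplicity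
    have hk := factorization_csz y p
    rw [← hC, hyA p hp hpA] at hk
    have hP1p : IsPGroup p P1 := IsPGroup.of_card hP1card
    have hP1ne : P1 ≠ ⊥ := by
      intro h0
      rw [h0, card_bot] at hP1card
      have h5 := Nat.one_lt_pow (n := (Nat.card C).factorization p) (by omega) hp.one_lt
      omega
    have hall : ∀ u ∈ P1, u ≠ 1 → ∀ p : ℕ, p.Prime → p ∈ A → (csz u).factorization p = m.factorization p := by
      intro u hu hu1
      apply hcomm u y hu1
      · have := hP1C hu
        rw [hC, mem_centralizer_singleton_iff'] at this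
        exact this.symm
      · obtain ⟨k, hk⟩ := (IsPGroup.iff_orderOf.1 hP1p) ⟨u, hu⟩
        obtain ⟨l, hl⟩ := hyb
        rw [Subgroup.orderOf_mk] at hk
        rw [hk, hl]
        exact Nat.Coprime.pow _ _ ((Nat.coprime_primes hp hb).2 hpb)
      · exact hyA
    obtain ⟨P, hP⟩ := hP1p.exists_le_sylow
    haveI : Nontrivial P1 := (Subgroup.nontrivial_iff_ne_bot _).2 hP1ne
    have hcn := hP1p.center_nontrivial
    obtain ⟨u', hu'⟩ := exists_ne (1 : center P1)
    set u : G := ((u' : P1) : G) with hu
    have huP : u ∈ P1 := (u' : P1).2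
    have hu1 : u ≠ 1 := fun e => hu' (Subtype.ext (Subtype.ext e))
    have hucen : ∀ w ∈ P1, w * u = u * w := by
      intro w hw
      have := mem_center_iff.1 u'.2 ⟨w, hw⟩
      exact congrArg Subtype.val this
    obtain ⟨z, hzP, hz1, hzc⟩ := hcen P (hbot P hpG)
    have hzP1 : z ∈ P1 := by
      set D := centralizer ({u} : Set G) with hD
      have hkD := factorization_csz u p
      rw [← hD, hall u huP hu1 p hp hpA] at hkD
      have hP1D : P1 ≤ D := by
        intro w hw
        rw [hD, mem_centralizer_singleton_iff']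
        exact (hucen w hw).symm
      have hzD : z ∈ D := by
        rw [hD, mem_centralizer_singleton_iff']
        exact hzc u (hP huP)
      have hPPle : (P : Subgroup G) ⊓ D = P1 := by
        have hle : P1 ≤ (P : Subgroup G) ⊓ D := le_inf hP hP1D
        have hpg : IsPGroup p ((P : Subgroup G) ⊓ D : Subgroup G) := P.2.to_le inf_le_left
        obtain ⟨n, hn⟩ := IsPGroup.iff_card.1 hpg
        have hdvd : p ^ n ∣ Nat.card D := by rw [← hn]; exact card_dvd_of_le inf_le_right
        have hnle : n ≤ (Nat.card D).factorization p := (hp.pow_dvd_iff_le_factorization Nat.card_pos.ne').1 hdvd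
        symm
        apply Subgroup.eq_of_le_of_card_ge hle
        rw [hn, hP1card]
        apply Nat.pow_le_pow_right hp.pos
        omega
      rw [← hPPle]
      exact Subgroup.mem_inf.2 ⟨hzP, hzD⟩
    have h7 := hall z hzP1 hz1 p hp hpA
    have h8 : (csz z).factorization p = 0 := Nat.factorization_eq_zero_of_not_dvd (hcsz P z hzc)
    omega
  · have := factorization_csz y p
    rw [hyA p hp hpA] at this
    omega

theorem prime_graph_card {G M : Type*} [Group G] [Finite G] [Group M] [Finite M] (hZG : center G = ⊥) (hZM : center M = ⊥)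
    (h : Set.range (fun g : G => (centralizer ({g} : Set G)).index) = Set.range (fun g : M => (centralizer ({g} : Set M)).index))
    (hdisc : ∃ A : Set ℕ, (∃ a ∈ A, a.Prime ∧ a ∣ Nat.card M) ∧ (∃ b ∉ A, b.Prime ∧ b ∣ Nat.card M) ∧
      ∀ a ∈ A, ∀ b ∉ A, a.Prime → b.Prime → a ∣ Nat.card M → b ∣ Nat.card M → ¬ ∃ x : M, orderOf x = a * b) :
    Nat.card G = Nat.card M := by
  obtain ⟨A, ⟨a, haA, ha, haM⟩, ⟨b, hbA, hb, hbM⟩, hAB⟩ := hdisc
  have hm : Nat.card M ≠ 0 := Nat.card_pos.ne'
  have hGM : ∀ y : G, ∃ x : M, csz x = csz y := by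
    intro y
    have : csz y ∈ Set.range (fun g : M => (centralizer ({g} : Set M)).index) := by rw [← h]; exact ⟨y, rfl⟩
    obtain ⟨x, hx⟩ := this
    exact ⟨x, hx⟩
  have hMG : ∀ x : M, ∃ y : G, csz y = csz x := by
    intro y
    have : csz y ∈ Set.range (fun g : G => (centralizer ({g} : Set G)).index) := by rw [h]; exact ⟨y, rfl⟩
    obtain ⟨x, hx⟩ := this
    exact ⟨x, hx⟩
  have hpr : ∀ p : ℕ, p.Prime → p ∣ Nat.card M → p ∣ Nat.card G := by
    intro p hp hpM
    by_contra hpG
    apply not_dvd_card_of_not_dvd_csz hZM hp _ hpM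
    intro x hx
    obtain ⟨y, hy⟩ := hMG x
    apply hpG
    rw [← hy] at hx
    exact hx.trans (csz_dvd_card y)
  -- facts on M
  have key : ∀ x : M, x ≠ 1 → (∀ p : ℕ, p.Prime → p ∈ A → (csz x).factorization p = (Nat.card M).factorization p) ∨
      (∀ p : ℕ, p.Prime → p ∉ A → (csz x).factorization p = (Nat.card M).factorization p) := by
    intro x hx
    have hord : orderOf x ≠ 1 := fun e => hx (orderOf_eq_one_iff.1 e)
    obtain ⟨q, hq, hqx⟩ := Nat.exists_prime_and_dvd hord
    have hqM : q ∣ Nat.card M := hqx.trans (orderOf_dvd_natCard x)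
    have hmix : ∀ p : ℕ, p.Prime → p ≠ q → p ∣ Nat.card (centralizer ({x} : Set M)) → ∃ w : M, orderOf w = p * q := by
      intro p hp hpq hpd
      haveI : Fact p.Prime := ⟨hp⟩
      obtain ⟨v, hv⟩ := exists_prime_orderOf_dvd_card' p hpd
      have hvo : orderOf (v : M) = p := by rw [← hv]; exact Subgroup.orderOf_coe v
      have hvc : x * (v : M) = (v : M) * x := mem_centralizer_singleton_iff'.1 v.2
      set u : M := x ^ (orderOf x / q) with hu
      have huo : orderOf u = q := orderOf_pow_orderOf_div (orderOf_pos x).ne' hqx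
      have hcm : Commute (v : M) u := by
        have : Commute x (v : M) := hvc
        rw [hu]; exact (this.pow_left _).symm
      refine ⟨(v : M) * u, ?_⟩
      rw [hcm.orderOf_mul_eq_mul_orderOf_of_coprime, hvo, huo]
      rw [hvo, huo]
      exact (Nat.coprime_primes hp hq).2 hpq
    by_cases hqA : q ∈ A
    · right
      intro p hp hpA
      have hpq : p ≠ q := fun e => hpA (e ▸ hqA)
      have hnd : ¬ p ∣ Nat.card (centralizer ({x} : Set M)) := by
        intro hd
        obtain ⟨w, hw⟩ := hmix p hp hpq hd
        exact hAB q hqA p hpA hq hp hqM (hd.trans (card_subgroup_dvd_card _)) ⟨w, by rw [hw, mul_comm]⟩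
      have := factorization_csz x p
      rw [Nat.factorization_eq_zero_of_not_dvd hnd, add_zero] at this
      exact this
    · left
      intro p hp hpA
      have hpq : p ≠ q := fun e => hqA (e ▸ hpA)
      have hnd : ¬ p ∣ Nat.card (centralizer ({x} : Set M)) := by
        intro hd
        obtain ⟨w, hw⟩ := hmix p hp hpq hd
        exact hAB p hpA q hqA hp hq (hd.trans (card_subgroup_dvd_card _)) hqM ⟨w, hw⟩
      have := factorization_csz x p
      rw [Nat.factorization_eq_zero_of_not_dvd hnd, add_zero] at this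
      exact this
  have hlt : ∀ x : M, csz x ≠ Nat.card M := by
    intro x hx
    have h1 := csz_mul_card x
    rw [hx] at h1
    have h2 : Nat.card (centralizer ({x} : Set M)) = 1 := by
      have h3 : Nat.card M * Nat.card (centralizer ({x} : Set M)) = Nat.card M * 1 := by rw [h1, mul_one]
      exact Nat.eq_of_mul_eq_mul_left Nat.card_pos h3
    have h3 : centralizer ({x} : Set M) = ⊥ := Subgroup.eq_bot_of_card_eq _ h2
    have h4 : x ∈ centralizer ({x} : Set M) := by rw [mem_centralizer_singleton_iff']
    rw [h3, mem_bot] at h4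
    rw [h4, csz_one] at hx
    have : a ∣ 1 := by rw [hx]; exact haM
    exact ha.one_lt.ne' (Nat.dvd_one.1 this)
  have hy1 : ∀ y : G, csz y ∣ Nat.card M := by
    intro y
    obtain ⟨x, hx⟩ := hGM y
    rw [← hx]; exact csz_dvd_card x
  have hy2 : ∀ y : G, y ≠ 1 → (∀ p : ℕ, p.Prime → p ∈ A → (csz y).factorization p = (Nat.card M).factorization p) ∨
      (∀ p : ℕ, p.Prime → p ∉ A → (csz y).factorization p = (Nat.card M).factorization p) := by
    intro y hy
    obtain ⟨x, hx⟩ := hGM y
    rw [← hx]
    apply key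
    intro hx1
    rw [hx1, csz_one] at hx
    have : y ∈ center G := csz_eq_one_iff.1 hx.symm
    rw [hZG, mem_bot] at this
    exact hy this
  have hy3 : ∀ y : G, csz y ≠ Nat.card M := by
    intro y hy
    obtain ⟨x, hx⟩ := hGM y
    exact hlt x (hx.trans hy)
  apply Nat.eq_of_factorization_eq Nat.card_pos.ne' hm
  intro p
  by_cases hp : p.Prime
  · by_cases hpA : p ∈ A
    · exact factorization_le_of_disconnected hZG hm A hy1 hy2 hy3 hb hbA hbM (hpr b hb hbM) hp hpA
    · refine factorization_le_of_disconnected hZG hm Aᶜ hy1 ?_ hy3 ha (fun h => h haA) haM (hpr a ha haM) hp hpA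
      intro y hy
      rcases hy2 y hy with h | h
      · right
        intro q hq hqA
        exact h q hq (not_not.1 hqA)
      · left
        intro q hq hqA
        exact h q hq hqA
  · rw [Nat.factorization_eq_zero_of_not_prime _ hp, Nat.factorization_eq_zero_of_not_prime _ hp]

end CfsgH2
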