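import Mathlib
import Cfsg.Agent.H1.ConjAct
import Cfsg.Agent.H1.CopExtra
import Cfsg.Agent.H1.PGrp2
import Cfsg.Agent.H2.SameOrdSolv
import Cfsg.Agent.H2.PiCount

set_option autoImplicit false

/-! # Solvable groups with self-normalizing nonabelian subgroups (helper2 library) -/

namespace CfsgH2

open Subgroup Cfsg
open scoped commutatorElement Pointwise

universe u v

/-- solvable groups have normal subgroups of prime index -/
theorem exists_normal_prime_index {G : Type u} [Group G] [Finite G] [Nontrivial G] [Group.IsSolvable G] :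
    ∃ (M : Subgroup G) (p : ℕ), M.Normal ∧ p.Prime ∧ M.index = p := by
  have h1 : _root_.commutator G ≠ ⊤ := (Group.IsSolvable.commutator_lt_top_of_nontrivial G).ne
  obtain ⟨M, hM, hMc⟩ := (eq_top_or_exists_le_coatom (_root_.commutator G)).resolve_left h1
  haveI hMn : M.Normal := ⟨fun x hx g => by
    have h2 : ⁅g, x⁆ ∈ M := hMc (Subgroup.commutator_mem_commutator (mem_top _) (mem_top _))
    have h3 := M.mul_mem h2 hx
    rwa [commutatorElement_def, inv_mul_cancel_right] at h3⟩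
  have hMi : M.index ≠ 1 := by rw [Ne, Subgroup.index_eq_one]; exact hM.1
  obtain ⟨p, hp, hpd⟩ := Nat.exists_prime_and_dvd hMi
  haveI : Fact p.Prime := ⟨hp⟩
  rw [Subgroup.index_eq_card] at hpd
  obtain ⟨y, hy⟩ := exists_prime_orderOf_dvd_card' (G := G ⧸ M) p hpd
  refine ⟨M, p, hMn, hp, ?_⟩
  have h2 : zpowers y = ⊤ := by
    have h3 : M < (zpowers y).comap (QuotientGroup.mk' M) := by
      refine lt_of_le_of_ne ?_ ?_
      · intro g hg
        rw [mem_comap, QuotientGroup.mk'_apply, (QuotientGroup.eq_one_iff g).2 hg]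
        exact one_mem _
      · intro h4
        obtain ⟨g, rfl⟩ := QuotientGroup.mk_surjective y
        have h5 : g ∈ (zpowers (g : G ⧸ M)).comap (QuotientGroup.mk' M) := mem_zpowers _
        rw [← h4] at h5
        rw [(QuotientGroup.eq_one_iff g).2 h5, orderOf_one] at hy
        exact hp.one_lt.ne hy
    have h4 := hM.2 _ h3
    have h5 := Subgroup.map_comap_eq_self_of_surjective (QuotientGroup.mk'_surjective M) (zpowers y)
    rw [h4, Subgroup.map_top_of_surjective _ (QuotientGroup.mk'_surjective M)] at h5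
    exact h5.symm
  rw [Subgroup.index_eq_card, ← Subgroup.card_top (G := G ⧸ M), ← h2, Nat.card_zpowers, hy]

theorem selfnorm_forward {G : Type u} [Group G] [Finite G] [Group.IsSolvable G] (hnn : ¬ Group.IsNilpotent G)
    (hself : ∀ H : Subgroup G, ¬ IsMulCommutative H → Subgroup.normalizer (H : Set G) = H) :
    ∃ (x : G) (A : Subgroup G) (p : ℕ), p.Prime ∧ A.Normal ∧ IsMulCommutative A ∧ (∃ k : ℕ, orderOf x = p ^ k) ∧
      ¬ p ∣ Nat.card A ∧ (Subgroup.zpowers x).IsComplement' A ∧ x ^ p ∈ Subgroup.center G ∧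
      ∀ a : G, a ∈ A → a ≠ 1 → x * a * x⁻¹ ≠ a := by
  classical
  haveI : Nontrivial G := by
    by_contra h
    rw [not_nontrivial_iff_subsingleton] at h
    exact hnn inferInstance
  obtain ⟨M, p, hMn, hp, hMi⟩ := exists_normal_prime_index (G := G)
  haveI : Fact p.Prime := ⟨hp⟩
  have hMtop : M ≠ ⊤ := by
    intro h
    rw [h, Subgroup.index_top] at hMi
    exact hp.one_lt.ne hMi
  have hMab : ∀ x ∈ M, ∀ y ∈ M, x * y = y * x := by
    by_contra hcon
    apply hMtop
    rw [← hself M (fun h => hcon (fun x hx y hy => congrArg Subtype.val (h.is_comm.comm (⟨x, hx⟩ : M) ⟨y, hy⟩)))]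
    exact Subgroup.normalizer_eq_top_iff.2 hMn
  -- a p-element outside M
  have hpow : ∀ g : G, g ^ p ∈ M := fun g => by rw [← hMi]; exact Subgroup.pow_index_mem M g
  obtain ⟨x, hxM, k, hk⟩ : ∃ x : G, x ∉ M ∧ ∃ k, orderOf x = p ^ k := by
    obtain ⟨g, hg⟩ : ∃ g : G, g ∉ M := by
      by_contra hcon
      push Not at hcon
      exact hMtop (by rw [eq_top_iff]; intro g _; exact hcon g)
    obtain ⟨u, hu, hk⟩ := exists_lift_pelt (G := G) hp M (x := (g : G ⧸ M)) ⟨1, by
      rw [pow_one, ← QuotientGroup.mk_pow, QuotientGroup.eq_one_iff]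
      exact hpow g⟩
    refine ⟨u, ?_, hk⟩
    intro h
    apply hg
    rw [← QuotientGroup.eq_one_iff, ← hu, QuotientGroup.eq_one_iff]
    exact h
  -- the p'-part of M
  obtain ⟨v, m, hm, hvm⟩ := Nat.exists_eq_pow_mul_and_not_dvd (Nat.card_pos (α := M)).ne' p hp.ne_one
  let A : Subgroup G :=
    { carrier := {a | a ∈ M ∧ a ^ m = 1}
      one_mem' := ⟨M.one_mem, one_pow m⟩
      mul_mem' := fun {a b} ha hb => ⟨M.mul_mem ha.1 hb.1, by
        rw [(show Commute a b from hMab a ha.1 b hb.1).mul_pow, ha.2, hb.2, one_mul]⟩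
      inv_mem' := fun {a} ha => ⟨M.inv_mem ha.1, by rw [inv_pow, ha.2, inv_one]⟩ }
  have hAM : A ≤ M := fun a ha => ha.1
  haveI hAn : A.Normal := ⟨fun a ha g => ⟨hMn.conj_mem a ha.1 g, by rw [conj_pow, ha.2, mul_one, mul_inv_cancel]⟩⟩
  have hAab : ∀ a ∈ A, ∀ b ∈ A, a * b = b * a := fun a ha b hb => hMab a (hAM ha) b (hAM hb)
  have hpA : ¬ p ∣ Nat.card A := by
    intro hd
    obtain ⟨a, ha⟩ := exists_prime_orderOf_dvd_card' (G := A) p hd
    have h1 : orderOf (a : G) ∣ m := orderOf_dvd_of_pow_eq_one a.2.2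
    rw [Subgroup.orderOf_coe, ha] at h1
    exact hm h1
  have hGA : IsPGroup p (G ⧸ A) := by
    intro y
    obtain ⟨g, rfl⟩ := QuotientGroup.mk_surjective y
    refine ⟨1 + v, ?_⟩
    rw [← QuotientGroup.mk_pow, QuotientGroup.eq_one_iff]
    refine ⟨?_, ?_⟩
    · rw [pow_add, pow_one, pow_mul]
      exact M.pow_mem (hpow g) _
    · rw [pow_add, pow_one, pow_mul, ← pow_mul, ← hvm]
      have h1 : (⟨g ^ p, hpow g⟩ : M) ^ Nat.card M = 1 := pow_card_eq_one'
      exact congrArg Subtype.val h1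
  obtain ⟨n, hn⟩ := IsPGroup.iff_card.1 hGA
  have hAi : A.index = p ^ n := by rw [Subgroup.index_eq_card]; exact hn
  -- Sylow subgroup containing x
  have hxp : IsPGroup p (zpowers x) := IsPGroup.of_card (n := k) (by rw [Nat.card_zpowers, hk])
  obtain ⟨P, hP⟩ := hxp.exists_le_sylow
  have hxP : x ∈ (P : Subgroup G) := hP (mem_zpowers x)
  set T := zpowers x with hT
  have hcopTA : (Nat.card T).Coprime (Nat.card A) := by
    rw [hT, Nat.card_zpowers, hk]
    exact Nat.Coprime.pow_left _ ((Nat.Prime.coprime_iff_not_dvd hp).2 hpA)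
  have hcopPA : (Nat.card (P : Subgroup G)).Coprime (Nat.card A) := by
    obtain ⟨j, hj⟩ := IsPGroup.iff_card.1 P.2
    rw [hj]
    exact Nat.Coprime.pow_left _ ((Nat.Prime.coprime_iff_not_dvd hp).2 hpA)
  have hPc : Nat.card (P : Subgroup G) * Nat.card A = Nat.card G := by
    have h1 : (Nat.card (P : Subgroup G)) ∣ A.index := by
      have h2 : Nat.card (P : Subgroup G) ∣ Nat.card A * A.index := by
        rw [A.card_mul_index]; exact Subgroup.card_subgroup_dvd_card _
      exact hcopPA.dvd_of_dvd_mul_left h2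
    have h3 : A.index ∣ Nat.card (P : Subgroup G) := by
      have h2 : A.index ∣ Nat.card (P : Subgroup G) * (P : Subgroup G).index := by
        rw [(P : Subgroup G).card_mul_index]; exact Subgroup.index_dvd_card A
      refine Nat.Coprime.dvd_of_dvd_mul_right ?_ h2
      rw [hAi]
      exact Nat.Coprime.pow_left _ ((Nat.Prime.coprime_iff_not_dvd hp).2 P.not_dvd_index)
    rw [Nat.dvd_antisymm h1 h3, mul_comm, A.card_mul_index]
  have hcompl : (P : Subgroup G).IsComplement' A := Subgroup.isComplement'_of_coprime hPc hcopPA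
  -- fixed points
  have hTA : T ≤ normalizer (A : Set G) := le_normalizer_of_normal
  have hBsup := CfsgH1.coprime_commutator_sup hTA hcopTA (Or.inl inferInstance)
  have hBinf := CfsgH1.coprime_abelian_inf hAab hTA hcopTA
  set B : Subgroup G := ⁅A, T⁆ with hB
  have hBA : B ≤ A := by
    rw [hB, ← Subgroup.le_normalizer_iff_commutator_le_left]; exact hTA
  have hTB : T ≤ normalizer (B : Set G) := Subgroup.normalizer_commutator_ge_right _ _
  have hgen : ∀ g : G, ∃ a ∈ M, ∃ t ∈ T, g = a * t := by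
    intro g
    -- G / M is generated by x
    have h1 : M ⊔ T = ⊤ := by
      have h2 : (M ⊔ T).index ∣ p := by rw [← hMi]; exact Subgroup.index_dvd_of_le le_sup_left
      rcases (Nat.dvd_prime hp).1 h2 with h3 | h3
      · exact Subgroup.index_eq_one.1 h3
      · exfalso
        have h4 : M ⊔ T = M := by
          symm
          apply Subgroup.eq_of_le_of_card_ge le_sup_left
          have h5 := (M ⊔ T).card_mul_index
          rw [← M.card_mul_index, h3, hMi] at h5
          exact (Nat.eq_of_mul_eq_mul_right hp.pos h5).le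
        apply hxM
        rw [← h4]
        exact (le_sup_right : T ≤ M ⊔ T) (mem_zpowers x)
    have h2 : g ∈ M ⊔ T := by rw [h1]; exact mem_top g
    obtain ⟨a, ha, t, ht, rfl⟩ := Subgroup.mem_sup_of_normal_left.1 h2
    exact ⟨a, ha, t, ht, rfl⟩
  have hCb : A ⊓ centralizer (T : Set G) ≠ A := by
    intro h1
    apply hnn
    have hcen : A ≤ center G := by
      intro a ha
      rw [mem_center_iff]
      intro g
      obtain ⟨b, hb, t, ht, rfl⟩ := hgen g
      have h2 : a ∈ A ⊓ centralizer (T : Set G) := by rw [h1]; exact ha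
      have h3 := mem_centralizer_iff.1 h2.2 t ht
      rw [mul_assoc, h3, ← mul_assoc, hMab b hb a (hAM ha), mul_assoc]
    haveI := hGA.isNilpotent
    exact Subgroup.isNilpotent_of_ker_le_center (QuotientGroup.mk' A) (by rw [QuotientGroup.ker_mk']; exact hcen)
  have hBb : B ≠ ⊥ := by
    intro h1
    rw [h1, bot_sup_eq] at hBsup
    exact hCb hBsup
  have hHna : ¬ IsMulCommutative (B ⊔ T : Subgroup G) := by
    intro h1
    apply hBb
    rw [eq_bot_iff, ← hBinf]
    intro b hb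
    refine ⟨⟨hBA hb, ?_⟩, hb⟩
    show b ∈ centralizer (T : Set G)
    rw [mem_centralizer_iff]
    intro t ht
    exact congrArg Subtype.val (h1.is_comm.comm (⟨t, (le_sup_right : T ≤ B ⊔ T) ht⟩ : (B ⊔ T : Subgroup G)) ⟨b, (le_sup_left : B ≤ B ⊔ T) hb⟩)
  have hHs := hself _ hHna
  have hAT : A ⊓ T = ⊥ := (Subgroup.disjoint_of_coprime_natCard hcopTA.symm).eq_bot
  have hCbot : A ⊓ centralizer (T : Set G) = ⊥ := by
    rw [eq_bot_iff]
    rintro c ⟨hcA, hcT⟩
    have hcH : c ∈ B ⊔ T := by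
      rw [← hHs]
      apply Subgroup.centralizer_le_normalizer
      rw [mem_centralizer_iff]
      have h2 : B ⊔ T ≤ centralizer {c} := by
        refine sup_le ?_ ?_
        · intro b hb
          exact mem_centralizer_singleton_iff'.2 (hAab c hcA b (hBA hb))
        · intro t ht
          exact mem_centralizer_singleton_iff'.2 (mem_centralizer_iff.1 hcT t ht).symm
      intro h hh
      exact (mem_centralizer_singleton_iff'.1 (h2 hh)).symm
    rw [sup_comm] at hcH
    obtain ⟨t, ht, b, hb, htb⟩ := CfsgH1.mem_sup_of_le_normalizer hTB |>.1 hcH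
    have ht1 : t = 1 := by
      have h3 : t ∈ A ⊓ T := ⟨by
        have h4 : t = c * b⁻¹ := by rw [← htb]; group
        rw [h4]
        exact A.mul_mem hcA (A.inv_mem (hBA hb)), ht⟩
      rw [hAT, mem_bot] at h3
      exact h3
    rw [ht1, one_mul] at htb
    rw [← htb] at hcA hcT ⊢
    rw [← hBinf]
    exact ⟨⟨hcA, hcT⟩, hb⟩
  have hBeq : B = A := by rw [hCbot, sup_bot_eq] at hBsup; exact hBsup
  rw [hBeq] at hHs
  -- T is self-normalizing in P
  have hTP : T = (P : Subgroup G) := by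
    by_contra hne
    have h1 := CfsgH1.lt_inf_normalizer_of_nilpotent P.2.isNilpotent hP hne
    apply h1.not_ge
    rintro y ⟨hyP, hyN⟩
    have h2 : y ∈ A ⊔ T := by
      rw [← hHs]
      apply Subgroup.mem_normalizer_fintype
      have h3 : A ⊔ T ≤ (A ⊔ T).comap (MulAut.conj y).toMonoidHom := by
        refine sup_le ?_ ?_
        · intro a ha
          exact (le_sup_left : A ≤ A ⊔ T) (hAn.conj_mem a ha y)
        · intro t ht
          exact (le_sup_right : T ≤ A ⊔ T) ((Subgroup.mem_normalizer_iff.1 hyN t).1 ht)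
      intro n hn
      exact h3 hn
    rw [sup_comm] at h2
    obtain ⟨t, ht, a, ha, hta⟩ := CfsgH1.mem_sup_of_le_normalizer hTA |>.1 h2
    have ha1 : a = 1 := by
      have h3 : a ∈ (P : Subgroup G) ⊓ A := ⟨by
        have h4 : a = t⁻¹ * y := by rw [← hta]; group
        rw [h4]
        exact (P : Subgroup G).mul_mem ((P : Subgroup G).inv_mem (hP ht)) hyP, ha⟩
      rw [hcompl.disjoint.eq_bot, mem_bot] at h3
      exact h3
    rw [← hta, ha1, mul_one]
    exact ht
  refine ⟨x, A, p, hp, hAn, ⟨⟨fun a b => Subtype.ext (hAab a a.2 b b.2)⟩⟩, ⟨k, hk⟩, hpA, ?_, ?_, ?_⟩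
  · rw [← hT, hTP]; exact hcompl
  · rw [mem_center_iff]
    intro g
    obtain ⟨b, hb, t, ht, rfl⟩ := hgen g
    have h3 : t * x ^ p = x ^ p * t := by
      obtain ⟨j, rfl⟩ := ht
      exact (((Commute.refl x).zpow_left j).pow_right p).eq
    rw [mul_assoc, h3, ← mul_assoc, hMab b hb _ (hpow x), mul_assoc]
  · intro a ha ha1 hxa
    apply ha1
    have h3 : a ∈ A ⊓ centralizer (T : Set G) := by
      refine ⟨ha, ?_⟩
      have h4 : T ≤ centralizer {a} := by
        rw [hT, zpowers_le, mem_centralizer_singleton_iff']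
        exact (mul_inv_eq_iff_eq_mul.1 hxa).symm
      show a ∈ centralizer (T : Set G)
      rw [mem_centralizer_iff]
      intro t ht
      exact (mem_centralizer_singleton_iff'.1 (h4 ht)).symm
    rw [hCbot, mem_bot] at h3
    exact h3

theorem selfnorm_backward {G : Type u} [Group G] [Finite G] {x : G} {A : Subgroup G} {p : ℕ} (hp : p.Prime) [hAn : A.Normal]
    (hAab : ∀ a ∈ A, ∀ b ∈ A, a * b = b * a) (hk : ∃ k : ℕ, orderOf x = p ^ k)
    (hc : (Subgroup.zpowers x).IsComplement' A) (hxc : x ^ p ∈ Subgroup.center G)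
    (hfpf : ∀ a : G, a ∈ A → a ≠ 1 → x * a * x⁻¹ ≠ a) (H : Subgroup G) (hH : ¬ IsMulCommutative H) :
    Subgroup.normalizer (H : Set G) = H := by
  obtain ⟨k, hk⟩ := hk
  have hgen : ∀ g : G, ∃ t ∈ zpowers x, ∃ a ∈ A, g = t * a := by
    intro g
    have h1 : g ∈ zpowers x ⊔ A := by rw [hc.sup_eq_top]; exact mem_top g
    obtain ⟨t, ht, a, ha, rfl⟩ := Subgroup.mem_sup_of_normal_right.1 h1
    exact ⟨t, ht, a, ha, rfl⟩
  -- H contains an element of x A
  have hxH : ∃ h ∈ H, ∃ a ∈ A, h = x * a := by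
    by_contra hcon
    apply hH
    -- all elements of H are in ⟨x^p⟩ A
    have h1 : ∀ h ∈ H, ∃ j : ℕ, ∃ a ∈ A, h = (x ^ p) ^ j * a := by
      intro h hh
      obtain ⟨t, ht, a, ha, rfl⟩ := hgen h
      rw [← mem_powers_iff_mem_zpowers] at ht
      obtain ⟨i, rfl⟩ := ht
      by_cases hpi : p ∣ i
      · obtain ⟨j, rfl⟩ := hpi
        exact ⟨j, a, ha, by rw [← pow_mul]⟩
      · exfalso
        apply hcon
        -- a power of h is in x A
        have hxm : x ∈ zpowers (x ^ i) := by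
          rw [mem_zpowers_pow_iff, hk]
          exact Nat.Coprime.pow_right _ ((Nat.Prime.coprime_iff_not_dvd hp).2 hpi).symm
        obtain ⟨j, hj⟩ := hxm
        refine ⟨(x ^ i * a) ^ j, H.zpow_mem hh j, x⁻¹ * (x ^ i * a) ^ j, ?_, by group⟩
        rw [← QuotientGroup.eq_one_iff, QuotientGroup.mk_mul, QuotientGroup.mk_inv, QuotientGroup.mk_zpow, QuotientGroup.mk_mul,
          (QuotientGroup.eq_one_iff a).2 ha, mul_one, ← QuotientGroup.mk_zpow]
        have hj' : (x ^ i) ^ j = x := hj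
        rw [hj', inv_mul_cancel]
    refine ⟨⟨fun a b => ?_⟩⟩
    apply Subtype.ext
    obtain ⟨j, a', ha', e1⟩ := h1 a a.2
    obtain ⟨l, b', hb', e2⟩ := h1 b b.2
    show (a : G) * b = b * a
    have hcj : ∀ (j : ℕ) (g : G), (x ^ p) ^ j * g = g * (x ^ p) ^ j := fun j g =>
      ((mem_center_iff.1 (pow_mem hxc j)) g).symm
    rw [e1, e2]
    calc (x ^ p) ^ j * a' * ((x ^ p) ^ l * b') = (x ^ p) ^ j * (a' * (x ^ p) ^ l) * b' := by group
      _ = (x ^ p) ^ j * ((x ^ p) ^ l * a') * b' := by rw [hcj l a']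
      _ = (x ^ p) ^ j * (x ^ p) ^ l * (a' * b') := by group
      _ = (x ^ p) ^ l * (x ^ p) ^ j * (b' * a') := by rw [hAab a' ha' b' hb', hcj j ((x ^ p) ^ l)]
      _ = (x ^ p) ^ l * ((x ^ p) ^ j * b') * a' := by group
      _ = (x ^ p) ^ l * (b' * (x ^ p) ^ j) * a' := by rw [hcj j b']
      _ = (x ^ p) ^ l * b' * ((x ^ p) ^ j * a') := by group
  obtain ⟨h, hhH, a1, ha1, hha⟩ := hxH
  -- conjugation by h on A is conjugation by x
  have hconj : ∀ a ∈ A, h * a * h⁻¹ = x * a * x⁻¹ := by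
    intro a ha
    rw [hha]
    calc x * a1 * a * (x * a1)⁻¹ = x * (a1 * a) * a1⁻¹ * x⁻¹ := by group
      _ = x * (a * a1) * a1⁻¹ * x⁻¹ := by rw [hAab a1 ha1 a ha]
      _ = x * a * x⁻¹ := by group
  apply le_antisymm _ le_normalizer
  intro g hg
  -- g = h' a with h' in H
  obtain ⟨t, ht, a0, ha0, rfl⟩ := hgen g
  obtain ⟨i, rfl⟩ := ht
  -- t a0 = h^i a for some a in A
  obtain ⟨a, ha, hga⟩ : ∃ a ∈ A, x ^ i * a0 = h ^ i * a := by
    refine ⟨(h ^ i)⁻¹ * (x ^ i * a0), ?_, by group⟩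
    rw [← QuotientGroup.eq_one_iff]
    have h1 : (h : G ⧸ A) = (x : G ⧸ A) := by
      rw [hha, QuotientGroup.mk_mul, (QuotientGroup.eq_one_iff a1).2 ha1, mul_one]
    rw [QuotientGroup.mk_mul, QuotientGroup.mk_inv, QuotientGroup.mk_zpow, QuotientGroup.mk_mul, QuotientGroup.mk_zpow, h1,
      (QuotientGroup.eq_one_iff a0).2 ha0, mul_one, inv_mul_cancel]
  have hga' : x ^ i * a0 = h ^ i * a := hga
  show x ^ i * a0 ∈ H
  rw [hga']
  apply H.mul_mem (H.zpow_mem hhH i)
  have haN : a ∈ normalizer (H : Set G) := by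
    have h1 : a = (h ^ i)⁻¹ * (x ^ i * a0) := by rw [hga']; group
    rw [h1]
    exact Subgroup.mul_mem _ (Subgroup.inv_mem _ (le_normalizer (H.zpow_mem hhH i))) hg
  -- φ(a) = a x a⁻¹ x⁻¹ ∈ H ⊓ A
  let φ : ((H ⊓ A : Subgroup G)) → ((H ⊓ A : Subgroup G)) := fun b => ⟨(b : G) * (h * (b : G)⁻¹ * h⁻¹),
    H.mul_mem b.2.1 (H.mul_mem (H.mul_mem hhH (H.inv_mem b.2.1)) (H.inv_mem hhH)),
    A.mul_mem b.2.2 (hAn.conj_mem _ (A.inv_mem b.2.2) h)⟩
  have hkey : ∀ b ∈ A, ∀ c ∈ A, b * (h * b⁻¹ * h⁻¹) = c * (h * c⁻¹ * h⁻¹) → b = c := by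
    intro b hb c hc hbc
    by_contra hne
    have h1 : c⁻¹ * b ≠ 1 := fun h2 => hne (inv_mul_eq_one.1 h2).symm
    apply hfpf (c⁻¹ * b) (A.mul_mem (A.inv_mem hc) hb) h1
    rw [← hconj _ (A.mul_mem (A.inv_mem hc) hb)]
    have h2 : c⁻¹ * b = (h * c⁻¹ * h⁻¹) * (h * b * h⁻¹) := by
      have h3 : c⁻¹ * (b * (h * b⁻¹ * h⁻¹)) * (h * b * h⁻¹) = c⁻¹ * (c * (h * c⁻¹ * h⁻¹)) * (h * b * h⁻¹) := by rw [hbc]
      calc c⁻¹ * b = c⁻¹ * (b * (h * b⁻¹ * h⁻¹)) * (h * b * h⁻¹) := by group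
        _ = c⁻¹ * (c * (h * c⁻¹ * h⁻¹)) * (h * b * h⁻¹) := h3
        _ = _ := by group
    calc h * (c⁻¹ * b) * h⁻¹ = (h * c⁻¹ * h⁻¹) * (h * b * h⁻¹) := by group
      _ = c⁻¹ * b := h2.symm
  have hφ : Function.Injective φ := by
    intro b c hbc
    exact Subtype.ext (hkey b b.2.2 c c.2.2 (congrArg Subtype.val hbc))
  have hφs : Function.Surjective φ := Finite.surjective_of_injective hφ
  have hmem : a * (h * a⁻¹ * h⁻¹) ∈ H ⊓ A := by
    refine ⟨?_, A.mul_mem ha (hAn.conj_mem _ (A.inv_mem ha) h)⟩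
    have h1 : a * (h * a⁻¹ * h⁻¹) = (a * h * a⁻¹) * h⁻¹ := by group
    rw [h1]
    exact H.mul_mem ((Subgroup.mem_normalizer_iff.1 haN h).1 hhH) (H.inv_mem hhH)
  obtain ⟨b, hb⟩ := hφs ⟨_, hmem⟩
  have h1 := hkey b b.2.2 a ha (congrArg Subtype.val hb)
  rw [← h1]
  exact b.2.1

end CfsgH2
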