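import Cfsg.Agent.H2.SqFree2
import Cfsg.Agent.H2.TIHall

/-! # Square-free class sizes II (helper2 library) -/

set_option autoImplicit false

open scoped commutatorElement Pointwise

namespace CfsgH2

open Subgroup CfsgH3

universe u

theorem two_colour {ι α β : Type*} {L : ι → α} {C : ι → β} (h : ∀ i j, L i = L j ∨ C i = C j) :
    (∀ i j, L i = L j) ∨ (∀ i j, C i = C j) := by
  by_contra hcon
  rw [not_or] at hcon
  push Not at hcon
  obtain ⟨⟨i, j, hij⟩, ⟨k, l, hkl⟩⟩ := hcon
  have h1 := (h i j).resolve_left hij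
  have h2 := (h k l).resolve_right hkl
  by_cases h3 : C k = C i
  · have h4 : C l ≠ C i := fun h => hkl (h3.trans h.symm)
    have h5 := (h l i).resolve_right h4
    have h6 := (h l j).resolve_right (fun h => h4 (h.trans h1.symm))
    exact hij (h5.symm.trans h6)
  · have h5 := (h k i).resolve_right h3
    have h6 := (h k j).resolve_right (fun h => h3 (h.trans h1.symm))
    exact hij (h5.symm.trans h6)

theorem eq_of_card_prime_of_mem {G : Type*} [Group G] {p : ℕ} (hp : p.Prime) {H K : Subgroup G} (hH : Nat.card H = p)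
    (hK : Nat.card K = p) {z : G} (hzH : z ∈ H) (hzK : z ∈ K) (hz : z ≠ 1) : H = K := by
  haveI : Finite H := Nat.finite_of_card_ne_zero (by rw [hH]; exact hp.ne_zero)
  haveI : Finite K := Nat.finite_of_card_ne_zero (by rw [hK]; exact hp.ne_zero)
  have key : ∀ H : Subgroup G, Nat.card H = p → Finite H → z ∈ H → zpowers z = H := by
    intro H hH _ hzH
    apply Subgroup.eq_of_le_of_card_ge (zpowers_le.2 hzH)
    rw [Nat.card_zpowers, hH]
    have h1 : orderOf z ∣ p := by rw [← hH]; exact Subgroup.orderOf_dvd_natCard _ hzH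
    rcases (Nat.dvd_prime hp).1 h1 with h2 | h2
    · exact absurd (orderOf_eq_one_iff.1 h2) hz
    · rw [h2]
  rw [← key H hH inferInstance hzH, ← key K hK inferInstance hzK]

section Refl

variable {G : Type u} [Group G] [Finite G]

/-- the map `n ↦ x n x⁻¹ n⁻¹` on an abelian normal subgroup -/
def phi (N : Subgroup G) [hN : N.Normal] (hab : ∀ x ∈ N, ∀ y ∈ N, x * y = y * x) (x : G) : N →* N where
  toFun n := ⟨x * n * x⁻¹ * (n : G)⁻¹, mul_mem (hN.conj_mem _ n.2 x) (inv_mem n.2)⟩
  map_one' := by apply Subtype.ext; simp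
  map_mul' := by
    intro n m
    apply Subtype.ext
    show x * ((n : G) * m) * x⁻¹ * ((n : G) * m)⁻¹ = x * n * x⁻¹ * (n : G)⁻¹ * (x * m * x⁻¹ * (m : G)⁻¹)
    have h1 : (n : G)⁻¹ * (x * m * x⁻¹ * (m : G)⁻¹) = (x * m * x⁻¹ * (m : G)⁻¹) * (n : G)⁻¹ :=
      hab _ (inv_mem n.2) _ (mul_mem (hN.conj_mem _ m.2 x) (inv_mem m.2))
    calc x * ((n : G) * m) * x⁻¹ * ((n : G) * m)⁻¹ = x * n * x⁻¹ * ((x * m * x⁻¹ * (m : G)⁻¹) * (n : G)⁻¹) := by group
      _ = x * n * x⁻¹ * ((n : G)⁻¹ * (x * m * x⁻¹ * (m : G)⁻¹)) := by rw [h1]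
      _ = _ := by group

theorem mem_phi_ker {N : Subgroup G} [hN : N.Normal] {hab : ∀ x ∈ N, ∀ y ∈ N, x * y = y * x} {x : G} {n : N} :
    n ∈ (phi N hab x).ker ↔ x * n = n * x := by
  rw [MonoidHom.mem_ker]
  constructor
  · intro h
    have h1 : x * n * x⁻¹ * (n : G)⁻¹ = 1 := congrArg Subtype.val h
    rw [mul_inv_eq_one, mul_inv_eq_iff_eq_mul] at h1
    exact h1
  · intro h
    apply Subtype.ext
    show x * n * x⁻¹ * (n : G)⁻¹ = 1
    rw [h]; group

theorem card_phi_range {N : Subgroup G} [hN : N.Normal] (hab : ∀ x ∈ N, ∀ y ∈ N, x * y = y * x) (x : G) :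
    Nat.card (phi N hab x).range = (centralizer ({x} : Set G)).relIndex N := by
  rw [← Subgroup.index_ker, Subgroup.relIndex]
  congr 1
  ext n
  rw [mem_phi_ker, mem_subgroupOf, mem_centralizer_singleton_iff']

/-- the reflection lemma -/
theorem refl_lemma {N : Subgroup G} [hN : N.Normal] (hab : ∀ x ∈ N, ∀ y ∈ N, x * y = y * x) {p : ℕ} (hp : p.Prime)
    (h : ∀ x : G, (centralizer ({x} : Set G)).relIndex N ∣ p) :
    (∃ L₀ : Subgroup N, Nat.card L₀ ∣ p ∧ ∀ x, (phi N hab x).range ≤ L₀) ∨
    (∃ C₀ : Subgroup N, C₀.index ∣ p ∧ ∀ x, C₀ ≤ (phi N hab x).ker) := by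
  set I := {x : G // (phi N hab x).range ≠ ⊥} with hI
  by_cases hne : Nonempty I
  · obtain ⟨i₀⟩ := hne
    have hcard : ∀ i : I, Nat.card (phi N hab i.1).range = p := by
      intro i
      have h1 := h i.1
      rw [← card_phi_range hab] at h1
      rcases (Nat.dvd_prime hp).1 h1 with h2 | h2
      · exact absurd (Subgroup.eq_bot_of_card_eq _ h2) i.2
      · exact h2
    have hker : ∀ i : I, (phi N hab i.1).ker.index = p := by
      intro i
      rw [Subgroup.index_ker, hcard i]
    have key : ∀ i j : I, (phi N hab i.1).range = (phi N hab j.1).range ∨ (phi N hab i.1).ker = (phi N hab j.1).ker := by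
      rintro ⟨x, hx⟩ ⟨y, hy⟩
      by_contra hcon
      rw [not_or] at hcon
      obtain ⟨hL, hC⟩ := hcon
      have hnle : ∀ i j : I, (phi N hab i.1).ker ≠ (phi N hab j.1).ker → ∃ n ∈ (phi N hab i.1).ker, n ∉ (phi N hab j.1).ker := by
        intro i j hij
        by_contra hcon
        push Not at hcon
        apply hij
        apply Subgroup.eq_of_le_of_card_ge hcon
        have h1 := Subgroup.card_mul_index (phi N hab i.1).ker
        have h2 := Subgroup.card_mul_index (phi N hab j.1).ker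
        rw [hker] at h1 h2
        exact Nat.le_of_mul_le_mul_right (h2.trans h1.symm).le hp.pos
      obtain ⟨n, hnx, hny⟩ := hnle ⟨x, hx⟩ ⟨y, hy⟩ hC
      obtain ⟨m, hmy, hmx⟩ := hnle ⟨y, hy⟩ ⟨x, hx⟩ (Ne.symm hC)
      rw [mem_phi_ker] at hnx hmy
      set u := phi N hab y n with hu
      have hu1 : u ≠ 1 := fun h => hny (MonoidHom.mem_ker.2 h)
      have hv1 : phi N hab x m ≠ 1 := fun h => hmx (MonoidHom.mem_ker.2 h)
      have e1 : phi N hab (x * y) n = phi N hab x u * u := by
        apply Subtype.ext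
        have hu' : (u : G) = y * n * y⁻¹ * (n : G)⁻¹ := rfl
        show (x * y) * n * (x * y)⁻¹ * (n : G)⁻¹ = (x * u * x⁻¹ * (u : G)⁻¹) * u
        have h2 : x * (n : G)⁻¹ * x⁻¹ = (n : G)⁻¹ := by
          have h3 : x * (n : G) * x⁻¹ = n := by rw [hnx]; group
          calc x * (n : G)⁻¹ * x⁻¹ = (x * (n : G) * x⁻¹)⁻¹ := by group
            _ = _ := by rw [h3]
        calc (x * y) * n * (x * y)⁻¹ * (n : G)⁻¹ = (x * y) * n * (x * y)⁻¹ * (x * (n : G)⁻¹ * x⁻¹) := by rw [h2]
          _ = x * (y * n * y⁻¹ * (n : G)⁻¹) * x⁻¹ := by group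
          _ = x * u * x⁻¹ := by rw [← hu']
          _ = _ := by group
      have e2 : phi N hab (x * y) m = phi N hab x m := by
        apply Subtype.ext
        show (x * y) * m * (x * y)⁻¹ * (m : G)⁻¹ = x * m * x⁻¹ * (m : G)⁻¹
        calc (x * y) * m * (x * y)⁻¹ * (m : G)⁻¹ = x * (y * m) * y⁻¹ * x⁻¹ * (m : G)⁻¹ := by group
          _ = x * (m * y) * y⁻¹ * x⁻¹ * (m : G)⁻¹ := by rw [hmy]
          _ = _ := by group
      have hmem : phi N hab x m ∈ (phi N hab (x * y)).range := ⟨m, e2⟩
      have hxy : (phi N hab (x * y)).range ≠ ⊥ := by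
        intro h
        rw [h, mem_bot] at hmem
        exact hv1 hmem
      have h3 : (phi N hab (x * y)).range = (phi N hab x).range :=
        eq_of_card_prime_of_mem hp (hcard ⟨x * y, hxy⟩) (hcard ⟨x, hx⟩) hmem ⟨m, rfl⟩ hv1
      have h4 : phi N hab x u * u ∈ (phi N hab x).range := by
        rw [← h3, ← e1]; exact ⟨n, rfl⟩
      have h6 : phi N hab x u ∈ (phi N hab x).range := ⟨u, rfl⟩
      have h5 : u ∈ (phi N hab x).range := (Subgroup.mul_mem_cancel_left _ h6).1 h4
      exact hL (eq_of_card_prime_of_mem hp (hcard ⟨x, hx⟩) (hcard ⟨y, hy⟩) h5 ⟨n, rfl⟩ hu1)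
    rcases two_colour key with h1 | h1
    · left
      refine ⟨(phi N hab i₀.1).range, (hcard i₀).dvd, fun x => ?_⟩
      by_cases hx : (phi N hab x).range = ⊥
      · rw [hx]; exact bot_le
      · exact (h1 ⟨x, hx⟩ i₀).le
    · right
      refine ⟨(phi N hab i₀.1).ker, (hker i₀).dvd, fun x => ?_⟩
      by_cases hx : (phi N hab x).range = ⊥
      · intro n _
        rw [MonoidHom.mem_ker]
        have : phi N hab x n ∈ (phi N hab x).range := ⟨n, rfl⟩
        rwa [hx, mem_bot] at this
      · exact (h1 i₀ ⟨x, hx⟩).le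
  · left
    refine ⟨⊥, by rw [Subgroup.card_bot]; exact one_dvd _, fun x => ?_⟩
    by_contra hx
    exact hne ⟨⟨x, fun h => hx (by rw [h])⟩⟩

end Refl

/-- extension of a supersolvable group by a cyclic normal subgroup -/
theorem isSupersolvable_of_quotient {G : Type*} [Group G] {N : Subgroup G} [N.Normal] (hc : ∃ g, N = zpowers g)
    (h : Cfsg.IsSupersolvable (G ⧸ N)) : Cfsg.IsSupersolvable G := by
  obtain ⟨n, H, h0, hl, hN, hs⟩ := h
  have hsurj := QuotientGroup.mk'_surjective N
  refine ⟨n + 1, Fin.cons ⊥ (fun i => (H i).comap (QuotientGroup.mk' N)), rfl, ?_, ?_, ?_⟩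
  · rw [← Fin.succ_last, Fin.cons_succ, hl, Subgroup.comap_top]
  · intro i
    refine Fin.cases ?_ (fun j => ?_) i
    · rw [Fin.cons_zero]; infer_instance
    · rw [Fin.cons_succ]
      haveI := hN j
      infer_instance
  · intro i
    refine Fin.cases ?_ (fun j => ?_) i
    · obtain ⟨g, hg⟩ := hc
      refine ⟨g, ?_⟩
      rw [Fin.cons_succ, Fin.castSucc_zero, Fin.cons_zero, h0, MonoidHom.comap_bot, QuotientGroup.ker_mk', bot_sup_eq]
      exact hg
    · obtain ⟨g, hg⟩ := hs j
      obtain ⟨g, rfl⟩ := hsurj g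
      refine ⟨g, ?_⟩
      rw [Fin.cons_succ, ← Fin.succ_castSucc, Fin.cons_succ, hg]
      apply Subgroup.map_injective_of_ker_le (QuotientGroup.mk' N)
      · exact Subgroup.ker_le_comap _ _
      · exact (Subgroup.ker_le_comap _ _).trans le_sup_left
      · rw [Subgroup.map_comap_eq_self_of_surjective hsurj, Subgroup.map_sup,
          Subgroup.map_comap_eq_self_of_surjective hsurj, MonoidHom.map_zpowers]

theorem isSupersolvable_of_squarefree : ∀ (n : ℕ) (G : Type u) [Group G] [Finite G], Nat.card G = n →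
    (∀ x : G, Squarefree (csz x)) → Cfsg.IsSupersolvable G := by
  intro n
  induction n using Nat.strong_induction_on with
  | _ n ih =>
  intro G _ _ hn hsf
  rcases subsingleton_or_nontrivial G with hG | hG
  · exact isSupersolvable_of_subsingleton
  haveI : Group.IsSolvable G := isSolvable_of_squarefree_csz _ G rfl hsf
  obtain ⟨N, hN, hNbot, hmin, hab, p, hp, hexp, hNp⟩ := CfsgH1.exists_minNormal_pgroup (G := G)
  haveI := hN
  haveI : Fact p.Prime := ⟨hp⟩
  have hrel : ∀ x : G, (centralizer ({x} : Set G)).relIndex N ∣ p := by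
    intro x
    have h1 : (centralizer ({x} : Set G)).relIndex N ∣ csz x := relIndex_normal_dvd_index _ N
    obtain ⟨k, hk⟩ := IsPGroup.iff_card.1 hNp
    have h2 : (centralizer ({x} : Set G)).relIndex N ∣ p ^ k := by rw [← hk]; exact Subgroup.index_dvd_card _
    obtain ⟨j, -, hj⟩ := (Nat.dvd_prime_pow hp).1 h2
    rw [hj]
    have h3 : Squarefree (p ^ j) := (hsf x).squarefree_of_dvd (hj ▸ h1)
    have h4 : j ≤ 1 := by
      by_contra hcon
      push Not at hcon
      have h5 : p * p ∣ p ^ j := by rw [← pow_two]; exact pow_dvd_pow p hcon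
      exact hp.ne_one (Nat.isUnit_iff.1 (h3 p h5))
    calc p ^ j ∣ p ^ 1 := pow_dvd_pow p h4
      _ = p := pow_one p
  -- N central implies prime order
  obtain ⟨z, hzN, hz1⟩ : ∃ z ∈ N, z ≠ 1 := by
    by_contra hcon
    push Not at hcon
    exact hNbot ((Subgroup.eq_bot_iff_forall _).2 hcon)
  have hzo : orderOf z = p := orderOf_eq_prime (hexp z hzN) hz1
  have hcentral : N ≤ center G → Nat.card N ∣ p := by
    intro hc
    have h1 : (zpowers z).Normal := by
      refine ⟨fun y hy g => ?_⟩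
      have h2 : y ∈ center G := hc ((zpowers_le.2 hzN) hy)
      have h3 : g * y * g⁻¹ = y := by rw [(mem_center_iff.1 h2 g)]; group
      rw [h3]; exact hy
    rcases hmin _ h1 (zpowers_le.2 hzN) with h2 | h2
    · rw [zpowers_eq_bot] at h2; exact absurd h2 hz1
    · rw [← h2, Nat.card_zpowers, hzo]
  have hcardN : Nat.card N ∣ p := by
    rcases refl_lemma hab hp hrel with ⟨L₀, hL, hLx⟩ | ⟨C₀, hC, hCx⟩
    · have h1 : ⁅(⊤ : Subgroup G), N⁆ ≤ L₀.map N.subtype := by
        rw [Subgroup.commutator_le]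
        intro x _ n hn
        exact ⟨phi N hab x ⟨n, hn⟩, hLx x ⟨_, rfl⟩, rfl⟩
      rcases hmin ⁅(⊤ : Subgroup G), N⁆ inferInstance (Subgroup.commutator_le_right _ _) with h2 | h2
      · apply hcentral
        intro n hn
        rw [mem_center_iff]
        intro g
        exact (commutator_eq_bot_iff_forall.1 h2) g trivial n hn
      · rw [h2] at h1
        refine (Subgroup.card_dvd_of_le h1).trans ?_
        rw [Subgroup.card_map_of_injective N.subtype_injective]
        exact hL
    · have h1 : C₀.map N.subtype ≤ N ⊓ center G := by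
        rintro _ ⟨n, hn, rfl⟩
        refine Subgroup.mem_inf.2 ⟨n.2, ?_⟩
        rw [mem_center_iff]
        intro g
        exact mem_phi_ker.1 (hCx g hn)
      rcases hmin (N ⊓ center G) inferInstance inf_le_left with h2 | h2
      · rw [h2, le_bot_iff] at h1
        have h3 : C₀ = ⊥ := (Subgroup.map_eq_bot_iff_of_injective _ N.subtype_injective).1 h1
        rw [h3, Subgroup.index_bot] at hC
        exact hC
      · apply hcentral
        rw [← h2]; exact inf_le_right
  have hcardN' : Nat.card N = p := by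
    rcases (Nat.dvd_prime hp).1 hcardN with h | h
    · exact absurd (Subgroup.eq_bot_of_card_eq _ h) hNbot
    · exact h
  refine isSupersolvable_of_quotient (N := N) ⟨z, ?_⟩ ?_
  · symm
    apply Subgroup.eq_of_le_of_card_ge (zpowers_le.2 hzN)
    rw [Nat.card_zpowers, hzo, hcardN']
  · refine ih (Nat.card (G ⧸ N)) ?_ (G ⧸ N) rfl ?_
    · rw [← hn]; exact CfsgH1.card_quotient_lt hNbot
    · intro x
      obtain ⟨x, rfl⟩ := QuotientGroup.mk'_surjective N x
      exact (hsf x).squarefree_of_dvd (csz_mk_dvd N x)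

/-- the derived subgroup of a supersolvable group is nilpotent -/
theorem isNilpotent_commutator_of_isSupersolvable : ∀ (n : ℕ) (G : Type u) [Group G] [Finite G], Nat.card G = n →
    Cfsg.IsSupersolvable G → Group.IsNilpotent (commutator G) := by
  intro n
  induction n using Nat.strong_induction_on with
  | _ n ih =>
  intro G _ _ hn hG
  rcases subsingleton_or_nontrivial G with hS | hS
  · infer_instance
  obtain ⟨N, hN, hNp⟩ := IsSupersolvable.exists_normal_prime hG
  haveI := hN
  haveI : Fact (Nat.card N).Prime := ⟨hNp⟩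
  haveI : IsCyclic N := isCyclic_of_prime_card (p := Nat.card N) rfl
  have hNbot : N ≠ ⊥ := by
    rintro rfl
    rw [Subgroup.card_bot] at hNp
    exact hNp.ne_one rfl
  have h1 := ih (Nat.card (G ⧸ N)) (by rw [← hn]; exact CfsgH1.card_quotient_lt hNbot) (G ⧸ N) rfl
    (IsSupersolvable.quotient hG N)
  have h2 : ∀ x ∈ commutator G, QuotientGroup.mk' N x ∈ commutator (G ⧸ N) := by
    intro x hx
    have h3 : (commutator G).map (QuotientGroup.mk' N) ≤ commutator (G ⧸ N) := by
      rw [_root_.commutator_def, _root_.commutator_def, Subgroup.map_commutator]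
      exact commutator_mono le_top le_top
    exact h3 ⟨x, hx, rfl⟩
  let f : commutator G →* commutator (G ⧸ N) :=
    ((QuotientGroup.mk' N).comp (commutator G).subtype).codRestrict _ (fun x => h2 x x.2)
  have hcent : commutator G ≤ centralizer (N : Set G) := by
    have := commutator_le_centralizer_of_isCyclic (X := ⊤) (Z := N) inferInstance (CfsgH1.le_normalizer_of_normal ⊤ N)
    rwa [← _root_.commutator_def] at this
  haveI := h1
  refine _root_.isNilpotent_of_ker_le_center f ?_
  intro x hx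
  rw [mem_center_iff]
  intro y
  have h3 : (x : G) ∈ N := by
    rw [← QuotientGroup.eq_one_iff]
    exact congrArg Subtype.val (MonoidHom.mem_ker.1 hx)
  exact Subtype.ext ((mem_centralizer_iff.1 (hcent y.2)) x h3).symm

/-- Knoche: a `p`-group with class sizes `1, p` has derived subgroup of order dividing `p` -/
theorem knoche {p : ℕ} (hp : p.Prime) {P : Type u} [Group P] [Finite P] (hP : IsPGroup p P)
    (h : ∀ x : P, csz x ∣ p) : Nat.card (commutator P) ∣ p := by
  haveI : Fact p.Prime := ⟨hp⟩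
  have hcent : ∀ x : P, commutator P ≤ centralizer ({x} : Set P) := by
    intro x
    have h1 : IsPGroup p (⊤ : Subgroup P) := hP.to_subgroup ⊤
    have h2 := commutator_le_of_index_le h1 (le_top : centralizer ({x} : Set P) ≤ ⊤) (by
      rw [Subgroup.card_top, ← Subgroup.card_mul_index (centralizer ({x} : Set P)), mul_comm]
      exact Nat.mul_le_mul_right _ (Nat.le_of_dvd hp.pos (h x)))
    rwa [← _root_.commutator_def] at h2
  have hcomm : ∀ x y z : P, ⁅x, y⁆ * z = z * ⁅x, y⁆ := by
    intro x y z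
    have h1 : ⁅x, y⁆ ∈ commutator P := commutator_mem_commutator (mem_top x) (mem_top y)
    exact (mem_centralizer_singleton_iff'.1 (hcent z h1)).symm
  -- the homomorphisms
  have hmulr : ∀ x y z : P, ⁅x, y * z⁆ = ⁅x, y⁆ * ⁅x, z⁆ := by
    intro x y z
    calc ⁅x, y * z⁆ = x * y * x⁻¹ * (x * z * x⁻¹ * z⁻¹) * y⁻¹ := by rw [commutatorElement_def]; group
      _ = x * y * x⁻¹ * ⁅x, z⁆ * y⁻¹ := by rw [← commutatorElement_def]
      _ = x * y * x⁻¹ * (⁅x, z⁆ * y⁻¹) := by group
      _ = x * y * x⁻¹ * (y⁻¹ * ⁅x, z⁆) := by rw [hcomm]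
      _ = ⁅x, y⁆ * ⁅x, z⁆ := by rw [commutatorElement_def x y]; group
  have hmull : ∀ x y z : P, ⁅x * y, z⁆ = ⁅x, z⁆ * ⁅y, z⁆ := by
    intro x y z
    calc ⁅x * y, z⁆ = x * (y * z * y⁻¹ * z⁻¹) * z * x⁻¹ * z⁻¹ := by rw [commutatorElement_def]; group
      _ = x * ⁅y, z⁆ * z * x⁻¹ * z⁻¹ := by rw [← commutatorElement_def]
      _ = x * (⁅y, z⁆ * (z * x⁻¹ * z⁻¹)) := by group
      _ = x * ((z * x⁻¹ * z⁻¹) * ⁅y, z⁆) := by rw [hcomm]
      _ = ⁅x, z⁆ * ⁅y, z⁆ := by rw [commutatorElement_def x z]; group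
  let ψ : P → (P →* P) := fun x =>
    { toFun := fun g => ⁅x, g⁆
      map_one' := by simp
      map_mul' := fun a b => hmulr x a b }
  have hψ : ∀ x g, ψ x g = ⁅x, g⁆ := fun _ _ => rfl
  have hker : ∀ x, (ψ x).ker = centralizer ({x} : Set P) := by
    intro x
    ext g
    rw [MonoidHom.mem_ker, hψ, commutatorElement_eq_one_iff_mul_comm, mem_centralizer_singleton_iff']
  have hcard : ∀ x, Nat.card (ψ x).range = csz x := by
    intro x
    rw [← Subgroup.index_ker, hker]
  set I := {x : P // x ∉ center P} with hI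
  by_cases hne : Nonempty I
  · obtain ⟨i₀⟩ := hne
    have hcardp : ∀ i : I, csz i.1 = p := by
      intro i
      rcases (Nat.dvd_prime hp).1 (h i.1) with h1 | h1
      · exact absurd (csz_eq_one_iff.1 h1) i.2
      · exact h1
    have key : ∀ i j : I, (ψ i.1).range = (ψ j.1).range ∨ (ψ i.1).ker = (ψ j.1).ker := by
      rintro ⟨x, hx⟩ ⟨y, hy⟩
      by_contra hcon
      rw [not_or] at hcon
      obtain ⟨hL, hC⟩ := hcon
      have hnle : ∀ i j : I, (ψ i.1).ker ≠ (ψ j.1).ker → ∃ n ∈ (ψ i.1).ker, n ∉ (ψ j.1).ker := by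
        intro i j hij
        by_contra hcon
        push Not at hcon
        apply hij
        apply Subgroup.eq_of_le_of_card_ge hcon
        have h1 := Subgroup.card_mul_index (ψ i.1).ker
        have h2 := Subgroup.card_mul_index (ψ j.1).ker
        rw [Subgroup.index_ker, hcard, hcardp] at h1 h2
        exact Nat.le_of_mul_le_mul_right (h2.trans h1.symm).le hp.pos
      obtain ⟨n, hnx, hny⟩ := hnle ⟨x, hx⟩ ⟨y, hy⟩ hC
      obtain ⟨m, hmy, hmx⟩ := hnle ⟨y, hy⟩ ⟨x, hx⟩ (Ne.symm hC)
      have e1 : ψ (x * y) n = ψ y n := by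
        rw [hψ, hmull, ← hψ x, MonoidHom.mem_ker.1 hnx, one_mul]
        rfl
      have e2 : ψ (x * y) m = ψ x m := by
        rw [hψ, hmull, ← hψ y m, MonoidHom.mem_ker.1 hmy, mul_one]
        rfl
      have hu1 : ψ y n ≠ 1 := fun h => hny (MonoidHom.mem_ker.2 h)
      have hv1 : ψ x m ≠ 1 := fun h => hmx (MonoidHom.mem_ker.2 h)
      have hxy : x * y ∉ center P := by
        intro h
        apply hv1
        rw [← e2, hψ, commutatorElement_eq_one_iff_mul_comm]
        exact ((mem_center_iff.1 h) m).symm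
      have h3 : (ψ (x * y)).range = (ψ x).range :=
        eq_of_card_prime_of_mem hp ((hcard _).trans (hcardp ⟨x * y, hxy⟩)) ((hcard _).trans (hcardp ⟨x, hx⟩))
          ⟨m, e2⟩ ⟨m, rfl⟩ hv1
      have h4 : (ψ (x * y)).range = (ψ y).range :=
        eq_of_card_prime_of_mem hp ((hcard _).trans (hcardp ⟨x * y, hxy⟩)) ((hcard _).trans (hcardp ⟨y, hy⟩))
          ⟨n, e1⟩ ⟨n, rfl⟩ hu1
      exact hL (h3.symm.trans h4)
    rcases two_colour key with h1 | h1
    · have h2 : commutator P ≤ (ψ i₀.1).range := by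
        rw [_root_.commutator_def, Subgroup.commutator_le]
        intro x _ y _
        by_cases hx : x ∈ center P
        · have : ⁅x, y⁆ = 1 := by
            rw [commutatorElement_eq_one_iff_mul_comm]
            exact ((mem_center_iff.1 hx) y).symm
          rw [this]; exact one_mem _
        · rw [← h1 ⟨x, hx⟩ i₀]
          exact ⟨y, rfl⟩
      refine (Subgroup.card_dvd_of_le h2).trans ?_
      rw [hcard, hcardp]
    · exfalso
      have h2 : (ψ i₀.1).ker = ⊤ := by
        rw [eq_top_iff]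
        intro x _
        by_cases hx : x ∈ center P
        · rw [MonoidHom.mem_ker, hψ, commutatorElement_eq_one_iff_mul_comm]
          exact ((mem_center_iff.1 hx) _)
        · rw [← h1 ⟨x, hx⟩ i₀, MonoidHom.mem_ker, hψ]
          simp
      have h3 := hcardp i₀
      have h4 : csz i₀.1 = 1 := by
        show (centralizer ({i₀.1} : Set P)).index = 1
        rw [← hker, h2, Subgroup.index_top]
      rw [h4] at h3
      exact hp.ne_one h3.symm
  · have h1 : commutator P = ⊥ := by
      rw [eq_bot_iff, _root_.commutator_def, Subgroup.commutator_le]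
      intro x _ y _
      have hx : x ∈ center P := by
        by_contra hx
        exact hne ⟨⟨x, hx⟩⟩
      rw [mem_bot, commutatorElement_eq_one_iff_mul_comm]
      exact ((mem_center_iff.1 hx) y).symm
    rw [h1, Subgroup.card_bot]
    exact one_dvd _

end CfsgH2
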