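import Cfsg.Agent.H2.SqFree3
import Cfsg.Agent.H2.Fitting
import Cfsg.Agent.H1.Fit
import Cfsg.Agent.H1.PGrp2

/-! # Square-free class sizes III (helper2 library) -/

set_option autoImplicit false

open scoped commutatorElement Pointwise

namespace CfsgH2

open Subgroup CfsgH3

universe u

theorem hasNPC_of_isNilpotent (q : ℕ) [hq : Fact q.Prime] (G : Type u) [Group G] [Group.IsNilpotent G] :
    Finite G → HasNPC q G := by
  refine Group.nilpotent_center_quotient_ind (P := fun G _ _ => Finite G → HasNPC q G) G ?_ ?_
  · intro G _ _ _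
    exact hasNPC_of_coprime (by rw [Nat.card_unique]; exact Nat.coprime_one_left q)
  · intro G _ _ ih hG
    exact hasNPC_of_quotient_le_center (center G) le_rfl (ih inferInstance)

section ClaimV

variable {q : ℕ} [hq : Fact q.Prime] {G : Type u} [Group G] [Finite G]

theorem card_commutator_dvd_of_isPGroup (hsq : ∀ x : G, ¬ q ^ 2 ∣ csz x) (hG' : IsPGroup q (commutator G)) :
    Nat.card (commutator G) ∣ q := by
  obtain ⟨S, hGS⟩ := hG'.exists_le_sylow
  have hcS : ∀ x y : G, ⁅x, y⁆ ∈ (S : Subgroup G) := fun x y => hGS (commutator_mem_commutator (mem_top x) (mem_top y))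
  haveI hSn : (S : Subgroup G).Normal := by
    refine ⟨fun x hx g => ?_⟩
    have h1 : g * x * g⁻¹ = ⁅g, x⁆ * x := by rw [commutatorElement_def]; group
    rw [h1]
    exact mul_mem (hcS g x) hx
  obtain ⟨m, hm⟩ := IsPGroup.iff_card.1 S.2
  have hcop : (Nat.card (S : Subgroup G)).Coprime (S : Subgroup G).index := by
    rw [hm]
    exact Nat.Coprime.pow_left m ((Nat.Prime.coprime_iff_not_dvd hq.out).2 S.not_dvd_index)
  obtain ⟨H, hH⟩ := Subgroup.exists_right_complement'_of_coprime hcop
  have hSH : (S : Subgroup G) ⊓ H = ⊥ := disjoint_iff.1 hH.disjoint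
  have hSHt : (S : Subgroup G) ⊔ H = ⊤ := hH.sup_eq_top
  have hHcard : Nat.card H = (S : Subgroup G).index := hH.symm.index_eq_card.symm
  have hHq : (Nat.card H).Coprime q := by
    rw [hHcard]
    exact ((Nat.Prime.coprime_iff_not_dvd hq.out).2 S.not_dvd_index).symm
  have hHab : ∀ a ∈ H, ∀ b ∈ H, a * b = b * a := by
    intro a ha b hb
    have h1 : ⁅a, b⁆ ∈ (S : Subgroup G) ⊓ H :=
      Subgroup.mem_inf.2 ⟨hcS a b, by rw [commutatorElement_def]; exact mul_mem (mul_mem (mul_mem ha hb) (inv_mem ha)) (inv_mem hb)⟩
    rw [hSH, mem_bot] at h1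
    exact commutatorElement_eq_one_iff_mul_comm.1 h1
  have hdec : ∀ g : G, ∃ s ∈ (S : Subgroup G), ∃ a ∈ H, g = s * a := by
    intro g
    have h1 : g ∈ (S : Subgroup G) ⊔ H := by rw [hSHt]; trivial
    obtain ⟨s, hs, a, ha, h⟩ := Subgroup.mem_sup_of_normal_left.1 h1
    exact ⟨s, hs, a, ha, h.symm⟩
  have hrel : ∀ y : G, (centralizer ({y} : Set G)).relIndex (S : Subgroup G) ∣ q := by
    intro y
    have h1 : (centralizer ({y} : Set G)).relIndex (S : Subgroup G) ∣ csz y := relIndex_normal_dvd_index _ _
    have h2 : (centralizer ({y} : Set G)).relIndex (S : Subgroup G) ∣ q ^ m := by rw [← hm]; exact Subgroup.index_dvd_card _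
    obtain ⟨j, -, hj⟩ := (Nat.dvd_prime_pow hq.out).1 h2
    rw [hj]
    have h4 : j ≤ 1 := by
      by_contra hcon
      push Not at hcon
      exact hsq y ((pow_dvd_pow q hcon).trans (hj ▸ h1))
    calc q ^ j ∣ q ^ 1 := pow_dvd_pow q h4
      _ = q := pow_one q
  have hrelcard : ∀ y : G, Nat.card ↥((S : Subgroup G) ⊓ centralizer ({y} : Set G)) * (centralizer ({y} : Set G)).relIndex (S : Subgroup G) = Nat.card (S : Subgroup G) := by
    intro y
    have := Subgroup.relIndex_mul_relIndex (⊥ : Subgroup G) (centralizer ({y} : Set G) ⊓ S) S bot_le inf_le_right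
    simp only [Subgroup.relIndex_bot_left] at this
    rw [← this, Subgroup.inf_relIndex_right, inf_comm]
  by_cases hHS : H ≤ centralizer ((S : Subgroup G) : Set G)
  · -- G = S × H
    have h1 : commutator G ≤ ⁅(S : Subgroup G), (S : Subgroup G)⁆ := by
      rw [_root_.commutator_def, Subgroup.commutator_le]
      intro x _ y _
      obtain ⟨s, hs, a, ha, rfl⟩ := hdec x
      obtain ⟨t, ht, b, hb, rfl⟩ := hdec y
      have e1 : a * t = t * a := ((mem_centralizer_iff.1 (hHS ha)) t ht).symm
      have e2 : b * s = s * b := ((mem_centralizer_iff.1 (hHS hb)) s hs).symm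
      have e3 : a * b = b * a := hHab a ha b hb
      have e4 : b * t = t * b := ((mem_centralizer_iff.1 (hHS hb)) t ht).symm
      have e5 : a * s = s * a := ((mem_centralizer_iff.1 (hHS ha)) s hs).symm
      have h2 : ⁅s * a, t * b⁆ = ⁅s, t⁆ := by
        have c1 : Commute a t := e1
        have c2 : Commute b s := e2
        have c3 : Commute a b := e3
        have c4 : Commute b t := e4
        have c5 : Commute a s := e5
        have f1 : (s * a) * (t * b) = (s * t) * (a * b) := by
          calc (s * a) * (t * b) = s * (a * t) * b := by group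
            _ = s * (t * a) * b := by rw [e1]
            _ = _ := by group
        have f2 : (t * b) * (s * a) = (t * s) * (a * b) := by
          calc (t * b) * (s * a) = t * (b * s) * a := by group
            _ = t * (s * b) * a := by rw [e2]
            _ = (t * s) * (b * a) := by group
            _ = _ := by rw [e3]
        have f3 : ⁅s * a, t * b⁆ = ((s * a) * (t * b)) * ((t * b) * (s * a))⁻¹ := by rw [commutatorElement_def]; group
        rw [f3, f1, f2, commutatorElement_def]
        group
      rw [h2]
      exact commutator_mem_commutator hs ht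
    refine (Subgroup.card_dvd_of_le h1).trans ?_
    have h2 := knoche hq.out (P := (S : Subgroup G)) S.2 (fun x => by rw [csz_subtype]; exact hrel x)
    have h3 : (commutator (S : Subgroup G)).map (S : Subgroup G).subtype = ⁅(S : Subgroup G), (S : Subgroup G)⁆ := by
      rw [_root_.commutator_def, Subgroup.map_commutator, ← MonoidHom.range_eq_map, Subgroup.range_subtype]
    rw [← h3, Subgroup.card_map_of_injective (S : Subgroup G).subtype_injective]
    exact h2
  · obtain ⟨h, hhH, hhS⟩ := SetLike.not_le_iff_exists.1 hHS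
    set A := zpowers h with hA
    have hcA : centralizer (A : Set G) = centralizer ({h} : Set G) := by
      rw [hA, zpowers_eq_closure, Subgroup.centralizer_closure]
    set C := (S : Subgroup G) ⊓ centralizer ({h} : Set G) with hC
    have hCS : C ≤ (S : Subgroup G) := inf_le_left
    have hAS : A ≤ normalizer ((S : Subgroup G) : Set G) := CfsgH1.le_normalizer_of_normal A S
    have hAc : (Nat.card A).Coprime (Nat.card (S : Subgroup G)) := by
      rw [hm]
      refine Nat.Coprime.pow_right m (Nat.Coprime.coprime_dvd_left ?_ hHq)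
      exact Subgroup.card_dvd_of_le (zpowers_le.2 hhH)
    have hSsolv : Group.IsSolvable A ∨ Group.IsSolvable (S : Subgroup G) := Or.inl inferInstance
    -- index
    have hCrel : (centralizer ({h} : Set G)).relIndex (S : Subgroup G) = q := by
      rcases (Nat.dvd_prime hq.out).1 (hrel h) with h1 | h1
      · exfalso
        rw [Subgroup.relIndex_eq_one] at h1
        apply hhS
        rw [mem_centralizer_iff]
        intro y hy
        exact (mem_centralizer_singleton_iff'.1 (h1 hy)).symm
      · exact h1
    have hcardS : Nat.card C * q = Nat.card (S : Subgroup G) := by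
      rw [← hrelcard h, hCrel]
    have hSC : ⁅(S : Subgroup G), (S : Subgroup G)⁆ ≤ C :=
      commutator_le_of_index_le S.2 hCS (by rw [← hcardS, mul_comm])
    have hSNC : (S : Subgroup G) ≤ normalizer (C : Set G) := by
      rw [CfsgH1.le_normalizer_iff_conj]
      intro s hs c hc
      have h1 : s * c * s⁻¹ = ⁅s, c⁆ * c := by rw [commutatorElement_def]; group
      rw [h1]
      exact mul_mem (hSC (commutator_mem_commutator hs (hCS hc))) hc
    have hHNC : H ≤ normalizer (C : Set G) := by
      rw [CfsgH1.le_normalizer_iff_conj]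
      intro k hk c hc
      have hc' := Subgroup.mem_inf.1 hc
      refine Subgroup.mem_inf.2 ⟨hSn.conj_mem c hc'.1 k, ?_⟩
      have h1 : h * c = c * h := mem_centralizer_singleton_iff'.1 hc'.2
      have h2 : h * k = k * h := hHab h hhH k hk
      rw [mem_centralizer_singleton_iff']
      calc h * (k * c * k⁻¹) = (h * k) * c * k⁻¹ := by group
        _ = (k * h) * c * k⁻¹ := by rw [h2]
        _ = k * (h * c) * k⁻¹ := by group
        _ = k * (c * h) * k⁻¹ := by rw [h1]
        _ = k * c * (k⁻¹ * (k * h) * k⁻¹) := by group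
        _ = k * c * (k⁻¹ * (h * k) * k⁻¹) := by rw [h2]
        _ = k * c * k⁻¹ * h := by group
    set D := ⁅(S : Subgroup G), A⁆ with hD
    have hDS : D ≤ (S : Subgroup G) := by rw [hD, ← Subgroup.le_normalizer_iff_commutator_le_left]; exact hAS
    have hDC : D ⊔ C = (S : Subgroup G) := by
      have := CfsgH1.coprime_commutator_sup hAS hAc hSsolv
      rwa [hcA] at this
    have hDA : ⁅D, A⁆ = D := CfsgH1.coprime_commutator_idem hAS hAc hSsolv
    have hSND : (S : Subgroup G) ≤ normalizer (D : Set G) := normalizer_commutator_ge_left _ _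
    have hAND : A ≤ normalizer (D : Set G) := normalizer_commutator_ge_right _ _
    have hHND : H ≤ normalizer (D : Set G) := by
      refine CfsgH1.normalizer_commutator (CfsgH1.le_normalizer_of_normal H S) ?_
      rw [CfsgH1.le_normalizer_iff_conj]
      intro k hk a ha
      have haH : a ∈ H := (zpowers_le.2 hhH) ha
      rw [hHab k hk a haH, mul_inv_cancel_right]
      exact ha
    -- D centralizes C
    have hDCcomm : ⁅D, C⁆ = ⊥ := by
      have h1 : ⁅A, C⁆ = ⊥ := by
        rw [commutator_eq_bot_iff_forall]
        intro a ha c hc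
        have h2 : c ∈ centralizer (A : Set G) := by rw [hcA]; exact (Subgroup.mem_inf.1 hc).2
        exact (mem_centralizer_iff.1 h2) a ha
      apply Subgroup.commutator_commutator_eq_bot_of_rotate
      · rw [h1, Subgroup.commutator_bot_left]
      · rw [eq_bot_iff, ← h1, Subgroup.commutator_comm A C]
        apply commutator_mono _ le_rfl
        rw [← Subgroup.le_normalizer_iff_commutator_le_left]
        exact hSNC
    have hDCc : ∀ d ∈ D, ∀ c ∈ C, d * c = c * d := commutator_eq_bot_iff_forall.1 hDCcomm
    -- D is abelian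
    have hDab : ∀ x ∈ D, ∀ y ∈ D, x * y = y * x := by
      haveI : (C.subgroupOf (S : Subgroup G)).Normal := CfsgH1.normal_subgroupOf_of_le_normalizer hSNC
      let f : D →* (S : Subgroup G) ⧸ C.subgroupOf (S : Subgroup G) :=
        (QuotientGroup.mk' (C.subgroupOf (S : Subgroup G))).comp (Subgroup.inclusion hDS)
      haveI : IsCyclic ((S : Subgroup G) ⧸ C.subgroupOf (S : Subgroup G)) := by
        apply isCyclic_of_prime_card (p := q)
        have h1 : (C.subgroupOf (S : Subgroup G)).index = q := by
          have h2 := Subgroup.card_mul_index (C.subgroupOf (S : Subgroup G))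
          rw [Nat.card_congr (Subgroup.subgroupOfEquivOfLe hCS).toEquiv, ← hcardS] at h2
          exact Nat.eq_of_mul_eq_mul_left Nat.card_pos h2
        exact h1
      have h1 : f.ker ≤ center D := by
        intro x hx
        have h2 : (x : G) ∈ C := (QuotientGroup.eq_one_iff (Subgroup.inclusion hDS x)).1 hx
        rw [mem_center_iff]
        intro y
        exact Subtype.ext (hDCc y y.2 x h2)
      have h2 := MonoidHom.isMulCommutative_of_isCyclic_of_ker_le_center f h1
      intro x hx y hy
      exact congrArg Subtype.val (h2.is_comm.comm ⟨x, hx⟩ ⟨y, hy⟩)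
    have hDcA : D ⊓ centralizer ({h} : Set G) = ⊥ := by
      have h1 := CfsgH1.coprime_abelian_inf hDab hAND (hAc.coprime_dvd_right (Subgroup.card_dvd_of_le hDS))
      rw [hDA, hcA] at h1
      rw [eq_bot_iff, ← h1]
      exact le_inf le_rfl inf_le_left
    have hDCi : D ⊓ C = ⊥ := by
      rw [eq_bot_iff, ← hDcA]
      exact inf_le_inf_left _ inf_le_right
    have hDcard : Nat.card D = q := by
      have h1 := CfsgH1.card_sup_of_disjoint (hDS.trans hSNC) hDCi
      rw [hDC, ← hcardS, mul_comm] at h1
      exact (Nat.eq_of_mul_eq_mul_right Nat.card_pos h1).symm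
    -- bound
    have hCle : ∀ y : G, Nat.card C ≤ Nat.card ↥((S : Subgroup G) ⊓ centralizer ({y} : Set G)) := by
      intro y
      have h1 := hrelcard y
      have h2 := Nat.le_of_dvd hq.out.pos (hrel y)
      rw [← hcardS] at h1
      by_contra hlt
      push Not at hlt
      have h3 : Nat.card ↥((S : Subgroup G) ⊓ centralizer ({y} : Set G)) * (centralizer ({y} : Set G)).relIndex (S : Subgroup G) ≤
          Nat.card ↥((S : Subgroup G) ⊓ centralizer ({y} : Set G)) * q := Nat.mul_le_mul_left _ h2
      have h4 : Nat.card ↥((S : Subgroup G) ⊓ centralizer ({y} : Set G)) * q < Nat.card C * q := Nat.mul_lt_mul_of_pos_right hlt hq.out.pos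
      omega
    have hHC : ∀ k ∈ H, ∀ c ∈ C, k * c = c * k := by
      intro k hk c₀ hc₀
      by_contra hne
      -- choose y
      obtain ⟨y, hyH, hyD, hyc⟩ : ∃ y ∈ H, (¬ ∀ d ∈ D, y * d = d * y) ∧ y * c₀ ≠ c₀ * y := by
        by_cases hkD : ∀ d ∈ D, k * d = d * k
        · refine ⟨h * k, mul_mem hhH hk, ?_, ?_⟩
          · intro hall
            have h1 : D ≤ D ⊓ centralizer ({h} : Set G) := by
              intro d hd
              refine Subgroup.mem_inf.2 ⟨hd, ?_⟩
              rw [mem_centralizer_singleton_iff']
              have h2 := hall d hd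
              have h3 := hkD d hd
              have h4 : (h * d) * k = (d * h) * k := by
                calc (h * d) * k = h * (d * k) := by group
                  _ = h * (k * d) := by rw [h3]
                  _ = h * k * d := by group
                  _ = d * (h * k) := h2
                  _ = _ := by group
              exact mul_right_cancel h4
            rw [hDcA, le_bot_iff] at h1
            rw [h1, Subgroup.card_bot] at hDcard
            exact hq.out.ne_one hDcard.symm
          · intro h2
            apply hne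
            have h3 : h * c₀ = c₀ * h := mem_centralizer_singleton_iff'.1 (Subgroup.mem_inf.1 hc₀).2
            have h4 : h * (k * c₀) = h * (c₀ * k) := by
              calc h * (k * c₀) = h * k * c₀ := by group
                _ = c₀ * (h * k) := h2
                _ = (c₀ * h) * k := by group
                _ = (h * c₀) * k := by rw [h3]
                _ = _ := by group
            exact mul_left_cancel h4
        · exact ⟨k, hk, hkD, hne⟩
      -- D ∩ C(y) = 1
      have h1 : D ⊓ centralizer ({y} : Set G) = ⊥ := by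
        have h2 : Nat.card ↥(D ⊓ centralizer ({y} : Set G)) ∣ q := by
          rw [← hDcard]; exact Subgroup.card_dvd_of_le inf_le_left
        rcases (Nat.dvd_prime hq.out).1 h2 with h3 | h3
        · exact Subgroup.eq_bot_of_card_eq _ h3
        · exfalso
          apply hyD
          have h4 : D ⊓ centralizer ({y} : Set G) = D :=
            Subgroup.eq_of_le_of_card_ge inf_le_left (by rw [h3, hDcard])
          intro d hd
          rw [← h4] at hd
          exact mem_centralizer_singleton_iff'.1 (Subgroup.mem_inf.1 hd).2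
      have h2 : (S : Subgroup G) ⊓ centralizer ({y} : Set G) ≤ C := by
        intro s hs
        obtain ⟨hsS, hsy⟩ := Subgroup.mem_inf.1 hs
        rw [← hDC] at hsS
        obtain ⟨d, hd, c, hc, rfl⟩ := (CfsgH1.mem_sup_of_le_normalizer (hDS.trans hSNC)).1 hsS
        have h3 : y * (d * c) = d * c * y := mem_centralizer_singleton_iff'.1 hsy
        have hyd : y * d * y⁻¹ ∈ D := (mem_normalizer_iff.1 (hHND hyH) d).1 hd
        have hyc' : y * c * y⁻¹ ∈ C := (mem_normalizer_iff.1 (hHNC hyH) c).1 hc
        have h4 : (y * d * y⁻¹) * (y * c * y⁻¹) = d * c := by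
          calc (y * d * y⁻¹) * (y * c * y⁻¹) = y * (d * c) * y⁻¹ := by group
            _ = d * c * y * y⁻¹ := by rw [h3]
            _ = _ := by group
        have h5 : d⁻¹ * (y * d * y⁻¹) = c * (y * c * y⁻¹)⁻¹ := by
          calc d⁻¹ * (y * d * y⁻¹) = d⁻¹ * ((y * d * y⁻¹) * (y * c * y⁻¹)) * (y * c * y⁻¹)⁻¹ := by group
            _ = d⁻¹ * (d * c) * (y * c * y⁻¹)⁻¹ := by rw [h4]
            _ = _ := by group
        have h6 : d⁻¹ * (y * d * y⁻¹) ∈ D ⊓ C :=
          Subgroup.mem_inf.2 ⟨mul_mem (inv_mem hd) hyd, by rw [h5]; exact mul_mem hc (inv_mem hyc')⟩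
        rw [hDCi, mem_bot, inv_mul_eq_one] at h6
        have h7 : d ∈ D ⊓ centralizer ({y} : Set G) := by
          refine Subgroup.mem_inf.2 ⟨hd, ?_⟩
          rw [mem_centralizer_singleton_iff', ← mul_inv_eq_iff_eq_mul, ← h6]
        rw [h1, mem_bot] at h7
        rw [h7, one_mul]
        exact hc
      have h3 : (S : Subgroup G) ⊓ centralizer ({y} : Set G) = C :=
        Subgroup.eq_of_le_of_card_ge h2 (hCle y)
      apply hyc
      rw [← h3] at hc₀
      exact mem_centralizer_singleton_iff'.1 (Subgroup.mem_inf.1 hc₀).2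
    -- C is abelian
    have hCab : ∀ c ∈ C, ∀ c' ∈ C, c * c' = c' * c := by
      intro c hc c' hc'
      have hch : c * h = h * c := (mem_centralizer_singleton_iff'.1 (Subgroup.mem_inf.1 hc).2).symm
      obtain ⟨a, b, hab, habc, ha, hb, haz, hbz⟩ := exists_pPart' q (c * h)
      have hoh : (orderOf h).Coprime q :=
        Nat.Coprime.coprime_dvd_left (Subgroup.orderOf_dvd_natCard H hhH) hHq
      have hoc : ∃ k, orderOf c = q ^ k := isPel_of_mem_sylow (hCS hc)
      obtain ⟨e1, e2⟩ := pPart_unique hq.out hoc hb hoh ha hch habc.symm (by rw [hab]; exact habc)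
      have h1 : (S : Subgroup G) ⊓ centralizer ({c * h} : Set G) ≤ C ⊓ centralizer ({c} : Set G) := by
        intro z hz
        obtain ⟨hzS, hz⟩ := Subgroup.mem_inf.1 hz
        have h2 : Commute (c * h) z := mem_centralizer_singleton_iff'.1 hz
        have h3 : ∀ w ∈ zpowers (c * h), Commute w z := by
          intro w hw
          obtain ⟨k, rfl⟩ := mem_zpowers_iff.1 hw
          exact h2.zpow_left k
        refine Subgroup.mem_inf.2 ⟨Subgroup.mem_inf.2 ⟨hzS, ?_⟩, ?_⟩
        · rw [mem_centralizer_singleton_iff', e2]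
          exact (h3 a haz).eq
        · rw [mem_centralizer_singleton_iff', e1]
          exact (h3 b hbz).eq
      have h2 : C ⊓ centralizer ({c} : Set G) = C := by
        apply Subgroup.eq_of_le_of_card_ge inf_le_left
        exact (hCle (c * h)).trans (Subgroup.card_le_of_le h1)
      have h3 : c' ∈ C ⊓ centralizer ({c} : Set G) := by rw [h2]; exact hc'
      exact mem_centralizer_singleton_iff'.1 (Subgroup.mem_inf.1 h3).2
    -- D is normal
    haveI hDn : D.Normal := by
      rw [← normalizer_eq_top_iff, eq_top_iff, ← hSHt]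
      exact sup_le hSND hHND
    have hfin : commutator G ≤ D := by
      rw [_root_.commutator_def, Subgroup.commutator_le]
      intro x _ y _
      have hdec2 : ∀ g : G, ∃ c ∈ C, ∃ a ∈ H, QuotientGroup.mk' D g = QuotientGroup.mk' D (c * a) := by
        intro g
        obtain ⟨s, hs, a, ha, rfl⟩ := hdec g
        have hs' := hs
        rw [← hDC] at hs'
        obtain ⟨d, hd, c, hc, rfl⟩ := (CfsgH1.mem_sup_of_le_normalizer (hDS.trans hSNC)).1 hs'
        refine ⟨c, hc, a, ha, ?_⟩
        have h1 : QuotientGroup.mk' D d = 1 := (QuotientGroup.eq_one_iff d).2 hd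
        rw [mul_assoc, map_mul, h1, one_mul]
      obtain ⟨c, hc, a, ha, hx⟩ := hdec2 x
      obtain ⟨c', hc', a', ha', hy⟩ := hdec2 y
      rw [← QuotientGroup.eq_one_iff]
      change QuotientGroup.mk' D ⁅x, y⁆ = 1
      rw [map_commutatorElement, hx, hy, ← map_commutatorElement]
      have h1 : ⁅c * a, c' * a'⁆ = 1 := by
        rw [commutatorElement_eq_one_iff_mul_comm]
        calc c * a * (c' * a') = c * (a * c') * a' := by group
          _ = c * (c' * a) * a' := by rw [hHC a ha c' hc']
          _ = (c * c') * (a * a') := by group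
          _ = (c' * c) * (a' * a) := by rw [hCab c hc c' hc', hHab a ha a' ha']
          _ = c' * (c * a') * a := by group
          _ = c' * (a' * c) * a := by rw [hHC a' ha' c hc]
          _ = c' * a' * (c * a) := by group
      rw [h1, map_one]
    rw [← hDcard]
    exact Subgroup.card_dvd_of_le hfin

end ClaimV

section Final

variable {G : Type u} [Group G] [Finite G]

theorem squarefree_card_commutator (hsf : ∀ x : G, Squarefree (csz x)) (hnil : Group.IsNilpotent (commutator G)) :
    Squarefree (Nat.card (commutator G)) := by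
  rw [Nat.squarefree_iff_prime_squarefree]
  intro q hq hdvd
  haveI : Fact q.Prime := ⟨hq⟩
  set K := commutator G with hK
  have hnpc := hasNPC_of_isNilpotent q K inferInstance
  haveI := pResidual_normal' q K
  have hcop := hasNPC_iff_card.1 hnpc
  obtain ⟨k, hk⟩ := exists_index_pResidual (p := q) (G := K)
  have hcard := Subgroup.card_mul_index (Cfsg.pResidual q K)
  set R := (Cfsg.pResidual q K).map K.subtype with hR
  haveI hRn : R.Normal := by
    refine ⟨fun x hx g => ?_⟩
    obtain ⟨y, hy, rfl⟩ := hx
    have h1 : g * y * g⁻¹ ∈ K := (inferInstance : K.Normal).conj_mem _ y.2 g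
    refine ⟨⟨g * y * g⁻¹, h1⟩, ?_, rfl⟩
    have h2 := (hnpc.mem_iff y).1 hy
    apply mem_pResidual
    rw [Subgroup.orderOf_mk]
    have h3 : orderOf (g * (y : G) * g⁻¹) = orderOf (y : G) := by
      rw [← MulAut.conj_apply]
      exact orderOf_injective (MulAut.conj g).toMonoidHom (MulAut.conj g).injective _
    rw [h3, Subgroup.orderOf_coe]
    exact h2
  have hRK : R ≤ K := by rintro _ ⟨y, -, rfl⟩; exact y.2
  have hcR : Nat.card R = Nat.card (Cfsg.pResidual q K) := Subgroup.card_map_of_injective K.subtype_injective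
  have hcommQ : commutator (G ⧸ R) = K.map (QuotientGroup.mk' R) := by
    rw [hK, _root_.commutator_def, _root_.commutator_def, Subgroup.map_commutator,
      Subgroup.map_top_of_surjective _ (QuotientGroup.mk'_surjective R)]
  have hcardQ : Nat.card (commutator (G ⧸ R)) = q ^ k := by
    rw [hcommQ]
    have h1 := CfsgH1.card_map_mul_card_ker_of_le (QuotientGroup.mk' R) K (by rw [QuotientGroup.ker_mk']; exact hRK)
    rw [QuotientGroup.ker_mk', hcR, ← hcard, hk, mul_comm] at h1
    exact Nat.eq_of_mul_eq_mul_left Nat.card_pos h1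
  have h1 : Nat.card (commutator (G ⧸ R)) ∣ q := by
    apply card_commutator_dvd_of_isPGroup
    · intro x hx
      obtain ⟨x, rfl⟩ := QuotientGroup.mk'_surjective R x
      have h2 := (hsf x).squarefree_of_dvd (csz_mk_dvd R x)
      exact hq.ne_one (Nat.isUnit_iff.1 (h2 q (by rw [← pow_two]; exact hx)))
    · exact IsPGroup.of_card hcardQ
  rw [hcardQ] at h1
  have h2 : q ^ 2 ∣ q ^ k := by
    rw [← hcard, hk] at hdvd
    refine Nat.Coprime.dvd_of_dvd_mul_left ?_ (by rw [pow_two]; exact hdvd)
    exact Nat.Coprime.pow_left 2 hcop.symm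
  have h3 := h2.trans h1
  have h4 := Nat.le_of_dvd hq.pos h3
  have h5 : q < q ^ 2 := by
    rw [pow_two]; exact lt_mul_of_one_lt_left hq.pos hq.one_lt
  omega

theorem squarefree_main (hsf : ∀ x : G, Squarefree (csz x)) :
    Cfsg.IsSupersolvable G ∧ (Cfsg.fittingSubgroup G).Normal ∧
    (∀ _h : (Cfsg.fittingSubgroup G).Normal, IsCyclic (G ⧸ Cfsg.fittingSubgroup G) ∧ Squarefree (Cfsg.fittingSubgroup G).index) ∧
    IsCyclic (commutator G) ∧ Squarefree (Nat.card (commutator G)) ∧
    Subgroup.upperCentralSeries ↥(Cfsg.fittingSubgroup G) 2 = ⊤ ∧ commutator ↥(commutator G) = ⊥ := by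
  have hss := isSupersolvable_of_squarefree _ G rfl hsf
  haveI hnil := isNilpotent_commutator_of_isSupersolvable _ G rfl hss
  have hsq := squarefree_card_commutator hsf hnil
  haveI : IsZGroup (commutator G) := IsZGroup.of_squarefree hsq
  haveI hcyc : IsCyclic (commutator G) := inferInstance
  set K := commutator G with hK
  set F := Cfsg.fittingSubgroup G with hF
  have hKab : ∀ x ∈ K, ∀ y ∈ K, x * y = y * x := by
    letI : CommGroup K := IsCyclic.commGroup
    intro x hx y hy
    exact congrArg Subtype.val (mul_comm (⟨x, hx⟩ : K) ⟨y, hy⟩)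
  -- C_G(K) is nilpotent, hence inside F
  have hCF : centralizer (K : Set G) ≤ F := by
    apply le_fittingSubgroup inferInstance
    apply CfsgH1.isNilpotent_of_commutator_le_centralizer
    rw [commutator_eq_bot_iff_forall]
    intro x hx y hy
    have h1 : x ∈ K := by
      have : ⁅centralizer (K : Set G), centralizer (K : Set G)⁆ ≤ K := by
        rw [hK, _root_.commutator_def]
        exact commutator_mono le_top le_top
      exact this hx
    exact (mem_centralizer_iff.1 hy) x h1
  -- K is central in F
  haveI hKn : K.Normal := inferInstance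
  haveI hFnil : Group.IsNilpotent F := isNilpotent_fittingSubgroup
  have hKF : K ≤ F := le_fittingSubgroup hKn hnil
  have hKcF : K ≤ centralizer (F : Set G) := by
    set Z := K ⊓ centralizer (F : Set G) with hZ
    by_contra hcon
    have hZK : Z ≤ K := inf_le_left
    have hne : Z.relIndex K ≠ 1 := by
      intro h1
      rw [Subgroup.relIndex_eq_one] at h1
      exact hcon (h1.trans inf_le_right)
    obtain ⟨q, hq, hqd⟩ := Nat.exists_prime_and_dvd hne
    haveI : Fact q.Prime := ⟨hq⟩
    have hcard := Subgroup.relIndex_mul_relIndex (⊥ : Subgroup G) Z K bot_le hZK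
    rw [Subgroup.relIndex_bot_left, Subgroup.relIndex_bot_left] at hcard
    obtain ⟨⟨x, hxK⟩, hx'⟩ := exists_prime_orderOf_dvd_card' (G := K) q (hqd.trans ⟨_, by rw [← hcard, mul_comm]⟩)
    have hx : orderOf x = q := by rw [← hx', Subgroup.orderOf_mk]
    have hx1 : x ≠ 1 := by
      rintro rfl
      rw [orderOf_one] at hx
      exact hq.ne_one hx.symm
    -- ⟨x⟩ is normal in G
    have hxn : (zpowers x).Normal := by
      rw [← normalizer_eq_top_iff, eq_top_iff]
      intro g _
      rw [mem_normalizer_iff_map_conj, MonoidHom.map_zpowers]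
      have h1 : g * x * g⁻¹ ∈ K := hKn.conj_mem x hxK g
      have h2 : orderOf (g * x * g⁻¹) = orderOf x := by
        rw [← MulAut.conj_apply]
        exact orderOf_injective (MulAut.conj g).toMonoidHom (MulAut.conj g).injective x
      have h3 : zpowers (⟨g * x * g⁻¹, h1⟩ : K) = zpowers (⟨x, hxK⟩ : K) := by
        apply zpowers_eq_of_orderOf_eq
        rw [Subgroup.orderOf_mk, Subgroup.orderOf_mk, h2]
      have h4 := congrArg (Subgroup.map K.subtype) h3
      rw [MonoidHom.map_zpowers, MonoidHom.map_zpowers] at h4
      exact h4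
    -- it meets the centre of F
    have h1 : ((zpowers x).subgroupOf F).Normal := inferInstance
    have h2 : (zpowers x).subgroupOf F ≠ ⊥ := by
      intro h3
      have h4 : (⟨x, hKF hxK⟩ : F) ∈ (zpowers x).subgroupOf F := mem_zpowers x
      rw [h3, mem_bot] at h4
      exact hx1 (congrArg Subtype.val h4)
    have h3 : (zpowers x).subgroupOf F ⊓ center F ≠ ⊥ := CfsgH1.nilpotent_normal_inf_center_ne_bot h2
    obtain ⟨w, hw, hw1⟩ : ∃ w ∈ (zpowers x).subgroupOf F ⊓ center F, w ≠ 1 := by
      by_contra hcon
      push Not at hcon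
      exact h3 ((Subgroup.eq_bot_iff_forall _).2 hcon)
    obtain ⟨hw2, hw3⟩ := Subgroup.mem_inf.1 hw
    have hwx : zpowers (w : G) = zpowers x := by
      apply eq_of_card_prime_of_mem hq (z := (w : G))
      · rw [Nat.card_zpowers]
        have h4 : orderOf (w : G) ∣ q := by rw [← hx]; exact orderOf_dvd_of_mem_zpowers hw2
        rcases (Nat.dvd_prime hq).1 h4 with h5 | h5
        · exact absurd (Subtype.ext (orderOf_eq_one_iff.1 h5)) hw1
        · exact h5
      · rw [Nat.card_zpowers, hx]
      · exact mem_zpowers _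
      · exact hw2
      · exact fun h => hw1 (Subtype.ext h)
    have hxZ : x ∈ Z := by
      refine Subgroup.mem_inf.2 ⟨hxK, ?_⟩
      have h4 : (w : G) ∈ centralizer (F : Set G) := by
        rw [mem_centralizer_iff]
        intro y hy
        exact congrArg Subtype.val ((mem_center_iff.1 hw3) ⟨y, hy⟩)
      have h5 : x ∈ zpowers (w : G) := by rw [hwx]; exact mem_zpowers x
      exact (zpowers_le.2 h4) h5
    have h4 : q ∣ Nat.card Z := by rw [← hx]; exact Subgroup.orderOf_dvd_natCard _ hxZ
    have h5 : q * q ∣ Nat.card K := by rw [← hcard]; exact Nat.mul_dvd_mul h4 hqd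
    exact hq.ne_one (Nat.isUnit_iff.1 (hsq q h5))
  have hFC : F ≤ centralizer (K : Set G) := by
    intro x hx
    rw [mem_centralizer_iff]
    intro y hy
    exact ((mem_centralizer_iff.1 (hKcF hy)) x hx).symm
  have hFeq : F = centralizer (K : Set G) := le_antisymm hFC hCF
  refine ⟨hss, inferInstance, ?_, hcyc, hsq, ?_, ?_⟩
  · intro _h
    obtain ⟨⟨d, hd⟩, hgen⟩ := hcyc.exists_generator
    have h1 : centralizer (K : Set G) = centralizer ({d} : Set G) := by
      apply le_antisymm
      · apply Subgroup.centralizer_le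
        rw [Set.singleton_subset_iff]; exact hd
      · intro y hy
        rw [mem_centralizer_iff]
        intro z hz
        obtain ⟨k, hk⟩ := mem_zpowers_iff.1 (hgen ⟨z, hz⟩)
        have h2 : d ^ k = z := congrArg Subtype.val hk
        have h3 : Commute d y := mem_centralizer_singleton_iff'.1 hy
        rw [← h2]
        exact (h3.zpow_left k).eq
    have hidx : Squarefree F.index := by
      rw [hFeq, h1]; exact hsf d
    refine ⟨?_, hidx⟩
    have h2 : IsMulCommutative (G ⧸ F) := by
      refine isMulCommutative_of_forall ?_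
      intro a b
      obtain ⟨a, rfl⟩ := QuotientGroup.mk'_surjective F a
      obtain ⟨b, rfl⟩ := QuotientGroup.mk'_surjective F b
      rw [← commutatorElement_eq_one_iff_mul_comm, ← map_commutatorElement]
      exact (QuotientGroup.eq_one_iff _).2 (hKF (commutator_mem_commutator (mem_top a) (mem_top b)))
    haveI : Group.IsNilpotent (G ⧸ F) := isNilpotent_of_isMulCommutative h2
    haveI : IsZGroup (G ⧸ F) := IsZGroup.of_squarefree hidx
    infer_instance
  · rw [eq_top_iff]
    intro x _
    rw [Subgroup.mem_upperCentralSeries_succ_iff]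
    intro y
    rw [Subgroup.upperCentralSeries_one, mem_center_iff]
    intro z
    have h1 : ((⁅x, y⁆ : F) : G) ∈ K := commutator_mem_commutator (mem_top (x : G)) (mem_top (y : G))
    exact Subtype.ext ((mem_centralizer_iff.1 (hKcF h1)) z z.2)
  · rw [eq_bot_iff, _root_.commutator_def, Subgroup.commutator_le]
    intro x _ y _
    rw [mem_bot, commutatorElement_eq_one_iff_mul_comm]
    exact Subtype.ext (hKab x x.2 y y.2)

end Final

end CfsgH2
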