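import Mathlib
import Cfsg.Agent.H2.Cores
import Cfsg.Agent.H2.Fitting
import Cfsg.Agent.H1.Zipper
import Cfsg.Agent.H1.MinNormal
import Cfsg.Agent.H3.Cores2

set_option autoImplicit false

/-! # Subnormalizers of p-subgroups (helper2 library) -/

namespace CfsgH2

open Subgroup Cfsg
open scoped Pointwise

universe u

variable {G : Type u} [Group G] [Finite G] {p : ℕ} [hp : Fact p.Prime]

theorem subnz_iff {H : Subgroup G} (hH : IsPGroup p H) (g : G) :
    (H.subgroupOf (H ⊔ zpowers g)).IsSubnormal ↔ ∃ R : Subgroup G, IsPGroup p R ∧ H ≤ R ∧ g ∈ normalizer (R : Set G) := by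
  constructor
  · intro h
    set K := H ⊔ zpowers g with hK
    have h1 : H.subgroupOf K ≤ pCore p K := IsSubnormal.le_pCore h hH.comap_subtype
    refine ⟨(pCore p K).map K.subtype, (isPGroup_pCore p).map _, ?_, ?_⟩
    · intro x hx
      have hxK : x ∈ K := (le_sup_left : H ≤ K) hx
      exact ⟨⟨x, hxK⟩, h1 hx, rfl⟩
    · have h2 := normalizer_le_normalizer_map_of_characteristic (pCore p K)
      apply h2
      apply Subgroup.le_normalizer
      exact (le_sup_right : zpowers g ≤ K) (mem_zpowers g)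
  · rintro ⟨R, hR, hHR, hg⟩
    have hKL : H ⊔ zpowers g ≤ R ⊔ zpowers g := sup_le_sup_right hHR _
    apply CfsgH1.isSubnormal_subgroupOf_of_le _ hKL
    have h2 : R ⊔ zpowers g ≤ normalizer (R : Set G) := sup_le Subgroup.le_normalizer (by rw [zpowers_le]; exact hg)
    have h3 : (R.subgroupOf (R ⊔ zpowers g)).Normal := Subgroup.normal_subgroupOf_of_le_normalizer h2
    have hRp : IsPGroup p (R.subgroupOf (R ⊔ zpowers g)) := hR.comap_subtype
    have h4 : H.subgroupOf (R ⊔ zpowers g) ≤ R.subgroupOf (R ⊔ zpowers g) := fun x hx => hHR hx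
    haveI : Group.IsNilpotent (R.subgroupOf (R ⊔ zpowers g)) := hRp.isNilpotent
    exact Subgroup.IsSubnormal.trans h4 (isSubnormal_of_isNilpotent _) h3.isSubnormal

theorem isPGroup_pCoreOf (R : Subgroup G) : IsPGroup p ((pCore p R).map R.subtype) := (isPGroup_pCore p).map _

theorem exists_radical {H : Subgroup G} {g : G} (h : ∃ R : Subgroup G, IsPGroup p R ∧ H ≤ R ∧ g ∈ normalizer (R : Set G)) :
    ∃ R : Subgroup G, H ≤ R ∧ (pCore p (normalizer (R : Set G))).map (normalizer (R : Set G)).subtype = R ∧ g ∈ normalizer (R : Set G) := by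
  obtain ⟨R, ⟨hR, hHR, hg⟩, hmax⟩ := CfsgH1.exists_maximal_of_set {R : Subgroup G | IsPGroup p R ∧ H ≤ R ∧ g ∈ normalizer (R : Set G)} h
  refine ⟨R, hHR, ?_, hg⟩
  set N := normalizer (R : Set G) with hN
  have h1 : R ≤ (pCore p N).map N.subtype := by
    have h2 : (R.subgroupOf N).Normal := Subgroup.normal_in_normalizer
    have h3 : IsPGroup p (R.subgroupOf N) :=
      hR.comap_subtype
    have h4 := le_pCore h2 h3
    intro x hx
    exact ⟨⟨x, Subgroup.le_normalizer hx⟩, h4 hx, rfl⟩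
  exact hmax _ ⟨isPGroup_pCoreOf N, hHR.trans h1,
    normalizer_le_normalizer_map_of_characteristic (pCore p N) (Subgroup.le_normalizer hg)⟩ h1

/-- a radical subgroup is an intersection of Sylow subgroups -/
theorem radical_sInf {R : Subgroup G} (h : (pCore p (normalizer (R : Set G))).map (normalizer (R : Set G)).subtype = R) :
    sInf {K : Subgroup G | ∃ Q : Sylow p G, R ≤ (Q : Subgroup G) ∧ K = (Q : Subgroup G)} = R := by
  have hR : IsPGroup p R := by rw [← h]; exact isPGroup_pCoreOf _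
  set D := sInf {K : Subgroup G | ∃ Q : Sylow p G, R ≤ (Q : Subgroup G) ∧ K = (Q : Subgroup G)} with hD
  have hRD : R ≤ D := by
    apply le_sInf
    rintro _ ⟨Q, hQ, rfl⟩
    exact hQ
  obtain ⟨Q0, hQ0⟩ := hR.exists_le_sylow
  have hDp : IsPGroup p D := Q0.2.to_le (sInf_le ⟨Q0, hQ0, rfl⟩)
  set N := normalizer (R : Set G) with hN
  have key : D ⊓ N ≤ R := by
    rintro x ⟨hxD, hxN⟩
    rw [← h]
    refine ⟨⟨x, hxN⟩, CfsgH3.mem_pCore_of_forall ?_, rfl⟩
    intro S
    obtain ⟨Q, hQ⟩ := (S.2.map N.subtype).exists_le_sylow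
    have hRS : R ≤ (S : Subgroup N).map N.subtype := by
      rw [← h]
      exact Subgroup.map_mono (CfsgH3.pCore_le_sylow S)
    have hxQ : x ∈ (Q : Subgroup G) := (sInf_le ⟨Q, hRS.trans hQ, rfl⟩ : D ≤ Q) hxD
    have h2 : (Q : Subgroup G).subgroupOf N = (S : Subgroup N) := by
      apply S.3
      · exact Q.2.comap_subtype
      · intro y hy
        exact hQ ⟨y, hy, rfl⟩
    rw [← h2]
    exact hxQ
  by_contra hne
  have hlt : R < D := lt_of_le_of_ne hRD (Ne.symm hne)
  haveI : Group.IsNilpotent D := hDp.isNilpotent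
  have hnc : NormalizerCondition D := Group.normalizerCondition_of_isNilpotent
  have h3 := hnc (R.subgroupOf D) (lt_top_iff_ne_top.2 (by
    intro h4
    rw [Subgroup.subgroupOf_eq_top] at h4
    exact hlt.not_ge h4))
  obtain ⟨y, hyN, hyR⟩ := SetLike.exists_of_lt h3
  apply hyR
  rw [mem_subgroupOf]
  apply key
  refine ⟨y.2, ?_⟩
  show (y : G) ∈ normalizer (R : Set G)
  rw [Subgroup.mem_normalizer_iff]
  rw [Subgroup.mem_normalizer_iff] at hyN
  intro r
  constructor
  · intro hr
    exact (hyN ⟨r, hRD hr⟩).1 hr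
  · intro hr
    have hrD : r ∈ D := by
      have h5 := D.mul_mem (D.mul_mem (D.inv_mem y.2) (hRD hr)) y.2
      have e : (y : G)⁻¹ * ((y : G) * r * (y : G)⁻¹) * y = r := by group
      rwa [e] at h5
    exact (hyN ⟨r, hrD⟩).2 hr

end CfsgH2
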