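import Mathlib
import Cfsg.Agent.H2.PosetWt
import Cfsg.Agent.H2.Subnz

set_option autoImplicit false

/-! # Counting subnormalizers (helper2 library) -/

namespace CfsgH2

open Subgroup Cfsg Finset
open scoped Pointwise Classical

universe u

variable {G : Type u} [Group G] [Finite G] {p : ℕ}

noncomputable def pS (p : ℕ) (M : Subgroup G) (g : G) : Finset (Subgroup G) :=
  (Set.toFinite {T : Subgroup G | T ≤ M ∧ IsPGroup p T ∧ g ∈ normalizer (T : Set G)}).toFinset

noncomputable def pT (p : ℕ) (M R : Subgroup G) : Finset (Subgroup G) :=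
  (Set.toFinite {T : Subgroup G | R < T ∧ T ≤ M ∧ IsPGroup p T}).toFinset

noncomputable def eS (M : Subgroup G) : Finset G := (Set.toFinite (M : Set G)).toFinset

theorem mem_pS {M : Subgroup G} {g : G} {T : Subgroup G} : T ∈ pS p M g ↔ T ≤ M ∧ IsPGroup p T ∧ g ∈ normalizer (T : Set G) := by
  simp [pS]

theorem mem_pT {M R T : Subgroup G} : T ∈ pT p M R ↔ R < T ∧ T ≤ M ∧ IsPGroup p T := by
  simp [pT]

theorem mem_eS {M : Subgroup G} {g : G} : g ∈ eS M ↔ g ∈ M := by
  simp [eS]

theorem card_eS (M : Subgroup G) : (eS M).card = Nat.card M := by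
  rw [eS, ← Set.ncard_eq_toFinset_card _ (Set.toFinite _)]
  rfl

noncomputable def pF (p : ℕ) (M R : Subgroup G) : ℤ := ∑ g ∈ eS M, pwt (pS p M g) R

theorem lt_inf_normalizer {R T : Subgroup G} (hT : IsPGroup p T) [hp : Fact p.Prime] (h : R < T) : R < T ⊓ normalizer (R : Set G) := by
  refine lt_of_le_of_ne (le_inf h.le Subgroup.le_normalizer) ?_
  intro he
  haveI : Group.IsNilpotent T := hT.isNilpotent
  have hnc : NormalizerCondition T := Group.normalizerCondition_of_isNilpotent
  have h3 := hnc (R.subgroupOf T) (lt_top_iff_ne_top.2 (by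
    intro h4
    rw [Subgroup.subgroupOf_eq_top] at h4
    exact h.not_ge h4))
  obtain ⟨y, hyN, hyR⟩ := SetLike.exists_of_lt h3
  apply hyR
  rw [mem_subgroupOf, he]
  refine ⟨y.2, ?_⟩
  show (y : G) ∈ normalizer (R : Set G)
  rw [Subgroup.mem_normalizer_iff]
  rw [Subgroup.mem_normalizer_iff] at hyN
  intro r
  constructor
  · intro hr
    exact (hyN ⟨r, h.le hr⟩).1 hr
  · intro hr
    have hrD : r ∈ T := by
      have h5 := T.mul_mem (T.mul_mem (T.inv_mem y.2) (h.le hr)) y.2
      have e : (y : G)⁻¹ * ((y : G) * r * (y : G)⁻¹) * y = r := by group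
      rwa [e] at h5
    exact (hyN ⟨r, hrD⟩).2 hr

theorem mem_normalizer_inf {g : G} {A B : Subgroup G} (hA : g ∈ normalizer (A : Set G)) (hB : g ∈ normalizer (B : Set G)) :
    g ∈ normalizer ((A ⊓ B : Subgroup G) : Set G) := by
  rw [Subgroup.mem_normalizer_iff] at hA hB ⊢
  intro x
  exact and_congr (hA x) (hB x)

theorem mem_normalizer_normalizer {g : G} {R : Subgroup G} (h : g ∈ normalizer (R : Set G)) :
    g ∈ normalizer ((normalizer (R : Set G) : Subgroup G) : Set G) := Subgroup.le_normalizer h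

/-- the recursion -/
theorem pwt_recursion [hp : Fact p.Prime] (M R : Subgroup G) (hRM : R ≤ M) (hR : IsPGroup p R) {g : G} (hg : g ∈ M ⊓ normalizer (R : Set G)) :
    pwt (pS p M g) R = 1 - ∑ T ∈ pT p (M ⊓ normalizer (R : Set G)) R, pwt (pS p (M ⊓ normalizer (R : Set G)) g) T := by
  set M' := M ⊓ normalizer (R : Set G) with hM'
  have hRS : R ∈ pS p M g := mem_pS.2 ⟨hRM, hR, hg.2⟩
  have h1 := pwt_sum hRS
  rw [sum_filter_le hRS] at h1
  have h2 : ∑ b ∈ pS p M g with R < b, pwt (pS p M g) b = ∑ b ∈ (pS p M g).filter (fun b => R < b), pwt ((pS p M g).filter (fun b => R < b)) b := by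
    apply Finset.sum_congr rfl
    apply pwt_upper (Finset.filter_subset _ _)
    intro a ha b hb hab
    rw [Finset.mem_filter] at ha ⊢
    exact ⟨hb, ha.2.trans_le hab⟩
  have h3 : ∑ b ∈ (pS p M g).filter (fun b => R < b), pwt ((pS p M g).filter (fun b => R < b)) b = 
      ∑ b ∈ (pS p M' g).filter (fun b => R < b), pwt ((pS p M' g).filter (fun b => R < b)) b := by
    apply sum_pwt_retract _ (fun T => T ⊓ normalizer (R : Set G))
    · intro T hT
      rw [Finset.mem_filter, mem_pS] at hT ⊢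
      refine ⟨⟨inf_le_inf_right _ hT.1.1, hT.1.2.1.to_le inf_le_left, ?_⟩, lt_inf_normalizer hT.1.2.1 hT.2⟩
      exact mem_normalizer_inf hT.1.2.2 (mem_normalizer_normalizer hg.2)
    · intro T hT
      exact inf_le_left
    · intro b hb a ha hba
      rw [Finset.mem_filter, mem_pS] at hb
      exact le_inf hba (hb.1.1.trans inf_le_right)
    · intro T hT
      rw [Finset.mem_filter, mem_pS] at hT ⊢
      exact ⟨⟨hT.1.1.trans inf_le_left, hT.1.2⟩, hT.2⟩
  have h4 : ∑ b ∈ (pS p M' g).filter (fun b => R < b), pwt ((pS p M' g).filter (fun b => R < b)) b = 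
      ∑ b ∈ (pS p M' g).filter (fun b => R < b), pwt (pS p M' g) b := by
    apply Finset.sum_congr rfl
    intro b hb
    symm
    revert b hb
    apply pwt_upper (Finset.filter_subset _ _)
    intro a ha b hb hab
    rw [Finset.mem_filter] at ha ⊢
    exact ⟨hb, ha.2.trans_le hab⟩
  have h5 : ∑ b ∈ (pS p M' g).filter (fun b => R < b), pwt (pS p M' g) b = ∑ T ∈ pT p M' R, pwt (pS p M' g) T := by
    apply Finset.sum_subset
    · intro T hT
      rw [Finset.mem_filter, mem_pS] at hT
      exact mem_pT.2 ⟨hT.2, hT.1.1, hT.1.2.1⟩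
    · intro T hT hT'
      apply pwt_zero
      intro hc
      exact hT' (Finset.mem_filter.2 ⟨hc, (mem_pT.1 hT).1⟩)
  rw [h2, h3, h4, h5] at h1
  linarith

def IsMaxP (p : ℕ) (M T : Subgroup G) : Prop := T ≤ M ∧ IsPGroup p T ∧ ∀ T' : Subgroup G, T < T' → T' ≤ M → ¬ IsPGroup p T'

theorem isMaxP_sylow [hp : Fact p.Prime] {M : Subgroup G} (P : Sylow p M) : IsMaxP p M ((P : Subgroup M).map M.subtype) := by
  refine ⟨Subgroup.map_subtype_le _, P.2.map _, ?_⟩
  intro T' hlt hle hT'
  have h1 : T'.subgroupOf M = (P : Subgroup M) := by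
    apply P.3 hT'.comap_subtype
    intro x hx
    exact hlt.le ⟨x, hx, rfl⟩
  rw [← h1, Subgroup.map_subgroupOf_eq_of_le hle] at hlt
  exact lt_irrefl _ hlt

theorem exists_sylow_of_isMaxP [hp : Fact p.Prime] {M T : Subgroup G} (h : IsMaxP p M T) : ∃ P : Sylow p M, (P : Subgroup M).map M.subtype = T := by
  have h1 : IsPGroup p (T.subgroupOf M) := h.2.1.comap_subtype
  obtain ⟨P, hP⟩ := h1.exists_le_sylow
  refine ⟨P, ?_⟩
  have h2 : T ≤ (P : Subgroup M).map M.subtype := by
    intro x hx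
    exact ⟨⟨x, h.1 hx⟩, hP hx, rfl⟩
  by_contra hne
  exact h.2.2 _ (lt_of_le_of_ne h2 (Ne.symm hne)) (Subgroup.map_subtype_le _) (P.2.map _)

theorem normalizer_map_sylow [hp : Fact p.Prime] {M : Subgroup G} (P : Subgroup M) :
    Nat.card ↥(M ⊓ normalizer ((P.map M.subtype : Subgroup G) : Set G)) = Nat.card (normalizer (P : Set M)) := by
  have h1 : (normalizer (P : Set M)).map M.subtype = M ⊓ normalizer ((P.map M.subtype : Subgroup G) : Set G) := by
    ext x
    constructor
    · rintro ⟨y, hy, rfl⟩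
      refine ⟨y.2, ?_⟩
      show (y : G) ∈ normalizer ((P.map M.subtype : Subgroup G) : Set G)
      have hy : y ∈ normalizer (P : Set M) := hy
      rw [Subgroup.mem_normalizer_iff] at hy ⊢
      intro z
      constructor
      · rintro ⟨w, hw, rfl⟩
        exact ⟨_, (hy w).1 hw, rfl⟩
      · rintro ⟨w, hw, hwz⟩
        have hwz' : (w : G) = y * z * (y : G)⁻¹ := hwz
        refine ⟨y⁻¹ * w * y, ?_, ?_⟩
        · rw [SetLike.mem_coe, hy]
          have e : y * (y⁻¹ * w * y) * y⁻¹ = w := by group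
          rw [e]; exact hw
        · show (y : G)⁻¹ * (w : G) * y = z
          rw [hwz']; group
    · rintro ⟨hxM, hx⟩
      refine ⟨⟨x, hxM⟩, ?_, rfl⟩
      have hx' : x ∈ normalizer ((P.map M.subtype : Subgroup G) : Set G) := hx
      rw [Subgroup.mem_normalizer_iff] at hx'
      rw [SetLike.mem_coe, Subgroup.mem_normalizer_iff]
      intro z
      have h2 : ∀ w : M, (w : G) ∈ P.map M.subtype ↔ w ∈ P := by
        intro w
        constructor
        · rintro ⟨v, hv, hvw⟩
          have : v = w := Subtype.ext hvw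
          rwa [← this]
        · intro hw
          exact ⟨w, hw, rfl⟩
      rw [← h2, ← h2]
      exact hx' z
  rw [← h1, Nat.card_congr ((normalizer (P : Set M)).equivMapOfInjective _ M.subtype_injective).symm.toEquiv]

noncomputable def pMax (p : ℕ) (M : Subgroup G) : Finset (Subgroup G) := (Set.toFinite {T : Subgroup G | IsMaxP p M T}).toFinset

theorem mem_pMax {M T : Subgroup G} : T ∈ pMax p M ↔ IsMaxP p M T := by simp [pMax]

theorem sum_pMax [hp : Fact p.Prime] (M : Subgroup G) :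
    ∑ T ∈ pMax p M, (Nat.card ↥(M ⊓ normalizer (T : Set G)) : ℤ) = Nat.card M := by
  haveI : Fintype (Sylow p M) := Fintype.ofFinite _
  have h1 : pMax p M = (Finset.univ : Finset (Sylow p M)).image (fun P : Sylow p M => (P : Subgroup M).map M.subtype) := by
    ext T
    rw [mem_pMax, Finset.mem_image]
    constructor
    · intro h
      obtain ⟨P, hP⟩ := exists_sylow_of_isMaxP h
      exact ⟨P, Finset.mem_univ _, hP⟩
    · rintro ⟨P, -, rfl⟩
      exact isMaxP_sylow P
  rw [h1, Finset.sum_image]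
  · have h2 : ∀ P : Sylow p M, (Nat.card ↥(M ⊓ normalizer (((P : Subgroup M).map M.subtype : Subgroup G) : Set G)) : ℤ) = 
        (Nat.card M / Nat.card (Sylow p M) : ℕ) := by
      intro P
      rw [normalizer_map_sylow (p := p)]
      have hc : Nat.card (Sylow p M) = (normalizer ((P : Subgroup M) : Set M)).index := P.card_eq_index_normalizer
      have hd : Nat.card (normalizer ((P : Subgroup M) : Set M)) = Nat.card M / Nat.card (Sylow p M) := by
        rw [hc, ← (normalizer ((P : Subgroup M) : Set M)).card_mul_index]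
        exact (Nat.mul_div_cancel _ (Nat.pos_of_ne_zero Subgroup.index_ne_zero_of_finite)).symm
      rw [hd]
    rw [Finset.sum_congr rfl (fun P _ => h2 P), Finset.sum_const, Finset.card_univ, ← Nat.card_eq_fintype_card, nsmul_eq_mul]
    obtain ⟨P⟩ : Nonempty (Sylow p M) := inferInstance
    norm_cast
    apply Nat.mul_div_cancel'
    rw [P.card_eq_index_normalizer]
    exact Subgroup.index_dvd_card _
  · intro P _ Q _ hPQ
    exact Sylow.ext (Subgroup.map_injective M.subtype_injective hPQ)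

theorem pF_eq [hp : Fact p.Prime] (n : ℕ) : ∀ M R : Subgroup G, R ≤ M → IsPGroup p R → Nat.card M - Nat.card R = n →
    pF p M R = if IsMaxP p M R then (Nat.card ↥(M ⊓ normalizer (R : Set G)) : ℤ) else 0 := by
  induction n using Nat.strong_induction_on with
  | _ n ih =>
  intro M R hRM hR hn
  set M' := M ⊓ normalizer (R : Set G) with hM'
  have h1 : pF p M R = ∑ g ∈ eS M', pwt (pS p M g) R := by
    rw [pF]
    symm
    apply Finset.sum_subset
    · intro g hg
      rw [mem_eS] at hg ⊢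
      exact hg.1
    · intro g hg hg'
      apply pwt_zero
      intro hc
      rw [mem_pS] at hc
      exact hg' (mem_eS.2 ⟨mem_eS.1 hg, hc.2.2⟩)
  have h2 : pF p M R = Nat.card M' - ∑ T ∈ pT p M' R, pF p M' T := by
    rw [h1, Finset.sum_congr rfl (fun g hg => pwt_recursion M R hRM hR (mem_eS.1 hg)), Finset.sum_sub_distrib, Finset.sum_const,
      Finset.sum_comm]
    congr 1
    rw [nsmul_eq_mul, mul_one, card_eS]
  have h3 : ∀ T ∈ pT p M' R, pF p M' T = if IsMaxP p M' T then (Nat.card ↥(M' ⊓ normalizer (T : Set G)) : ℤ) else 0 := by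
    intro T hT
    rw [mem_pT] at hT
    apply ih (Nat.card M' - Nat.card T) _ M' T hT.2.1 hT.2.2 rfl
    have h4 : Nat.card M' ≤ Nat.card M := Subgroup.card_le_of_le inf_le_left
    have h5 : Nat.card R < Nat.card T := by
      by_contra h
      push Not at h
      exact hT.1.ne (CfsgH1.eq_of_le_of_card_le hT.1.le h)
    have h6 : Nat.card T ≤ Nat.card M' := Subgroup.card_le_of_le hT.2.1
    omega
  rw [h2, Finset.sum_congr rfl h3]
  by_cases hmax : IsMaxP p M R
  · rw [if_pos hmax]
    have h4 : pT p M' R = ∅ := by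
      rw [Finset.eq_empty_iff_forall_notMem]
      intro T hT
      rw [mem_pT] at hT
      exact hmax.2.2 T hT.1 (hT.2.1.trans inf_le_left) hT.2.2
    rw [h4, Finset.sum_empty, sub_zero]
  · rw [if_neg hmax, ← Finset.sum_filter]
    have h4 : (pT p M' R).filter (fun T => IsMaxP p M' T) = pMax p M' := by
      ext T
      rw [Finset.mem_filter, mem_pT, mem_pMax]
      refine ⟨fun h => h.2, fun h => ⟨⟨?_, h.1, h.2.1⟩, h⟩⟩
      -- R < T
      have hRM' : R ≤ M' := le_inf hRM Subgroup.le_normalizer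
      have hRT : R ≤ T := by
        obtain ⟨P, rfl⟩ := exists_sylow_of_isMaxP h
        have h5 : (R.subgroupOf M').Normal := Subgroup.normal_subgroupOf_of_le_normalizer inf_le_right
        have h6 := (le_pCore h5 hR.comap_subtype).trans (CfsgH3.pCore_le_sylow P)
        intro x hx
        exact ⟨⟨x, hRM' hx⟩, h6 hx, rfl⟩
      refine lt_of_le_of_ne hRT ?_
      rintro rfl
      -- R maximal in M', so maximal in M
      apply hmax
      refine ⟨hRM, hR, ?_⟩
      intro T' hlt hle hT'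
      exact h.2.2 _ (lt_inf_normalizer hT' hlt) (inf_le_inf_right _ hle) (hT'.to_le inf_le_left)
    rw [h4, sum_pMax, sub_self]


noncomputable def pH (p : ℕ) (H : Subgroup G) : Finset (Subgroup G) :=
  (Set.toFinite {T : Subgroup G | H ≤ T ∧ IsPGroup p T}).toFinset

theorem mem_pH {H T : Subgroup G} : T ∈ pH p H ↔ H ≤ T ∧ IsPGroup p T := by simp [pH]

theorem sum_pwt_pH (H : Subgroup G) (g : G) :
    ((∃ R : Subgroup G, IsPGroup p R ∧ H ≤ R ∧ g ∈ normalizer (R : Set G)) → ∑ T ∈ pH p H, pwt (pS p (⊤ : Subgroup G) g) T = 1) ∧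
    ((¬ ∃ R : Subgroup G, IsPGroup p R ∧ H ≤ R ∧ g ∈ normalizer (R : Set G)) → ∑ T ∈ pH p H, pwt (pS p (⊤ : Subgroup G) g) T = 0) := by
  have h1 : ∑ T ∈ pH p H, pwt (pS p (⊤ : Subgroup G) g) T = ∑ T ∈ (pS p (⊤ : Subgroup G) g).filter (fun T => H ≤ T), pwt (pS p (⊤ : Subgroup G) g) T := by
    symm
    apply Finset.sum_subset
    · intro T hT
      rw [Finset.mem_filter, mem_pS] at hT
      exact mem_pH.2 ⟨hT.2, hT.1.2.1⟩
    · intro T hT hT'
      apply pwt_zero
      intro hc
      exact hT' (Finset.mem_filter.2 ⟨hc, (mem_pH.1 hT).1⟩)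
  rw [h1]
  constructor
  · rintro ⟨R, hR, hHR, hg⟩
    set m : Subgroup G := sInf {T : Subgroup G | IsPGroup p T ∧ H ≤ T ∧ g ∈ normalizer (T : Set G)} with hm
    have hHm : H ≤ m := le_sInf (fun T hT => hT.2.1)
    have hmp : IsPGroup p m := hR.to_le (sInf_le ⟨hR, hHR, hg⟩)
    have hgm : g ∈ normalizer (m : Set G) := by
      rw [Subgroup.mem_normalizer_iff]
      intro x
      rw [hm, Subgroup.mem_sInf, Subgroup.mem_sInf]
      refine forall_congr' fun T => forall_congr' fun hT => ?_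
      exact (Subgroup.mem_normalizer_iff.1 hT.2.2) x
    have hmS : m ∈ pS p (⊤ : Subgroup G) g := mem_pS.2 ⟨le_top, hmp, hgm⟩
    rw [← pwt_sum hmS]
    apply Finset.sum_congr _ (fun _ _ => rfl)
    ext T
    rw [Finset.mem_filter, Finset.mem_filter]
    constructor
    · rintro ⟨h2, h3⟩
      have h4 := mem_pS.1 h2
      exact ⟨h2, sInf_le ⟨h4.2.1, h3, h4.2.2⟩⟩
    · rintro ⟨h2, h3⟩
      exact ⟨h2, hHm.trans h3⟩
  · intro hex
    apply Finset.sum_eq_zero
    intro T hT
    rw [Finset.mem_filter, mem_pS] at hT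
    exact absurd ⟨T, hT.1.2.1, hT.2, hT.1.2.2⟩ hex

theorem card_fiber_coset {X : Type*} (N : Subgroup G) (f : G → X) (hf : ∀ g g', f g = f g' ↔ g⁻¹ * g' ∈ N) (S : Set X) :
    Nat.card {g : G // f g ∈ S} = Nat.card {x : X // x ∈ S ∧ ∃ g, f g = x} * Nat.card N := by
  rw [← Nat.card_prod]
  symm
  set c : {x : X // x ∈ S ∧ ∃ g, f g = x} → G := fun x => Classical.choose x.2.2 with hc
  have hcx : ∀ x, f (c x) = x := fun x => Classical.choose_spec x.2.2
  have hcn : ∀ x (n : N), f (c x * n) = x := by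
    intro x n
    have h1 : f (c x) = f (c x * n) := by
      rw [hf, inv_mul_cancel_left]
      exact n.2
    rw [← h1, hcx]
  refine Nat.card_eq_of_bijective (fun x => ⟨c x.1 * x.2, by rw [hcn]; exact x.1.2.1⟩) ⟨?_, ?_⟩
  · rintro ⟨x, n⟩ ⟨x', n'⟩ h
    have h1 : c x * (n : G) = c x' * n' := congrArg Subtype.val h
    have h2 : x = x' := Subtype.ext (by rw [← hcn x n, h1, hcn])
    subst h2
    have h3 : n = n' := Subtype.ext (mul_left_cancel h1)
    rw [h3]
  · intro g
    refine ⟨(⟨f g, g.2, g, rfl⟩, ⟨(c ⟨f g, g.2, g, rfl⟩)⁻¹ * g, ?_⟩), ?_⟩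
    · rw [← hf]
      exact hcx ⟨f g, g.2, g, rfl⟩
    · apply Subtype.ext
      exact mul_inv_cancel_left _ _

theorem subnz_card [hp : Fact p.Prime] (H : Subgroup G) (hH : IsPGroup p H) (P : Sylow p G) :
    Nat.card {g : G // ((H).subgroupOf (H ⊔ Subgroup.zpowers g)).IsSubnormal} =
        Nat.card {Q : Sylow p G // H ≤ (Q : Subgroup G)} * Nat.card (normalizer ((P : Subgroup G) : Set G)) := by
  have h1 : (Nat.card {g : G // ((H).subgroupOf (H ⊔ Subgroup.zpowers g)).IsSubnormal} : ℤ) = 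
      ∑ g ∈ eS (⊤ : Subgroup G), ∑ T ∈ pH p H, pwt (pS p (⊤ : Subgroup G) g) T := by
    have h0 : ∑ g ∈ (Set.toFinite {g : G | ((H).subgroupOf (H ⊔ Subgroup.zpowers g)).IsSubnormal}).toFinset, 
        ∑ T ∈ pH p H, pwt (pS p (⊤ : Subgroup G) g) T = ∑ g ∈ eS (⊤ : Subgroup G), ∑ T ∈ pH p H, pwt (pS p (⊤ : Subgroup G) g) T := by
      apply Finset.sum_subset
      · intro g _
        exact mem_eS.2 (mem_top _)
      · intro g _ hg
        apply (sum_pwt_pH H g).2
        rw [← subnz_iff hH]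
        intro h
        apply hg
        rw [Set.Finite.mem_toFinset]
        exact h
    rw [← h0, Finset.sum_congr rfl (g := fun _ => (1 : ℤ)) (fun g hg => (sum_pwt_pH H g).1 (by
      rw [Set.Finite.mem_toFinset] at hg
      exact (subnz_iff hH g).1 hg)), Finset.sum_const, nsmul_eq_mul, mul_one, ← Set.ncard_eq_toFinset_card _ (Set.toFinite _)]
    rfl
  have h2 : ∑ g ∈ eS (⊤ : Subgroup G), ∑ T ∈ pH p H, pwt (pS p (⊤ : Subgroup G) g) T = 
      ∑ T ∈ pH p H, if IsMaxP p (⊤ : Subgroup G) T then (Nat.card ↥((⊤ : Subgroup G) ⊓ normalizer (T : Set G)) : ℤ) else 0 := by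
    rw [Finset.sum_comm]
    apply Finset.sum_congr rfl
    intro T hT
    exact pF_eq _ ⊤ T le_top (mem_pH.1 hT).2 rfl
  haveI : Fintype (Sylow p G) := Fintype.ofFinite _
  have h3 : (pH p H).filter (fun T => IsMaxP p (⊤ : Subgroup G) T) = 
      ((Finset.univ : Finset (Sylow p G)).filter (fun Q : Sylow p G => H ≤ (Q : Subgroup G))).image (fun Q : Sylow p G => (Q : Subgroup G)) := by
    ext T
    rw [Finset.mem_filter, mem_pH, Finset.mem_image]
    constructor
    · rintro ⟨⟨h3, h4⟩, h5⟩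
      let Q : Sylow p G := ⟨T, h4, by
        intro T' hT' hle
        by_contra hne
        exact h5.2.2 T' (lt_of_le_of_ne hle (Ne.symm hne)) le_top hT'⟩
      exact ⟨Q, Finset.mem_filter.2 ⟨Finset.mem_univ _, h3⟩, rfl⟩
    · rintro ⟨Q, hQ, rfl⟩
      rw [Finset.mem_filter] at hQ
      refine ⟨⟨hQ.2, Q.2⟩, le_top, Q.2, ?_⟩
      intro T' hlt _ hT'
      exact hlt.ne (Q.3 hT' hlt.le).symm
  have h4 : ∀ Q : Sylow p G, Nat.card ↥((⊤ : Subgroup G) ⊓ normalizer ((Q : Subgroup G) : Set G)) = Nat.card (normalizer ((P : Subgroup G) : Set G)) := by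
    intro Q
    rw [top_inf_eq]
    have h5 : (normalizer ((Q : Subgroup G) : Set G)).index = (normalizer ((P : Subgroup G) : Set G)).index := by
      have h6 : Nat.card (Sylow p G) = (normalizer ((Q : Subgroup G) : Set G)).index := Q.card_eq_index_normalizer
      have h7 : Nat.card (Sylow p G) = (normalizer ((P : Subgroup G) : Set G)).index := P.card_eq_index_normalizer
      rw [← h6, h7]
    have h6 := (normalizer ((Q : Subgroup G) : Set G)).card_mul_index
    rw [← (normalizer ((P : Subgroup G) : Set G)).card_mul_index, h5] at h6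
    exact Nat.eq_of_mul_eq_mul_right (Nat.pos_of_ne_zero Subgroup.index_ne_zero_of_finite) h6
  rw [h2, ← Finset.sum_filter, h3, Finset.sum_image (fun Q _ Q' _ h => Sylow.ext h), Finset.sum_congr rfl (fun Q _ => by rw [h4 Q]),
    Finset.sum_const, nsmul_eq_mul] at h1
  have h5 : Nat.card {Q : Sylow p G // H ≤ (Q : Subgroup G)} = ((Finset.univ : Finset (Sylow p G)).filter (fun Q : Sylow p G => H ≤ (Q : Subgroup G))).card := by
    rw [Nat.card_eq_fintype_card, Fintype.card_subtype]
  rw [h5]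
  exact_mod_cast h1


theorem subnz_card2 [hp : Fact p.Prime] (H : Subgroup G) (P : Sylow p G) :
    Nat.card {Q : Sylow p G // H ≤ (Q : Subgroup G)} * Nat.card (normalizer ((P : Subgroup G) : Set G)) = 
      Nat.card {K : Subgroup G // K ≤ (P : Subgroup G) ∧ ∃ g : G, K = H.map (MulAut.conj g).toMonoidHom} *
          Nat.card (Subgroup.normalizer (H : Set G)) := by
  have h1 := card_fiber_coset (normalizer (H : Set G)) (fun g : G => H.map (MulAut.conj g).toMonoidHom) (by
    intro g g'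
    have e : ∀ g : G, H.map (MulAut.conj g).toMonoidHom = MulAut.conj g • H := fun g => rfl
    show H.map (MulAut.conj g).toMonoidHom = H.map (MulAut.conj g').toMonoidHom ↔ _
    rw [e, e]
    have h2 : g⁻¹ * g' ∈ normalizer (H : Set G) ↔ MulAut.conj (g⁻¹ * g') • H = H := by
      rw [Subgroup.mem_normalizer_iff]
      constructor
      · intro h
        ext x
        rw [CfsgH1.mem_conj_smul]
        have h3 := h ((g⁻¹ * g')⁻¹ * x * (g⁻¹ * g'))
        rw [h3]
        have e2 : g⁻¹ * g' * ((g⁻¹ * g')⁻¹ * x * (g⁻¹ * g')) * (g⁻¹ * g')⁻¹ = x := by group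
        rw [e2]
      · intro h x
        conv_rhs => rw [← h]
        rw [CfsgH1.mem_conj_smul]
        have e2 : (g⁻¹ * g')⁻¹ * (g⁻¹ * g' * x * (g⁻¹ * g')⁻¹) * (g⁻¹ * g') = x := by group
        rw [e2]
    rw [h2, map_mul, mul_smul, map_inv, inv_smul_eq_iff]
    exact eq_comm) {K : Subgroup G | K ≤ (P : Subgroup G)}
  have h2 := card_fiber_coset (normalizer ((P : Subgroup G) : Set G)) (fun g : G => g • P) (by
    intro g g'
    show g • P = g' • P ↔ _
    have h5 : (g⁻¹ * g') • P = P ↔ g⁻¹ * g' ∈ normalizer ((P : Subgroup G) : Set G) := Sylow.smul_eq_iff_mem_normalizer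
    rw [← h5, mul_smul, inv_smul_eq_iff]
    exact eq_comm) {Q : Sylow p G | H ≤ (Q : Subgroup G)}
  have h3 : Nat.card {Q : Sylow p G // H ≤ (Q : Subgroup G)} = Nat.card {x : Sylow p G // x ∈ {Q : Sylow p G | H ≤ (Q : Subgroup G)} ∧ ∃ g : G, g • P = x} := by
    apply Nat.card_congr
    apply Equiv.subtypeEquivRight
    intro Q
    constructor
    · intro h
      exact ⟨h, MulAction.exists_smul_eq G P Q⟩
    · intro h
      exact h.1
  have h4 : Nat.card {K : Subgroup G // K ≤ (P : Subgroup G) ∧ ∃ g : G, K = H.map (MulAut.conj g).toMonoidHom} = 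
      Nat.card {x : Subgroup G // x ∈ {K : Subgroup G | K ≤ (P : Subgroup G)} ∧ ∃ g : G, H.map (MulAut.conj g).toMonoidHom = x} := by
    apply Nat.card_congr
    apply Equiv.subtypeEquivRight
    intro K
    constructor
    · rintro ⟨h, g, hg⟩
      exact ⟨h, g, hg.symm⟩
    · rintro ⟨h, g, hg⟩
      exact ⟨h, g, hg.symm⟩
  rw [h3, h4, ← h2, ← h1]
  apply Nat.card_congr
  refine (Equiv.inv G).subtypeEquiv ?_
  intro g
  show H ≤ ((g • P : Sylow p G) : Subgroup G) ↔ H.map (MulAut.conj g⁻¹).toMonoidHom ≤ (P : Subgroup G)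
  constructor
  · rintro h _ ⟨x, hx, rfl⟩
    have h5 : x ∈ MulAut.conj g • (P : Subgroup G) := h hx
    rw [CfsgH1.mem_conj_smul] at h5
    show g⁻¹ * x * g⁻¹⁻¹ ∈ _
    rw [inv_inv]; exact h5
  · intro h x hx
    show x ∈ MulAut.conj g • (P : Subgroup G)
    rw [CfsgH1.mem_conj_smul]
    have h5 := h ⟨x, hx, rfl⟩
    have h6 : g⁻¹ * x * g⁻¹⁻¹ ∈ (P : Subgroup G) := h5
    rwa [inv_inv] at h6

end CfsgH2
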