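import Mathlib
import Cfsg.Agent.H2.SubnzCount
import Cfsg.Agent.H2.LocalQ
import Cfsg.Agent.H2.SameSubConj

set_option autoImplicit false

/-! # Counting subnormalizers in p-solvable groups (helper2 library) -/

namespace CfsgH2

open Subgroup Cfsg
open scoped Pointwise

universe u

variable {G : Type u} [Group G] [Finite G] {p : ℕ} [hp : Fact p.Prime]

/-- any two Sylow subgroups with the same image modulo `N` are conjugate under `N` -/
theorem sylow_conj_over (N : Subgroup G) [N.Normal] (Q Q0 : Sylow p G)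
    (h : (Q : Subgroup G).map (QuotientGroup.mk' N) = (Q0 : Subgroup G).map (QuotientGroup.mk' N)) :
    ∃ x ∈ N, x • Q0 = Q := by
  set L : Subgroup G := (Q0 : Subgroup G) ⊔ N with hL
  have h0 : (Q0 : Subgroup G) ≤ L := le_sup_left
  have h1 : (Q : Subgroup G) ≤ L := by
    intro x hx
    have h2 : (QuotientGroup.mk' N) x ∈ (Q0 : Subgroup G).map (QuotientGroup.mk' N) := by rw [← h]; exact ⟨x, hx, rfl⟩
    obtain ⟨y, hy, hyx⟩ := h2
    have h3 : y⁻¹ * x ∈ N := QuotientGroup.eq.1 hyx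
    have h4 := mul_mem ((le_sup_left : (Q0 : Subgroup G) ≤ L) hy) ((le_sup_right : N ≤ L) h3)
    rwa [mul_inv_cancel_left] at h4
  obtain ⟨l, hl⟩ := MulAction.exists_smul_eq L (Q0.subtype h0) (Q.subtype h1)
  rw [Sylow.smul_subtype] at hl
  have hl' : (l : L) • Q0 = Q := Sylow.subtype_injective hl
  obtain ⟨q, hq, n, hn, hqn⟩ : ∃ q ∈ (Q0 : Subgroup G), ∃ n ∈ N, n * q = l := by
    have h2 : (l : G) ∈ (Q0 : Subgroup G) ⊔ N := l.2
    rw [sup_comm, Subgroup.mem_sup_of_normal_left] at h2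
    obtain ⟨n, hn, q, hq, h3⟩ := h2
    exact ⟨q, hq, n, hn, h3⟩
  refine ⟨n, hn, ?_⟩
  have h5 : q • Q0 = Q0 := Sylow.smul_eq_iff_mem_normalizer.2 (Subgroup.le_normalizer hq)
  have h6 : (l : G) • Q0 = Q := hl'
  rw [← hqn, mul_smul, h5] at h6
  exact h6

theorem exists_sylow_over (N : Subgroup G) [N.Normal] {H : Subgroup G} (hH : IsPGroup p H) (Pb : Sylow p (G ⧸ N))
    (hHP : H.map (QuotientGroup.mk' N) ≤ (Pb : Subgroup (G ⧸ N))) :
    ∃ Q : Sylow p G, H ≤ (Q : Subgroup G) ∧ Q.mapSurjective (QuotientGroup.mk'_surjective N) = Pb := by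
  obtain ⟨Q1, hQ1⟩ := Sylow.mapSurjective_surjective (QuotientGroup.mk'_surjective N) p Pb
  set L : Subgroup G := (Pb : Subgroup (G ⧸ N)).comap (QuotientGroup.mk' N) with hL
  have hHL : H ≤ L := Subgroup.map_le_iff_le_comap.1 hHP
  have hQL : (Q1 : Subgroup G) ≤ L := by
    intro x hx
    show (QuotientGroup.mk' N) x ∈ (Pb : Subgroup (G ⧸ N))
    rw [← hQ1]
    exact ⟨x, hx, rfl⟩
  have h1 : IsPGroup p (H.subgroupOf L) := hH.comap_subtype
  obtain ⟨S, hS⟩ := h1.exists_le_sylow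
  obtain ⟨l, hl⟩ := MulAction.exists_smul_eq L (Q1.subtype hQL) S
  rw [Sylow.smul_subtype] at hl
  refine ⟨(l : G) • Q1, ?_, ?_⟩
  · intro x hx
    have h2 : (⟨x, hHL hx⟩ : L) ∈ (S : Subgroup L) := hS hx
    rw [← hl] at h2
    exact h2
  · apply Sylow.ext
    rw [Sylow.coe_mapSurjective]
    have h3 : ((l : G) • Q1 : Sylow p G) = MulAut.conj (l : G) • (Q1 : Subgroup G) := rfl
    apply CfsgH1.eq_of_le_of_card_le
    · rintro _ ⟨x, hx, rfl⟩
      have h4 : x ∈ MulAut.conj (l : G) • (Q1 : Subgroup G) := hx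
      rw [CfsgH1.mem_conj_smul] at h4
      have h5 : (QuotientGroup.mk' N) ((l : G)⁻¹ * x * l) ∈ (Pb : Subgroup (G ⧸ N)) := hQL h4
      have h6 : (QuotientGroup.mk' N) (l : G) ∈ (Pb : Subgroup (G ⧸ N)) := l.2
      have h7 := mul_mem (mul_mem h6 h5) (inv_mem h6)
      rw [← map_mul, ← map_inv, ← map_mul] at h7
      have e : (l : G) * ((l : G)⁻¹ * x * l) * (l : G)⁻¹ = x := by group
      rwa [e] at h7
    · have h8 := ((l : G) • Q1).mapSurjective (QuotientGroup.mk'_surjective N)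
      have h9 : Nat.card ((((l : G) • Q1).mapSurjective (QuotientGroup.mk'_surjective N) : Sylow p (G ⧸ N)) : Subgroup (G ⧸ N)) = Nat.card Pb := by
        rw [Sylow.card_eq_multiplicity, Sylow.card_eq_multiplicity]
      exact h9.ge

theorem card_sylow_fiber (N : Subgroup G) [hNn : N.Normal] (hN : (Nat.card N).Coprime p) {H : Subgroup G} (hH : IsPGroup p H) (Pb : Sylow p (G ⧸ N))
    (hHP : H.map (QuotientGroup.mk' N) ≤ (Pb : Subgroup (G ⧸ N))) (P : Sylow p G) :
    Nat.card {Q : Sylow p G // H ≤ (Q : Subgroup G) ∧ Q.mapSurjective (QuotientGroup.mk'_surjective N) = Pb} * 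
      Nat.card ↥(normalizer ((P : Subgroup G) : Set G) ⊓ N) = Nat.card ↥(N ⊓ centralizer (H : Set G)) := by
  obtain ⟨Q0, hHQ0, hQ0⟩ := exists_sylow_over N hH Pb hHP
  have hconjN : Nat.card ↥(normalizer ((P : Subgroup G) : Set G) ⊓ N) = Nat.card ↥(normalizer ((Q0 : Subgroup G) : Set G) ⊓ N) := by
    obtain ⟨g, hg⟩ := MulAction.exists_smul_eq G P Q0
    rw [← CfsgH1.card_conj_smul g]
    congr 2
    ext x
    rw [CfsgH1.mem_conj_smul, mem_inf, mem_inf]
    apply and_congr
    · have h1 : g⁻¹ * x * g ∈ normalizer ((P : Subgroup G) : Set G) ↔ (g⁻¹ * x * g) • P = P := Sylow.smul_eq_iff_mem_normalizer.symm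
      have h2 : x ∈ normalizer ((Q0 : Subgroup G) : Set G) ↔ x • Q0 = Q0 := Sylow.smul_eq_iff_mem_normalizer.symm
      rw [h1, h2, ← hg, mul_smul, mul_smul, inv_smul_eq_iff]
    · constructor
      · intro h
        have := hNn.conj_mem _ h g
        have e : g * (g⁻¹ * x * g) * g⁻¹ = x := by group
        rwa [e] at this
      · intro h
        have := hNn.conj_mem _ h g⁻¹
        rwa [inv_inv] at this
  rw [hconjN]
  have h1 := card_fiber_coset (G := N) ((normalizer ((Q0 : Subgroup G) : Set G)).subgroupOf N) (fun x : N => (x : G) • Q0) (by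
    intro g g'
    show (g : G) • Q0 = (g' : G) • Q0 ↔ _
    rw [mem_subgroupOf]
    have h5 : ((g : G)⁻¹ * g') • Q0 = Q0 ↔ ((g⁻¹ * g' : N) : G) ∈ normalizer ((Q0 : Subgroup G) : Set G) := Sylow.smul_eq_iff_mem_normalizer
    rw [← h5, mul_smul, inv_smul_eq_iff]
    exact eq_comm) {Q : Sylow p G | H ≤ (Q : Subgroup G)}
  have h2 : Nat.card ((normalizer ((Q0 : Subgroup G) : Set G)).subgroupOf N) = Nat.card ↥(normalizer ((Q0 : Subgroup G) : Set G) ⊓ N) := by
    rw [← Subgroup.inf_subgroupOf_right, Nat.card_congr (Subgroup.subgroupOfEquivOfLe inf_le_right).toEquiv]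
  rw [h2] at h1
  have hmap : ∀ x ∈ N, (x • Q0).mapSurjective (QuotientGroup.mk'_surjective N) = Pb := by
    intro x hx
    rw [← hQ0]
    apply Sylow.ext
    rw [Sylow.coe_mapSurjective, Sylow.coe_mapSurjective]
    ext y
    constructor
    · rintro ⟨z, hz, rfl⟩
      have h4 : z ∈ MulAut.conj x • (Q0 : Subgroup G) := hz
      rw [CfsgH1.mem_conj_smul] at h4
      refine ⟨_, h4, ?_⟩
      rw [map_mul, map_mul, map_inv, (QuotientGroup.eq_one_iff x).2 hx |> (fun h => (h : (QuotientGroup.mk' N) x = 1))]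
      group
    · rintro ⟨z, hz, rfl⟩
      refine ⟨x * z * x⁻¹, ?_, ?_⟩
      · show _ ∈ MulAut.conj x • (Q0 : Subgroup G)
        rw [CfsgH1.mem_conj_smul]
        have e : x⁻¹ * (x * z * x⁻¹) * x = z := by group
        rw [e]; exact hz
      · rw [map_mul, map_mul, map_inv, (QuotientGroup.eq_one_iff x).2 hx |> (fun h => (h : (QuotientGroup.mk' N) x = 1))]
        group
  have h3 : Nat.card {Q : Sylow p G // H ≤ (Q : Subgroup G) ∧ Q.mapSurjective (QuotientGroup.mk'_surjective N) = Pb} = 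
      Nat.card {Q : Sylow p G // Q ∈ {Q : Sylow p G | H ≤ (Q : Subgroup G)} ∧ ∃ x : N, (x : G) • Q0 = Q} := by
    apply Nat.card_congr
    apply Equiv.subtypeEquivRight
    intro Q
    refine and_congr_right fun _ => ⟨fun h => ?_, ?_⟩
    · have h5 : (Q : Subgroup G).map (QuotientGroup.mk' N) = (Q0 : Subgroup G).map (QuotientGroup.mk' N) := by
        have h6 := congrArg (fun S : Sylow p (G ⧸ N) => (S : Subgroup (G ⧸ N))) (h.trans hQ0.symm)
        exact h6
      obtain ⟨x, hx, hxQ⟩ := sylow_conj_over N Q Q0 h5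
      exact ⟨⟨x, hx⟩, hxQ⟩
    · rintro ⟨x, rfl⟩
      exact hmap x x.2
  rw [h3, ← h1]
  have hint : ∀ y ∈ N, y ∈ (Q0 : Subgroup G) → y = 1 := by
    intro y hy hyQ
    have h4 : N ⊓ (Q0 : Subgroup G) = ⊥ := by
      apply CfsgH1.inf_eq_bot_of_coprime
      rw [Q0.card_eq_multiplicity]
      exact Nat.Coprime.pow_right _ hN
    have h5 : y ∈ N ⊓ (Q0 : Subgroup G) := ⟨hy, hyQ⟩
    rwa [h4, mem_bot] at h5
  apply Nat.card_congr
  refine ⟨fun g => ⟨(g.1 : G), g.1.2, ?_⟩, fun y => ⟨⟨y, y.2.1⟩, ?_⟩, fun _ => rfl, fun _ => rfl⟩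
  · obtain ⟨⟨x, hx⟩, hxH⟩ := g
    show x ∈ centralizer (H : Set G)
    rw [Subgroup.mem_centralizer_iff]
    intro h hh
    have h4 : h ∈ MulAut.conj x • (Q0 : Subgroup G) := hxH hh
    rw [CfsgH1.mem_conj_smul] at h4
    have h5 : x⁻¹ * h * x * h⁻¹ ∈ (Q0 : Subgroup G) := mul_mem h4 (inv_mem (hHQ0 hh))
    have h6 : x⁻¹ * h * x * h⁻¹ ∈ N := by
      have := mul_mem (inv_mem hx) (hNn.conj_mem x hx h)
      have e : x⁻¹ * (h * x * h⁻¹) = x⁻¹ * h * x * h⁻¹ := by group
      rwa [e] at this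
    have h7 := hint _ h6 h5
    calc h * x = x * (x⁻¹ * h * x * h⁻¹) * h := by group
      _ = x * h := by rw [h7]; group
  · show H ≤ (((y : G) • Q0 : Sylow p G) : Subgroup G)
    intro h hh
    show h ∈ MulAut.conj (y : G) • (Q0 : Subgroup G)
    rw [CfsgH1.mem_conj_smul]
    have h4 := Subgroup.mem_centralizer_iff.1 y.2.2 h hh
    have e : (y : G)⁻¹ * h * y = h := by rw [mul_assoc, h4]; group
    rw [e]
    exact hHQ0 hh


/-- the subnormalizer relative to a normal subgroup -/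
def AN (p : ℕ) (N H : Subgroup G) : Set G :=
  {g | ∃ R : Subgroup G, H ≤ R ∧ N ≤ R ∧ g ∈ normalizer (R : Set G) ∧ ∃ k : ℕ, N.relIndex R = p ^ k}

theorem mem_AN_bot {H : Subgroup G} {g : G} : g ∈ AN p ⊥ H ↔ ∃ R : Subgroup G, IsPGroup p R ∧ H ≤ R ∧ g ∈ normalizer (R : Set G) := by
  constructor
  · rintro ⟨R, hHR, -, hg, k, hk⟩
    rw [Subgroup.relIndex_bot_left] at hk
    exact ⟨R, IsPGroup.of_card hk, hHR, hg⟩
  · rintro ⟨R, hR, hHR, hg⟩
    obtain ⟨k, hk⟩ := IsPGroup.iff_card.1 hR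
    exact ⟨R, hHR, bot_le, hg, k, by rw [Subgroup.relIndex_bot_left, hk]⟩

theorem card_AN_bot {H : Subgroup G} (hH : IsPGroup p H) (P : Sylow p G) :
    Nat.card (AN p ⊥ H) = Nat.card {Q : Sylow p G // H ≤ (Q : Subgroup G)} * Nat.card (normalizer ((P : Subgroup G) : Set G)) := by
  rw [← subnz_card H hH P]
  apply Nat.card_congr
  apply Equiv.subtypeEquivRight
  intro g
  rw [subnz_iff hH, mem_AN_bot]

theorem AN_bot_quot (N : Subgroup G) [N.Normal] (hN : (Nat.card N).Coprime p) {H : Subgroup G} (hH : IsPGroup p H) :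
    Nat.card (AN p ⊥ H) = Nat.card ↥(N ⊓ centralizer (H : Set G)) * Nat.card (AN p ⊥ (H.map (QuotientGroup.mk' N))) := by
  obtain ⟨P⟩ : Nonempty (Sylow p G) := inferInstance
  rw [card_AN_bot hH P, card_AN_bot (hH.map _) (P.mapSurjective (QuotientGroup.mk'_surjective N)), Sylow.coe_mapSurjective,
    normalizer_map_mk' P.2 hN]
  have h1 := CfsgH1.card_map_mul_card_ker (QuotientGroup.mk' N) (normalizer ((P : Subgroup G) : Set G))
  rw [QuotientGroup.ker_mk'] at h1
  rw [← h1]
  have h2 : Nat.card {Q : Sylow p G // H ≤ (Q : Subgroup G)} * Nat.card ↥(normalizer ((P : Subgroup G) : Set G) ⊓ N) = 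
      Nat.card ↥(N ⊓ centralizer (H : Set G)) * Nat.card {Q : Sylow p (G ⧸ N) // H.map (QuotientGroup.mk' N) ≤ (Q : Subgroup (G ⧸ N))} := by
    haveI : Fintype {Q : Sylow p (G ⧸ N) // H.map (QuotientGroup.mk' N) ≤ (Q : Subgroup (G ⧸ N))} := Fintype.ofFinite _
    have h3 : Nat.card {Q : Sylow p G // H ≤ (Q : Subgroup G)} = 
        ∑ Pb : {Q : Sylow p (G ⧸ N) // H.map (QuotientGroup.mk' N) ≤ (Q : Subgroup (G ⧸ N))}, 
          Nat.card {Q : Sylow p G // H ≤ (Q : Subgroup G) ∧ Q.mapSurjective (QuotientGroup.mk'_surjective N) = Pb} := by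
      rw [← Nat.card_sigma]
      apply Nat.card_congr
      refine ⟨fun Q => ⟨⟨Q.1.mapSurjective (QuotientGroup.mk'_surjective N), Subgroup.map_mono Q.2⟩, ⟨Q.1, Q.2, rfl⟩⟩, 
        fun x => ⟨x.2.1, x.2.2.1⟩, fun _ => rfl, ?_⟩
      rintro ⟨⟨Pb, hPb⟩, ⟨Q, hQ, hQP⟩⟩
      have hQP' : Q.mapSurjective (QuotientGroup.mk'_surjective N) = Pb := hQP
      subst hQP'
      rfl
    rw [h3, Finset.sum_mul, Finset.sum_congr rfl (fun Pb _ => card_sylow_fiber N hN hH Pb.1 Pb.2 P), Finset.sum_const, Finset.card_univ,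
      ← Nat.card_eq_fintype_card, smul_eq_mul, mul_comm]
  calc _ = (Nat.card {Q : Sylow p G // H ≤ (Q : Subgroup G)} * Nat.card ↥(normalizer ((P : Subgroup G) : Set G) ⊓ N)) *
        Nat.card ((normalizer ((P : Subgroup G) : Set G)).map (QuotientGroup.mk' N)) := by ring
    _ = _ := by rw [h2]; ring

theorem AN_step_p {N N' H : Subgroup G} [N'.Normal] (hle : N ≤ N') {m : ℕ} (hm : N.relIndex N' = p ^ m) : AN p N H = AN p N' H := by
  ext g
  constructor
  · rintro ⟨R, hHR, hNR, hg, k, hk⟩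
    refine ⟨R ⊔ N', hHR.trans le_sup_left, le_sup_right, ?_, ?_⟩
    · rw [Subgroup.mem_normalizer_iff]
      rw [Subgroup.mem_normalizer_iff] at hg
      have key : ∀ g : G, (∀ r ∈ R, g * r * g⁻¹ ∈ R) → ∀ x ∈ R ⊔ N', g * x * g⁻¹ ∈ R ⊔ N' := by
        intro g hg x hx
        rw [Subgroup.mem_sup_of_normal_right] at hx
        obtain ⟨r, hr, n, hn, rfl⟩ := hx
        have h1 := mul_mem ((le_sup_left : R ≤ R ⊔ N') (hg r hr)) ((le_sup_right : N' ≤ R ⊔ N') (Subgroup.Normal.conj_mem inferInstance n hn g))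
        have e : g * r * g⁻¹ * (g * n * g⁻¹) = g * (r * n) * g⁻¹ := by group
        rwa [e] at h1
      intro x
      refine ⟨key g (fun r hr => (hg r).1 hr) x, fun hx => ?_⟩
      have h1 := key g⁻¹ (fun r hr => by
        rw [hg]
        have e : g * (g⁻¹ * r * g⁻¹⁻¹) * g⁻¹ = r := by group
        rwa [e]) _ hx
      have e : g⁻¹ * (g * x * g⁻¹) * g⁻¹⁻¹ = x := by group
      rwa [e] at h1
    · have h1 : N'.relIndex (R ⊔ N') ∣ p ^ k := by
        rw [sup_comm, Subgroup.relIndex_sup_left, ← hk]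
        exact Subgroup.relIndex_dvd_of_le_left _ hle
      obtain ⟨j, -, hj⟩ := (Nat.dvd_prime_pow hp.out).1 h1
      exact ⟨j, hj⟩
  · rintro ⟨R, hHR, hNR, hg, k, hk⟩
    refine ⟨R, hHR, hle.trans hNR, hg, m + k, ?_⟩
    rw [← Subgroup.relIndex_mul_relIndex N N' R hle hNR, hm, hk, pow_add]

theorem AN_comap {N N' H : Subgroup G} [N.Normal] (hle : N ≤ N') {g : G} :
    g ∈ AN p N' H ↔ (QuotientGroup.mk' N) g ∈ AN p (N'.map (QuotientGroup.mk' N)) (H.map (QuotientGroup.mk' N)) := by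
  have hcm : ∀ R : Subgroup G, N ≤ R → (R.map (QuotientGroup.mk' N)).comap (QuotientGroup.mk' N) = R := by
    intro R hR
    rw [Subgroup.comap_map_eq, QuotientGroup.ker_mk', sup_eq_left.2 hR]
  constructor
  · rintro ⟨R, hHR, hNR, hg, k, hk⟩
    refine ⟨R.map (QuotientGroup.mk' N), Subgroup.map_mono hHR, Subgroup.map_mono hNR, ?_, k, ?_⟩
    · rw [Subgroup.mem_normalizer_iff]
      rw [Subgroup.mem_normalizer_iff] at hg
      intro x
      obtain ⟨x, rfl⟩ := QuotientGroup.mk'_surjective N x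
      have h1 : ∀ y, (QuotientGroup.mk' N) y ∈ R.map (QuotientGroup.mk' N) ↔ y ∈ R := by
        intro y
        rw [← Subgroup.mem_comap, hcm R (hle.trans hNR)]
      rw [← map_inv, ← map_mul, ← map_mul, h1, h1]
      exact hg x
    · rw [Subgroup.relIndex_map_map, QuotientGroup.ker_mk', sup_eq_left.2 hle, sup_eq_left.2 (hle.trans hNR), hk]
  · rintro ⟨R, hHR, hNR, hg, k, hk⟩
    refine ⟨R.comap (QuotientGroup.mk' N), Subgroup.map_le_iff_le_comap.1 hHR, Subgroup.map_le_iff_le_comap.1 hNR, ?_, k, ?_⟩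
    · rw [Subgroup.mem_normalizer_iff]
      rw [Subgroup.mem_normalizer_iff] at hg
      intro x
      rw [mem_comap, mem_comap, map_mul, map_mul, map_inv]
      exact hg _
    · rw [← hk, ← hcm N' hle, Subgroup.relIndex_comap, Subgroup.map_comap_eq_self_of_surjective (QuotientGroup.mk'_surjective N), hcm N' hle]

theorem card_AN_quot {N N' H : Subgroup G} [N.Normal] (hle : N ≤ N') :
    Nat.card (AN p N' H) = Nat.card (AN p (N'.map (QuotientGroup.mk' N)) (H.map (QuotientGroup.mk' N))) * Nat.card N := by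
  have h1 := card_fiber_coset N (QuotientGroup.mk' N) (fun g g' => QuotientGroup.eq) (AN p (N'.map (QuotientGroup.mk' N)) (H.map (QuotientGroup.mk' N)))
  have h2 : Nat.card (AN p N' H) = Nat.card {g : G // (QuotientGroup.mk' N) g ∈ AN p (N'.map (QuotientGroup.mk' N)) (H.map (QuotientGroup.mk' N))} := by
    apply Nat.card_congr
    apply Equiv.subtypeEquivRight
    intro g
    exact AN_comap hle
  rw [h2, h1]
  congr 1
  apply Nat.card_congr
  apply Equiv.subtypeEquivRight
  intro x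
  exact ⟨fun h => h.1, fun h => ⟨h, QuotientGroup.mk'_surjective N x⟩⟩

theorem card_comm_mod {N N' H : Subgroup G} [N.Normal] (hle : N ≤ N') :
    Nat.card {u : G // u ∈ N' ∧ ∀ h ∈ H, h * u * h⁻¹ * u⁻¹ ∈ N} = 
      Nat.card ↥(N'.map (QuotientGroup.mk' N) ⊓ centralizer ((H.map (QuotientGroup.mk' N) : Subgroup (G ⧸ N)) : Set (G ⧸ N))) * Nat.card N := by
  set f := QuotientGroup.mk' N with hf
  set N'' : Subgroup (G ⧸ N) := N'.map f with hN''
  have h5 := card_fiber_coset N f (fun g g' => QuotientGroup.eq) ((N'' ⊓ centralizer ((H.map f : Subgroup (G ⧸ N)) : Set (G ⧸ N)) : Subgroup (G ⧸ N)) : Set (G ⧸ N))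
  have h6 : Nat.card {u : G // u ∈ N' ∧ ∀ h ∈ H, h * u * h⁻¹ * u⁻¹ ∈ N} = 
      Nat.card {g : G // f g ∈ ((N'' ⊓ centralizer ((H.map f : Subgroup (G ⧸ N)) : Set (G ⧸ N)) : Subgroup (G ⧸ N)) : Set (G ⧸ N))} := by
    apply Nat.card_congr
    apply Equiv.subtypeEquivRight
    intro u
    show _ ↔ f u ∈ N'' ∧ f u ∈ centralizer ((H.map f : Subgroup (G ⧸ N)) : Set (G ⧸ N))
    apply and_congr
    · rw [hN'', ← Subgroup.mem_comap, Subgroup.comap_map_eq, hf, QuotientGroup.ker_mk', sup_eq_left.2 hle]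
    · rw [Subgroup.mem_centralizer_iff]
      constructor
      · rintro h _ ⟨x, hx, rfl⟩
        have h7 : f (x * u * x⁻¹ * u⁻¹) = 1 := (QuotientGroup.eq_one_iff _).2 (h x hx)
        rw [map_mul, map_mul, map_mul, map_inv, map_inv] at h7
        exact (mul_inv_eq_iff_eq_mul.1 (mul_inv_eq_one.1 h7))
      · intro h x hx
        have h7 := h (f x) ⟨x, hx, rfl⟩
        apply (QuotientGroup.eq_one_iff _).1
        show f (x * u * x⁻¹ * u⁻¹) = 1
        rw [map_mul, map_mul, map_mul, map_inv, map_inv, h7]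
        group
  rw [h6, h5]
  congr 1
  apply Nat.card_congr
  apply Equiv.subtypeEquivRight
  intro x
  exact ⟨fun h => h.1, fun h => ⟨h, QuotientGroup.mk'_surjective N x⟩⟩

theorem card_AN_step {N N' H : Subgroup G} [N.Normal] [N'.Normal] (hle : N ≤ N') (hc : (N.relIndex N').Coprime p) (hH : IsPGroup p H) :
    Nat.card (AN p N H) * Nat.card N' = Nat.card (AN p N' H) * Nat.card {u : G // u ∈ N' ∧ ∀ h ∈ H, h * u * h⁻¹ * u⁻¹ ∈ N} := by
  set f := QuotientGroup.mk' N with hf
  set N'' : Subgroup (G ⧸ N) := N'.map f with hN''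
  haveI : N''.Normal := Subgroup.Normal.map inferInstance _ (QuotientGroup.mk'_surjective N)
  have hcN'' : Nat.card N'' * Nat.card N = Nat.card N' := by
    have := CfsgH1.card_map_mul_card_ker_of_le f N' (by rw [hf, QuotientGroup.ker_mk']; exact hle)
    rwa [hf, QuotientGroup.ker_mk'] at this
  have hcN' : (Nat.card N'').Coprime p := by
    have h1 := Subgroup.relIndex_mul_relIndex (⊥ : Subgroup G) N N' bot_le hle
    rw [Subgroup.relIndex_bot_left, Subgroup.relIndex_bot_left, ← hcN'', mul_comm] at h1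
    rw [← Nat.eq_of_mul_eq_mul_right Nat.card_pos h1]
    exact hc
  have hNb : N.map f = ⊥ := by rw [Subgroup.map_eq_bot_iff, hf, QuotientGroup.ker_mk']
  have h1 := card_AN_quot (p := p) (H := H) (le_refl N)
  rw [← hf, hNb, AN_bot_quot N'' hcN' (hH.map _)] at h1
  have h2 := card_AN_quot (p := p) (H := H.map f) (le_refl N'')
  have hNb' : N''.map (QuotientGroup.mk' N'') = ⊥ := by rw [Subgroup.map_eq_bot_iff, QuotientGroup.ker_mk']
  rw [hNb'] at h2
  have h3 := card_AN_quot (p := p) (H := H) hle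
  rw [← hf, ← hN'', h2] at h3
  have h4 := card_comm_mod (H := H) hle
  rw [← hf, ← hN''] at h4
  rw [h1, h4, h3, ← hcN'']
  ring

theorem AN_top {H : Subgroup G} : AN p (⊤ : Subgroup G) H = Set.univ := by
  rw [Set.eq_univ_iff_forall]
  intro g
  refine ⟨⊤, le_top, le_rfl, ?_, 0, ?_⟩
  · rw [Subgroup.mem_normalizer_iff]; simp
  · rw [Subgroup.relIndex_self, pow_zero]

theorem telescope_prod (n : ℕ) : ∀ (a : Fin (n + 1) → ℕ) (r c : Fin n → ℕ), (∀ i, a i.castSucc * r i = a i.succ * c i) →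
    a 0 * ∏ i, r i = a (Fin.last n) * ∏ i, c i := by
  induction n with
  | zero => intro a r c _; simp
  | succ n ih =>
    intro a r c h
    have h1 := ih (fun i => a i.succ) (fun i => r i.succ) (fun i => c i.succ) (fun i => by
      have := h i.succ
      rw [← Fin.succ_castSucc] at this
      exact this)
    have h2 := h 0
    rw [Fin.prod_univ_succ, Fin.prod_univ_succ]
    have h3 : a (Fin.last (n + 1)) = a (Fin.last n).succ := by rw [Fin.succ_last]
    rw [h3]
    have h2' : a 0 * r 0 = a (Fin.succ 0) * c 0 := h2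
    calc a 0 * (r 0 * ∏ i : Fin n, r i.succ) = (a 0 * r 0) * ∏ i : Fin n, r i.succ := by ring
      _ = c 0 * (a (Fin.succ 0) * ∏ i : Fin n, r i.succ) := by rw [h2']; ring
      _ = c 0 * (a (Fin.last n).succ * ∏ i : Fin n, c i.succ) := by rw [h1]
      _ = _ := by ring

theorem subnz_psolv (H : Subgroup G) (hH : IsPGroup p H) (P : Sylow p G)
    (n : ℕ) (M : Fin (n + 1) → Subgroup G) (h0 : M 0 = ⊥) (hn : M (Fin.last n) = ⊤) (hmono : Monotone M)
    (hnormal : ∀ i, (M i).Normal)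
    (hfac : ∀ i : Fin n, (∃ m : ℕ, (M i.castSucc).relIndex (M i.succ) = p ^ m) ∨ ((M i.castSucc).relIndex (M i.succ)).Coprime p) :
    Nat.card {g : G // ((H).subgroupOf (H ⊔ Subgroup.zpowers g)).IsSubnormal} =
      Nat.card (P : Subgroup G) *
        ∏ i : Fin n, (if ((M i.castSucc).relIndex (M i.succ)).Coprime p then
          Nat.card {u : G // u ∈ M i.succ ∧ ∀ h ∈ H, h * u * h⁻¹ * u⁻¹ ∈ M i.castSucc} / Nat.card (M i.castSucc)
          else 1) := by
  have hstart : Nat.card {g : G // ((H).subgroupOf (H ⊔ Subgroup.zpowers g)).IsSubnormal} = Nat.card (AN p ⊥ H) := by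
    apply Nat.card_congr
    apply Equiv.subtypeEquivRight
    intro g
    rw [subnz_iff hH, mem_AN_bot]
  have hcard : ∀ i : Fin n, Nat.card (M i.succ) = Nat.card (M i.castSucc) * (M i.castSucc).relIndex (M i.succ) := by
    intro i
    have h1 := Subgroup.relIndex_mul_relIndex (⊥ : Subgroup G) _ _ bot_le (hmono (Fin.castSucc_le_succ i))
    rw [Subgroup.relIndex_bot_left, Subgroup.relIndex_bot_left] at h1
    exact h1.symm
  have h1 := telescope_prod n (fun i => Nat.card (AN p (M i) H)) 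
    (fun i => if ((M i.castSucc).relIndex (M i.succ)).Coprime p then (M i.castSucc).relIndex (M i.succ) else 1)
    (fun i => (if ((M i.castSucc).relIndex (M i.succ)).Coprime p then
          Nat.card {u : G // u ∈ M i.succ ∧ ∀ h ∈ H, h * u * h⁻¹ * u⁻¹ ∈ M i.castSucc} / Nat.card (M i.castSucc)
          else 1)) (by
    intro i
    haveI := hnormal i.castSucc
    haveI := hnormal i.succ
    have hle := hmono (Fin.castSucc_le_succ i)
    by_cases hc : ((M i.castSucc).relIndex (M i.succ)).Coprime p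
    · simp only [if_pos hc]
      have h2 := card_AN_step (p := p) hle hc hH
      rw [hcard i] at h2
      have h3 : Nat.card (M i.castSucc) ∣ Nat.card {u : G // u ∈ M i.succ ∧ ∀ h ∈ H, h * u * h⁻¹ * u⁻¹ ∈ M i.castSucc} := by
        rw [card_comm_mod hle]
        exact dvd_mul_left _ _
      obtain ⟨c, hcc⟩ := h3
      rw [hcc, Nat.mul_div_cancel_left _ Nat.card_pos]
      rw [hcc] at h2
      have h4 : Nat.card (M i.castSucc) * (Nat.card (AN p (M i.castSucc) H) * (M i.castSucc).relIndex (M i.succ)) = 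
          Nat.card (M i.castSucc) * (Nat.card (AN p (M i.succ) H) * c) := by
        calc _ = Nat.card (AN p (M i.castSucc) H) * (Nat.card (M i.castSucc) * (M i.castSucc).relIndex (M i.succ)) := by ring
          _ = _ := by rw [h2]; ring
      exact Nat.eq_of_mul_eq_mul_left Nat.card_pos h4
    · simp only [if_neg hc]
      obtain ⟨m, hm⟩ := (hfac i).resolve_right hc
      rw [AN_step_p hle hm])
  have h2 := telescope_prod n (fun i => Nat.card (M i)) (fun i => (M i.castSucc).relIndex (M i.succ)) (fun _ => 1) (by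
    intro i
    rw [mul_one]
    exact (hcard i).symm)
  have hGc : Nat.card G = Nat.card (P : Subgroup G) * ∏ i : Fin n, (if ((M i.castSucc).relIndex (M i.succ)).Coprime p then (M i.castSucc).relIndex (M i.succ) else 1) := by
    have h3 : Nat.card G = ∏ i : Fin n, (M i.castSucc).relIndex (M i.succ) := by
      simp only [h0, hn, Subgroup.card_bot, Subgroup.card_top, Finset.prod_const_one, mul_one, one_mul] at h2
      exact h2.symm
    have h4 : ∏ i : Fin n, (M i.castSucc).relIndex (M i.succ) = 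
        (∏ i : Fin n, (if ((M i.castSucc).relIndex (M i.succ)).Coprime p then 1 else (M i.castSucc).relIndex (M i.succ))) * 
        ∏ i : Fin n, (if ((M i.castSucc).relIndex (M i.succ)).Coprime p then (M i.castSucc).relIndex (M i.succ) else 1) := by
      rw [← Finset.prod_mul_distrib]
      apply Finset.prod_congr rfl
      intro i _
      split_ifs
      · rw [one_mul]
      · rw [mul_one]
    obtain ⟨a, ha⟩ : ∃ a : ℕ, (∏ i : Fin n, (if ((M i.castSucc).relIndex (M i.succ)).Coprime p then 1 else (M i.castSucc).relIndex (M i.succ))) = p ^ a := by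
      have h5 : ∀ i : Fin n, ∃ a : ℕ, (if ((M i.castSucc).relIndex (M i.succ)).Coprime p then 1 else (M i.castSucc).relIndex (M i.succ)) = p ^ a := by
        intro i
        by_cases hc : ((M i.castSucc).relIndex (M i.succ)).Coprime p
        · exact ⟨0, by rw [if_pos hc, pow_zero]⟩
        · obtain ⟨m, hm⟩ := (hfac i).resolve_right hc
          exact ⟨m, by rw [if_neg hc, hm]⟩
      choose e he using h5
      exact ⟨∑ i, e i, by rw [← Finset.prod_pow_eq_pow_sum, Finset.prod_congr rfl (fun i _ => he i)]⟩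
    have h6 : (∏ i : Fin n, (if ((M i.castSucc).relIndex (M i.succ)).Coprime p then (M i.castSucc).relIndex (M i.succ) else 1)).Coprime p := by
      apply Nat.Coprime.prod_left
      intro i _
      split_ifs with hc
      · exact hc
      · exact Nat.coprime_one_left p
    rw [h4, ha] at h3
    have h7 : Nat.card (P : Subgroup G) = p ^ a := by
      rw [P.card_eq_multiplicity, h3]
      congr 1
      rw [Nat.factorization_mul (pow_pos hp.out.pos a).ne' (by
        intro h
        rw [h] at h6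
        rw [Nat.coprime_zero_left] at h6
        exact hp.out.one_lt.ne' h6), Finsupp.add_apply, hp.out.factorization_pow, Finsupp.single_eq_same,
        Nat.factorization_eq_zero_of_not_dvd ((Nat.Prime.coprime_iff_not_dvd hp.out).1 h6.symm), add_zero]
    rw [h7]
    exact h3
  simp only [h0, hn, AN_top] at h1
  rw [hstart]
  have h8 : Nat.card (Set.univ : Set G) = Nat.card G := Nat.card_congr (Equiv.Set.univ G)
  rw [h8, hGc] at h1
  have hpos : 0 < ∏ i : Fin n, (if ((M i.castSucc).relIndex (M i.succ)).Coprime p then (M i.castSucc).relIndex (M i.succ) else 1) := by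
    apply Finset.prod_pos
    intro i _
    split_ifs
    · apply Nat.pos_of_ne_zero
      intro h
      have := hcard i
      rw [h, mul_zero] at this
      exact Nat.card_pos.ne' this
    · exact one_pos
  apply Nat.eq_of_mul_eq_mul_right hpos
  rw [h1]
  ring

end CfsgH2
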