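import Mathlib

/-! Derived length of Sylow subgroups of symmetric groups. -/

set_option autoImplicit false

namespace CfsgH2

open Subgroup
open scoped commutatorElement

section upper

variable {P : Type} [Group P]

theorem derived_shift {M : Subgroup P} (h : commutator P ≤ M) (k : ℕ) : 
    derivedSeries P (k + 1) ≤ (derivedSeries M k).map M.subtype := by
  induction k with
  | zero => 
    rw [zero_add, derivedSeries_one, derivedSeries_zero, ← MonoidHom.range_eq_map, range_subtype]
    exact h
  | succ k ih =>
    rw [derivedSeries_succ P (k + 1), derivedSeries_succ M k, map_commutator]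
    exact commutator_mono ih ih

theorem exists_max_subgroup {p : ℕ} [hp : Fact p.Prime] [Finite P] (hP : IsPGroup p P) {S : Subgroup P} (hS : S ≠ ⊤) :
    ∃ M : Subgroup P, S ≤ M ∧ M.index = p ∧ commutator P ≤ M := by
  obtain ⟨m, hm⟩ := IsPGroup.iff_card.mp hP
  obtain ⟨j, hj⟩ := IsPGroup.iff_card.mp (hP.to_subgroup S)
  have hjm : j < m := by
    have h1 : Nat.card S ≠ Nat.card P := fun h => hS (eq_top_of_card_eq S h)
    have h2 : Nat.card S ≤ Nat.card P := Nat.le_of_dvd Nat.card_pos (card_subgroup_dvd_card S)
    rw [hj, hm] at h1 h2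
    have h3 := lt_of_le_of_ne h2 h1
    exact (Nat.pow_lt_pow_iff_right hp.out.one_lt).mp h3
  obtain ⟨n, rfl⟩ : ∃ n, m = n + 1 := ⟨m - 1, by omega⟩
  obtain ⟨M, hM, hSM⟩ := Sylow.exists_subgroup_card_pow_prime_le p (m := n) (by rw [hm]; exact pow_dvd_pow p (by omega)) S hj (by omega)
  have hidx : M.index = p := by
    have h1 := M.card_mul_index
    rw [hM, hm, pow_succ] at h1
    exact Nat.eq_of_mul_eq_mul_left (pow_pos hp.out.pos n) h1
  have hn : M.Normal := by
    apply normal_of_index_eq_minFac_card
    rw [hidx, hm, Nat.Prime.pow_minFac hp.out (by omega)]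
  refine ⟨M, hSM, hidx, ?_⟩
  have hcyc : IsCyclic (P ⧸ M) := isCyclic_of_prime_card (p := p) hidx
  have hcomm : IsMulCommutative (P ⧸ M) := IsCyclic.isMulCommutative
  rw [_root_.commutator_def, commutator_le]
  intro a _ b _
  have h1 := hcomm.is_comm.comm (QuotientGroup.mk' M a) (QuotientGroup.mk' M b)
  have h2 : QuotientGroup.mk' M ⁅a, b⁆ = 1 := by
    rw [map_commutatorElement, commutatorElement_eq_one_iff_mul_comm]
    exact h1
  exact (QuotientGroup.eq_one_iff _).mp h2

theorem derived_upper {p : ℕ} [hp : Fact p.Prime] (k : ℕ) : ∀ (α : Type) [Finite α] (P : Type) [Group P] [Finite P] 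
    [MulAction P α], IsPGroup p P → Nat.card α < p ^ (k + 1) → ∀ x ∈ derivedSeries P k, ∀ a : α, x • a = a := by
  induction k with
  | zero =>
    intro α _ P _ _ _ hP hα x _ a
    obtain ⟨n, hn⟩ := hP.card_orbit (α := α) a
    have h1 : Nat.card (MulAction.orbit P a) ≤ Nat.card α := Nat.card_le_card_of_injective _ Subtype.val_injective
    rw [zero_add, pow_one] at hα
    have hn0 : n = 0 := by
      by_contra h0
      have h2 : p ≤ p ^ n := Nat.le_self_pow h0 p
      omega
    rw [hn0, pow_zero, Nat.card_eq_one_iff_unique] at hn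
    have := hn.1.elim ⟨x • a, MulAction.mem_orbit a x⟩ ⟨a, MulAction.mem_orbit_self a⟩
    exact congrArg Subtype.val this
  | succ k ih =>
    intro α _ P _ _ _ hP hα x hx a
    by_cases hS : MulAction.stabilizer P a = ⊤
    · have : x ∈ MulAction.stabilizer P a := by rw [hS]; exact mem_top _
      exact this
    · obtain ⟨M, hSM, hidx, hcomm⟩ := exists_max_subgroup hP hS
      obtain ⟨y, hy, rfl⟩ := derived_shift hcomm k hx
      have h1 : MulAction.stabilizer M a = (MulAction.stabilizer P a).subgroupOf M := by
        ext g; rfl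
      have h2 := MulAction.index_stabilizer M a
      have h3 := MulAction.index_stabilizer P a
      have h4 := relIndex_mul_index hSM
      rw [relIndex, ← h1, h2, h3, hidx] at h4
      have h5 : (MulAction.orbit P a).ncard ≤ Nat.card α := by
        rw [← Nat.card_coe_set_eq]
        exact Nat.card_le_card_of_injective _ Subtype.val_injective
      have h6 : Nat.card (MulAction.orbit M a) < p ^ (k + 1) := by
        rw [Nat.card_coe_set_eq]
        rw [← h4] at h5
        have h7 := lt_of_le_of_lt h5 hα
        rw [pow_succ] at h7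
        exact lt_of_mul_lt_mul_right h7 (Nat.zero_le p)
      have h7 := ih (MulAction.orbit M a) M (hP.to_subgroup M) h6 y hy ⟨a, MulAction.mem_orbit_self a⟩
      exact congrArg Subtype.val h7

end upper

section lower

variable {D Q : Type} [Group D] [Group Q]

theorem wreath_lift {q : Q} (hq : q ≠ 1) (m : ℕ) : ∀ x ∈ derivedSeries D m, 
    ∃ w ∈ derivedSeries (RegularWreathProduct D Q) (m + 1), w.right = 1 ∧ w.left 1 = x := by
  classical
  induction m with
  | zero =>
    intro x _
    refine ⟨⁅(⟨Pi.mulSingle 1 x, 1⟩ : RegularWreathProduct D Q), ⟨1, q⟩⁆, ?_, ?_, ?_⟩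
    · rw [derivedSeries_succ]
      exact commutator_mem_commutator (mem_top _) (mem_top _)
    · rw [commutatorElement_def]
      simp
    · rw [commutatorElement_def]
      have h1 : q⁻¹ ≠ 1 := fun h => hq (inv_eq_one.mp h)
      simp [Pi.mulSingle_eq_of_ne h1]
  | succ m ih =>
    let T : Subgroup D := 
      { carrier := {x | ∃ w ∈ derivedSeries (RegularWreathProduct D Q) (m + 1 + 1), w.right = 1 ∧ w.left 1 = x}
        mul_mem' := by
          rintro x y ⟨u, hu, hu1, rfl⟩ ⟨w, hw, hw1, rfl⟩
          refine ⟨u * w, mul_mem hu hw, ?_, ?_⟩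
          · rw [RegularWreathProduct.mul_right, hu1, hw1, mul_one]
          · rw [RegularWreathProduct.mul_left, hu1]
            simp
        one_mem' := ⟨1, one_mem _, rfl, rfl⟩
        inv_mem' := by
          rintro x ⟨u, hu, hu1, rfl⟩
          refine ⟨u⁻¹, inv_mem hu, ?_, ?_⟩
          · rw [RegularWreathProduct.inv_right, hu1, inv_one]
          · rw [RegularWreathProduct.inv_left, hu1]
            simp }
    have hT : derivedSeries D (m + 1) ≤ T := by
      rw [derivedSeries_succ, commutator_le]
      intro x hx y hy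
      obtain ⟨u, hu, hu1, rfl⟩ := ih x hx
      obtain ⟨w, hw, hw1, rfl⟩ := ih y hy
      refine ⟨⁅u, w⁆, commutator_mem_commutator hu hw, ?_, ?_⟩
      · rw [commutatorElement_def]
        simp [hu1, hw1]
      · rw [commutatorElement_def, commutatorElement_def]
        simp [hu1, hw1]
    intro x hx
    exact hT hx

theorem derived_lower {p : ℕ} [hp : Fact p.Prime] (k : ℕ) : ∃ (T D : Type) (_ : Finite T) (_ : Group D) (_ : Finite D) 
    (_ : MulAction D T) (_ : FaithfulSMul D T), Nat.card T = p ^ (k + 1) ∧ IsPGroup p D ∧ derivedSeries D k ≠ ⊥ := by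
  have hcardC : Nat.card (Multiplicative (ZMod p)) = p := by
    rw [Nat.card_congr Multiplicative.toAdd]
    exact Nat.card_zmod p
  have hntC : Nontrivial (Multiplicative (ZMod p)) := by
    haveI : NeZero p := ⟨hp.out.ne_zero⟩
    rw [← Finite.one_lt_card_iff_nontrivial, hcardC]
    exact hp.out.one_lt
  induction k with
  | zero =>
    haveI : NeZero p := ⟨hp.out.ne_zero⟩
    refine ⟨Multiplicative (ZMod p), Multiplicative (ZMod p), inferInstance, inferInstance, inferInstance, 
      inferInstance, inferInstance, ?_, ?_, ?_⟩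
    · rw [zero_add, pow_one]; exact hcardC
    · apply IsPGroup.of_card (n := 1); rw [pow_one]; exact hcardC
    · rw [derivedSeries_zero]; exact top_ne_bot
  | succ k ih =>
    haveI : NeZero p := ⟨hp.out.ne_zero⟩
    obtain ⟨T, D, i1, i2, i3, i4, i5, h1, h2, h3⟩ := ih
    haveI : Nonempty T := by
      rw [← Finite.card_pos_iff, h1]; exact pow_pos hp.out.pos _
    refine ⟨T × Multiplicative (ZMod p), RegularWreathProduct D (Multiplicative (ZMod p)), inferInstance, inferInstance, 
      inferInstance, inferInstance, inferInstance, ?_, ?_, ?_⟩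
    · rw [Nat.card_prod, h1, hcardC, pow_succ p (k + 1)]
    · obtain ⟨n, hn⟩ := IsPGroup.iff_card.mp h2
      refine IsPGroup.iff_card.mpr ⟨n * p + 1, ?_⟩
      rw [RegularWreathProduct.card, hn, hcardC, ← pow_mul, pow_succ]
    · intro hbot
      obtain ⟨q, hq⟩ := exists_ne (1 : Multiplicative (ZMod p))
      apply h3
      rw [eq_bot_iff]
      intro x hx
      obtain ⟨w, hw, -, hw2⟩ := wreath_lift hq k x hx
      rw [hbot, mem_bot] at hw
      rw [mem_bot, ← hw2, hw]; rfl

end lower

end CfsgH2
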