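import Cfsg.Agent.H2.TIHall
import Cfsg.Agent.H1.FrobConj

/-! # TI Hall subgroups: conjugacy of `π`-subgroups (helper2 library) -/

set_option autoImplicit false

open scoped commutatorElement Pointwise

namespace CfsgH2

open Subgroup

section
variable {G : Type*} [Group G] [Finite G]

theorem exists_conj_mem_of_hall {H : Subgroup G} (hHall : (Nat.card H).Coprime H.index) {x : G} {p k : ℕ} (hp : p.Prime)
    (hx : orderOf x = p ^ k) (hpH : p ∣ Nat.card H) : ∃ g : G, x ∈ MulAut.conj g • H := by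
  haveI : Fact p.Prime := ⟨hp⟩
  let P : Sylow p H := default
  have hPH : (P : Subgroup H).map H.subtype ≤ H := map_subtype_le _
  have hPp : IsPGroup p ((P : Subgroup H).map H.subtype) := P.2.map _
  have hPidx : ¬ p ∣ ((P : Subgroup H).map H.subtype).index := by
    rw [← Subgroup.relIndex_mul_index hPH, hp.dvd_mul]
    rintro (h | h)
    · have h1 : ((P : Subgroup H).map H.subtype).relIndex H = (P : Subgroup H).index := by
        rw [Subgroup.relIndex, Subgroup.subgroupOf, Subgroup.comap_map_eq_self_of_injective H.subtype_injective]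
      rw [h1] at h
      exact P.not_dvd_index h
    · exact hp.one_lt.ne' (Nat.eq_one_of_dvd_coprimes hHall hpH h)
  let S : Sylow p G := hPp.toSylow hPidx
  have hxp : IsPGroup p (zpowers x) := IsPGroup.of_card (n := k) (by rw [Nat.card_zpowers, hx])
  obtain ⟨T, hT⟩ := hxp.exists_le_sylow
  obtain ⟨g, hg⟩ := MulAction.exists_smul_eq G S T
  refine ⟨g, ?_⟩
  have h1 : x ∈ (T : Subgroup G) := hT (mem_zpowers x)
  rw [← hg, Sylow.coe_subgroup_smul] at h1
  have h2 : (S : Subgroup G) ≤ H := hPH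
  exact CfsgH1.conj_smul_mono g h2 h1

theorem ti_conj_smul {H : Subgroup G} (hTI : Cfsg.IsTISubset (H : Set G)) (g : G) :
    Cfsg.IsTISubset ((MulAut.conj g • H : Subgroup G) : Set G) := by
  intro y hy x hx hyx
  have hx' : g⁻¹ * x * g ∈ H := CfsgH1.mem_conj_smul.1 hx
  have hyx' : g⁻¹ * (y * x * y⁻¹) * g ∈ H := CfsgH1.mem_conj_smul.1 hyx
  by_contra hx1
  apply hy
  have h1 := ti_mem hTI (g := g⁻¹ * y * g) hx' (by
    intro e
    apply hx1
    have : x = g * (g⁻¹ * x * g) * g⁻¹ := by group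
    rw [this, e]; group) (by
    have : g⁻¹ * y * g * (g⁻¹ * x * g) * (g⁻¹ * y * g)⁻¹ = g⁻¹ * (y * x * y⁻¹) * g := by group
    rw [this]; exact hyx')
  rw [← CfsgH1.conj_smul_eq_self_iff] at h1
  rw [← CfsgH1.conj_smul_eq_self_iff, ← mul_smul, ← map_mul]
  have e : y * g = g * (g⁻¹ * y * g) := by group
  rw [e, map_mul, mul_smul, h1]

theorem ti_eq_of_common {H : Subgroup G} (hTI : Cfsg.IsTISubset (H : Set G)) {a b x : G} (hx : x ≠ 1)
    (ha : x ∈ MulAut.conj a • H) (hb : x ∈ MulAut.conj b • H) : MulAut.conj a • H = MulAut.conj b • H := by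
  rw [CfsgH1.mem_conj_smul] at ha hb
  have h1 := ti_mem hTI (g := b⁻¹ * a) ha (by
    intro e
    apply hx
    have : x = a * (a⁻¹ * x * a) * a⁻¹ := by group
    rw [this, e]; group) (by
    have : b⁻¹ * a * (a⁻¹ * x * a) * (b⁻¹ * a)⁻¹ = b⁻¹ * x * b := by group
    rw [this]; exact hb)
  rw [← CfsgH1.conj_smul_eq_self_iff] at h1
  have h2 : MulAut.conj b • (MulAut.conj (b⁻¹ * a) • H) = MulAut.conj b • H := by rw [h1]
  rw [← mul_smul, ← map_mul, mul_inv_cancel_left] at h2
  exact h2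

theorem ti_hall_conj {H : Subgroup G} (hHall : (Nat.card H).Coprime H.index) (hTI : Cfsg.IsTISubset (H : Set G))
    (K : Subgroup G) (hK : ∀ q : ℕ, q.Prime → q ∣ Nat.card K → q ∣ Nat.card H) :
    ∃ g : G, K ≤ MulAut.conj g • H := by
  by_cases hKb : K = ⊥
  · exact ⟨1, by rw [hKb]; exact bot_le⟩
  -- malnormality in `K`
  have hmal : ∀ g : G, ∀ k : K, k ∉ (MulAut.conj g • H).subgroupOf K →
      (MulAut.conj g • H).subgroupOf K ⊓ MulAut.conj k • (MulAut.conj g • H).subgroupOf K = ⊥ := by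
    intro g k hk
    rw [eq_bot_iff]
    intro y hy
    obtain ⟨hy1, hy2⟩ := Subgroup.mem_inf.1 hy
    rw [CfsgH1.mem_conj_smul] at hy2
    rw [mem_subgroupOf] at hy1 hy2 hk
    by_contra hy0
    have hy0' : (y : G) ≠ 1 := fun e => hy0 (by rw [mem_bot]; exact Subtype.ext e)
    have h1 := ti_mem (ti_conj_smul hTI g) (g := (k : G)⁻¹) hy1 hy0' (by
      rw [inv_inv]; exact hy2)
    have h2 : (k : G) ∈ normalizer ((MulAut.conj g • H : Subgroup G) : Set G) := by
      have := Subgroup.inv_mem _ h1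
      rwa [inv_inv] at this
    apply hk
    apply mem_of_coprime_relIndex le_rfl h2
    have h3 : (orderOf (k : G)).Coprime (MulAut.conj g • H).index := by
      apply Nat.Coprime.symm
      rw [Nat.coprime_iff_gcd_eq_one]
      by_contra hne
      obtain ⟨q, hq, hqd⟩ := Nat.exists_prime_and_dvd hne
      have hq1 : q ∣ (MulAut.conj g • H).index := hqd.trans (Nat.gcd_dvd_left _ _)
      have hq2 : q ∣ orderOf (k : G) := hqd.trans (Nat.gcd_dvd_right _ _)
      have hq3 : q ∣ Nat.card H := hK q hq (hq2.trans (Subgroup.orderOf_dvd_natCard K k.2))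
      have hq4 : (MulAut.conj g • H).index = H.index := by
        have e1 := Subgroup.card_mul_index H
        have e2 := Subgroup.card_mul_index (MulAut.conj g • H)
        rw [CfsgH1.card_conj_smul, ← e1] at e2
        exact Nat.eq_of_mul_eq_mul_left Nat.card_pos e2
      rw [hq4] at hq1
      exact hq.one_lt.ne' (Nat.eq_one_of_dvd_coprimes hHall hq3 hq1)
    exact Nat.Coprime.coprime_dvd_right (Subgroup.relIndex_dvd_index_of_le Subgroup.le_normalizer) h3
  -- elements of prime order of `K`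
  have hprime : ∀ x : K, (orderOf x).Prime → ∃ g : G, x ∈ (MulAut.conj g • H).subgroupOf K := by
    intro x hx
    obtain ⟨g, hg⟩ := exists_conj_mem_of_hall hHall (x := (x : G)) (k := 1) hx (by rw [Subgroup.orderOf_coe, pow_one])
      (hK _ hx (orderOf_dvd_natCard x))
    exact ⟨g, hg⟩
  obtain ⟨x, hx⟩ : ∃ x : K, (orderOf x).Prime := by
    have h1 : Nat.card K ≠ 1 := fun h => hKb (Subgroup.eq_bot_of_card_eq _ h)
    obtain ⟨p, hp, hpK⟩ := Nat.exists_prime_and_dvd h1
    haveI : Fact p.Prime := ⟨hp⟩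
    obtain ⟨x, hx⟩ := exists_prime_orderOf_dvd_card' p hpK
    exact ⟨x, by rw [hx]; exact hp⟩
  obtain ⟨g, hg⟩ := hprime x hx
  set L := (MulAut.conj g • H).subgroupOf K with hL
  have hLb : L ≠ ⊥ := by
    intro e
    rw [e, mem_bot] at hg
    rw [hg, orderOf_one] at hx
    exact Nat.not_prime_one hx
  by_cases hLt : L = ⊤
  · refine ⟨g, ?_⟩
    exact Subgroup.subgroupOf_eq_top.1 hLt
  exfalso
  obtain ⟨y, hy1, hy2⟩ := CfsgH1.exists_not_conjEl (hmal g) hLt
  -- a power of prime order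
  obtain ⟨q, hq, hqy⟩ := Nat.exists_prime_and_dvd (fun e => hy1 (orderOf_eq_one_iff.1 e))
  set z := y ^ (orderOf y / q) with hz
  have hzo : orderOf z = q := orderOf_pow_orderOf_div (orderOf_pos y).ne' hqy
  have hz1 : z ≠ 1 := by
    intro e
    rw [e, orderOf_one] at hzo
    exact hq.one_lt.ne hzo
  have hz2 : ∀ a : K, a⁻¹ * z * a ∉ L := by
    intro a ha
    apply hy2 a
    by_contra hne
    have h1 := hmal g (a⁻¹ * y * a) hne
    have h2 : a⁻¹ * z * a ∈ L ⊓ MulAut.conj (a⁻¹ * y * a) • L := by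
      refine Subgroup.mem_inf.2 ⟨ha, ?_⟩
      rw [CfsgH1.mem_conj_smul]
      have hyz : y⁻¹ * z * y = z := by
        have : Commute y z := (Commute.refl y).pow_right _
        rw [mul_assoc, ← this.eq, inv_mul_cancel_left]
      have : (a⁻¹ * y * a)⁻¹ * (a⁻¹ * z * a) * (a⁻¹ * y * a) = a⁻¹ * (y⁻¹ * z * y) * a := by group
      rw [this, hyz]; exact ha
    rw [h1, mem_bot] at h2
    apply hz1
    have : z = a * (a⁻¹ * z * a) * a⁻¹ := by group
    rw [this, h2]; group
  obtain ⟨g1, hg1⟩ := hprime z (by rw [hzo]; exact hq)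
  set L1 := (MulAut.conj g1 • H).subgroupOf K with hL1
  have hL1b : L1 ≠ ⊥ := by
    intro e
    rw [e, mem_bot] at hg1
    exact hz1 hg1
  obtain ⟨w, ⟨hw1, a, ha⟩, ⟨-, b, hb⟩⟩ := CfsgH1.exists_common_of_ti (hmal g) (hmal g1) hLb hL1b
  -- the two conjugates are equal
  have hw1' : (w : G) ≠ 1 := fun e => hw1 (Subtype.ext e)
  have h1 : MulAut.conj ((a : G) * g) • H = MulAut.conj ((b : G) * g1) • H := by
    apply ti_eq_of_common hTI hw1'
    · have : (a : G)⁻¹ * w * a ∈ MulAut.conj g • H := ha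
      rw [map_mul, mul_smul, CfsgH1.mem_conj_smul]
      exact this
    · have : (b : G)⁻¹ * w * b ∈ MulAut.conj g1 • H := hb
      rw [map_mul, mul_smul, CfsgH1.mem_conj_smul]
      exact this
  apply hz2 (b⁻¹ * a)
  rw [hL, mem_subgroupOf]
  push_cast
  have h2 : (b : G) * z * (b : G)⁻¹ ∈ MulAut.conj ((b : G) * g1) • H := by
    rw [map_mul, mul_smul, CfsgH1.mem_conj_smul]
    have : (b : G)⁻¹ * ((b : G) * z * (b : G)⁻¹) * b = z := by group
    rw [this]; exact hg1
  rw [← h1, map_mul, mul_smul, CfsgH1.mem_conj_smul] at h2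
  have h3 : ((b : G)⁻¹ * a)⁻¹ * z * ((b : G)⁻¹ * a) = (a : G)⁻¹ * ((b : G) * z * (b : G)⁻¹) * a := by group
  rw [h3]
  exact h2

end

end CfsgH2
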