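import Cfsg.Agent.H2.TIConj
import Cfsg.Agent.H1.FrobThm
import Cfsg.Agent.H1.FrobEven
import Cfsg.Agent.H1.CopExtra
import Cfsg.Agent.H3.Kegel

/-! # TI Hall subgroups with a normal complement in the normalizer (helper2 library) -/

set_option autoImplicit false

open scoped commutatorElement Pointwise ComplexConjugate

namespace CfsgH2

open Subgroup CfsgH4 Cfsg

universe u v

section
variable {G : Type u} [Group G] [Finite G]

theorem indFun_ti_section [Fintype G] {M : Subgroup G} {Q : Type v} [Group Q] (ρ : M →* Q)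
    (C1 : ∀ (x y : M) (g : G), ρ x ≠ 1 → ρ y ≠ 1 → g⁻¹ * x * g = y → g ∈ M)
    (C2 : ∀ (x y : M) (g : G), ρ x = 1 → g⁻¹ * x * g = y → ρ y = 1) 
    {α : M → ℂ} (hα : IsClassFunction M α) (h0 : ∀ x : M, ρ x = 1 → α x = 0) (h : M) : indFun M α (h : G) = α h := by
  classical
  by_cases hh : ρ h = 1
  · rw [h0 h hh, indFun_apply]
    rw [Finset.sum_eq_zero, mul_zero]
    intro x _
    by_cases hx : x⁻¹ * h * x ∈ M
    · rw [extendByZero_of_mem M α hx]
      apply h0
      exact C2 h ⟨_, hx⟩ x hh rfl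
    · exact extendByZero_of_not_mem M α hx
  · rw [indFun_apply]
    have key : ∀ x : G, extendByZero M α (x⁻¹ * h * x) = if x ∈ M then α h else 0 := by
      intro x
      by_cases hx : x ∈ M
      · rw [if_pos hx]
        have hm : x⁻¹ * h * x ∈ M := M.mul_mem (M.mul_mem (M.inv_mem hx) h.2) hx
        rw [extendByZero_of_mem M α hm]
        have := hα h (⟨x, hx⟩⁻¹ : M)
        rw [← this]
        congr 1
        apply Subtype.ext
        push_cast
        group
      · rw [if_neg hx]
        by_cases hm : x⁻¹ * h * x ∈ M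
        · rw [extendByZero_of_mem M α hm]
          apply h0
          by_contra hne
          exact hx (C1 h ⟨_, hm⟩ x hh hne rfl)
        · exact extendByZero_of_not_mem M α hm
    simp only [key]
    rw [Finset.sum_ite, Finset.sum_const_zero, add_zero, Finset.sum_const]
    have hc : (Finset.univ.filter (fun x : G => x ∈ M)).card = Nat.card M := by
      rw [Nat.card_eq_fintype_card, Fintype.card_subtype]
    rw [hc, nsmul_eq_mul, ← mul_assoc, inv_mul_cancel₀ (CfsgH4.card_ne_zero M), one_mul]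

theorem frobenius_extend_section [Fintype G] {M : Subgroup G} [Fintype M] {Q : Type v} [Group Q] [Finite Q] (ρ : M →* Q)
    (hρ : Function.Surjective ρ)
    (C1 : ∀ (x y : M) (g : G), ρ x ≠ 1 → ρ y ≠ 1 → g⁻¹ * x * g = y → g ∈ M)
    (C2 : ∀ (x y : M) (g : G), ρ x = 1 → g⁻¹ * x * g = y → ρ y = 1) 
    {θ₀ : Q → ℂ} (hθ₀ : IsIrrCharacter Q θ₀) : 
    ∃ χ : G → ℂ, IsIrrCharacter G χ ∧ (∀ h : M, χ h = θ₀ (ρ h)) ∧ 
      ∀ g : G, (∀ (x : G) (y : M), x * g * x⁻¹ = y → ρ y = 1) → χ g = χ 1 := by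
  classical
  set θ : M → ℂ := fun h => θ₀ (ρ h) with hθdef
  have hθ : IsIrrCharacter M θ := isIrrCharacter_comp_surj ρ hρ hθ₀
  by_cases hθ1 : θ = fun _ => (1 : ℂ)
  · refine ⟨fun _ => 1, isIrrCharacter_one, fun h => by
      have := congrFun hθ1 h
      exact this.symm, fun g _ => rfl⟩
  obtain ⟨d, hd⟩ := IsCharacter.one_nat (IsIrr.isCharacter hθ)
  have hdρ : ∀ x : M, ρ x = 1 → θ x = d := by
    intro x hx
    rw [← hd, hθdef]
    simp only [hx, map_one]
  set u : M → ℂ := fun _ => (1 : ℂ) with hu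
  set α : M → ℂ := θ - (d : ℂ) • u with hα
  have hαc : IsClassFunction M α := isClassFunction_sub (IsIrr.isClassFunction hθ) 
    (isClassFunction_smul _ (IsIrr.isClassFunction isIrrCharacter_one))
  have hα0 : ∀ x : M, ρ x = 1 → α x = 0 := by
    intro x hx
    rw [hα]; simp [hdρ x hx, hu]
  have huu : classInner u u = 1 := by rw [hu, classInner_irr isIrrCharacter_one isIrrCharacter_one, if_pos rfl]
  have hθu : classInner θ u = 0 := by rw [hu, classInner_irr hθ isIrrCharacter_one, if_neg hθ1]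
  have huθ : classInner u θ = 0 := by
    rw [hu, classInner_irr isIrrCharacter_one hθ, if_neg (Ne.symm hθ1)]
  have hθθ : classInner θ θ = 1 := by rw [classInner_irr hθ hθ, if_pos rfl]
  have hαα : classInner α α = 1 + (d : ℂ) ^ 2 := by
    rw [hα, classInner_sub_left, classInner_sub_right, classInner_sub_right, classInner_smul_left, classInner_smul_left,
      classInner_smul_right, classInner_smul_right, huu, hθu, huθ, hθθ, Complex.conj_natCast]
    ring
  have hαu : classInner α u = - (d : ℂ) := by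
    rw [hα, classInner_sub_left, classInner_smul_left, huu, hθu]; ring
  set U : G → ℂ := fun _ => (1 : ℂ) with hU
  have hUU : classInner U U = 1 := by rw [hU, classInner_irr isIrrCharacter_one isIrrCharacter_one, if_pos rfl]
  set I := indFun M α with hI
  have hIc : IsClassFunction G I := indFun_isClassFunction M α
  have hII : classInner I I = 1 + (d : ℂ) ^ 2 := by
    rw [hI, frobenius M α hIc]
    have : (fun h : M => indFun M α (h : G)) = α := funext fun h => indFun_ti_section ρ C1 C2 hαc hα0 h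
    rw [this, hαα]
  have hIU : classInner I U = - (d : ℂ) := by
    rw [hI, frobenius M α (IsIrr.isClassFunction isIrrCharacter_one), ← hαu]
  have hUI : classInner U I = - (d : ℂ) := by
    rw [← classInner_conj_symm, hIU, map_neg, Complex.conj_natCast]
  set χ : G → ℂ := I + (d : ℂ) • U with hχ
  have hgen : IsGeneralizedCharacter G χ := by
    have e1 : IsGeneralizedCharacter M α := by
      have e2 := isGen_int_smul (IsCharacter.isGen (isCharacter_one (G := M))) (d : ℤ)
      have e3 : ((d : ℤ) : ℂ) = (d : ℂ) := by norm_cast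
      rw [e3] at e2
      exact isGen_sub (IsCharacter.isGen (IsIrr.isCharacter hθ)) e2
    have e2 := isGen_int_smul (IsCharacter.isGen (isCharacter_one (G := G))) (d : ℤ)
    have e3 : ((d : ℤ) : ℂ) = (d : ℂ) := by norm_cast
    rw [e3] at e2
    exact isGen_add (isGen_indFun M e1) e2
  have hnorm : classInner χ χ = 1 := by
    rw [hχ, classInner_add_left, classInner_add_right, classInner_add_right, classInner_smul_left, classInner_smul_left,
      classInner_smul_right, classInner_smul_right, hII, hIU, hUI, hUU, Complex.conj_natCast]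
    ring
  have hres : ∀ h : M, χ h = θ h := by
    intro h
    have e1 : I (h : G) = α h := indFun_ti_section ρ C1 C2 hαc hα0 h
    rw [hχ]
    simp only [Pi.add_apply, Pi.smul_apply, smul_eq_mul, e1, hU, mul_one]
    rw [hα]; simp [hu]
  have hχ1 : χ 1 = d := by
    have := hres 1
    rw [coe_one, hd] at this
    exact this
  have hirr : IsIrrCharacter G χ := by
    rcases IsGen.norm_one hgen hnorm with h | h
    · exact h
    · exfalso
      obtain ⟨n, hn⟩ := IsCharacter.one_nat (IsIrr.isCharacter h)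
      rw [Pi.neg_apply, hχ1] at hn
      have h2 : ((d : ℂ) + (n : ℂ)) = 0 := by rw [← hn]; ring
      have h3 : ((d + n : ℕ) : ℂ) = 0 := by push_cast; exact h2
      have h4 : d + n = 0 := by exact_mod_cast h3
      have h5 : d = 0 := by omega
      apply IsIrr.one_ne_zero hθ
      rw [hd, h5]; simp
  refine ⟨χ, hirr, hres, ?_⟩
  intro g hg
  have e1 : I g = 0 := by
    rw [hI, indFun_apply', Finset.sum_eq_zero, mul_zero]
    intro x _
    by_cases hx : x * g * x⁻¹ ∈ M
    · rw [extendByZero_of_mem M α hx]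
      exact hα0 _ (hg x ⟨_, hx⟩ rfl)
    · exact extendByZero_of_not_mem M α hx
  rw [hχ1, hχ]
  simp [e1, hU]

theorem exists_normal_of_section {M : Subgroup G} {Q : Type v} [Group Q] [Finite Q] (ρ : M →* Q)
    (hρ : Function.Surjective ρ)
    (C1 : ∀ (x y : M) (g : G), ρ x ≠ 1 → ρ y ≠ 1 → g⁻¹ * x * g = y → g ∈ M)
    (C2 : ∀ (x y : M) (g : G), ρ x = 1 → g⁻¹ * x * g = y → ρ y = 1) :
    ∃ N : Subgroup G, N.Normal ∧ (∀ x : M, (x : G) ∈ N ↔ ρ x = 1) ∧ M ⊔ N = ⊤ := by
  classical
  haveI : Fintype G := Fintype.ofFinite G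
  haveI : Fintype M := Fintype.ofFinite M
  haveI : Fintype Q := Fintype.ofFinite Q
  have hex := fun θ : IrrCharacter Q => frobenius_extend_section ρ hρ C1 C2 θ.2
  choose X hX1 hX2 hX3 using hex
  let N : Subgroup G := ⨅ θ : IrrCharacter Q, charKerSub (IsIrr.isCharacter (hX1 θ))
  have hNmem : ∀ g : G, g ∈ N ↔ ∀ θ : IrrCharacter Q, X θ g = X θ 1 := by
    intro g
    rw [Subgroup.mem_iInf]
    rfl
  have hNn : N.Normal := by
    constructor
    intro n hn g
    rw [hNmem] at hn ⊢
    intro θ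
    rw [← hn θ]
    exact IsIrr.isClassFunction (hX1 θ) n g
  have hK : ∀ g : G, (∀ (x : G) (y : M), x * g * x⁻¹ = y → ρ y = 1) → g ∈ N := by
    intro g hg
    rw [hNmem]
    intro θ
    exact hX3 θ g hg
  have hNM : ∀ x : M, (x : G) ∈ N ↔ ρ x = 1 := by
    intro x
    constructor
    · intro hN
      rw [hNmem] at hN
      apply eq_one_of_forall_ker
      intro ψ hψ
      have h2 := hX2 ⟨ψ, hψ⟩ x
      have h3 := hX2 ⟨ψ, hψ⟩ 1
      change X ⟨ψ, hψ⟩ x = ψ _ at h2
      rw [coe_one, map_one] at h3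
      change X ⟨ψ, hψ⟩ 1 = ψ _ at h3
      rw [← h2, ← h3]
      exact hN ⟨ψ, hψ⟩
    · intro hx
      rw [hNmem]
      intro θ
      have h2 := hX2 θ x
      have h3 := hX2 θ 1
      rw [coe_one, map_one] at h3
      rw [h2, h3, hx]
  refine ⟨N, hNn, hNM, ?_⟩
  -- counting
  set B : Set G := {z | ∃ g : G, ∃ x : M, ρ x ≠ 1 ∧ g * x * g⁻¹ = z} with hB
  have h1 : Nat.card B ≤ Nat.card ((G ⧸ M) × {x : M // ρ x ≠ 1}) := by
    refine Nat.card_le_card_of_surjective
      (fun qx : (G ⧸ M) × {x : M // ρ x ≠ 1} => (⟨(qx.1.out : G) * (qx.2 : M) * (qx.1.out : G)⁻¹, ⟨_, _, qx.2.2, rfl⟩⟩ : B)) ?_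
    rintro ⟨z, g, x, hx, rfl⟩
    have h2 : ((QuotientGroup.mk g : G ⧸ M).out)⁻¹ * g ∈ M := by
      rw [← QuotientGroup.eq]; exact Quotient.out_eq' _
    set o := (QuotientGroup.mk g : G ⧸ M).out with ho
    refine ⟨⟨QuotientGroup.mk g, ⟨⟨o⁻¹ * g, h2⟩ * x * ⟨o⁻¹ * g, h2⟩⁻¹, ?_⟩⟩, ?_⟩
    · rw [map_mul, map_mul, map_inv]
      intro e
      apply hx
      rw [mul_inv_eq_one] at e
      exact mul_eq_left.1 e
    · apply Subtype.ext
      simp only [← ho]
      push_cast
      group
  have h2 : Nat.card {x : M // ρ x ≠ 1} + Nat.card ρ.ker = Nat.card M := by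
    have e1 : Nat.card {x : M // ρ x = 1} = Nat.card ρ.ker := rfl
    rw [← e1, add_comm, ← Nat.card_sum]
    exact Nat.card_congr (Equiv.sumCompl (fun x : M => ρ x = 1))
  have h3 : Nat.card B + Nat.card (Bᶜ : Set G) = Nat.card G := by
    rw [← Nat.card_sum]
    exact Nat.card_congr (Equiv.Set.sumCompl B)
  have h4 : Nat.card (Bᶜ : Set G) ≤ Nat.card N := by
    apply Nat.card_mono (Set.toFinite _)
    intro g hg
    apply hK
    intro x y hxy
    by_contra hne
    apply hg
    refine ⟨x⁻¹, y, hne, ?_⟩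
    rw [← hxy]; group
  rw [Nat.card_prod] at h1
  have h5 : Nat.card (G ⧸ M) = M.index := rfl
  rw [h5] at h1
  have h6 := M.card_mul_index
  have h7 := CfsgH1.card_sup_mul_card_inf (H := M) (K := N) (CfsgH1.le_normalizer_of_normal _ _)
  have h8 : Nat.card ↥(M ⊓ N) = Nat.card ρ.ker := by
    have e1 : M ⊓ N = ρ.ker.map M.subtype := by
      ext z
      rw [Subgroup.mem_inf, Subgroup.mem_map]
      constructor
      · rintro ⟨hz1, hz2⟩
        exact ⟨⟨z, hz1⟩, (hNM ⟨z, hz1⟩).1 hz2, rfl⟩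
      · rintro ⟨w, hw, rfl⟩
        exact ⟨w.2, (hNM w).2 hw⟩
    rw [e1, card_map_of_injective M.subtype_injective]
  rw [h8] at h7
  have hkpos : 0 < Nat.card ρ.ker := Nat.card_pos
  have h9 : Nat.card G * Nat.card ρ.ker ≤ Nat.card ↥(M ⊔ N) * Nat.card ρ.ker := by
    rw [h7, ← h6, mul_assoc]
    apply Nat.mul_le_mul_left
    nlinarith
  have h10 : Nat.card G ≤ Nat.card ↥(M ⊔ N) := Nat.le_of_mul_le_mul_right h9 hkpos
  exact Subgroup.eq_top_of_le_card _ h10

end

end CfsgH2
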