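import Cfsg.Agent.H2.TIFrob
import Cfsg.Agent.H1.CoprimeSylow
import Mathlib.GroupTheory.SchurZassenhaus

/-! # TI Hall subgroups with a normal complement in the normalizer, part 2 (helper2 library) -/

set_option autoImplicit false

open scoped commutatorElement Pointwise

namespace CfsgH2

open Subgroup Cfsg

universe u v

section
variable {G : Type u} [Group G] [Finite G]

/-- a TI Hall subgroup with a normal complement in its normalizer has a normal complement -/
theorem ti_normal_complement {H : Subgroup G} (hTI : Cfsg.IsTISubset (H : Set G)) {M : Subgroup G}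
    (hM : M = normalizer (H : Set G)) (hHall : (Nat.card H).Coprime (H.subgroupOf M).index)
    (K : Subgroup M) (hKn : K.Normal) (hKc : K.IsComplement' (H.subgroupOf M)) :
    ∃ N : Subgroup G, N.Normal ∧ N.IsComplement' H := by
  haveI := hKn
  have hHM : H ≤ M := by rw [hM]; exact Subgroup.le_normalizer
  have hcardH : Nat.card (H.subgroupOf M) = Nat.card H := CfsgH1.card_subgroupOf hHM
  have hKcard : (Nat.card K).Coprime (Nat.card H) := by
    have h1 : (H.subgroupOf M).index = Nat.card K := hKc.index_eq_card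
    rw [h1] at hHall
    exact hHall.symm
  have hKidx : K.index = Nat.card H := by
    rw [← hcardH]; exact hKc.symm.index_eq_card
  let ρ := QuotientGroup.mk' K
  have hρ1 : ∀ x : M, ρ x = 1 ↔ x ∈ K := fun x => QuotientGroup.eq_one_iff x
  have hρ2 : ∀ x : M, ρ x = 1 ↔ (orderOf (x : G)).Coprime (Nat.card H) := by
    intro x
    rw [hρ1]
    constructor
    · intro hx
      rw [Subgroup.orderOf_coe]
      exact Nat.Coprime.coprime_dvd_left (Subgroup.orderOf_dvd_natCard K hx) hKcard
    · intro hx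
      rw [Subgroup.orderOf_coe] at hx
      have h1 : orderOf (ρ x) ∣ orderOf x := orderOf_map_dvd ρ x
      have h2 : orderOf (ρ x) ∣ K.index := orderOf_dvd_natCard _
      rw [hKidx] at h2
      exact (hρ1 x).1 (orderOf_eq_one_iff.1 (Nat.eq_one_of_dvd_coprimes hx h1 h2))
  -- every element of `M` is a commuting product
  have hcomm : ∀ k : M, k ∈ K → ∀ h : M, (h : G) ∈ H → k * h = h * k := by
    intro k hk h hh
    have h1 : k * h * k⁻¹ * h⁻¹ ∈ K := by
      have : k * h * k⁻¹ * h⁻¹ = k * (h * k⁻¹ * h⁻¹) := by group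
      rw [this]
      exact K.mul_mem hk (hKn.conj_mem _ (K.inv_mem hk) h)
    have h2 : k * h * k⁻¹ * h⁻¹ ∈ H.subgroupOf M := by
      rw [mem_subgroupOf]
      push_cast
      have hkM : (k : G) ∈ normalizer (H : Set G) := by rw [← hM]; exact k.2
      exact H.mul_mem ((mem_normalizer_iff.1 hkM _).1 hh) (H.inv_mem hh)
    have h3 := hKc.disjoint
    rw [Subgroup.disjoint_def] at h3
    have h4 := h3 h1 h2
    rw [mul_inv_eq_one, mul_inv_eq_iff_eq_mul] at h4
    exact h4
  have hdec : ∀ x : M, ∃ k ∈ K, ∃ h : M, (h : G) ∈ H ∧ x = k * h := by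
    intro x
    have h1 : x ∈ K ⊔ H.subgroupOf M := by rw [hKc.sup_eq_top]; trivial
    obtain ⟨k, hk, h, hh, e⟩ := Subgroup.mem_sup_of_normal_left.1 h1
    exact ⟨k, hk, h, hh, e.symm⟩
  obtain ⟨e, he1, he2⟩ := Nat.chineseRemainder hKcard.symm 1 0
  have hpow : ∀ (x k h : M), k ∈ K → (h : G) ∈ H → x = k * h → x ^ e = h := by
    intro x k h hk hh hx
    have hc : Commute k h := hcomm k hk h hh
    rw [hx, hc.mul_pow]
    have e1 : k ^ e = k ^ 0 := by
      rw [pow_eq_pow_iff_modEq]
      exact he2.of_dvd (Subgroup.orderOf_dvd_natCard K hk)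
    have e2 : h ^ e = h ^ 1 := by
      rw [pow_eq_pow_iff_modEq]
      apply he1.of_dvd
      rw [← Subgroup.orderOf_coe]
      exact Subgroup.orderOf_dvd_natCard H hh
    rw [e1, e2, pow_zero, one_mul, pow_one]
  obtain ⟨N, hN, hNM, hsup⟩ := exists_normal_of_section ρ (QuotientGroup.mk'_surjective K) (by
    intro x y g hx hy hxy
    obtain ⟨k, hk, h, hh, hxk⟩ := hdec x
    obtain ⟨k', hk', h', hh', hyk⟩ := hdec y
    have h1 := hpow x k h hk hh hxk
    have h2 := hpow y k' h' hk' hh' hyk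
    have h3 : g⁻¹ * (h : G) * g = h' := by
      have e1 : ((x ^ e : M) : G) = h := by rw [h1]
      have e2 : ((y ^ e : M) : G) = h' := by rw [h2]
      push_cast at e1 e2
      rw [← e1, ← e2, ← hxy]
      have := conj_pow (a := g⁻¹) (b := (x : G)) (i := e)
      rw [inv_inv] at this
      exact this.symm
    have hh1 : (h : G) ≠ 1 := by
      intro e
      apply hx
      rw [hρ1, hxk]
      have : h = 1 := Subtype.ext e
      rw [this, mul_one]; exact hk
    have h4 := ti_mem hTI (g := g⁻¹) hh hh1 (by rw [inv_inv, h3]; exact hh')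
    have := Subgroup.inv_mem _ h4
    rwa [inv_inv, ← hM] at this) (by
    intro x y g hx hxy
    rw [hρ2] at hx ⊢
    rw [← hxy]
    have h1 : orderOf (g⁻¹ * (x : G) * g) = orderOf (x : G) := by
      have := orderOf_injective (MulAut.conj g⁻¹).toMonoidHom (MulAut.conj g⁻¹).injective (x : G)
      rw [MulEquiv.toMonoidHom_eq_coe, MonoidHom.coe_coe, MulAut.conj_apply, inv_inv] at this
      exact this
    rw [h1]; exact hx)
  refine ⟨N, hN, ?_⟩
  haveI := hN
  have h1 : N ⊓ H = ⊥ := by
    rw [eq_bot_iff]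
    intro z hz
    obtain ⟨hz1, hz2⟩ := Subgroup.mem_inf.1 hz
    have h2 := (hNM ⟨z, hHM hz2⟩).1 hz1
    rw [hρ2] at h2
    have h3 : orderOf z ∣ Nat.card H := Subgroup.orderOf_dvd_natCard H hz2
    rw [mem_bot, ← orderOf_eq_one_iff]
    exact Nat.eq_one_of_dvd_coprimes h2 dvd_rfl h3
  have h2 : N ⊔ H = ⊤ := by
    rw [eq_top_iff, ← hsup]
    apply sup_le _ le_sup_left
    intro x hx
    obtain ⟨k, hk, h, hh, hxk⟩ := hdec ⟨x, hx⟩
    have h3 : x = (k : G) * h := congrArg Subtype.val hxk
    rw [h3]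
    exact Subgroup.mul_mem _ (le_sup_left (b := H) ((hNM k).2 ((hρ1 k).2 hk))) (le_sup_right (a := N) hh)
  apply isComplement'_of_disjoint_and_mul_eq_univ (disjoint_iff.2 h1)
  rw [← Subgroup.normal_mul, h2, coe_top]

/-- a coprime group action with all fixed points fixed by everything gives a Frobenius group -/
theorem frob_of_fixed {Γ : Type u} [Group Γ] [Finite Γ] {p : ℕ} [hp : Fact p.Prime] {U H : Subgroup Γ} [hUn : U.Normal]
    (hU : IsPGroup p U) (hUb : U ≠ ⊥) (hHb : H ≠ ⊥) (hUH : U ⊔ H = ⊤) (hcop : (Nat.card H).Coprime (Nat.card U)) (hcomm : ⁅U, H⁆ = U)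
    (hfix : ∀ h ∈ H, h ≠ 1 → U ⊓ centralizer {h} ≤ centralizer (H : Set Γ)) :
    ∃ (F : Type u) (_ : Group F) (_ : Finite F) (C : Subgroup F), Cfsg.IsFrobeniusComplement C ∧ Nonempty (H ≃* C) := by
  set D := ⁅U, U⁆ with hD
  haveI hDn : D.Normal := inferInstance
  have hDU : D ≤ U := commutator_le_left U U
  have hDlt : D < U := CfsgH1.commutator_lt_of_pgroup hU hU Subgroup.le_normalizer hUb
  set π := QuotientGroup.mk' D with hπ
  have hsur : Function.Surjective π := QuotientGroup.mk'_surjective D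
  have hUs : Group.IsSolvable U := CfsgH1.isSolvable_of_isPGroup hU
  set K := U.map π with hK
  haveI hKn : K.Normal := hUn.map π hsur
  set C := H.map π with hC
  have hHU : H ⊓ U = ⊥ := CfsgH1.inf_eq_bot_of_coprime hcop
  have hHD : H ⊓ D = ⊥ := by rw [eq_bot_iff, ← hHU]; exact inf_le_inf_left _ hDU
  have hinj : Function.Injective (π.subgroupMap H) := by
    rw [injective_iff_map_eq_one]
    intro h hh
    have h1 : π (h : Γ) = 1 := congrArg Subtype.val hh
    have h2 : (h : Γ) ∈ H ⊓ D := Subgroup.mem_inf.2 ⟨h.2, (QuotientGroup.eq_one_iff _).1 h1⟩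
    rw [hHD, mem_bot] at h2
    exact Subtype.ext h2
  have hKb : K ≠ ⊥ := by
    intro e
    rw [hK, Subgroup.map_eq_bot_iff, QuotientGroup.ker_mk'] at e
    exact not_le_of_gt hDlt e
  have hcardC : Nat.card C = Nat.card H := by
    apply CfsgH1.card_map_of_injOn
    rw [QuotientGroup.ker_mk']; exact hHD
  have hcop' : (Nat.card C).Coprime (Nat.card K) := by
    rw [hcardC]
    exact Nat.Coprime.coprime_dvd_right (Subgroup.card_map_dvd U π) hcop
  have hCb : C ≠ ⊥ := by
    intro e
    apply hHb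
    apply Subgroup.eq_bot_of_card_eq
    rw [← hcardC, e, card_bot]
  have hKab : ∀ x ∈ K, ∀ y ∈ K, x * y = y * x := by
    rintro _ ⟨x, hx, rfl⟩ _ ⟨y, hy, rfl⟩
    have h1 : ⁅x, y⁆ ∈ D := commutator_mem_commutator hx hy
    have h2 : π ⁅x, y⁆ = 1 := (QuotientGroup.eq_one_iff _).2 h1
    rw [map_commutatorElement] at h2
    exact commutatorElement_eq_one_iff_mul_comm.1 h2
  have hKC : ⁅K, C⁆ = K := by rw [hK, hC, ← Subgroup.map_commutator, hcomm]
  have h1 := CfsgH1.coprime_abelian_inf hKab (A := C) (CfsgH1.le_normalizer_of_normal _ _) hcop'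
  rw [hKC] at h1
  refine ⟨Γ ⧸ D, inferInstance, inferInstance, C, ?_, ⟨MulEquiv.ofBijective (π.subgroupMap H) ⟨hinj, π.subgroupMap_surjective H⟩⟩⟩
  have hcompl : IsComplement' K C := by
    apply isComplement'_of_disjoint_and_mul_eq_univ
    · rw [disjoint_iff, inf_comm]; exact CfsgH1.inf_eq_bot_of_coprime hcop'
    · rw [← Subgroup.normal_mul, hK, hC, ← Subgroup.map_sup, hUH, ← MonoidHom.range_eq_map, MonoidHom.range_eq_top.2 hsur,
        coe_top]
  rw [CfsgH1.frob_iff_fpf hcompl hKb hCb]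
  rintro _ ⟨h, hh, rfl⟩ hh1
  rw [eq_bot_iff]
  intro k hk
  obtain ⟨hk1, hk2⟩ := Subgroup.mem_inf.1 hk
  obtain ⟨x, hx, rfl⟩ := hk1
  have hh1' : h ≠ 1 := fun e => hh1 (by rw [e, map_one])
  rw [mem_centralizer_singleton_iff'] at hk2
  have hcoph : (Nat.card (zpowers h)).Coprime (Nat.card U) :=
    Nat.Coprime.coprime_dvd_left (card_dvd_of_le (zpowers_le.2 hh)) hcop
  obtain ⟨c, hc, hcx⟩ := CfsgH1.coprime_fixed_quotient (A := zpowers h) (K := U) (CfsgH1.le_normalizer_of_normal _ _)
    hcoph (Or.inr hUs) (N := D) hDU (CfsgH1.le_normalizer_of_normal _ _) x hx (by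
      rintro _ ⟨i, rfl⟩
      have h2 : π (x⁻¹ * (h ^ i * x * (h ^ i)⁻¹)) = 1 := by
        have h3 : Commute (π h) (π x) := hk2
        have h4 := (h3.zpow_left i).eq
        rw [map_mul, map_mul, map_mul, map_inv, map_inv, map_zpow, h4]
        group
      exact (QuotientGroup.eq_one_iff _).1 h2)
  obtain ⟨hcU, hcz⟩ := Subgroup.mem_inf.1 hc
  have hcH : c ∈ centralizer (H : Set Γ) := by
    apply hfix h hh hh1'
    refine Subgroup.mem_inf.2 ⟨hcU, ?_⟩
    rw [mem_centralizer_singleton_iff']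
    exact mem_centralizer_iff.1 hcz h (mem_zpowers h)
  have hxc : π x = π c := by
    have : π (x⁻¹ * c) = 1 := (QuotientGroup.eq_one_iff _).2 hcx
    rw [map_mul, map_inv, inv_mul_eq_one] at this
    exact this
  rw [mem_bot]
  have h2 : π x ∈ (K ⊓ centralizer (C : Set (Γ ⧸ D))) ⊓ K := by
    refine Subgroup.mem_inf.2 ⟨Subgroup.mem_inf.2 ⟨mem_map_of_mem π hx, ?_⟩, mem_map_of_mem π hx⟩
    rw [hxc, mem_centralizer_iff]
    rintro _ ⟨y, hy, rfl⟩
    rw [← map_mul, ← map_mul, mem_centralizer_iff.1 hcH y hy]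
  rw [h1, mem_bot] at h2
  exact h2

theorem ti_frobenius {H : Subgroup G} (hTI : Cfsg.IsTISubset (H : Set G)) (hHall : (Nat.card H).Coprime H.index)
    (hnn : ¬ H.Normal) {N : Subgroup G} [hN : N.Normal] (hNc : N.IsComplement' H) :
    ∃ (F : Type u) (_ : Group F) (_ : Finite F) (C : Subgroup F), Cfsg.IsFrobeniusComplement C ∧ Nonempty (H ≃* C) := by
  have hNH : N ⊓ H = ⊥ := hNc.disjoint.eq_bot
  have hNHt : N ⊔ H = ⊤ := hNc.sup_eq_top
  have hNcard : Nat.card N = H.index := hNc.index_eq_card.symm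
  have hNidx : N.index = Nat.card H := hNc.symm.index_eq_card
  have hcop : (Nat.card N).Coprime (Nat.card H) := by rw [hNcard]; exact hHall.symm
  have hHb : H ≠ ⊥ := by
    intro e
    apply hnn
    rw [e]; infer_instance
  -- invariant Sylow subgroups
  have hinv : ∀ q : ℕ, q.Prime → ∃ T, CfsgH1.IsSylowOf q T N ∧ H ≤ normalizer (T : Set G) := by
    intro q hq
    haveI : Fact q.Prime := ⟨hq⟩
    let P : Sylow q N := default
    set T := (P : Subgroup N).map N.subtype with hT
    have hTs : CfsgH1.IsSylowOf q T N := ⟨P, rfl⟩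
    have hfr : normalizer (T : Set G) ⊔ N = ⊤ := P.normalizer_sup_eq_top
    set R := normalizer (T : Set G) with hR
    have hidx : (N.subgroupOf R).index = Nat.card H := by
      have e3 := CfsgH1.relIndex_sup_of_le_normalizer (H := R) (K := N) (CfsgH1.le_normalizer_of_normal _ _)
      rw [hfr, relIndex_top_right, hNidx] at e3
      exact e3.symm
    have hcop' : (Nat.card (N.subgroupOf R)).Coprime (N.subgroupOf R).index := by
      rw [hidx]
      apply Nat.Coprime.coprime_dvd_left _ hcop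
      have : Nat.card ((N.subgroupOf R).map R.subtype) = Nat.card (N.subgroupOf R) := card_map_of_injective R.subtype_injective
      rw [← this, Subgroup.subgroupOf_map_subtype]
      exact card_dvd_of_le inf_le_left
    obtain ⟨H1', hH1'⟩ := Subgroup.exists_right_complement'_of_coprime hcop'
    set H1 := H1'.map R.subtype with hH1
    have hH1card : Nat.card H1 = Nat.card H := by
      rw [hH1, card_map_of_injective R.subtype_injective, ← hidx, hH1'.symm.index_eq_card]
    obtain ⟨g, hg⟩ := ti_hall_conj hHall hTI H1 (by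
      intro q _ hd
      rw [hH1card] at hd
      exact hd)
    have hg' : H1 = MulAut.conj g • H := by
      apply CfsgH1.eq_of_le_of_card_le hg
      rw [CfsgH1.card_conj_smul, hH1card]
    have hH1R : MulAut.conj g • H ≤ normalizer (T : Set G) := by
      rw [← hg', hH1]; exact map_subtype_le _
    refine ⟨MulAut.conj g⁻¹ • T, CfsgH1.isSylowOf_conj hTs (CfsgH1.le_normalizer_of_normal ⊤ N (mem_top _)), ?_⟩
    rw [CfsgH1.le_normalizer_iff_conj] at hH1R ⊢
    intro h hh k hk
    rw [CfsgH1.mem_conj_smul, inv_inv] at hk ⊢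
    have h1 := hH1R (g * h * g⁻¹) (by
      rw [CfsgH1.mem_conj_smul]
      have : g⁻¹ * (g * h * g⁻¹) * g = h := by group
      rw [this]; exact hh) _ hk
    have : g * (h * k * h⁻¹) * g⁻¹ = g * h * g⁻¹ * (g * k * g⁻¹) * (g * h * g⁻¹)⁻¹ := by group
    rw [this]; exact h1
  obtain ⟨q, hq, T, hT, hHT, hTH⟩ : ∃ q : ℕ, ∃ _ : q.Prime, ∃ T, CfsgH1.IsSylowOf q T N ∧ H ≤ normalizer (T : Set G) ∧
      ¬ T ≤ centralizer (H : Set G) := by
    by_contra hcon
    push Not at hcon
    apply hnn
    have h1 : N ≤ centralizer (H : Set G) := by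
      apply CfsgH3.le_of_forall_sylow
      intro q hq
      obtain ⟨T, hT, hHT⟩ := hinv q hq
      exact ⟨T, hT, hcon q hq T hT hHT⟩
    rw [← normalizer_eq_top_iff, eq_top_iff, ← hNHt]
    exact sup_le (h1.trans (CfsgH1.le_normalizer_of_le_centralizer le_rfl)) Subgroup.le_normalizer
  haveI : Fact q.Prime := ⟨hq⟩
  have hTN := CfsgH1.isSylowOf_le hT
  have hTq := CfsgH1.isSylowOf_isPGroup hT
  have hTs : Group.IsSolvable T := CfsgH1.isSolvable_of_isPGroup hTq
  have hcopT : (Nat.card H).Coprime (Nat.card T) := (Nat.Coprime.coprime_dvd_left (card_dvd_of_le hTN) hcop).symm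
  set U := ⁅T, H⁆ with hU
  have hUT : U ≤ T := by
    rw [hU, ← Subgroup.le_normalizer_iff_commutator_le_left]; exact hHT
  have hUcomm : ⁅U, H⁆ = U := CfsgH1.coprime_commutator_idem hHT hcopT (Or.inr hTs)
  have hUb : U ≠ ⊥ := by
    intro e
    apply hTH
    rw [CfsgH1.le_centralizer_iff_commutator]; exact e
  have hHU : H ≤ normalizer (U : Set G) := CfsgH1.normalizer_commutator hHT Subgroup.le_normalizer
  have hUq : IsPGroup q U := hTq.to_le hUT
  set X := U ⊔ H with hX
  have hUX : U ≤ X := le_sup_left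
  have hHX : H ≤ X := le_sup_right
  haveI : (U.subgroupOf X).Normal := CfsgH1.normal_subgroupOf_of_le_normalizer (sup_le Subgroup.le_normalizer hHU)
  have hcX : Nat.card (U.subgroupOf X) = Nat.card U := CfsgH1.card_subgroupOf hUX
  have hcX' : Nat.card (H.subgroupOf X) = Nat.card H := CfsgH1.card_subgroupOf hHX
  obtain ⟨F, iF, fF, C, hC, ⟨e⟩⟩ := frob_of_fixed (Γ := X) (p := q) (U := U.subgroupOf X) (H := H.subgroupOf X) (by
      obtain ⟨k, hk⟩ := IsPGroup.iff_card.1 hUq
      exact IsPGroup.of_card (n := k) (by rw [hcX, hk])) (by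
      intro e
      apply hUb
      apply Subgroup.eq_bot_of_card_eq
      rw [← hcX, e, card_bot]) (by
      intro e
      apply hHb
      apply Subgroup.eq_bot_of_card_eq
      rw [← hcX', e, card_bot]) (by
      rw [← Subgroup.subgroupOf_sup hUX hHX, Subgroup.subgroupOf_self]) (by
      rw [hcX, hcX']
      exact Nat.Coprime.coprime_dvd_right (card_dvd_of_le hUT) hcopT) (by
      apply Subgroup.map_injective X.subtype_injective
      rw [Subgroup.map_commutator, Subgroup.subgroupOf_map_subtype, Subgroup.subgroupOf_map_subtype, inf_eq_left.2 hUX,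
        inf_eq_left.2 hHX, hUcomm]) (by
      intro h hh hh1 z hz
      obtain ⟨hz1, hz2⟩ := Subgroup.mem_inf.1 hz
      rw [mem_subgroupOf] at hh hz1
      have hh1' : (h : G) ≠ 1 := fun e => hh1 (Subtype.ext e)
      have h1 := ti_fixed (K := N) hTI hcop hh hh1' (x := (z : G)) (Subgroup.mem_inf.2 ⟨hTN (hUT hz1), by
        rw [mem_centralizer_singleton_iff'] at hz2 ⊢
        exact congrArg Subtype.val hz2⟩)
      rw [mem_centralizer_iff] at h1 ⊢
      intro y hy
      exact Subtype.ext (h1 y hy))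
  exact ⟨F, iF, fF, C, hC, ⟨(Subgroup.subgroupOfEquivOfLe hHX).symm.trans e⟩⟩

end

end CfsgH2
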