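import Mathlib

/-! # Groups with three automorphism orbits, linear algebra part (helper2 library) -/

set_option autoImplicit false

namespace CfsgH2

open Polynomial

theorem annih_irreducible {p : ℕ} [Fact p.Prime] {V : Type*} [AddCommGroup V] [Nontrivial V] [Module (ZMod p) V]
    (T : Module.End (ZMod p) V)
    (hirr : ∀ (v : V) (a : (ZMod p)[X]), aeval T a v ≠ 0 → ∃ b : (ZMod p)[X], aeval T b (aeval T a v) = v)
    (h0 : ∃ a : (ZMod p)[X], a ≠ 0 ∧ aeval T a = 0) :
    ∃ m : (ZMod p)[X], Irreducible m ∧ ∀ a, aeval T a = 0 ↔ m ∣ a := by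
  obtain ⟨v0, hv0⟩ := exists_ne (0 : V)
  have hmul : ∀ (a b : (ZMod p)[X]) (v : V), aeval T (a * b) v = aeval T a (aeval T b v) := by
    intro a b v; rw [map_mul]; rfl
  have hadd : ∀ (a b : (ZMod p)[X]) (v : V), aeval T (a + b) v = aeval T a v + aeval T b v := by
    intro a b v; rw [map_add]; rfl
  have hone : ∀ v : V, aeval T (1 : (ZMod p)[X]) v = v := by
    intro v; rw [map_one]; rfl
  have hcommon : ∀ v1 v2 : V, v1 ≠ 0 → ∀ a : (ZMod p)[X], aeval T a v1 = 0 → aeval T a v2 = 0 := by
    intro v1 v2 h1 a ha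
    by_contra h2
    obtain ⟨b, hb⟩ := hirr v2 a h2
    set b' := b * a with hb'
    have e1 : aeval T b' v1 = 0 := by rw [hb', hmul, ha, map_zero]
    have e2 : aeval T b' v2 = v2 := by rw [hb', hmul, hb]
    have hv2 : v2 ≠ 0 := by rintro rfl; rw [map_zero] at h2; exact h2 rfl
    have e3 : aeval T b' (v1 + v2) = v2 := by rw [map_add, e1, e2, zero_add]
    obtain ⟨c, hc⟩ := hirr (v1 + v2) b' (by rw [e3]; exact hv2)
    rw [e3] at hc
    apply h1
    have e4 : aeval T (b' * c) v2 = aeval T c v2 := by rw [mul_comm, hmul, e2]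
    have e5 : aeval T (b' * c) v2 = v2 := by rw [hmul, hc, e3]
    rw [e5, hc] at e4
    exact (right_eq_add.1 e4)
  let I : Ideal (ZMod p)[X] :=
    { carrier := {a | aeval T a v0 = 0}
      zero_mem' := by change aeval T 0 v0 = 0; rw [map_zero]; rfl
      add_mem' := by
        intro a b ha hb
        change aeval T (a + b) v0 = 0
        rw [hadd, show aeval T a v0 = 0 from ha, show aeval T b v0 = 0 from hb, add_zero]
      smul_mem' := by
        intro c a ha
        change aeval T (c * a) v0 = 0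
        rw [hmul, show aeval T a v0 = 0 from ha, map_zero] }
  have hI : ∀ a, a ∈ I ↔ aeval T a = 0 := by
    intro a
    constructor
    · intro h
      ext v
      exact hcommon v0 v hv0 a h
    · intro h
      change aeval T a v0 = 0
      rw [h]; rfl
  have hIp : I.IsPrime := by
    refine ⟨?_, ?_⟩
    · rw [Ideal.ne_top_iff_one]
      intro h
      have : aeval T (1 : (ZMod p)[X]) v0 = 0 := h
      rw [hone] at this
      exact hv0 this
    · intro a b hab
      by_cases hb : b ∈ I
      · exact Or.inr hb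
      · left
        have hab' : aeval T (a * b) v0 = 0 := hab
        rw [hmul] at hab'
        exact hcommon _ v0 hb a hab'
  obtain ⟨m, hm⟩ := (IsPrincipalIdealRing.principal I).principal
  have hmI : ∀ a, a ∈ I ↔ m ∣ a := by
    intro a
    rw [hm]
    exact Ideal.mem_span_singleton
  have hm0 : m ≠ 0 := by
    rintro rfl
    obtain ⟨a, ha, ha'⟩ := h0
    have := (hmI a).1 ((hI a).2 ha')
    exact ha (zero_dvd_iff.1 this)
  refine ⟨m, ?_, fun a => by rw [← hI, hmI]⟩
  have hprime : Prime m := by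
    rw [← Ideal.span_singleton_prime hm0]
    have : Ideal.span {m} = I := hm.symm
    rw [this]; exact hIp
  exact hprime.irreducible

theorem order_of_comp {p q : ℕ} [hp : Fact p.Prime] [hq : Fact q.Prime] (hpq : p ≠ q) (m : (ZMod p)[X]) (hm : Irreducible m)
    (hmc : m ∣ cyclotomic q (ZMod p)) (hcomp : ∀ i : ℕ, i.Coprime q → m ∣ m.comp (X ^ i)) : orderOf (p : ZMod q) = q - 1 := by
  classical
  haveI : Fact (Irreducible m) := ⟨hm⟩
  have hcop : p.Coprime q := (Nat.coprime_primes hp.out hq.out).2 hpq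
  let K := AdjoinRoot m
  let lam : K := AdjoinRoot.root m
  have hlam : aeval lam m = 0 := by
    rw [aeval_def]; exact AdjoinRoot.eval₂_root m
  have hq0 : (q : K) ≠ 0 := by
    intro h
    have h1 : algebraMap (ZMod p) K (q : ZMod p) = 0 := by rw [map_natCast]; exact h
    have h2 := (map_eq_zero (algebraMap (ZMod p) K)).1 h1
    rw [ZMod.natCast_eq_zero_iff] at h2
    exact hpq ((Nat.prime_dvd_prime_iff_eq hp.out hq.out).1 h2)
  haveI : NeZero (q : K) := ⟨hq0⟩
  have hprim : IsPrimitiveRoot lam q := by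
    rw [← isRoot_cyclotomic_iff]
    obtain ⟨c, hc⟩ := hmc
    have h1 : aeval lam (cyclotomic q (ZMod p)) = 0 := by rw [hc, map_mul, hlam, zero_mul]
    rw [aeval_def, eval₂_eq_eval_map, map_cyclotomic] at h1
    exact h1
  have hroots : primitiveRoots q K ⊆ (m.map (algebraMap (ZMod p) K)).roots.toFinset := by
    intro ζ hζ
    rw [mem_primitiveRoots hq.out.pos] at hζ
    obtain ⟨i, -, hi, rfl⟩ := hprim.isPrimitiveRoot_iff.1 hζ
    rw [Multiset.mem_toFinset, mem_roots (by rw [Ne, Polynomial.map_eq_zero]; exact hm.ne_zero), IsRoot.def, ← eval₂_eq_eval_map, ← aeval_def]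
    obtain ⟨c, hc⟩ := hcomp i hi
    have h1 : aeval lam (m.comp (X ^ i)) = 0 := by rw [hc, map_mul, hlam, zero_mul]
    rw [aeval_comp] at h1
    simpa using h1
  have hcard := Finset.card_le_card hroots
  rw [hprim.card_primitiveRoots, Nat.totient_prime hq.out] at hcard
  have h1 : (m.map (algebraMap (ZMod p) K)).roots.toFinset.card ≤ m.natDegree := by
    refine (Multiset.toFinset_card_le _).trans ?_
    refine (card_roots' _).trans ?_
    rw [natDegree_map]
  have h2 := natDegree_of_dvd_cyclotomic_of_irreducible (K := ZMod p) (p := p) (f := 1) (n := q) (by rw [ZMod.card, pow_one]) hcop hmc hm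
  have h3 : orderOf (p : ZMod q) = m.natDegree := by
    rw [h2, ← orderOf_units, ZMod.coe_unitOfCoprime, pow_one]
  have h4 : orderOf (p : ZMod q) ∣ q - 1 := by
    rw [h3, h2]
    have := orderOf_dvd_card (x := ZMod.unitOfCoprime (p ^ 1) (hcop.pow_left 1))
    rwa [ZMod.card_units_eq_totient, Nat.totient_prime hq.out] at this
  have h5 := Nat.le_of_dvd (by have := hq.out.two_le; omega) h4
  omega

theorem cyclotomic_irreducible {p q : ℕ} [hp : Fact p.Prime] [hq : Fact q.Prime] (hpq : p ≠ q) (h : orderOf (p : ZMod q) = q - 1) :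
    Irreducible (cyclotomic q (ZMod p)) := by
  have hcop : p.Coprime q := (Nat.coprime_primes hp.out hq.out).2 hpq
  apply ZMod.irreducible_of_dvd_cyclotomic_of_natDegree (n := q) (fun hd => hpq ((Nat.prime_dvd_prime_iff_eq hp.out hq.out).1 hd)) dvd_rfl
  rw [natDegree_cyclotomic, Nat.totient_prime hq.out, ← h, ← orderOf_units, ZMod.coe_unitOfCoprime]

end CfsgH2
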