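import Mathlib
import Cfsg.Agent.H2.ThreeOrb
import Cfsg.Agent.H2.Ord123
import Cfsg.Agent.H1.FrobComp

/-! # Groups with three automorphism orbits, forward direction (helper2 library) -/

set_option autoImplicit false

namespace CfsgH2

open Polynomial

theorem aeval_intertwine {F V : Type*} [Field F] [AddCommGroup V] [Module F V] (T S α : Module.End F V)
    (h : ∀ v, α (T v) = S (α v)) (a : F[X]) (v : V) : α (aeval T a v) = aeval S a (α v) := by
  have hpow : ∀ (n : ℕ) (v : V), α ((T ^ n) v) = (S ^ n) (α v) := by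
    intro n
    induction n with
    | zero => intro v; rfl
    | succ n ih =>
      intro v
      rw [pow_succ, pow_succ]
      change α ((T ^ n) (T v)) = (S ^ n) (S (α v))
      rw [ih, h]
  induction a using Polynomial.induction_on' with
  | add p q hp hq =>
    rw [map_add, map_add]
    change α (aeval T p v + aeval T q v) = aeval S p (α v) + aeval S q (α v)
    rw [map_add, hp, hq]
  | monomial n c =>
    rw [aeval_monomial, aeval_monomial]
    change α (c • (T ^ n) v) = c • (S ^ n) (α v)
    rw [map_smul, hpow]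

open Subgroup Cfsg

universe u
variable {G : Type u} [Group G] [Finite G]

theorem three_orb_prim {p q : ℕ} [hp : Fact p.Prime] [hq : Fact q.Prime] (hpq : p ≠ q) {V : Type*} [AddCommGroup V] [Finite V]
    [Nontrivial V] (τ : V →+ V) (hτ : ∀ v, τ^[q] v = v) (hVpow : ∀ v : V, p • v = 0) (hfpf : ∀ v : V, τ v = v → v = 0)
    (htrans : ∀ v w : V, v ≠ 0 → w ≠ 0 → ∃ (α : V →+ V) (i : ℕ), Function.Injective α ∧ α v = w ∧ ∀ a, α (τ a) = τ^[i] (α a))
    (hpow : ∀ i : ℕ, i.Coprime q → ∃ α : V →+ V, Function.Surjective α ∧ ∀ a, α (τ a) = τ^[i] (α a)) :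
    orderOf (p : ZMod q) = q - 1 := by
  classical
  letI : Module (ZMod p) V := AddCommGroup.zmodModule (n := p) hVpow
  let T : Module.End (ZMod p) V := τ.toZModLinearMap p
  have hT : ∀ a : V, T a = τ a := fun a => rfl
  have hTn : ∀ (i : ℕ) (a : V), (T ^ i) a = τ^[i] a := by
    intro i
    induction i with
    | zero => intro a; rfl
    | succ i ih =>
      intro a
      rw [pow_succ, Function.iterate_succ_apply]
      change (T ^ i) (T a) = _
      rw [hT, ih]
  have hint : ∀ (α : V →+ V) (i : ℕ), (∀ a, α (τ a) = τ^[i] (α a)) → ∀ v,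
      (α.toZModLinearMap p : Module.End (ZMod p) V) (T v) = (T ^ i) ((α.toZModLinearMap p : Module.End (ZMod p) V) v) := by
    intro α i hα v
    rw [hTn]
    exact hα v
  -- the cyclic submodules all have the same size
  have hWle : ∀ v w : V, v ≠ 0 → w ≠ 0 →
      Nat.card {u // ∃ a : (ZMod p)[X], aeval T a v = u} ≤ Nat.card {u // ∃ a : (ZMod p)[X], aeval T a w = u} := by
    intro v w hv hw
    obtain ⟨α, i, hαinj, hαv, hα⟩ := htrans v w hv hw
    refine Nat.card_le_card_of_injective (fun u : {u // ∃ a : (ZMod p)[X], aeval T a v = u} =>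
      (⟨α u.1, ?_⟩ : {u // ∃ a : (ZMod p)[X], aeval T a w = u})) ?_
    · obtain ⟨b, hb⟩ := u.2
      refine ⟨b.comp (X ^ i), ?_⟩
      have h1 := aeval_intertwine T (T ^ i) (α.toZModLinearMap p : Module.End (ZMod p) V) (hint α i hα) b v
      rw [hb] at h1
      change α u.1 = aeval (T ^ i) b (α v) at h1
      rw [h1, hαv, aeval_comp, map_pow, aeval_X]
    · intro u u' huu
      exact Subtype.ext (hαinj (congrArg Subtype.val huu))
  have hirr : ∀ (v : V) (a : (ZMod p)[X]), aeval T a v ≠ 0 → ∃ b : (ZMod p)[X], aeval T b (aeval T a v) = v := by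
    intro v a hav
    have hv : v ≠ 0 := by rintro rfl; rw [map_zero] at hav; exact hav rfl
    have h1 := hWle v _ hv hav
    let ι : {u // ∃ b : (ZMod p)[X], aeval T b (aeval T a v) = u} → {u // ∃ b : (ZMod p)[X], aeval T b v = u} :=
      fun u => ⟨u.1, by
        obtain ⟨b, hb⟩ := u.2
        exact ⟨b * a, by rw [map_mul]; exact hb⟩⟩
    have hι : Function.Injective ι := fun u u' h => Subtype.ext (congrArg (fun z => (z.1 : V)) h)
    have hbij : Function.Bijective ι := (Nat.bijective_iff_injective_and_card ι).2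
      ⟨hι, le_antisymm (Nat.card_le_card_of_injective ι hι) h1⟩
    obtain ⟨u, hu⟩ := hbij.2 ⟨v, 1, by rw [map_one]; rfl⟩
    obtain ⟨b, hb⟩ := u.2
    exact ⟨b, hb.trans (congrArg Subtype.val hu)⟩
  have hTq : T ^ q = 1 := by
    ext v
    rw [hTn, hτ]; rfl
  have hcyc : aeval T (cyclotomic q (ZMod p)) = 0 := by
    ext v
    change aeval T (cyclotomic q (ZMod p)) v = 0
    apply hfpf
    have h2 : aeval T ((X - 1) * cyclotomic q (ZMod p)) = 0 := by
      rw [mul_comm, cyclotomic_prime_mul_X_sub_one, map_sub, map_pow, aeval_X, map_one, hTq, sub_self]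
    have h3 : aeval T ((X - 1) * cyclotomic q (ZMod p)) v = T (aeval T (cyclotomic q (ZMod p)) v) - aeval T (cyclotomic q (ZMod p)) v := by
      rw [map_mul, map_sub, aeval_X, map_one]; rfl
    rw [h2] at h3
    exact (sub_eq_zero.1 h3.symm)
  obtain ⟨m, hm, hmann⟩ := annih_irreducible T hirr ⟨cyclotomic q (ZMod p), cyclotomic_ne_zero _ _, hcyc⟩
  apply order_of_comp hpq m hm ((hmann _).1 hcyc)
  intro i hi
  obtain ⟨α, hαs, hα⟩ := hpow i hi
  rw [← hmann, aeval_comp, map_pow, aeval_X]
  ext w
  obtain ⟨w, rfl⟩ := hαs w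
  have h1 := aeval_intertwine T (T ^ i) (α.toZModLinearMap p : Module.End (ZMod p) V) (hint α i hα) m w
  rw [(hmann m).2 dvd_rfl] at h1
  change α 0 = aeval (T ^ i) m (α w) at h1
  rw [← h1, map_zero]; rfl

theorem three_orb_core {p q : ℕ} [hp : Fact p.Prime] [hq : Fact q.Prime] (hpq : p ≠ q) (y x : G) (hy : orderOf y = p)
    (hx : orderOf x = q) (hcov : ∀ g : G, g = 1 ∨ (∃ φ : MulAut G, φ y = g) ∨ ∃ φ : MulAut G, φ x = g) (A : Subgroup G)
    (hAc : ∀ φ : MulAut G, ∀ a ∈ A, φ a ∈ A) (hAab : ∀ a ∈ A, ∀ b ∈ A, a * b = b * a) (hyA : y ∈ A) :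
    ∃ n : ℕ, 1 ≤ n ∧ Nat.card G = p ^ n * q ∧
      (∀ P : Sylow p G, (P : Subgroup G).Normal ∧ Cfsg.IsElementaryAbelian p (P : Subgroup G)) ∧
      orderOf (p : ZMod q) = q - 1 ∧
      ∀ x y : G, orderOf x = q → orderOf y = p → x * y * x⁻¹ ≠ y := by
  classical
  have hcop : p.Coprime q := (Nat.coprime_primes hp.out hq.out).2 hpq
  have hord : ∀ g : G, g ≠ 1 → orderOf g = p ∨ orderOf g = q := by
    intro g hg
    rcases hcov g with h | ⟨φ, h⟩ | ⟨φ, h⟩
    · exact absurd h hg
    · left; rw [← h, MulEquiv.orderOf_eq, hy]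
    · right; rw [← h, MulEquiv.orderOf_eq, hx]
  have hno : ∀ u v : G, orderOf u = q → orderOf v = p → u * v ≠ v * u := by
    intro u v hu hv huv
    have h1 := exists_order_mul hcop.symm hu hv huv
    have h2 : u * v ≠ 1 := by
      intro h
      rw [h, orderOf_one] at h1
      have := Nat.mul_le_mul hq.out.two_le hp.out.two_le
      omega
    rcases hord _ h2 with h3 | h3
    · rw [h1] at h3
      have := hq.out.two_le
      have := hp.out.pos
      nlinarith
    · rw [h1] at h3
      have := hp.out.two_le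
      have := hq.out.pos
      nlinarith
  have hxA : x ∉ A := fun h => hno x y hx hy (hAab x h y hyA)
  have hmemp : ∀ g : G, orderOf g = p → g ∈ A := by
    intro g hg
    rcases hcov g with h | ⟨φ, h⟩ | ⟨φ, h⟩
    · rw [h]; exact one_mem _
    · rw [← h]; exact hAc φ y hyA
    · exfalso
      apply hpq
      rw [← hg, ← h, MulEquiv.orderOf_eq, hx]
  have hAord : ∀ g ∈ A, g ≠ 1 → orderOf g = p := by
    intro g hg hg1
    rcases hcov g with h | ⟨φ, h⟩ | ⟨φ, h⟩
    · exact absurd h hg1
    · rw [← h, MulEquiv.orderOf_eq, hy]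
    · exfalso
      apply hxA
      have h1 := hAc (φ⁻¹) g hg
      rw [← h] at h1
      have h2 : φ⁻¹ (φ x) = x := φ.symm_apply_apply x
      rwa [h2] at h1
  haveI hAn : A.Normal := ⟨fun a ha g => hAc (MulAut.conj g) a ha⟩
  have hApow : ∀ g ∈ A, g ^ p = 1 := by
    intro g hg
    by_cases h1 : g = 1
    · rw [h1, one_pow]
    · rw [← hAord g hg h1]; exact pow_orderOf_eq_one g
  have hAp : IsPGroup p A := by
    intro g
    refine ⟨1, Subtype.ext ?_⟩
    rw [pow_one]
    exact hApow g g.2
  have hPA : ∀ P : Sylow p G, (P : Subgroup G) = A := by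
    intro P
    have h1 : (P : Subgroup G) ≤ A := by
      intro g hg
      by_cases hg1 : g = 1
      · rw [hg1]; exact one_mem _
      · apply hmemp
        rcases hord g hg1 with h | h
        · exact h
        · exfalso
          obtain ⟨k, hk⟩ := IsPGroup.iff_orderOf.1 P.2 ⟨g, hg⟩
          rw [Subgroup.orderOf_mk, h] at hk
          have h2 : q ∣ p ^ k := by rw [← hk]
          exact hpq ((Nat.prime_dvd_prime_iff_eq hq.out hp.out).1 (hq.out.dvd_of_dvd_pow h2)).symm
    exact (P.3 hAp h1).symm
  obtain ⟨P0⟩ : Nonempty (Sylow p G) := inferInstance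
  have hidxp : ¬ p ∣ A.index := by
    rw [← hPA P0]; exact P0.not_dvd_index
  have hprimes : ∀ r : ℕ, r.Prime → r ∣ Nat.card G → r = p ∨ r = q := by
    intro r hr hrG
    haveI : Fact r.Prime := ⟨hr⟩
    obtain ⟨g, hg⟩ := exists_prime_orderOf_dvd_card' (G := G) r hrG
    have hg1 : g ≠ 1 := by
      rintro rfl
      rw [orderOf_one] at hg
      exact hr.one_lt.ne hg
    rw [← hg]; exact hord g hg1
  obtain ⟨n, hn⟩ := IsPGroup.iff_card.1 hAp
  have hAbot : A ≠ ⊥ := by
    intro h
    rw [h, mem_bot] at hyA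
    rw [hyA, orderOf_one] at hy
    exact hp.out.one_lt.ne hy
  have hn1 : 1 ≤ n := by
    by_contra hn0
    have : n = 0 := by omega
    rw [this, pow_zero] at hn
    exact hAbot (Subgroup.card_eq_one.1 hn)
  have hq2 : ¬ q ^ 2 ∣ Nat.card G := by
    intro hd
    obtain ⟨E, hE⟩ := Sylow.exists_subgroup_card_pow_prime q hd
    have hEab : ∀ a ∈ E, ∀ b ∈ E, a * b = b * a := by
      intro a ha b hb
      have h1 := (IsPGroup.isMulCommutative_of_card_eq_prime_sq hE).is_comm.comm ⟨a, ha⟩ ⟨b, hb⟩
      exact congrArg Subtype.val h1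
    have hEq : ∀ e ∈ E, e ≠ 1 → orderOf e = q := by
      intro e he he1
      rcases hord e he1 with h | h
      · exfalso
        have h1 : orderOf e ∣ q ^ 2 := by
          rw [← hE]
          have := orderOf_dvd_natCard (⟨e, he⟩ : E)
          rwa [Subgroup.orderOf_mk] at this
        rw [h] at h1
        exact hpq ((Nat.prime_dvd_prime_iff_eq hp.out hq.out).1 (hp.out.dvd_of_dvd_pow h1))
      · exact h
    have hcyc := CfsgH1.isCyclic_of_fpf_conj (E := E) (K := A) (by rw [normalizer_eq_top]; exact le_top) hAbot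
      (by rw [hE, hn]; exact (hcop.symm.pow 2 n)) (Or.inl
        (CfsgH1.isNilpotent_isSolvable (IsPGroup.of_card hE).isNilpotent)) (Or.inl hEab) (by
        intro e he he1 k hk hek
        by_contra hk1
        exact hno e k (hEq e he he1) (hAord k hk hk1) hek)
    obtain ⟨g, hg⟩ := IsCyclic.exists_generator (α := E)
    have h1 : orderOf g = q ^ 2 := by
      rw [← hE]; exact orderOf_eq_card_of_forall_mem_zpowers hg
    have h2 : (g : G) ≠ 1 := by
      intro h
      have : g = 1 := Subtype.ext h
      rw [this, orderOf_one] at h1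
      have := Nat.one_lt_pow two_ne_zero hq.out.one_lt
      omega
    have h3 := hEq g g.2 h2
    rw [← Subgroup.orderOf_coe, h3] at h1
    have h5 := hq.out.one_lt
    nlinarith
  have hidx : A.index = q := by
    have h1 : A.index ≠ 1 := by
      intro h
      rw [index_eq_one] at h
      exact hxA (h ▸ mem_top x)
    have h0 : A.index ≠ 0 := index_ne_zero_of_finite
    have h2 := Nat.eq_prime_pow_of_unique_prime_dvd (n := A.index) (p := q) h0 (fun {d} hd hdi => by
      rcases hprimes d hd (hdi.trans (index_dvd_card A)) with h | h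
      · rw [h] at hdi; exact absurd hdi hidxp
      · exact h)
    set k := A.index.primeFactorsList.length with hk
    have hk0 : k ≠ 0 := by
      intro h
      rw [h, pow_zero] at h2
      exact h1 h2
    have hk2 : k < 2 := by
      by_contra hk2
      apply hq2
      refine Dvd.dvd.trans ?_ (index_dvd_card A)
      rw [h2]
      exact pow_dvd_pow q (by omega)
    rw [h2, show k = 1 by omega, pow_one]
  have hcardG : Nat.card G = p ^ n * q := by rw [← card_mul_index A, hn, hidx]
  refine ⟨n, hn1, hcardG, ?_, ?_, ?_⟩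
  · intro P
    rw [hPA P]
    exact ⟨hAn, ⟨⟨fun a b => Subtype.ext (hAab a a.2 b b.2)⟩⟩, hApow⟩
  · have hgen : ∀ g : G, ∃ i : ℕ, ∃ a ∈ A, g = x ^ i * a := by
      intro g
      have h1 : orderOf ((x : G) : G ⧸ A) = q := by
        have h2 : orderOf ((x : G) : G ⧸ A) ∣ q := by
          have := orderOf_map_dvd (QuotientGroup.mk' A) x
          rwa [hx] at this
        rcases (Nat.dvd_prime hq.out).1 h2 with h3 | h3
        · exfalso
          rw [orderOf_eq_one_iff, QuotientGroup.eq_one_iff] at h3
          exact hxA h3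
        · exact h3
      have h2 : ((g : G) : G ⧸ A) ∈ zpowers ((x : G) : G ⧸ A) := by
        have h3 : zpowers ((x : G) : G ⧸ A) = ⊤ := by
          apply eq_top_of_card_eq
          rw [Nat.card_zpowers, h1]
          exact hidx.symm
        rw [h3]; exact mem_top _
      obtain ⟨i, hi⟩ := mem_powers_iff_mem_zpowers.2 h2
      refine ⟨i, (x ^ i)⁻¹ * g, ?_, by rw [mul_inv_cancel_left]⟩
      apply QuotientGroup.eq.1
      rw [← hi]; rfl
    letI : CommGroup A := { (inferInstance : Group A) with
      mul_comm := fun a b => Subtype.ext (hAab a a.2 b b.2) }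
    haveI : Nontrivial A := (Subgroup.nontrivial_iff_ne_bot A).2 hAbot
    have hres : ∀ φ : MulAut G, ∃ α : MulAut A, ∀ a : A, ((α a : A) : G) = φ a := by
      intro φ
      have hmap : A.map φ.toMonoidHom = A := by
        apply le_antisymm
        · rintro _ ⟨a, ha, rfl⟩
          exact hAc φ a ha
        · intro a ha
          exact ⟨φ⁻¹ a, hAc φ⁻¹ a ha, φ.apply_symm_apply a⟩
      refine ⟨{ toFun := fun a => ⟨φ a, hAc φ a a.2⟩
                invFun := fun a => ⟨φ⁻¹ a, hAc φ⁻¹ a a.2⟩
                left_inv := fun a => Subtype.ext (φ.symm_apply_apply _)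
                right_inv := fun a => Subtype.ext (φ.apply_symm_apply _)
                map_mul' := fun a b => Subtype.ext (map_mul φ _ _) }, fun a => rfl⟩
    have hconj : ∀ (i : ℕ) (a : A), ((((MulAut.conjNormal x : MulAut A) ^ i) a : A) : G) = x ^ i * a * (x ^ i)⁻¹ := by
      intro i a
      rw [← map_pow]; rfl
    have hint : ∀ (φ : MulAut G) (α : MulAut A), (∀ a : A, ((α a : A) : G) = φ a) → ∀ (i : ℕ) (a : G), a ∈ A → φ x = x ^ i * a →
        ∀ v : A, α ((MulAut.conjNormal x : MulAut A) v) = ((MulAut.conjNormal x : MulAut A) ^ i) (α v) := by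
      intro φ α hα i a ha hφ v
      apply Subtype.ext
      rw [hα, hconj, hα]
      change φ (x * v * x⁻¹) = x ^ i * φ v * (x ^ i)⁻¹
      rw [map_mul, map_mul, map_inv, hφ]
      have h1 := hAab a ha (φ v) (hAc φ v v.2)
      calc x ^ i * a * φ v * (x ^ i * a)⁻¹ = x ^ i * (a * φ v) * a⁻¹ * (x ^ i)⁻¹ := by group
        _ = x ^ i * φ v * (x ^ i)⁻¹ := by rw [h1]; group
    haveI : Nontrivial (Additive A) := inferInstanceAs (Nontrivial A)
    let τ : Additive A →+ Additive A := MonoidHom.toAdditive (MulAut.conjNormal x : MulAut A).toMonoidHom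
    have hτn : ∀ (i : ℕ) (a : A), τ^[i] (Additive.ofMul a) = Additive.ofMul (((MulAut.conjNormal x : MulAut A) ^ i) a) := by
      intro i
      induction i with
      | zero => intro a; rfl
      | succ i ih =>
        intro a
        rw [Function.iterate_succ_apply, pow_succ]
        change τ^[i] (Additive.ofMul ((MulAut.conjNormal x : MulAut A) a)) = _
        rw [ih]; rfl
    apply three_orb_prim hpq (V := Additive A) τ
    · intro v
      obtain ⟨v, rfl⟩ := Additive.ofMul.surjective v
      rw [hτn]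
      congr 1
      apply Subtype.ext
      rw [hconj, ← hx, pow_orderOf_eq_one]
      group
    · intro v
      obtain ⟨v, rfl⟩ := Additive.ofMul.surjective v
      rw [← ofMul_pow, ofMul_eq_zero]
      exact Subtype.ext (hApow v v.2)
    · intro v hv
      obtain ⟨v, rfl⟩ := Additive.ofMul.surjective v
      have h1 : x * (v : G) * x⁻¹ = v := congrArg Subtype.val (Additive.ofMul.injective hv)
      rw [ofMul_eq_zero]
      by_contra ha1
      exact hno x v hx (hAord v v.2 (fun h => ha1 (Subtype.ext h))) (mul_inv_eq_iff_eq_mul.1 h1)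
    · intro v w hv1 hw1
      obtain ⟨v, rfl⟩ := Additive.ofMul.surjective v
      obtain ⟨w, rfl⟩ := Additive.ofMul.surjective w
      rw [Ne, ofMul_eq_zero] at hv1 hw1
      have key : ∀ v ∈ A, v ≠ 1 → ∃ φ : MulAut G, φ y = v := by
        intro v hv hv1
        rcases hcov v with h | h | ⟨φ, h⟩
        · exact absurd h hv1
        · exact h
        · exfalso
          apply hpq
          rw [← hAord v hv hv1, ← h, MulEquiv.orderOf_eq, hx]
      obtain ⟨φ, hφ⟩ := key v v.2 (fun h => hv1 (Subtype.ext h))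
      obtain ⟨χ, hχ⟩ := key w w.2 (fun h => hw1 (Subtype.ext h))
      obtain ⟨α, hα⟩ := hres (χ * φ⁻¹)
      obtain ⟨i, a, ha, hi⟩ := hgen ((χ * φ⁻¹) x)
      refine ⟨MonoidHom.toAdditive α.toMonoidHom, i, ?_, ?_, ?_⟩
      · exact α.injective
      · change Additive.ofMul (α v) = Additive.ofMul w
        congr 1
        apply Subtype.ext
        rw [hα]
        change χ (φ⁻¹ v) = w
        rw [← hφ]
        have : φ⁻¹ (φ y) = y := φ.symm_apply_apply y
        rw [this, hχ]
      · intro u
        obtain ⟨u, rfl⟩ := Additive.ofMul.surjective u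
        change Additive.ofMul (α ((MulAut.conjNormal x : MulAut A) u)) = τ^[i] (Additive.ofMul (α u))
        rw [hτn, hint _ α hα i a ha hi]
    · intro i hi
      have h1 : orderOf (x ^ i) = q := by
        rw [Nat.Coprime.orderOf_pow (by rw [hx]; exact hi.symm), hx]
      rcases hcov (x ^ i) with h | ⟨φ, h⟩ | ⟨φ, h⟩
      · exfalso
        rw [h, orderOf_one] at h1
        exact hq.out.one_lt.ne h1
      · exfalso
        apply hpq
        rw [← h1, ← h, MulEquiv.orderOf_eq, hy]
      · obtain ⟨α, hα⟩ := hres φ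
        refine ⟨MonoidHom.toAdditive α.toMonoidHom, α.surjective, ?_⟩
        intro u
        obtain ⟨u, rfl⟩ := Additive.ofMul.surjective u
        change Additive.ofMul (α ((MulAut.conjNormal x : MulAut A) u)) = τ^[i] (Additive.ofMul (α u))
        rw [hτn, hint φ α hα i 1 (one_mem _) (by rw [mul_one]; exact h)]
  · intro u v hu hv huv
    exact hno u v hu hv (mul_inv_eq_iff_eq_mul.1 huv)

end CfsgH2
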