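import Mathlib
import Cfsg.Agent.H2.ThreeOrb2

/-! # Groups with three automorphism orbits, converse direction (helper2 library) -/

set_option autoImplicit false

namespace CfsgH2

open Polynomial

/-- transitivity and the Frobenius-semilinear map for an operator annihilated by an irreducible polynomial. -/
theorem irr_operator {p : ℕ} [hp : Fact p.Prime] {V : Type*} [AddCommGroup V] [Finite V] [Module (ZMod p) V]
    (T : Module.End (ZMod p) V) (m : (ZMod p)[X]) (hm : Irreducible m) (hmT : aeval T m = 0) :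
    (∀ v w : V, v ≠ 0 → w ≠ 0 → ∃ α : V →+ V, Function.Injective α ∧ α v = w ∧ ∀ u, α (T u) = T (α u)) ∧
    ∃ β : V →+ V, Function.Injective β ∧ ∀ u, β (T u) = (T ^ p) (β u) := by
  classical
  haveI : Fact (Irreducible m) := ⟨hm⟩
  let K := AdjoinRoot m
  let f : K →+* Module.End (ZMod p) V := Ideal.Quotient.lift (Ideal.span {m}) (aeval T : (ZMod p)[X] →ₐ[ZMod p] Module.End (ZMod p) V).toRingHom (by
    intro a ha
    obtain ⟨c, rfl⟩ := Ideal.mem_span_singleton.1 ha
    change aeval T (m * c) = 0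
    rw [map_mul, hmT, zero_mul])
  letI : Module K V := Module.compHom V f
  let lam : K := AdjoinRoot.root m
  have hlam : ∀ v : V, lam • v = T v := by
    intro v
    change (aeval T (X : (ZMod p)[X])) v = T v
    rw [aeval_X]
  have hlamn : ∀ (n : ℕ) (v : V), (lam ^ n) • v = (T ^ n) v := by
    intro n
    induction n with
    | zero => intro v; rw [pow_zero, pow_zero, one_smul]; rfl
    | succ n ih =>
      intro v
      rw [pow_succ, pow_succ, mul_smul, hlam, ih]; rfl
  constructor
  · intro v w hv hw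
    obtain ⟨g1, hg1⟩ : ∃ g : Module.Dual K V, g v ≠ 0 := by
      by_contra hno
      push Not at hno
      exact hv ((Module.forall_dual_apply_eq_zero_iff K v).1 hno)
    obtain ⟨g2, hg2⟩ : ∃ g : Module.Dual K V, g w ≠ 0 := by
      by_contra hno
      push Not at hno
      exact hw ((Module.forall_dual_apply_eq_zero_iff K w).1 hno)
    obtain ⟨g, hgv, hgw⟩ : ∃ g : Module.Dual K V, g v ≠ 0 ∧ g w ≠ 0 := by
      by_cases h1 : g1 w = 0
      · by_cases h2 : g2 v = 0
        · refine ⟨g1 + g2, ?_, ?_⟩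
          · rw [LinearMap.add_apply, h2, add_zero]; exact hg1
          · rw [LinearMap.add_apply, h1, zero_add]; exact hg2
        · exact ⟨g2, h2, hg2⟩
      · exact ⟨g1, hg1, h1⟩
    let α : V →ₗ[K] V := LinearMap.id + (g v)⁻¹ • g.smulRight (w - v)
    have hα : ∀ u, α u = u + ((g v)⁻¹ * g u) • (w - v) := by
      intro u
      change u + (g v)⁻¹ • (g u • (w - v)) = _
      rw [smul_smul]
    refine ⟨α.toAddMonoidHom, ?_, ?_, ?_⟩
    · rw [injective_iff_map_eq_zero]
      intro u hu
      have hu' : α u = 0 := hu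
      have h1 : g (α u) = 0 := by rw [hu', map_zero]
      rw [hα, map_add, map_smul, map_sub, smul_eq_mul] at h1
      have h2 : g u * g w = 0 := by
        have h3 : g v * (g v)⁻¹ = 1 := mul_inv_cancel₀ hgv
        have h4 : g v * (g u + (g v)⁻¹ * g u * (g w - g v)) = g u * g w := by
          linear_combination (g u * (g w - g v)) * h3
        rw [← h4, h1, mul_zero]
      rcases mul_eq_zero.1 h2 with h3 | h3
      · rw [hα, h3, mul_zero, zero_smul, add_zero] at hu'
        exact hu'
      · exact absurd h3 hgw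
    · change α v = w
      rw [hα, inv_mul_cancel₀ hgv, one_smul, add_sub_cancel]
    · intro u
      change α (T u) = T (α u)
      rw [← hlam, ← hlam, map_smul]
  · haveI : Module.Finite K V := Module.Finite.of_finite
    haveI : CharP K p := charP_of_injective_algebraMap (algebraMap (ZMod p) K).injective p
    let b := Module.finBasis K V
    let β : V →+ V :=
      { toFun := fun v => b.equivFun.symm (fun i => frobenius K p (b.equivFun v i))
        map_zero' := by
          rw [map_zero]
          have : (fun i => frobenius K p ((0 : Fin (Module.finrank K V) → K) i)) = 0 := by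
            ext i; change frobenius K p 0 = 0; exact map_zero _
          rw [this, map_zero]
        map_add' := by
          intro v w
          rw [← map_add]
          congr 1
          ext i
          rw [map_add]
          change frobenius K p (b.equivFun v i + b.equivFun w i) = frobenius K p (b.equivFun v i) + frobenius K p (b.equivFun w i)
          rw [map_add] }
    have hβ : ∀ v, β v = b.equivFun.symm (fun i => frobenius K p (b.equivFun v i)) := fun v => rfl
    refine ⟨β, ?_, ?_⟩
    · intro v w hvw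
      rw [hβ, hβ] at hvw
      have h1 := b.equivFun.symm.injective hvw
      apply b.equivFun.injective
      ext i
      exact (frobenius K p).injective (congrFun h1 i)
    · intro u
      rw [← hlamn, ← hlam, hβ, hβ, ← map_smul]
      congr 1
      ext i
      rw [map_smul]
      change frobenius K p (lam * b.equivFun u i) = lam ^ p * frobenius K p (b.equivFun u i)
      rw [map_mul]; rfl

theorem prim_operators {p q : ℕ} [hp : Fact p.Prime] [hq : Fact q.Prime] (hpq : p ≠ q) {V : Type*} [AddCommGroup V] [Finite V]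
    (τ : V →+ V) (hτ : ∀ v, τ^[q] v = v) (hVpow : ∀ v : V, p • v = 0) (hfpf : ∀ v : V, τ v = v → v = 0)
    (hprim : orderOf (p : ZMod q) = q - 1) :
    (∀ v w : V, v ≠ 0 → w ≠ 0 → ∃ α : V →+ V, Function.Injective α ∧ α v = w ∧ ∀ u, α (τ u) = τ (α u)) ∧
    ∃ β : V →+ V, Function.Injective β ∧ ∀ u, β (τ u) = τ^[p] (β u) := by
  classical
  letI : Module (ZMod p) V := AddCommGroup.zmodModule (n := p) hVpow
  let T : Module.End (ZMod p) V := τ.toZModLinearMap p
  have hT : ∀ a : V, T a = τ a := fun a => rfl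
  have hTn : ∀ (i : ℕ) (a : V), (T ^ i) a = τ^[i] a := by
    intro i
    induction i with
    | zero => intro a; rfl
    | succ i ih =>
      intro a
      rw [pow_succ, Function.iterate_succ_apply]
      change (T ^ i) (T a) = _
      rw [hT, ih]
  have hTq : T ^ q = 1 := by
    ext v
    rw [hTn, hτ]; rfl
  have hcyc : aeval T (cyclotomic q (ZMod p)) = 0 := by
    ext v
    change aeval T (cyclotomic q (ZMod p)) v = 0
    apply hfpf
    have h2 : aeval T ((X - 1) * cyclotomic q (ZMod p)) = 0 := by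
      rw [mul_comm, cyclotomic_prime_mul_X_sub_one, map_sub, map_pow, aeval_X, map_one, hTq, sub_self]
    have h3 : aeval T ((X - 1) * cyclotomic q (ZMod p)) v = T (aeval T (cyclotomic q (ZMod p)) v) - aeval T (cyclotomic q (ZMod p)) v := by
      rw [map_mul, map_sub, aeval_X, map_one]; rfl
    rw [h2] at h3
    exact (sub_eq_zero.1 h3.symm)
  obtain ⟨h1, β, hβ, hβ'⟩ := irr_operator T _ (cyclotomic_irreducible hpq hprim) hcyc
  refine ⟨h1, β, hβ, fun u => ?_⟩
  rw [← hTn]; exact hβ' u

open Subgroup Cfsg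
open scoped commutatorElement

universe u
variable {G : Type u} [Group G] [Finite G]

theorem extend_aut (A : Subgroup G) [hAn : A.Normal] (x : G) (hc : IsComplement' A (zpowers x)) (α : A →* A)
    (hα : Function.Injective α) (i : ℕ) (hi : (orderOf x).Coprime i)
    (h : ∀ a : A, α ((MulAut.conjNormal x : MulAut A) a) = (MulAut.conjNormal (x ^ i) : MulAut A) (α a)) :
    ∃ φ : MulAut G, (∀ a : A, φ a = α a) ∧ φ x = x ^ i := by
  have hk : ∀ (k : ℕ) (a : A), α ((MulAut.conjNormal (x ^ k) : MulAut A) a) = (MulAut.conjNormal ((x ^ k) ^ i) : MulAut A) (α a) := by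
    intro k
    induction k with
    | zero => intro a; rw [pow_zero, one_pow, map_one]; rfl
    | succ k ih =>
      intro a
      have e1 : (x ^ (k + 1)) ^ i = (x ^ k) ^ i * x ^ i := by
        rw [← pow_mul, ← pow_mul, ← pow_add]; congr 1; ring
      rw [e1, pow_succ, map_mul, map_mul]
      change α ((MulAut.conjNormal (x ^ k) : MulAut A) ((MulAut.conjNormal x : MulAut A) a)) = (MulAut.conjNormal ((x ^ k) ^ i) : MulAut A) ((MulAut.conjNormal (x ^ i) : MulAut A) (α a))
      rw [ih, h]
  let fg : zpowers x →* G :=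
    { toFun := fun y => (y : G) ^ i
      map_one' := by rw [Subgroup.coe_one, one_pow]
      map_mul' := by
        intro a b
        rw [Subgroup.coe_mul]
        apply Commute.mul_pow
        obtain ⟨a, k, rfl⟩ := a
        obtain ⟨b, l, rfl⟩ := b
        exact (Commute.refl x).zpow_zpow k l }
  let e := SemidirectProduct.mulEquivSubgroup hc
  let f := SemidirectProduct.lift (φ := (A.normalizerMonoidHom).comp (inclusion (A.normalizer_eq_top ▸ le_top)))
    (A.subtype.comp α) fg (by
      intro y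
      ext a
      obtain ⟨k, hk'⟩ := mem_powers_iff_mem_zpowers.2 y.2
      have h1 := congrArg Subtype.val (hk k a)
      change ((α ((MulAut.conjNormal (y : G) : MulAut A) a) : A) : G) = (y : G) ^ i * (α a : G) * ((y : G) ^ i)⁻¹
      have hk'' : x ^ k = (y : G) := hk'
      rw [hk''] at h1
      exact h1)
  let F : G →* G := f.comp e.symm.toMonoidHom
  have hFa : ∀ a : A, F a = α a := by
    intro a
    have h1 : e (SemidirectProduct.inl a) = (a : G) := by
      change (a : G) * ((1 : zpowers x) : G) = a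
      rw [Subgroup.coe_one, mul_one]
    rw [← h1]
    change f (e.symm (e (SemidirectProduct.inl a))) = _
    rw [MulEquiv.symm_apply_apply, SemidirectProduct.lift_inl]; rfl
  have hFx : F x = x ^ i := by
    have h1 : e (SemidirectProduct.inr ⟨x, mem_zpowers x⟩) = x := by
      change ((1 : A) : G) * x = x
      rw [Subgroup.coe_one, one_mul]
    conv_lhs => rw [← h1]
    change f (e.symm (e (SemidirectProduct.inr ⟨x, mem_zpowers x⟩))) = _
    rw [MulEquiv.symm_apply_apply, SemidirectProduct.lift_inr]; rfl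
  have hinj : Function.Injective F := by
    rw [injective_iff_map_eq_one]
    intro g hg
    obtain ⟨⟨⟨a, ha⟩, ⟨y, hy⟩⟩, hay⟩ := hc.2 g
    have hay' : a * y = g := hay
    obtain ⟨k, rfl⟩ := mem_powers_iff_mem_zpowers.2 hy
    change a * x ^ k = g at hay'
    rw [← hay', map_mul, map_pow, hFx, hFa ⟨a, ha⟩] at hg
    have h1 : (x ^ i) ^ k ∈ A := by
      have : (x ^ i) ^ k = ((α ⟨a, ha⟩ : A) : G)⁻¹ := eq_inv_of_mul_eq_one_right hg
      rw [this]; exact A.inv_mem (α ⟨a, ha⟩).2
    have h2 : (x ^ i) ^ k = 1 := by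
      have h3 := hc.disjoint
      rw [Subgroup.disjoint_def] at h3
      exact h3 h1 (pow_mem (pow_mem (mem_zpowers x) i) k)
    rw [h2, mul_one] at hg
    have h3 : a = 1 := by
      have h4 : α ⟨a, ha⟩ = 1 := Subtype.ext hg
      have h5 := (injective_iff_map_eq_one α).1 hα _ h4
      exact congrArg Subtype.val h5
    have h4 : x ^ k = 1 := by
      rw [← pow_mul] at h2
      have h5 := orderOf_dvd_of_pow_eq_one h2
      exact orderOf_dvd_iff_pow_eq_one.1 (hi.dvd_of_dvd_mul_left h5)
    rw [← hay', h3, h4, one_mul]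
  refine ⟨MulEquiv.ofBijective F (Finite.injective_iff_bijective.1 hinj), hFa, hFx⟩

theorem card_eq_three {α : Type*} [Finite α] (a b c : α) (hab : a ≠ b) (hac : a ≠ c) (hbc : b ≠ c) :
    Nat.card α = 3 ↔ ∀ x, x = a ∨ x = b ∨ x = c := by
  classical
  haveI := Fintype.ofFinite α
  have h1 : ({a, b, c} : Finset α).card = 3 := Finset.card_eq_three.2 ⟨a, b, c, hab, hac, hbc, rfl⟩
  rw [Nat.card_eq_fintype_card]
  constructor
  · intro h x
    have h2 : ({a, b, c} : Finset α) = Finset.univ := by
      rw [← Finset.card_eq_iff_eq_univ, h1, h]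
    have h3 := Finset.mem_univ x
    rw [← h2] at h3
    simpa using h3
  · intro h
    have h2 : ({a, b, c} : Finset α) = Finset.univ := by
      ext x
      constructor
      · intro _; exact Finset.mem_univ x
      · intro _; simpa using h x
    rw [← Finset.card_univ, ← h2, h1]

theorem orb_eq_iff (a b : G) : (Quotient.mk'' a : MulAction.orbitRel.Quotient (MulAut G) G) = Quotient.mk'' b ↔ ∃ φ : MulAut G, φ b = a := by
  rw [Quotient.eq'']
  rfl

theorem three_orb_mp (hnpp : ¬ IsPrimePow (Nat.card G)) (hnt : Nat.card G ≠ 1)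
    (h3 : Nat.card (MulAction.orbitRel.Quotient (MulAut G) G) = 3) :
    ∃ (p q n : ℕ) (_ : Fact p.Prime) (_ : Fact q.Prime), p ≠ q ∧ 1 ≤ n ∧ Nat.card G = p ^ n * q ∧
      (∀ P : Sylow p G, (P : Subgroup G).Normal ∧ Cfsg.IsElementaryAbelian p (P : Subgroup G)) ∧
      orderOf (p : ZMod q) = q - 1 ∧
      ∀ x y : G, orderOf x = q → orderOf y = p → x * y * x⁻¹ ≠ y := by
  classical
  set r := (Nat.card G).minFac with hr
  have hrp : r.Prime := Nat.minFac_prime hnt
  haveI : Fact r.Prime := ⟨hrp⟩
  obtain ⟨s, hs, hsG, hsr⟩ : ∃ s : ℕ, s.Prime ∧ s ∣ Nat.card G ∧ s ≠ r := by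
    by_contra hno
    push Not at hno
    apply hnpp
    have h1 := Nat.eq_prime_pow_of_unique_prime_dvd (n := Nat.card G) (p := r) Nat.card_pos.ne' (fun {d} hd hdG => hno d hd hdG)
    rw [h1]
    refine hrp.isPrimePow.pow ?_
    intro h
    rw [h, pow_zero] at h1
    exact hnt h1
  haveI : Fact s.Prime := ⟨hs⟩
  obtain ⟨y, hy⟩ := exists_prime_orderOf_dvd_card' (G := G) r (Nat.minFac_dvd _)
  obtain ⟨x, hx⟩ := exists_prime_orderOf_dvd_card' (G := G) s hsG
  haveI : Finite (MulAction.orbitRel.Quotient (MulAut G) G) := Quotient.finite _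
  have hcov : ∀ g : G, g = 1 ∨ (∃ φ : MulAut G, φ y = g) ∨ ∃ φ : MulAut G, φ x = g := by
    have h1 := (card_eq_three (Quotient.mk'' 1 : MulAction.orbitRel.Quotient (MulAut G) G) (Quotient.mk'' y) (Quotient.mk'' x)
      (by
        rw [Ne, orb_eq_iff]
        rintro ⟨φ, hφ⟩
        have := MulEquiv.orderOf_eq φ y
        rw [hφ, orderOf_one, hy] at this
        exact hrp.one_lt.ne this)
      (by
        rw [Ne, orb_eq_iff]
        rintro ⟨φ, hφ⟩
        have := MulEquiv.orderOf_eq φ x
        rw [hφ, orderOf_one, hx] at this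
        exact hs.one_lt.ne this)
      (by
        rw [Ne, orb_eq_iff]
        rintro ⟨φ, hφ⟩
        have := MulEquiv.orderOf_eq φ x
        rw [hφ, hy, hx] at this
        exact hsr this.symm)).1 h3
    intro g
    rcases h1 (Quotient.mk'' g) with h | h | h
    · left
      obtain ⟨φ, hφ⟩ := (orb_eq_iff _ _).1 h
      rw [← hφ, map_one]
    · right; left
      exact (orb_eq_iff _ _).1 h
    · right; right
      exact (orb_eq_iff _ _).1 h
  have hord : ∀ g : G, g ≠ 1 → orderOf g = r ∨ orderOf g = s := by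
    intro g hg
    rcases hcov g with h | ⟨φ, h⟩ | ⟨φ, h⟩
    · exact absurd h hg
    · left; rw [← h, MulEquiv.orderOf_eq, hy]
    · right; rw [← h, MulEquiv.orderOf_eq, hx]
  have hsol : Group.IsSolvable G := by
    apply isSolvable_of_two_primes hrp hs
    intro t ht htG
    haveI : Fact t.Prime := ⟨ht⟩
    obtain ⟨g, hg⟩ := exists_prime_orderOf_dvd_card' (G := G) t htG
    have hg1 : g ≠ 1 := by
      rintro rfl
      rw [orderOf_one] at hg
      exact ht.one_lt.ne hg
    rw [← hg]; exact hord g hg1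
  obtain ⟨A, hAc, hAab, hAbot⟩ : ∃ A : Subgroup G, (∀ φ : MulAut G, ∀ a ∈ A, φ a ∈ A) ∧ (∀ a ∈ A, ∀ b ∈ A, a * b = b * a) ∧ A ≠ ⊥ := by
    obtain ⟨n, hn⟩ := (Group.isSolvable_def G).1 hsol
    have hex : ∃ n, derivedSeries G n = ⊥ := ⟨n, hn⟩
    have h1 := Nat.find_spec hex
    have h2 : Nat.find hex ≠ 0 := by
      intro h
      rw [h, derivedSeries_zero] at h1
      apply hnt
      rw [← card_top (G := G), h1, card_bot]
    obtain ⟨k, hk⟩ := Nat.exists_eq_succ_of_ne_zero h2
    refine ⟨derivedSeries G k, ?_, ?_, ?_⟩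
    · intro φ a ha
      have h4 := map_derivedSeries_le_derivedSeries φ.toMonoidHom k
      exact h4 ⟨a, ha, rfl⟩
    · intro a ha b hb
      rw [hk, derivedSeries_succ] at h1
      have h4 : ⁅a, b⁆ ∈ (⊥ : Subgroup G) := h1 ▸ commutator_mem_commutator ha hb
      rw [mem_bot, commutatorElement_eq_one_iff_mul_comm] at h4
      exact h4
    · exact Nat.find_min hex (by omega)
  haveI : Nontrivial A := (Subgroup.nontrivial_iff_ne_bot A).2 hAbot
  obtain ⟨a, ha⟩ := exists_ne (1 : A)
  have ha' : (a : G) ≠ 1 := fun h => ha (Subtype.ext h)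
  have hin : ∀ (z : G), (∃ φ : MulAut G, φ z = a) → z ∈ A := by
    rintro z ⟨φ, hφ⟩
    have h1 := hAc φ⁻¹ a a.2
    rw [← hφ] at h1
    have h2 : φ⁻¹ (φ z) = z := φ.symm_apply_apply z
    rwa [h2] at h1
  rcases hcov a with h | h | h
  · exact absurd h ha'
  · obtain ⟨n, h1, h2, h4, h5, h6⟩ := three_orb_core (Ne.symm hsr) y x hy hx hcov A hAc hAab (hin y h)
    exact ⟨r, s, n, inferInstance, inferInstance, Ne.symm hsr, h1, h2, h4, h5, h6⟩
  · obtain ⟨n, h1, h2, h4, h5, h6⟩ := three_orb_core hsr x y hx hy (fun g => by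
      rcases hcov g with h | h | h
      · exact Or.inl h
      · exact Or.inr (Or.inr h)
      · exact Or.inr (Or.inl h)) A hAc hAab (hin x h)
    exact ⟨s, r, n, inferInstance, inferInstance, hsr, h1, h2, h4, h5, h6⟩

theorem three_orb_mpr {p q n : ℕ} [hp : Fact p.Prime] [hq : Fact q.Prime] (hpq : p ≠ q) (hn : 1 ≤ n)
    (hcard : Nat.card G = p ^ n * q)
    (hP : ∀ P : Sylow p G, (P : Subgroup G).Normal ∧ Cfsg.IsElementaryAbelian p (P : Subgroup G))
    (hprim : orderOf (p : ZMod q) = q - 1)
    (hfpf : ∀ x y : G, orderOf x = q → orderOf y = p → x * y * x⁻¹ ≠ y) :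
    Nat.card (MulAction.orbitRel.Quotient (MulAut G) G) = 3 := by
  classical
  have hcop : p.Coprime q := (Nat.coprime_primes hp.out hq.out).2 hpq
  obtain ⟨P⟩ : Nonempty (Sylow p G) := inferInstance
  obtain ⟨hAn, hAab', hApow⟩ := hP P
  set A : Subgroup G := (P : Subgroup G) with hA
  have hAab : ∀ a ∈ A, ∀ b ∈ A, a * b = b * a := by
    intro a ha b hb
    exact congrArg Subtype.val (hAab'.is_comm.comm ⟨a, ha⟩ ⟨b, hb⟩)
  have hAcard : Nat.card A = p ^ n := by
    rw [hA, Sylow.card_eq_multiplicity, hcard, Nat.factorization_mul (pow_ne_zero n hp.out.ne_zero) hq.out.ne_zero,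
      Nat.Prime.factorization_pow hp.out, hq.out.factorization]
    rw [Finsupp.add_apply, Finsupp.single_eq_same, Finsupp.single_eq_of_ne hpq, add_zero]
  have hAord : ∀ a ∈ A, a ≠ 1 → orderOf a = p := by
    intro a ha ha1
    exact orderOf_eq_prime (hApow a ha) ha1
  obtain ⟨x, hx⟩ := exists_prime_orderOf_dvd_card' (G := G) q (by rw [hcard]; exact dvd_mul_left _ _)
  have hc : IsComplement' A (zpowers x) := by
    apply Subgroup.isComplement'_of_coprime
    · rw [hAcard, Nat.card_zpowers, hx, hcard]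
    · rw [hAcard, Nat.card_zpowers, hx]; exact hcop.pow_left n
  obtain ⟨y, hyA, hy1⟩ : ∃ y ∈ A, y ≠ 1 := by
    by_contra hno
    push Not at hno
    have h1 : A = ⊥ := (eq_bot_iff_forall A).2 hno
    rw [h1, card_bot] at hAcard
    have := Nat.one_lt_pow (by omega : n ≠ 0) hp.out.one_lt
    omega
  have hy := hAord y hyA hy1
  -- the operator
  letI : CommGroup A := { (inferInstance : Group A) with
    mul_comm := fun a b => Subtype.ext (hAab a a.2 b b.2) }
  let τ : Additive A →+ Additive A := MonoidHom.toAdditive (MulAut.conjNormal x : MulAut A).toMonoidHom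
  have hT : ∀ a : A, τ (Additive.ofMul a) = Additive.ofMul ((MulAut.conjNormal x : MulAut A) a) := fun a => rfl
  have hTn : ∀ (i : ℕ) (a : A), τ^[i] (Additive.ofMul a) = Additive.ofMul ((MulAut.conjNormal (x ^ i) : MulAut A) a) := by
    intro i
    induction i with
    | zero => intro a; rw [pow_zero, map_one]; rfl
    | succ i ih =>
      intro a
      rw [Function.iterate_succ_apply, pow_succ, map_mul, hT, ih]; rfl
  obtain ⟨htrans, β, hβi, hβ⟩ := prim_operators hpq (V := Additive A) τ (by
      intro v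
      obtain ⟨v, rfl⟩ := Additive.ofMul.surjective v
      rw [hTn, ← hx, pow_orderOf_eq_one, map_one]; rfl) (by
      intro v
      obtain ⟨v, rfl⟩ := Additive.ofMul.surjective v
      rw [← ofMul_pow, ofMul_eq_zero]
      exact Subtype.ext (hApow v v.2)) (by
      intro v hv
      obtain ⟨v, rfl⟩ := Additive.ofMul.surjective v
      have h5 : x * (v : G) * x⁻¹ = v := congrArg Subtype.val (Additive.ofMul.injective hv)
      rw [ofMul_eq_zero]
      by_contra hu1
      exact hfpf x v hx (hAord v v.2 (fun h => hu1 (Subtype.ext h))) h5) hprim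
  -- automorphisms from the two kinds of operators
  have hauto1 : ∀ v w : A, v ≠ 1 → w ≠ 1 → ∃ φ : MulAut G, φ v = w := by
    intro v w hv hw
    obtain ⟨α, hαi, hαv, hα⟩ := htrans (Additive.ofMul v) (Additive.ofMul w) (fun h => hv (Additive.ofMul.injective h))
      (fun h => hw (Additive.ofMul.injective h))
    let α' : A →* A := AddMonoidHom.toMultiplicative α
    have hα'a : ∀ a : A, Additive.ofMul (α' a) = α (Additive.ofMul a) := fun a => rfl
    obtain ⟨φ, hφ, -⟩ := extend_aut A x hc α' (fun a b hab => Additive.ofMul.injective (hαi (congrArg Additive.ofMul hab))) 1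
      (Nat.coprime_one_right _) (by
        intro a
        apply Additive.ofMul.injective
        rw [hα'a, ← hTn, hα'a, ← hT, hα]; rfl)
    refine ⟨φ, ?_⟩
    rw [hφ]
    exact congrArg Subtype.val (Additive.ofMul.injective ((hα'a v).trans hαv))
  obtain ⟨χ, hχx⟩ : ∃ χ : MulAut G, χ x = x ^ p := by
    let β' : A →* A := AddMonoidHom.toMultiplicative β
    have hβ'a : ∀ a : A, Additive.ofMul (β' a) = β (Additive.ofMul a) := fun a => rfl
    obtain ⟨χ, -, hχ⟩ := extend_aut A x hc β' (fun a b hab => Additive.ofMul.injective (hβi (congrArg Additive.ofMul hab))) p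
      (by rw [hx]; exact hcop.symm) (by
        intro a
        apply Additive.ofMul.injective
        rw [hβ'a, ← hTn, hβ'a, ← hT, hβ])
    exact ⟨χ, hχ⟩
  have hχn : ∀ k : ℕ, (χ ^ k) x = x ^ (p ^ k) := by
    intro k
    induction k with
    | zero => rw [pow_zero, pow_zero, pow_one]; rfl
    | succ k ih =>
      rw [pow_succ]
      change (χ ^ k) (χ x) = _
      rw [hχx, map_pow, ih, ← pow_mul, ← pow_succ]
  have hpows : ∀ j : ℕ, ¬ q ∣ j → ∃ φ : MulAut G, φ x = x ^ j := by
    intro j hj
    have hjc : j.Coprime q := ((Nat.Prime.coprime_iff_not_dvd hq.out).2 hj).symm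
    have h1 : ZMod.unitOfCoprime j hjc ∈ zpowers (ZMod.unitOfCoprime p hcop) := by
      have h2 : zpowers (ZMod.unitOfCoprime p hcop) = ⊤ := by
        apply eq_top_of_card_eq
        rw [Nat.card_zpowers, ← orderOf_units, ZMod.coe_unitOfCoprime, hprim, Nat.card_eq_fintype_card,
          ZMod.card_units_eq_totient, Nat.totient_prime hq.out]
      rw [h2]; exact mem_top _
    obtain ⟨k, hk⟩ := mem_powers_iff_mem_zpowers.2 h1
    refine ⟨χ ^ k, ?_⟩
    rw [hχn]
    have h2 := congrArg (fun u : (ZMod q)ˣ => (u : ZMod q)) hk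
    simp only [Units.val_pow_eq_pow_val, ZMod.coe_unitOfCoprime] at h2
    rw [pow_eq_pow_iff_modEq, hx, ← ZMod.natCast_eq_natCast_iff, Nat.cast_pow]
    exact h2
  have hout : ∀ g : G, g ∉ A → ∃ φ : MulAut G, φ x = g := by
    intro g hg
    obtain ⟨⟨⟨a, ha⟩, ⟨z, hz⟩⟩, haz⟩ := hc.2 g
    have haz' : a * z = g := haz
    obtain ⟨j, rfl⟩ := mem_powers_iff_mem_zpowers.2 hz
    change a * x ^ j = g at haz'
    have hj : ¬ q ∣ j := by
      rintro ⟨c, rfl⟩
      apply hg
      rw [← haz', pow_mul, ← hx, pow_orderOf_eq_one, one_pow, mul_one]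
      exact ha
    obtain ⟨φ, hφ⟩ := hpows j hj
    have hxj : orderOf (x ^ j) = q := by
      rw [Nat.Coprime.orderOf_pow (by rw [hx]; exact (Nat.Prime.coprime_iff_not_dvd hq.out).2 hj), hx]
    -- conjugate x^j to g by an element of A
    let μ : A → A := fun u => ⟨(u : G) * (x ^ j * (u : G)⁻¹ * (x ^ j)⁻¹), A.mul_mem u.2 (hAn.conj_mem _ (A.inv_mem u.2) _)⟩
    have hμ : Function.Injective μ := by
      intro u w huw
      have h1 : (u : G) * (x ^ j * (u : G)⁻¹ * (x ^ j)⁻¹) = (w : G) * (x ^ j * (w : G)⁻¹ * (x ^ j)⁻¹) := congrArg Subtype.val huw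
      have h2 : (w : G)⁻¹ * (u : G) * x ^ j = x ^ j * ((w : G)⁻¹ * (u : G)) := by
        have h3 : (u : G) * x ^ j * (u : G)⁻¹ = (w : G) * x ^ j * (w : G)⁻¹ := by
          have h4 : (u : G) * (x ^ j * (u : G)⁻¹ * (x ^ j)⁻¹) * x ^ j = (w : G) * (x ^ j * (w : G)⁻¹ * (x ^ j)⁻¹) * x ^ j := by rw [h1]
          calc (u : G) * x ^ j * (u : G)⁻¹ = (u : G) * (x ^ j * (u : G)⁻¹ * (x ^ j)⁻¹) * x ^ j := by group
            _ = (w : G) * (x ^ j * (w : G)⁻¹ * (x ^ j)⁻¹) * x ^ j := h4
            _ = (w : G) * x ^ j * (w : G)⁻¹ := by group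
        calc (w : G)⁻¹ * (u : G) * x ^ j = (w : G)⁻¹ * ((u : G) * x ^ j * (u : G)⁻¹) * u := by group
          _ = (w : G)⁻¹ * ((w : G) * x ^ j * (w : G)⁻¹) * u := by rw [h3]
          _ = x ^ j * ((w : G)⁻¹ * (u : G)) := by group
      by_contra hne
      have h4 : (w : G)⁻¹ * (u : G) ≠ 1 := by
        intro h
        exact hne (Subtype.ext (inv_mul_eq_one.1 h)).symm
      refine hfpf (x ^ j) _ hxj (hAord _ (A.mul_mem (A.inv_mem w.2) u.2) h4) ?_
      rw [mul_inv_eq_iff_eq_mul, h2]
    obtain ⟨u, hu⟩ := (Finite.injective_iff_surjective.1 hμ) ⟨a, ha⟩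
    have hu' : (u : G) * (x ^ j * (u : G)⁻¹ * (x ^ j)⁻¹) = a := congrArg Subtype.val hu
    refine ⟨MulAut.conj (u : G) * φ, ?_⟩
    change (u : G) * φ x * (u : G)⁻¹ = g
    rw [hφ, ← haz', ← hu']; group
  haveI : Finite (MulAction.orbitRel.Quotient (MulAut G) G) := Quotient.finite _
  rw [card_eq_three (Quotient.mk'' 1 : MulAction.orbitRel.Quotient (MulAut G) G) (Quotient.mk'' y) (Quotient.mk'' x)
      (by
        rw [Ne, orb_eq_iff]
        rintro ⟨φ, hφ⟩
        have := MulEquiv.orderOf_eq φ y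
        rw [hφ, orderOf_one, hy] at this
        exact hp.out.one_lt.ne this)
      (by
        rw [Ne, orb_eq_iff]
        rintro ⟨φ, hφ⟩
        have := MulEquiv.orderOf_eq φ x
        rw [hφ, orderOf_one, hx] at this
        exact hq.out.one_lt.ne this)
      (by
        rw [Ne, orb_eq_iff]
        rintro ⟨φ, hφ⟩
        have := MulEquiv.orderOf_eq φ x
        rw [hφ, hy, hx] at this
        exact hpq this)]
  intro c
  induction c using Quotient.inductionOn' with
  | h g =>
    by_cases hg1 : g = 1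
    · left; rw [hg1]
    · by_cases hgA : g ∈ A
      · right; left
        rw [orb_eq_iff]
        exact hauto1 ⟨y, hyA⟩ ⟨g, hgA⟩ (fun h => hy1 (congrArg Subtype.val h)) (fun h => hg1 (congrArg Subtype.val h))
      · right; right
        rw [orb_eq_iff]
        exact hout g hgA

end CfsgH2
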