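import Mathlib
import Cfsg.Agent.H1.PUnique
import Cfsg.Agent.H1.Basic

/-! # Counting subgroups of prime power order (helper2 library) -/

set_option autoImplicit false

namespace CfsgH2

open Subgroup
open scoped Pointwise

universe u v

theorem dvd_card_of_orbits {Γ : Type u} {α : Type v} [Group Γ] [Finite Γ] [MulAction Γ α] (s : Finset α)
    (hs : ∀ g : Γ, ∀ a ∈ s, g • a ∈ s) (d : ℕ) (h : ∀ a ∈ s, d ∣ (MulAction.stabilizer Γ a).index) : d ∣ s.card := by
  classical
  rw [Finset.card_eq_sum_card_image (fun a : α => MulAction.orbit Γ a) s]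
  apply Finset.dvd_sum
  intro O hO
  obtain ⟨a, ha, rfl⟩ := Finset.mem_image.1 hO
  have h1 : (s.filter (fun b => MulAction.orbit Γ b = MulAction.orbit Γ a)).card = (MulAction.stabilizer Γ a).index := by
    rw [MulAction.index_stabilizer, ← Set.ncard_coe_finset]
    congr 1
    ext b
    simp only [Finset.coe_filter, Set.mem_ofPred_eq]
    rw [MulAction.orbit_eq_iff]
    constructor
    · exact fun h => h.2
    · intro hb
      refine ⟨?_, hb⟩
      obtain ⟨g, rfl⟩ := hb
      exact hs g a ha
  rw [h1]
  exact h a ha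

/-- the stabilizer of a finite subset under left multiplication -/
theorem card_stabilizer_dvd {G : Type u} [Group G] [Finite G] [DecidableEq G] (U : Finset G) :
    Nat.card (MulAction.stabilizer G U) ∣ U.card := by
  apply dvd_card_of_orbits (Γ := MulAction.stabilizer G U) (α := G) U
  · intro g a ha
    have h1 : (g : G) • U = U := g.2
    have h2 : (g : G) • a ∈ (g : G) • U := Finset.smul_mem_smul_finset ha
    rw [h1] at h2
    exact h2
  · intro a _
    have h1 : MulAction.stabilizer (MulAction.stabilizer G U) a = ⊥ := by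
      rw [eq_bot_iff]
      intro g hg
      have h2 : (g : G) * a = a := hg
      rw [Subgroup.mem_bot]
      exact Subtype.ext (mul_eq_right.1 h2)
    rw [h1, Subgroup.index_bot]

theorem wielandt_count {G : Type u} [Group G] [Fintype G] [DecidableEq G] {p β q : ℕ} (hp : p.Prime)
    (hq : Fintype.card G = p ^ β * q) :
    (Fintype.card G).choose (p ^ β) ≡ Nat.card {H : Subgroup G // Nat.card H = p ^ β} * q [MOD p * q] := by
  classical
  have hG0 : 0 < Fintype.card G := Fintype.card_pos
  have hpb : 0 < p ^ β := pow_pos hp.pos β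
  obtain ⟨X, hX⟩ : ∃ X : Finset (Finset G), X = Finset.univ.powersetCard (p ^ β) := ⟨_, rfl⟩
  have hXmem : ∀ U, U ∈ X ↔ U.card = p ^ β := by
    intro U; rw [hX, Finset.mem_powersetCard]; simp
  obtain ⟨X₁, hX₁⟩ : ∃ X₁ : Finset (Finset G), X₁ = X.filter (fun U => Nat.card (MulAction.stabilizer G U) = p ^ β) := ⟨_, rfl⟩
  obtain ⟨X₂, hX₂⟩ : ∃ X₂ : Finset (Finset G), X₂ = X.filter (fun U => ¬ Nat.card (MulAction.stabilizer G U) = p ^ β) := ⟨_, rfl⟩
  have hcard : X₁.card + X₂.card = (Fintype.card G).choose (p ^ β) := by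
    rw [hX₁, hX₂, Finset.card_filter_add_card_filter_not, hX, Finset.card_powersetCard, Finset.card_univ]
  -- second part
  have h2 : p * q ∣ X₂.card := by
    apply dvd_card_of_orbits (Γ := G) X₂
    · intro g U hU
      rw [hX₂, Finset.mem_filter, hXmem] at hU ⊢
      refine ⟨by rw [Finset.card_smul_finset]; exact hU.1, ?_⟩
      have h3 : Nat.card (MulAction.stabilizer G (g • U)) = Nat.card (MulAction.stabilizer G U) := by
        rw [MulAction.stabilizer_smul_eq_stabilizer_map_conj, Subgroup.card_map_of_injective (MulAut.conj g).injective]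
      rw [h3]; exact hU.2
    · intro U hU
      rw [hX₂, Finset.mem_filter, hXmem] at hU
      have h3 := card_stabilizer_dvd U
      rw [hU.1] at h3
      obtain ⟨j, hj, hj'⟩ := (Nat.dvd_prime_pow hp).1 h3
      have hjb : j ≠ β := by
        rintro rfl
        exact hU.2 hj'
      have h4 := (MulAction.stabilizer G U).card_mul_index
      rw [hj', Nat.card_eq_fintype_card, hq] at h4
      have h5 : β = j + ((β - j - 1) + 1) := by omega
      have h6 : p ^ j * (MulAction.stabilizer G U).index = p ^ j * (p ^ (β - j - 1) * (p * q)) := by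
        rw [h4]
        conv_lhs => rw [h5]
        rw [pow_add, pow_succ]; ring
      have h7 := Nat.eq_of_mul_eq_mul_left (pow_pos hp.pos j) h6
      rw [h7]
      exact dvd_mul_left _ _
  -- first part
  have h1 : X₁.card = Nat.card {H : Subgroup G // Nat.card H = p ^ β} * q := by
    have hsum : ∑ U ∈ X₁, U.card = ∑ x : G, (X₁.filter (fun U => x ∈ U)).card := by
      have h3 : ∀ U ∈ X₁, U.card = ∑ x : G, if x ∈ U then 1 else 0 := by
        intro U _
        rw [← Finset.sum_filter, Finset.sum_const, smul_eq_mul, mul_one]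
        congr 1
        ext x; simp
      rw [Finset.sum_congr rfl h3, Finset.sum_comm]
      apply Finset.sum_congr rfl
      intro x _
      rw [← Finset.sum_filter, Finset.sum_const, smul_eq_mul, mul_one]
    have hleft : ∑ U ∈ X₁, U.card = X₁.card * p ^ β := by
      rw [Finset.sum_congr rfl (g := fun _ => p ^ β), Finset.sum_const, smul_eq_mul]
      intro U hU
      rw [hX₁, Finset.mem_filter, hXmem] at hU
      exact hU.1
    have hfib : ∀ x : G, (X₁.filter (fun U => x ∈ U)).card = Nat.card {H : Subgroup G // Nat.card H = p ^ β} := by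
      intro x
      haveI : Fintype {H : Subgroup G // Nat.card H = p ^ β} := Fintype.ofFinite _
      rw [Nat.card_eq_fintype_card, ← Finset.card_univ]
      symm
      -- H ↦ H x
      have hmemc : ∀ (H : Subgroup G) (y : G), y ∈ (Finset.univ.filter (fun y : G => y * x⁻¹ ∈ H)) ↔ y * x⁻¹ ∈ H := by
        intro H y; simp
      have hcardc : ∀ H : Subgroup G, (Finset.univ.filter (fun y : G => y * x⁻¹ ∈ H)).card = Nat.card H := by
        intro H
        rw [Nat.card_eq_fintype_card, ← Finset.card_univ]
        symm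
        apply Finset.card_bij (fun (h : H) _ => (h : G) * x)
        · intro h _
          rw [hmemc, mul_inv_cancel_right]; exact h.2
        · intro a _ b _ hab
          exact Subtype.ext (mul_right_cancel hab)
        · intro b hb
          rw [hmemc] at hb
          exact ⟨⟨_, hb⟩, Finset.mem_univ _, by simp⟩
      have hstabc : ∀ H : Subgroup G, MulAction.stabilizer G (Finset.univ.filter (fun y : G => y * x⁻¹ ∈ H)) = H := by
        intro H
        ext g
        rw [MulAction.mem_stabilizer_iff]
        constructor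
        · intro hg
          have h3 : g * x ∈ g • (Finset.univ.filter (fun y : G => y * x⁻¹ ∈ H)) := by
            have h4 : x ∈ Finset.univ.filter (fun y : G => y * x⁻¹ ∈ H) := by
              rw [hmemc, mul_inv_cancel]; exact one_mem _
            exact Finset.smul_mem_smul_finset (a := g) h4
          rw [hg, hmemc, mul_inv_cancel_right] at h3
          exact h3
        · intro hg
          ext y
          rw [← Finset.inv_smul_mem_iff, hmemc, hmemc, smul_eq_mul, mul_assoc]
          exact ⟨fun h => by
            have := H.mul_mem hg h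
            rwa [mul_inv_cancel_left] at this, fun h => H.mul_mem (H.inv_mem hg) h⟩
      apply Finset.card_bij (fun (H : {H : Subgroup G // Nat.card H = p ^ β}) _ =>
        Finset.univ.filter (fun y : G => y * x⁻¹ ∈ (H : Subgroup G)))
      · intro H _
        rw [Finset.mem_filter, hX₁, Finset.mem_filter, hXmem, hcardc, hstabc]
        refine ⟨⟨H.2, H.2⟩, ?_⟩
        rw [hmemc, mul_inv_cancel]; exact one_mem _
      · intro H _ K _ hHK
        apply Subtype.ext
        rw [← hstabc H.1, hHK, hstabc]
      · intro U hU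
        rw [Finset.mem_filter, hX₁, Finset.mem_filter, hXmem] at hU
        obtain ⟨⟨hU1, hU2⟩, hxU⟩ := hU
        refine ⟨⟨MulAction.stabilizer G U, hU2⟩, Finset.mem_univ _, ?_⟩
        apply Finset.eq_of_subset_of_card_le
        · intro y hy
          rw [hmemc] at hy
          have h3 : (y * x⁻¹) • U = U := hy
          have h4 : (y * x⁻¹) • x ∈ (y * x⁻¹) • U := Finset.smul_mem_smul_finset hxU
          rw [h3, smul_eq_mul, inv_mul_cancel_right] at h4
          exact h4
        · rw [hcardc, hU1, hU2]
    rw [hleft] at hsum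
    rw [Finset.sum_congr rfl (fun x _ => hfib x), Finset.sum_const, smul_eq_mul, Finset.card_univ, hq] at hsum
    have h5 : p ^ β * X₁.card = p ^ β * (Nat.card {H : Subgroup G // Nat.card H = p ^ β} * q) := by
      rw [mul_comm, hsum]; ring
    exact Nat.eq_of_mul_eq_mul_left hpb h5
  rw [← hcard, h1]
  have h3 : X₂.card ≡ 0 [MOD p * q] := (Nat.modEq_zero_iff_dvd).2 h2
  simpa using (Nat.ModEq.refl (Nat.card {H : Subgroup G // Nat.card H = p ^ β} * q)).add h3

theorem card_subgroup_cyclic {C : Type u} [Group C] [Finite C] [IsCyclic C] {p β : ℕ} (hp : p.Prime)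
    (hdiv : p ^ β ∣ Nat.card C) : Nat.card {H : Subgroup C // Nat.card H = p ^ β} = 1 := by
  classical
  haveI : Fintype C := Fintype.ofFinite C
  haveI : Fact p.Prime := ⟨hp⟩
  rw [Nat.card_eq_one_iff_unique]
  constructor
  · constructor
    rintro ⟨H, hH⟩ ⟨K, hK⟩
    apply Subtype.ext
    have hpb : 0 < p ^ β := pow_pos hp.pos β
    have key : ∀ H : Subgroup C, Nat.card H = p ^ β →
        (H : Set C) = ((Finset.univ.filter (fun a : C => a ^ (p ^ β) = 1) : Finset C) : Set C) := by
      intro H hH
      haveI : Fintype H := Fintype.ofFinite H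
      have h1 : (H : Set C).toFinset ⊆ Finset.univ.filter (fun a : C => a ^ (p ^ β) = 1) := by
        intro a ha
        rw [Set.mem_toFinset] at ha
        simp only [Finset.mem_filter, Finset.mem_univ, true_and]
        have h2 := pow_card_eq_one' (x := (⟨a, ha⟩ : H))
        rw [hH] at h2
        exact congrArg Subtype.val h2
      have h2 : (Finset.univ.filter (fun a : C => a ^ (p ^ β) = 1)).card ≤ (H : Set C).toFinset.card := by
        refine (IsCyclic.card_pow_eq_one_le hpb).trans ?_
        rw [Set.toFinset_card, ← Nat.card_eq_fintype_card]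
        exact hH.ge
      rw [← Finset.eq_of_subset_of_card_le h1 h2, Set.coe_toFinset]
    apply SetLike.coe_injective
    rw [key H hH, key K hK]
  · obtain ⟨K, hK⟩ := Sylow.exists_subgroup_card_pow_prime p hdiv
    exact ⟨⟨K, hK⟩⟩

theorem subgroup_count {G : Type u} [Group G] [Finite G] {p β : ℕ} (hp : p.Prime) (hdiv : p ^ β ∣ Nat.card G) :
    Nat.card {H : Subgroup G // Nat.card H = p ^ β} ≡ 1 [MOD p] := by
  classical
  haveI : Fintype G := Fintype.ofFinite G
  obtain ⟨q, hq⟩ := hdiv
  have hG0 : Nat.card G ≠ 0 := Nat.card_pos.ne'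
  haveI : NeZero (Nat.card G) := ⟨hG0⟩
  have hq0 : 0 < q := Nat.pos_of_ne_zero (by rintro rfl; rw [mul_zero] at hq; exact hG0 hq)
  have h1 := wielandt_count (G := G) hp (β := β) (q := q) (by rw [← Nat.card_eq_fintype_card, hq])
  have hcardC : Fintype.card (Multiplicative (ZMod (Nat.card G))) = Nat.card G := by
    rw [Fintype.card_multiplicative, ZMod.card]
  have h2 := wielandt_count (G := Multiplicative (ZMod (Nat.card G))) hp (β := β) (q := q) (by rw [hcardC, hq])
  have h3 : Nat.card {H : Subgroup (Multiplicative (ZMod (Nat.card G))) // Nat.card H = p ^ β} = 1 := by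
    apply card_subgroup_cyclic hp
    rw [Nat.card_eq_fintype_card, hcardC, hq]
    exact dvd_mul_right _ _
  rw [h3, hcardC, one_mul] at h2
  rw [← Nat.card_eq_fintype_card] at h1
  have h4 := h1.symm.trans h2
  have h5 : Nat.card {H : Subgroup G // Nat.card H = p ^ β} * q ≡ 1 * q [MOD p * q] := by rw [one_mul]; exact h4
  exact (Nat.ModEq.mul_right_cancel' hq0.ne' h5)

theorem normal_subgroup_count {G : Type u} [Group G] [Finite G] {p m s : ℕ} (hp : p.Prime)
    (hG : Nat.card G = p ^ m) (hs : s ≤ m) :
    Nat.card {H : Subgroup G // H.Normal ∧ Nat.card H = p ^ s} ≡ 1 [MOD p] := by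
  haveI : Fact p.Prime := ⟨hp⟩
  have hPG : IsPGroup p G := IsPGroup.of_card hG
  letI : MulAction G {H : Subgroup G // Nat.card H = p ^ s} :=
    { smul := fun g H => ⟨H.1.map (MulAut.conj g).toMonoidHom, by
        rw [Subgroup.card_map_of_injective (MulAut.conj g).injective]; exact H.2⟩
      one_smul := fun H => by
        apply Subtype.ext
        change H.1.map (MulAut.conj (1 : G)).toMonoidHom = H.1
        rw [map_one]
        exact Subgroup.map_id H.1
      mul_smul := fun g h H => by
        apply Subtype.ext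
        change H.1.map (MulAut.conj (g * h)).toMonoidHom = (H.1.map (MulAut.conj h).toMonoidHom).map (MulAut.conj g).toMonoidHom
        rw [Subgroup.map_map, map_mul]
        rfl }
  have h1 := hPG.card_modEq_card_fixedPoints {H : Subgroup G // Nat.card H = p ^ s}
  have h2 : Nat.card {H : Subgroup G // Nat.card H = p ^ s} ≡ 1 [MOD p] :=
    subgroup_count hp (by rw [hG]; exact pow_dvd_pow p hs)
  have h3 : Nat.card (MulAction.fixedPoints G {H : Subgroup G // Nat.card H = p ^ s}) =
      Nat.card {H : Subgroup G // H.Normal ∧ Nat.card H = p ^ s} := by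
    apply Nat.card_congr
    refine ⟨fun H => ⟨H.1.1, ⟨fun n hn g => ?_⟩, H.1.2⟩, fun H => ⟨⟨H.1, H.2.2⟩, fun g => ?_⟩, fun H => rfl, fun H => rfl⟩
    · have h4 : H.1.1.map (MulAut.conj g).toMonoidHom = H.1.1 := congrArg Subtype.val (H.2 g)
      rw [← h4]
      exact ⟨n, hn, rfl⟩
    · apply Subtype.ext
      change H.1.map (MulAut.conj g).toMonoidHom = H.1
      haveI := H.2.1
      apply Subgroup.eq_of_le_of_card_ge
      · rintro _ ⟨n, hn, rfl⟩
        exact H.2.1.conj_mem n hn g
      · rw [Subgroup.card_map_of_injective (MulAut.conj g).injective]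
  rw [h3] at h1
  exact h1.symm.trans h2

theorem isCyclic_of_unique {G : Type u} [Group G] [Finite G] {p m s : ℕ} (hp : p.Prime)
    (hG : Nat.card G = p ^ m) (hs : 1 ≤ s) (hsm : s < m) (h2 : p ≠ 2 ∨ 2 ≤ s)
    (huniq : ∀ H K : Subgroup G, Nat.card H = p ^ s → Nat.card K = p ^ s → H = K) : IsCyclic G := by
  haveI : Fact p.Prime := ⟨hp⟩
  have hPG : IsPGroup p G := IsPGroup.of_card hG
  -- subgroups of order ≤ p^s lie in H
  obtain ⟨H, hH⟩ := Sylow.exists_subgroup_card_pow_prime (G := G) p (n := s) (by rw [hG]; exact pow_dvd_pow p hsm.le)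
  have hle : ∀ (j : ℕ) (L : Subgroup G), j ≤ s → Nat.card L = p ^ j → L ≤ H := by
    intro j L hj hL
    obtain ⟨K, hK, hLK⟩ := Sylow.exists_subgroup_card_pow_prime_le (G := G) (p := p) (m := s) (by rw [hG]; exact pow_dvd_pow p hsm.le) L hL hj
    rw [huniq H K hH hK]
    exact hLK
  -- H is cyclic
  obtain ⟨K, hK, hHK⟩ := Sylow.exists_subgroup_card_pow_prime_le (G := G) (p := p) (m := s + 1)
    (by rw [hG]; exact pow_dvd_pow p hsm) H hH (Nat.le_succ s)
  have hlt : H < K := by
    refine lt_of_le_of_ne hHK ?_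
    rintro rfl
    rw [hH] at hK
    exact absurd (Nat.pow_right_injective hp.two_le hK) (by omega)
  obtain ⟨x, hxK, hxH⟩ := Set.exists_of_ssubset hlt
  have hxz : zpowers x = K := by
    have h3 : Nat.card (zpowers x) ∣ p ^ (s + 1) := by rw [← hK]; exact Subgroup.card_dvd_of_le (zpowers_le.2 hxK)
    obtain ⟨j, hj, hj'⟩ := (Nat.dvd_prime_pow hp).1 h3
    have h4 : j = s + 1 := by
      by_contra hne
      exact hxH (hle j (zpowers x) (by omega) hj' (mem_zpowers x))
    apply Subgroup.eq_of_le_of_card_ge (zpowers_le.2 hxK)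
    rw [hK, hj', h4]
  have hHc : IsCyclic H := by
    have h3 : H ≤ zpowers x := by rw [hxz]; exact hHK
    haveI : IsCyclic (H.subgroupOf (zpowers x)) := inferInstance
    exact isCyclic_of_surjective _ (Subgroup.subgroupOfEquivOfLe h3).surjective
  have huniq' : ∀ (j : ℕ), j ≤ s → ∀ L M : Subgroup G, Nat.card L = p ^ j → Nat.card M = p ^ j → L = M := by
    intro j hj L M hL hM
    have h3 := hle j L hj hL
    have h4 := hle j M hj hM
    have h5 := card_subgroup_cyclic (C := H) hp (β := j) (by rw [hH]; exact pow_dvd_pow p hj)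
    rw [Nat.card_eq_one_iff_unique] at h5
    have h6 : (⟨L.subgroupOf H, by rw [CfsgH1.card_subgroupOf h3, hL]⟩ : {L : Subgroup H // Nat.card L = p ^ j}) =
        ⟨M.subgroupOf H, by rw [CfsgH1.card_subgroupOf h4, hM]⟩ := h5.1.elim _ _
    have h7 : L.subgroupOf H = M.subgroupOf H := congrArg Subtype.val h6
    rw [← Subgroup.map_subgroupOf_eq_of_le h3, h7, Subgroup.map_subgroupOf_eq_of_le h4]
  rcases CfsgH1.punique_classification hPG (fun L M hL hM => huniq' 1 hs L M (by rw [pow_one]; exact hL) (by rw [pow_one]; exact hM)) with h3 | ⟨hp2, n, ⟨e⟩⟩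
  · exact h3
  · have hs2 : 2 ≤ s := h2.resolve_left (fun h => h hp2)
    haveI : NeZero (2 ^ n) := ⟨pow_ne_zero n two_ne_zero⟩
    have h4 : ∀ y : QuaternionGroup (2 ^ n), orderOf y = 4 → Nat.card (zpowers (e.symm y)) = p ^ 2 := by
      intro y hy
      rw [Nat.card_zpowers, MulEquiv.orderOf_eq, hy, hp2]; norm_num
    have h5 := huniq' 2 hs2 _ _ (h4 _ (QuaternionGroup.orderOf_xa 0)) (h4 _ (QuaternionGroup.orderOf_xa 1))
    have h6 : e.symm (QuaternionGroup.xa 0) * e.symm (QuaternionGroup.xa 1) = e.symm (QuaternionGroup.xa 1) * e.symm (QuaternionGroup.xa 0) := by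
      have h7 : e.symm (QuaternionGroup.xa 0) ∈ zpowers (e.symm (QuaternionGroup.xa 1)) := by
        rw [← h5]; exact mem_zpowers _
      obtain ⟨i, hi⟩ := h7
      rw [← hi]
      exact ((Commute.refl (e.symm (QuaternionGroup.xa 1))).zpow_left i).eq
    rw [← map_mul, ← map_mul] at h6
    have h7 := e.symm.injective h6
    rw [QuaternionGroup.xa_mul_xa, QuaternionGroup.xa_mul_xa] at h7
    have h8 := QuaternionGroup.a.inj h7
    have h9 : ((2 : ℕ) : ZMod (2 * 2 ^ n)) = 0 := by
      have h10 : (1 : ZMod (2 * 2 ^ n)) - 0 = 0 - 1 := by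
        have := h8
        rw [add_sub_assoc, add_sub_assoc] at this
        exact add_left_cancel this
      push_cast
      linear_combination h10
    rw [ZMod.natCast_eq_zero_iff] at h9
    have h10 : 2 ^ n = 1 := by
      have h11 : 2 * 2 ^ n ∣ 2 * 1 := by simpa using h9
      have h12 : 2 ^ n ∣ 1 := (Nat.mul_dvd_mul_iff_left (by norm_num)).1 h11
      exact Nat.dvd_one.1 h12
    have h11 : n = 0 := by
      rcases Nat.eq_zero_or_pos n with h | h
      · exact h
      · have := Nat.one_lt_two_pow h.ne'
        omega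
    subst h11
    haveI : IsCyclic (QuaternionGroup (2 ^ 0)) := QuaternionGroup.quaternionGroup_one_isCyclic
    exact isCyclic_of_surjective e.symm e.symm.surjective

end CfsgH2
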