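import Mathlib
import Cfsg.Agent.H2.PiElem
import Cfsg.Agent.H2.OmegaAct
import Cfsg.Agent.H2.Wielandt
import Cfsg.Agent.H2.ClassSize
import Cfsg.Agent.H2.SqFree

/-! # Groups with two conjugacy class sizes (helper2 library) -/

set_option autoImplicit false

namespace CfsgH2

open Subgroup CfsgH1
open scoped commutatorElement

universe u
variable {G : Type u} [Group G] [Finite G]

theorem two_cent_eq {n : ℕ} (h : ∀ x : G, csz x = 1 ∨ csz x = n) {x y : G} (hx : x ∉ center G) (hy : y ∉ center G)
    (hle : centralizer ({x} : Set G) ≤ centralizer ({y} : Set G)) :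
    centralizer ({x} : Set G) = centralizer ({y} : Set G) := by
  have h1 : csz x = n := (h x).resolve_left (fun h2 => hx (csz_eq_one_iff.1 h2))
  have h2 : csz y = n := (h y).resolve_left (fun h2 => hy (csz_eq_one_iff.1 h2))
  apply Subgroup.eq_of_le_of_card_ge hle
  have h3 := (centralizer ({x} : Set G)).card_mul_index
  have h4 := (centralizer ({y} : Set G)).card_mul_index
  change _ * csz x = _ at h3
  change _ * csz y = _ at h4
  rw [h1] at h3
  rw [h2] at h4
  have h5 : 0 < n := by
    rw [← h1]; exact Nat.pos_of_ne_zero (csz_ne_zero x)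
  exact (Nat.eq_of_mul_eq_mul_right h5 (h3.trans h4.symm)).ge

theorem cent_le_pow (x : G) (k : ℕ) : centralizer ({x} : Set G) ≤ centralizer ({x ^ k} : Set G) := by
  intro g hg
  rw [mem_centralizer_singleton_iff'] at hg ⊢
  exact (Commute.pow_left (show Commute x g from hg) k).eq

theorem cent_le_zpowers {x b : G} (hb : b ∈ zpowers x) : centralizer ({x} : Set G) ≤ centralizer ({b} : Set G) := by
  intro g hg
  rw [mem_centralizer_singleton_iff'] at hg ⊢
  obtain ⟨j, rfl⟩ := hb
  exact (Commute.zpow_left (show Commute x g from hg) j).eq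

/-- coprime commuting product -/
theorem two_cop {n : ℕ} (h : ∀ x : G, csz x = 1 ∨ csz x = n) {x a : G} (hx : x ∉ center G)
    (hxa : x * a = a * x) (hcop : (orderOf x).Coprime (orderOf a)) :
    centralizer ({x} : Set G) ≤ centralizer ({a} : Set G) := by
  have hc : Commute x a := hxa
  -- x and a are powers of x a
  have hx' : x ∈ zpowers (x * a) := by
    obtain ⟨e, he1, he0⟩ := Nat.chineseRemainder hcop 1 0
    have h1 : (x * a) ^ e = x := by
      rw [hc.mul_pow, pow_eq_pow_iff_modEq.2 he1, pow_eq_pow_iff_modEq.2 he0, pow_one, pow_zero, mul_one]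
    have h2 : (x * a) ^ e ∈ zpowers (x * a) := Subgroup.pow_mem _ (mem_zpowers (x * a)) e
    rwa [h1] at h2
  have ha' : a ∈ zpowers (x * a) := by
    have h2 := mul_mem (inv_mem hx') (mem_zpowers (x * a))
    rwa [inv_mul_cancel_left] at h2
  have hxac : x * a ∉ center G := fun h1 => hx ((zpowers_le.2 h1) hx')
  have h1 := two_cent_eq h hxac hx (cent_le_zpowers hx')
  rw [← h1]
  exact cent_le_zpowers ha'

theorem dvd_relIndex_of_elt {Z K : Subgroup G} (hZn : Z.Normal) {s : ℕ} (hs : s.Prime) {a : G} (haK : a ∈ K) (haZ : a ∉ Z)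
    (has : ∃ k, a ^ s ^ k = 1) : s ∣ Z.relIndex K := by
  by_contra hno
  haveI : (Z.subgroupOf K).Normal := inferInstance
  have h1 : (⟨a, haK⟩ : K) ^ (Z.relIndex K) ∈ Z.subgroupOf K := Subgroup.pow_index_mem _ _
  have h2 : a ^ (Z.relIndex K) ∈ Z := h1
  obtain ⟨k, hk⟩ := has
  have h4 : Nat.Coprime (Z.relIndex K) (orderOf a) := by
    refine Nat.Coprime.coprime_dvd_right (orderOf_dvd_of_pow_eq_one hk) ?_
    exact Nat.Coprime.pow_right k ((Nat.Prime.coprime_iff_not_dvd hs).2 hno).symm
  obtain ⟨j, hj⟩ := exists_pow_eq_self_of_coprime h4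
  apply haZ
  rw [← hj]
  exact pow_mem h2 j

theorem exists_elt_of_dvd_relIndex {Z K : Subgroup G} {s : ℕ} (hs : s.Prime) (h : s ∣ Z.relIndex K) :
    ∃ a ∈ K, a ∉ Z ∧ ∃ k, a ^ s ^ k = 1 := by
  haveI : Fact s.Prime := ⟨hs⟩
  by_contra hno
  push Not at hno
  refine not_dvd_relIndex_of_pelt (C := Z) (N := K) (p := s) ?_ h
  rintro x hx ⟨k, hk⟩
  by_contra hxZ
  exact hno x hx hxZ k hk

theorem coprime_of_pows {r s : ℕ} (hr : r.Prime) (hs : s.Prime) (hrs : r ≠ s) {x a : G} (hx : ∃ k, x ^ r ^ k = 1)
    (ha : ∃ k, a ^ s ^ k = 1) : (orderOf x).Coprime (orderOf a) := by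
  obtain ⟨i, hi⟩ := hx
  obtain ⟨j, hj⟩ := ha
  exact Nat.Coprime.coprime_dvd_left (orderOf_dvd_of_pow_eq_one hi)
    (Nat.Coprime.coprime_dvd_right (orderOf_dvd_of_pow_eq_one hj)
      (Nat.Coprime.pow _ _ ((Nat.coprime_primes hr hs).2 hrs)))

/-- with two primes dividing `|G/Z|` all centralizers are abelian -/
theorem two_abelian {n : ℕ} (h : ∀ x : G, csz x = 1 ∨ csz x = n) {p q : ℕ} (hp : p.Prime)
    (hq : q.Prime) (hpq : p ≠ q) (hpd : p ∣ (center G).index) (hqd : q ∣ (center G).index) {x : G} (hx : x ∉ center G) :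
    ∀ g ∈ centralizer ({x} : Set G), ∀ k ∈ centralizer ({x} : Set G), g * k = k * g := by
  -- all relative indices agree
  have hrel : ∀ u : G, u ∉ center G → (center G).relIndex (centralizer ({u} : Set G)) * n = (center G).index := by
    intro u hu
    have h1 : csz u = n := (h u).resolve_left (fun h2 => hu (csz_eq_one_iff.1 h2))
    rw [← h1]
    exact Subgroup.relIndex_mul_index (Subgroup.center_le_centralizer _)
  have hn0 : 0 < n := by
    have h1 : csz x = n := (h x).resolve_left (fun h2 => hx (csz_eq_one_iff.1 h2))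
    rw [← h1]; exact Nat.pos_of_ne_zero (csz_ne_zero x)
  have hreleq : ∀ u w : G, u ∉ center G → w ∉ center G →
      (center G).relIndex (centralizer ({u} : Set G)) = (center G).relIndex (centralizer ({w} : Set G)) := by
    intro u w hu hw
    exact Nat.eq_of_mul_eq_mul_right hn0 ((hrel u hu).trans (hrel w hw).symm)
  have hdiv : ∀ s : ℕ, s.Prime → s ∣ (center G).index → s ∣ (center G).relIndex (centralizer ({x} : Set G)) := by
    intro s hs hsd
    rw [← Subgroup.relIndex_top_right] at hsd
    obtain ⟨u, -, huZ, hu⟩ := exists_elt_of_dvd_relIndex hs hsd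
    rw [hreleq x u hx huZ]
    exact dvd_relIndex_of_elt inferInstance hs (mem_centralizer_singleton_iff'.2 rfl) huZ hu
  -- reduce to an r-element
  obtain ⟨r, hr, b, hbx, hbr, hbZ⟩ : ∃ r : ℕ, r.Prime ∧ ∃ b ∈ zpowers x, (∃ k, b ^ r ^ k = 1) ∧ b ∉ center G := by
    by_contra hno
    push Not at hno
    apply hx
    apply CfsgH3.mem_of_forall_pPart
    intro r hr b hb hk
    exact hno r hr b hb hk
  have hbC : centralizer ({x} : Set G) = centralizer ({b} : Set G) := two_cent_eq h hx hbZ (cent_le_zpowers hbx)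
  -- another prime
  obtain ⟨s, hs, hsr, hsd⟩ : ∃ s : ℕ, s.Prime ∧ r ≠ s ∧ s ∣ (center G).index := by
    by_cases hrp : r = p
    · exact ⟨q, hq, fun h1 => hpq (hrp.symm.trans h1), hqd⟩
    · exact ⟨p, hp, hrp, hpd⟩
  obtain ⟨a, haC, haZ, ha⟩ := exists_elt_of_dvd_relIndex hs (hdiv s hs hsd)
  have hab : centralizer ({b} : Set G) ≤ centralizer ({a} : Set G) := by
    apply two_cop h hbZ _ (coprime_of_pows hr hs hsr hbr ha)
    rw [hbC] at haC
    exact mem_centralizer_singleton_iff'.1 haC
  have haC' : centralizer ({b} : Set G) = centralizer ({a} : Set G) := two_cent_eq h hbZ haZ hab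
  -- all prime power elements of C are central in C
  have key : ∀ t : ℕ, t.Prime → ∀ c ∈ centralizer ({x} : Set G), (∃ k, c ^ t ^ k = 1) →
      centralizer ({x} : Set G) ≤ centralizer ({c} : Set G) := by
    intro t ht c hc hct
    by_cases htr : r = t
    · rw [hbC, haC']
      apply two_cop h haZ _ (coprime_of_pows hs ht (fun h1 => hsr (htr.trans h1.symm)) ha hct)
      rw [hbC, haC'] at hc
      exact mem_centralizer_singleton_iff'.1 hc
    · rw [hbC]
      apply two_cop h hbZ _ (coprime_of_pows hr ht htr hbr hct)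
      rw [hbC] at hc
      exact mem_centralizer_singleton_iff'.1 hc
  intro g hg k hk
  have hgc : (⟨g, hg⟩ : centralizer ({x} : Set G)) ∈ center (centralizer ({x} : Set G)) := by
    apply CfsgH3.mem_of_forall_pPart
    rintro t ht ⟨c, hc⟩ _ ⟨i, hi⟩
    have h1 := key t ht c hc ⟨i, congrArg Subtype.val hi⟩
    rw [Subgroup.mem_center_iff]
    intro w
    apply Subtype.ext
    exact (mem_centralizer_singleton_iff'.1 (h1 w.2)).symm
  exact (congrArg Subtype.val ((Subgroup.mem_center_iff.1 hgc) ⟨k, hk⟩)).symm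

/-- the partition gives `c ≤ n` -/
theorem two_count {n : ℕ} (hn : 1 < n) (h : ∀ x : G, csz x = 1 ∨ csz x = n) {c : ℕ}
    (hc : ∀ x : G, x ∉ center G → (center G).relIndex (centralizer ({x} : Set G)) = c)
    (hab : ∀ x : G, x ∉ center G → ∀ g ∈ centralizer ({x} : Set G), ∀ k ∈ centralizer ({x} : Set G), g * k = k * g)
    {x₀ : G} (hx₀ : x₀ ∉ center G) : c ≤ n := by
  classical
  haveI : Fintype G := Fintype.ofFinite G
  obtain ⟨z, hz⟩ : ∃ z, z = Nat.card (center G) := ⟨_, rfl⟩
  have hz0 : 0 < z := by rw [hz]; exact Nat.card_pos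
  have hcard : ∀ x : G, x ∉ center G → Nat.card (centralizer ({x} : Set G)) = z * c := by
    intro x hx
    have h1 := Subgroup.relIndex_mul_relIndex ⊥ (center G) (centralizer ({x} : Set G)) bot_le (Subgroup.center_le_centralizer _)
    rw [Subgroup.relIndex_bot_left, Subgroup.relIndex_bot_left, hc x hx, ← hz] at h1
    exact h1.symm
  have hG : Nat.card G = z * c * n := by
    have h1 := (centralizer ({x₀} : Set G)).card_mul_index
    change _ * csz x₀ = _ at h1
    rw [(h x₀).resolve_left (fun h2 => hx₀ (csz_eq_one_iff.1 h2)), hcard x₀ hx₀] at h1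
    exact h1.symm
  have hcount : (z * c - z) ∣ (Finset.univ.filter (fun x : G => x ∉ center G)).card := by
    rw [Finset.card_eq_sum_card_image (fun x : G => centralizer ({x} : Set G))]
    apply Finset.dvd_sum
    intro K hK
    obtain ⟨x, hx, rfl⟩ := Finset.mem_image.1 hK
    have hxZ : x ∉ center G := (Finset.mem_filter.1 hx).2
    have h1 : ((Finset.univ.filter (fun x : G => x ∉ center G)).filter
        (fun y => centralizer ({y} : Set G) = centralizer ({x} : Set G))) =
        (Finset.univ.filter (fun y : G => y ∈ centralizer ({x} : Set G))) \ (Finset.univ.filter (fun y : G => y ∈ center G)) := by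
      ext y
      simp only [Finset.mem_filter, Finset.mem_univ, true_and, Finset.mem_sdiff]
      constructor
      · rintro ⟨h1, h2⟩
        refine ⟨?_, h1⟩
        rw [← h2]; exact mem_centralizer_singleton_iff'.2 rfl
      · rintro ⟨h1, h2⟩
        refine ⟨h2, ?_⟩
        symm
        apply two_cent_eq h hxZ h2
        intro g hg
        exact mem_centralizer_singleton_iff'.2 (hab x hxZ y h1 g hg)
    rw [h1, Finset.card_sdiff_of_subset]
    · rw [← card_eq_filter, ← card_eq_filter, hcard x hxZ, ← hz]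
    · intro y hy
      simp only [Finset.mem_filter, Finset.mem_univ, true_and] at hy ⊢
      exact (Subgroup.center_le_centralizer _) hy
  have htot : (Finset.univ.filter (fun x : G => x ∉ center G)).card = z * c * n - z := by
    have h1 : Finset.univ.filter (fun x : G => x ∉ center G) = Finset.univ \ (Finset.univ.filter (fun y : G => y ∈ center G)) := by
      ext y; simp
    rw [h1, Finset.card_sdiff_of_subset (Finset.subset_univ _), ← card_eq_filter, ← hz, Finset.card_univ,
      ← Nat.card_eq_fintype_card, hG]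
  rw [htot] at hcount
  -- c > 0
  have hc0 : 0 < c := Nat.pos_of_ne_zero (by rintro rfl; rw [mul_zero, zero_mul] at hG; exact Nat.card_pos.ne' hG)
  obtain ⟨d, rfl⟩ : ∃ d, c = d + 1 := ⟨c - 1, by omega⟩
  obtain ⟨m, rfl⟩ : ∃ m, n = m + 1 := ⟨n - 1, by omega⟩
  have e1 : z * (d + 1) - z = z * d := by rw [mul_add, mul_one]; omega
  have e2 : z * (d + 1) * (m + 1) - z = z * (d * (m + 1) + m) := by
    have : z * (d + 1) * (m + 1) = z * (d * (m + 1) + m) + z := by ring
    omega
  rw [e1, e2] at hcount
  have h3 : d ∣ d * (m + 1) + m := (mul_dvd_mul_iff_left hz0.ne').1 hcount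
  have h4 : d ∣ m := (Nat.dvd_add_right (dvd_mul_right _ _)).1 h3
  have := Nat.le_of_dvd (by omega) h4
  omega

/-- the local comparison -/
theorem two_local {n : ℕ} (h : ∀ x : G, csz x = 1 ∨ csz x = n) {c : ℕ}
    (hc : ∀ x : G, x ∉ center G → (center G).relIndex (centralizer ({x} : Set G)) = c)
    (hab : ∀ x : G, x ∉ center G → ∀ g ∈ centralizer ({x} : Set G), ∀ k ∈ centralizer ({x} : Set G), g * k = k * g)
    {r s : ℕ} (hr : r.Prime) (hs : s.Prime) (hrs : r ≠ s) (hrd : r ∣ (center G).index) (hsc : s ∣ c) :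
    r ^ n.factorization r < s ^ c.factorization s := by
  classical
  haveI : Fact r.Prime := ⟨hr⟩
  haveI : Fact s.Prime := ⟨hs⟩
  haveI : Fintype G := Fintype.ofFinite G
  obtain ⟨P⟩ : Nonempty (Sylow r G) := inferInstance
  -- v ∈ P with [v, P] ≤ Z
  obtain ⟨v, hvP, hvZ, hvc⟩ : ∃ v ∈ (P : Subgroup G), v ∉ center G ∧ ∀ w ∈ (P : Subgroup G), ⁅w, v⁆ ∈ center G := by
    haveI : ((center G).subgroupOf (P : Subgroup G)).Normal := inferInstance
    have hne : (center G).subgroupOf (P : Subgroup G) ≠ ⊤ := by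
      intro h1
      rw [Subgroup.subgroupOf_eq_top] at h1
      exact P.not_dvd_index (hrd.trans (Subgroup.index_dvd_of_le h1))
    have hq : IsPGroup r ((P : Subgroup G) ⧸ (center G).subgroupOf (P : Subgroup G)) := P.2.to_quotient _
    haveI : Nontrivial ((P : Subgroup G) ⧸ (center G).subgroupOf (P : Subgroup G)) := by
      by_contra hnt
      rw [not_nontrivial_iff_subsingleton] at hnt
      exact hne (QuotientGroup.subsingleton_iff.1 hnt)
    haveI := hq.center_nontrivial
    obtain ⟨⟨w, hw⟩, hw1⟩ := exists_ne (1 : center ((P : Subgroup G) ⧸ (center G).subgroupOf (P : Subgroup G)))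
    obtain ⟨v, rfl⟩ := QuotientGroup.mk'_surjective _ w
    refine ⟨v, v.2, ?_, ?_⟩
    · intro hv
      apply hw1
      apply Subtype.ext
      exact (QuotientGroup.eq_one_iff v).2 hv
    · intro u hu
      have h1 := (Subgroup.mem_center_iff.1 hw) (QuotientGroup.mk' _ ⟨u, hu⟩)
      rw [← commutatorElement_eq_one_iff_mul_comm, ← map_commutatorElement] at h1
      have h2 : ⁅(⟨u, hu⟩ : (P : Subgroup G)), v⁆ ∈ (center G).subgroupOf (P : Subgroup G) := (QuotientGroup.eq_one_iff _).1 h1
      exact h2
  obtain ⟨C, hC⟩ : ∃ C : Subgroup G, C = centralizer ({v} : Set G) := ⟨_, rfl⟩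
  have hPC : (P : Subgroup G) ≤ normalizer (C : Set G) := by
    rw [le_normalizer_iff_conj]
    intro w hw g hg
    rw [hC, mem_centralizer_singleton_iff'] at hg ⊢
    have hz := hvc w⁻¹ ((P : Subgroup G).inv_mem hw)
    -- w⁻¹ v w = z v
    have e1 : w⁻¹ * v * w = ⁅w⁻¹, v⁆ * v := by rw [commutatorElement_def]; group
    have e2 : (w⁻¹ * v * w) * g = g * (w⁻¹ * v * w) := by
      rw [e1]
      have e3 := (Subgroup.mem_center_iff.1 hz) g
      calc ⁅w⁻¹, v⁆ * v * g = ⁅w⁻¹, v⁆ * (v * g) := by group
        _ = (⁅w⁻¹, v⁆ * g) * v := by rw [hg]; group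
        _ = g * (⁅w⁻¹, v⁆ * v) := by rw [← e3]; group
    calc v * (w * g * w⁻¹) = w * ((w⁻¹ * v * w) * g) * w⁻¹ := by group
      _ = w * (g * (w⁻¹ * v * w)) * w⁻¹ := by rw [e2]
      _ = w * g * w⁻¹ * v := by group
  obtain ⟨Q, hQ⟩ := exists_isSylowOf s C
  have hQC := isSylowOf_le hQ
  have hZC : center G ≤ C := by rw [hC]; exact Subgroup.center_le_centralizer _
  have habC : ∀ g ∈ C, ∀ k ∈ C, g * k = k * g := by rw [hC]; exact hab v hvZ
  -- Q is the set of s-elements of C
  have hQmem : ∀ g ∈ C, (∃ k, g ^ s ^ k = 1) → g ∈ Q := by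
    rintro g hg ⟨k, hk⟩
    by_contra hgQ
    have h1 := (isSylowOf_iff.1 hQ).2.2
    apply h1
    haveI : (Q.subgroupOf C).Normal := by
      refine ⟨fun a ha b => ?_⟩
      have : b * a * b⁻¹ = a := by
        have h2 : b * a = a * b := Subtype.ext (habC b b.2 a a.2)
        rw [h2, mul_inv_cancel_right]
      rw [this]; exact ha
    by_contra hno
    have h2 : (⟨g, hg⟩ : C) ^ (Q.relIndex C) ∈ Q.subgroupOf C := Subgroup.pow_index_mem _ _
    have h3 : g ^ (Q.relIndex C) ∈ Q := h2
    have h4 : Nat.Coprime (Q.relIndex C) (orderOf g) := by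
      refine Nat.Coprime.coprime_dvd_right (orderOf_dvd_of_pow_eq_one hk) ?_
      exact Nat.Coprime.pow_right k ((Nat.Prime.coprime_iff_not_dvd hs).2 hno).symm
    obtain ⟨j, hj⟩ := exists_pow_eq_self_of_coprime h4
    apply hgQ
    rw [← hj]
    exact pow_mem h3 j
  have hQs : ∀ g ∈ Q, ∃ k, g ^ s ^ k = 1 := by
    intro g hg
    obtain ⟨k, hk⟩ := (isSylowOf_isPGroup hQ) ⟨g, hg⟩
    exact ⟨k, congrArg Subtype.val hk⟩
  -- the action of P on Q \ Z
  letI act : MulAction (P : Subgroup G) G :=
    { smul := fun w g => (w : G) * g * (w : G)⁻¹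
      one_smul := fun g => by change ((1 : (P : Subgroup G)) : G) * g * ((1 : (P : Subgroup G)) : G)⁻¹ = g; simp
      mul_smul := fun a b g => by
        change ((a * b : (P : Subgroup G)) : G) * g * ((a * b : (P : Subgroup G)) : G)⁻¹ = a * (b * g * (b : G)⁻¹) * (a : G)⁻¹
        rw [Subgroup.coe_mul]; group }
  have hsmul : ∀ (w : (P : Subgroup G)) (g : G), w • g = (w : G) * g * (w : G)⁻¹ := fun _ _ => rfl
  have hdvd : ((C.subgroupOf (P : Subgroup G)).index) ∣ (Finset.univ.filter (fun g : G => g ∈ Q ∧ g ∉ center G)).card := by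
    apply dvd_card_of_orbits (Γ := (P : Subgroup G))
    · intro w g hg
      simp only [Finset.mem_filter, Finset.mem_univ, true_and] at hg ⊢
      rw [hsmul]
      refine ⟨?_, ?_⟩
      · apply hQmem _ (le_normalizer_iff_conj.1 hPC w w.2 g (hQC hg.1))
        obtain ⟨k, hk⟩ := hQs g hg.1
        exact ⟨k, by rw [conj_pow, hk]; group⟩
      · intro h1
        apply hg.2
        have h2 := (inferInstance : (center G).Normal).conj_mem _ h1 (w : G)⁻¹
        have h3 : (w : G)⁻¹ * (w * g * (w : G)⁻¹) * ((w : G)⁻¹)⁻¹ = g := by group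
        rwa [h3] at h2
    · intro g hg
      simp only [Finset.mem_filter, Finset.mem_univ, true_and] at hg
      have h1 : MulAction.stabilizer (P : Subgroup G) g = C.subgroupOf (P : Subgroup G) := by
        have hCg : centralizer ({g} : Set G) = C := by
          rw [hC]
          symm
          apply two_cent_eq h hvZ hg.2
          rw [← hC]
          intro k hk
          exact mem_centralizer_singleton_iff'.2 (habC g (hQC hg.1) k hk)
        ext w
        rw [MulAction.mem_stabilizer_iff, Subgroup.mem_subgroupOf, ← hCg, mem_centralizer_singleton_iff', hsmul]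
        constructor
        · intro h2
          calc g * (w : G) = (w * g * (w : G)⁻¹) * w := by rw [h2]
            _ = w * g := by group
        · intro h2
          rw [← h2, mul_inv_cancel_right]
      rw [h1]
  -- cardinalities
  have hcardS : (Finset.univ.filter (fun g : G => g ∈ Q ∧ g ∉ center G)).card = Nat.card Q - Nat.card (Q ⊓ center G : Subgroup G) := by
    have h1 : Finset.univ.filter (fun g : G => g ∈ Q ∧ g ∉ center G) =
        Finset.univ.filter (fun g : G => g ∈ Q) \ Finset.univ.filter (fun g : G => g ∈ Q ⊓ center G) := by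
      ext y
      simp only [Finset.mem_filter, Finset.mem_univ, true_and, Finset.mem_sdiff, Subgroup.mem_inf]
      tauto
    rw [h1, Finset.card_sdiff_of_subset, ← card_eq_filter, ← card_eq_filter]
    intro y hy
    simp only [Finset.mem_filter, Finset.mem_univ, true_and, Subgroup.mem_inf] at hy ⊢
    exact hy.1
  rw [hcardS] at hdvd
  -- |Q| = |Q ∩ Z| * s^(v_s c)
  have hQZ : IsSylowOf s (Q ⊓ center G) (center G) :=
    isSylowOf_inf_of_normal hQ hZC (by rw [Subgroup.normalizer_eq_top]; exact le_top)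
  have hcardC : Nat.card C = Nat.card (center G) * c := by
    have h1 := Subgroup.relIndex_mul_relIndex ⊥ (center G) C bot_le hZC
    rw [Subgroup.relIndex_bot_left, Subgroup.relIndex_bot_left, hC, hc v hvZ, ← hC] at h1
    exact h1.symm
  have hsylcard : ∀ {t : ℕ} [Fact t.Prime] {X K : Subgroup G}, IsSylowOf t X K → Nat.card X = t ^ (Nat.card K).factorization t := by
    rintro t _ X K ⟨X', rfl⟩
    rw [Subgroup.card_map_of_injective K.subtype_injective]
    exact X'.card_eq_multiplicity
  have hc0 : c ≠ 0 := by rintro rfl; rw [mul_zero] at hcardC; exact Nat.card_pos.ne' hcardC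
  have hQcard : Nat.card Q = Nat.card (Q ⊓ center G : Subgroup G) * s ^ c.factorization s := by
    rw [hsylcard hQ, hsylcard hQZ, hcardC, Nat.factorization_mul Nat.card_pos.ne' hc0, Finsupp.add_apply, pow_add]
  rw [hQcard] at hdvd
  have hz0 : 0 < Nat.card (Q ⊓ center G : Subgroup G) := Nat.card_pos
  have hsc1 : 1 < s ^ c.factorization s := Nat.one_lt_pow (Nat.pos_of_ne_zero (by
    exact (hs.factorization_pos_of_dvd hc0 hsc).ne')).ne' hs.one_lt
  have e1 : Nat.card (Q ⊓ center G : Subgroup G) * s ^ c.factorization s - Nat.card (Q ⊓ center G : Subgroup G) =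
      Nat.card (Q ⊓ center G : Subgroup G) * (s ^ c.factorization s - 1) := by
    rw [Nat.mul_sub, mul_one]
  rw [e1] at hdvd
  -- the index is a power of r
  have hidx : (C.subgroupOf (P : Subgroup G)).index ∣ s ^ c.factorization s - 1 := by
    obtain ⟨j, hj⟩ := IsPGroup.iff_card.1 P.2
    have hj' : Nat.card (P : Subgroup G) = r ^ j := hj
    have h1 : (C.subgroupOf (P : Subgroup G)).index ∣ r ^ j := by rw [← hj']; exact Subgroup.index_dvd_card _
    refine Nat.Coprime.dvd_of_dvd_mul_left ?_ hdvd
    refine Nat.Coprime.coprime_dvd_left h1 ?_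
    rw [hsylcard hQZ]
    exact Nat.Coprime.pow _ _ ((Nat.coprime_primes hr hs).2 hrs)
  have hle : (C.subgroupOf (P : Subgroup G)).index ≤ s ^ c.factorization s - 1 := Nat.le_of_dvd (by omega) hidx
  -- n_r divides the index
  have hnr : r ^ n.factorization r ∣ (C.subgroupOf (P : Subgroup G)).index := by
    have h1 : Nat.card (C.subgroupOf (P : Subgroup G)) * (C.subgroupOf (P : Subgroup G)).index = Nat.card (P : Subgroup G) :=
      Subgroup.card_mul_index _
    have h2 : Nat.card (C.subgroupOf (P : Subgroup G)) ∣ Nat.card C := by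
      have h3 : Nat.card (C.subgroupOf (P : Subgroup G)) = Nat.card ((C.subgroupOf (P : Subgroup G)).map (P : Subgroup G).subtype) :=
        (Subgroup.card_map_of_injective (P : Subgroup G).subtype_injective).symm
      rw [h3, Subgroup.subgroupOf_map_subtype]
      exact Subgroup.card_dvd_of_le inf_le_left
    have hG : Nat.card C * n = Nat.card G := by
      have h3 := (centralizer ({v} : Set G)).card_mul_index
      change _ * csz v = _ at h3
      rw [(h v).resolve_left (fun h2 => hvZ (csz_eq_one_iff.1 h2))] at h3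
      rw [hC]; exact h3
    have hn0 : n ≠ 0 := by rintro rfl; rw [mul_zero] at hG; exact Nat.card_pos.ne' hG.symm
    have h4 : Nat.card (P : Subgroup G) = r ^ (Nat.card C).factorization r * r ^ n.factorization r := by
      rw [P.card_eq_multiplicity, ← hG, Nat.factorization_mul Nat.card_pos.ne' hn0, Finsupp.add_apply, pow_add]
    -- |P₁| ∣ r^(v_r |C|)
    obtain ⟨j, hj⟩ := IsPGroup.iff_card.1 (P.2.to_subgroup (C.subgroupOf (P : Subgroup G)))
    have h5 : j ≤ (Nat.card C).factorization r := by
      rw [hj] at h2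
      exact (hr.pow_dvd_iff_le_factorization Nat.card_pos.ne').1 h2
    rw [hj] at h1
    have h6 : r ^ j * (C.subgroupOf (P : Subgroup G)).index =
        r ^ j * (r ^ ((Nat.card C).factorization r - j) * r ^ n.factorization r) := by
      have h8 : r ^ (Nat.card C).factorization r = r ^ j * r ^ ((Nat.card C).factorization r - j) := by
        rw [← pow_add, Nat.add_sub_cancel' h5]
      rw [h1, h4, h8]; ring
    have h7 := Nat.eq_of_mul_eq_mul_left (pow_pos hr.pos j) h6
    rw [h7]
    exact dvd_mul_left _ _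
  have h8 : 0 < (C.subgroupOf (P : Subgroup G)).index := Nat.pos_of_ne_zero Subgroup.index_ne_zero_of_finite
  have h9 := Nat.le_of_dvd h8 hnr
  omega

theorem comm_inv_inv_mem_center {v : G} (hvc : ∀ w : G, ⁅w, v⁆ ∈ center G) (w : G) : ⁅w⁻¹, v⁻¹⁆ ∈ center G := by
  have h1 := hvc w⁻¹
  have h3 : ⁅w⁻¹, v⁻¹⁆ = v⁻¹ * ⁅w⁻¹, v⁆⁻¹ * v := by
    rw [commutatorElement_def, commutatorElement_def]; group
  rw [h3]
  have h4 := (inferInstance : (center G).Normal).conj_mem _ (inv_mem h1) v⁻¹
  rwa [inv_inv] at h4

/-- `G/Z(G)` is a `p`-group -/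
theorem two_sizes_pgroup {n : ℕ} (hn : 1 < n) (h : ∀ x : G, csz x = 1 ∨ csz x = n) (hex : ∃ x : G, csz x = n) :
    ∃ p : ℕ, p.Prime ∧ ∃ k, (center G).index = p ^ k := by
  obtain ⟨x₀, hx₀⟩ := hex
  have hx₀Z : x₀ ∉ center G := by
    intro h1
    rw [csz_eq_one_iff.2 h1] at hx₀
    omega
  have hidx1 : (center G).index ≠ 1 := by
    intro h1
    rw [Subgroup.index_eq_one] at h1
    exact hx₀Z (by rw [h1]; trivial)
  obtain ⟨p, hp, hpd⟩ := Nat.exists_prime_and_dvd hidx1
  refine ⟨p, hp, ?_⟩
  by_contra hno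
  obtain ⟨q, hq, hqd, hqp⟩ : ∃ q : ℕ, q.Prime ∧ q ∣ (center G).index ∧ p ≠ q := by
    by_contra hno2
    push Not at hno2
    exact hno ⟨_, Nat.eq_prime_pow_of_unique_prime_dvd Subgroup.index_ne_zero_of_finite (fun {d} hd hdG => (hno2 d hd hdG).symm)⟩
  have hab : ∀ x : G, x ∉ center G → ∀ g ∈ centralizer ({x} : Set G), ∀ k ∈ centralizer ({x} : Set G), g * k = k * g :=
    fun x hx => two_abelian h hp hq hqp hpd hqd hx
  obtain ⟨c, hcdef⟩ : ∃ c, c = (center G).relIndex (centralizer ({x₀} : Set G)) := ⟨_, rfl⟩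
  have hrel : ∀ u : G, u ∉ center G → (center G).relIndex (centralizer ({u} : Set G)) * n = (center G).index := by
    intro u hu
    have h1 : csz u = n := (h u).resolve_left (fun h2 => hu (csz_eq_one_iff.1 h2))
    rw [← h1]
    exact Subgroup.relIndex_mul_index (Subgroup.center_le_centralizer _)
  have hc : ∀ x : G, x ∉ center G → (center G).relIndex (centralizer ({x} : Set G)) = c := by
    intro x hx
    rw [hcdef]
    exact Nat.eq_of_mul_eq_mul_right (by omega) ((hrel x hx).trans (hrel x₀ hx₀Z).symm)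
  have hcn : c * n = (center G).index := by rw [hcdef]; exact hrel x₀ hx₀Z
  have hle := two_count hn h hc hab hx₀Z
  have hc0 : c ≠ 0 := by
    rintro rfl
    rw [zero_mul] at hcn
    exact Subgroup.index_ne_zero_of_finite hcn.symm
  have hn0 : n ≠ 0 := by omega
  have hdiv : ∀ s : ℕ, s.Prime → s ∣ (center G).index → s ∣ c := by
    intro s hs hsd
    rw [← Subgroup.relIndex_top_right] at hsd
    obtain ⟨u, -, huZ, hu⟩ := exists_elt_of_dvd_relIndex hs hsd
    rw [← hc u huZ]
    exact dvd_relIndex_of_elt inferInstance hs (mem_centralizer_singleton_iff'.2 rfl) huZ hu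
  have hloc : ∀ r s : ℕ, r ∈ ((center G).index).primeFactors → s ∈ ((center G).index).primeFactors → r ≠ s →
      r ^ n.factorization r < s ^ c.factorization s := by
    intro r s hr hs hrs
    exact two_local h hc hab (Nat.prime_of_mem_primeFactors hr) (Nat.prime_of_mem_primeFactors hs) hrs
      (Nat.dvd_of_mem_primeFactors hr) (hdiv s (Nat.prime_of_mem_primeFactors hs) (Nat.dvd_of_mem_primeFactors hs))
  obtain ⟨π, hπ⟩ : ∃ π, π = ((center G).index).primeFactors := ⟨_, rfl⟩
  rw [← hπ] at hloc
  have hpπ : p ∈ π := by rw [hπ]; exact Nat.mem_primeFactors.2 ⟨hp, hpd, Subgroup.index_ne_zero_of_finite⟩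
  have hqπ : q ∈ π := by rw [hπ]; exact Nat.mem_primeFactors.2 ⟨hq, hqd, Subgroup.index_ne_zero_of_finite⟩
  obtain ⟨r₀, hr₀, hmin⟩ := Finset.exists_min_image π (fun r => r ^ c.factorization r) ⟨p, hpπ⟩
  obtain ⟨r₁, hr₁, hr₁₀⟩ : ∃ r₁ ∈ π, r₁ ≠ r₀ := by
    by_cases h1 : p = r₀
    · exact ⟨q, hqπ, fun h2 => hqp (h1.trans h2.symm)⟩
    · exact ⟨p, hpπ, h1⟩
  have hprodn : ∏ r ∈ π, r ^ n.factorization r = n := by
    have h1 : n.primeFactors ⊆ π := by
      rw [hπ]
      exact Nat.primeFactors_mono (Dvd.intro_left c hcn) Subgroup.index_ne_zero_of_finite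
    rw [← Finset.prod_subset h1]
    · have h2 := Nat.prod_factorization_pow_eq_self hn0
      rw [Finsupp.prod, Nat.support_factorization] at h2
      exact h2
    · intro r hr hrn
      have : n.factorization r = 0 := by
        rw [← Nat.support_factorization] at hrn
        exact Finsupp.notMem_support_iff.1 hrn
      rw [this, pow_zero]
  have hprodc : ∏ r ∈ π, r ^ c.factorization r = c := by
    have h1 : c.primeFactors ⊆ π := by
      rw [hπ]
      exact Nat.primeFactors_mono (Dvd.intro n hcn) Subgroup.index_ne_zero_of_finite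
    rw [← Finset.prod_subset h1]
    · have h2 := Nat.prod_factorization_pow_eq_self hc0
      rw [Finsupp.prod, Nat.support_factorization] at h2
      exact h2
    · intro r hr hrn
      have : c.factorization r = 0 := by
        rw [← Nat.support_factorization] at hrn
        exact Finsupp.notMem_support_iff.1 hrn
      rw [this, pow_zero]
  have hswap : ∏ r ∈ π, (Equiv.swap r₀ r₁ r) ^ c.factorization (Equiv.swap r₀ r₁ r) = c := by
    refine Eq.trans ?_ hprodc
    apply Finset.prod_equiv (Equiv.swap r₀ r₁)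
    · intro r
      by_cases h1 : r = r₀
      · rw [h1, Equiv.swap_apply_left]; exact ⟨fun _ => hr₁, fun _ => hr₀⟩
      · by_cases h2 : r = r₁
        · rw [h2, Equiv.swap_apply_right]; exact ⟨fun _ => hr₀, fun _ => hr₁⟩
        · rw [Equiv.swap_apply_of_ne_of_ne h1 h2]
    · intro r _; rfl
  have hlt : n < c := by
    rw [← hprodn, ← hswap]
    apply Finset.prod_lt_prod_of_nonempty
    · intro r hr
      rw [hπ] at hr
      exact pow_pos (Nat.prime_of_mem_primeFactors hr).pos _
    · intro r hr
      by_cases h1 : r = r₀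
      · rw [h1, Equiv.swap_apply_left]; exact hloc r₀ r₁ hr₀ hr₁ hr₁₀.symm
      · by_cases h2 : r = r₁
        · rw [h2, Equiv.swap_apply_right]; exact hloc r₁ r₀ hr₁ hr₀ hr₁₀
        · rw [Equiv.swap_apply_of_ne_of_ne h1 h2]
          exact lt_of_lt_of_le (hloc r r₀ hr hr₀ h1) (hmin r hr)
    · exact ⟨p, hpπ⟩
  omega

theorem two_sizes {n : ℕ} (hn : 1 < n) (h : ∀ x : G, csz x = 1 ∨ csz x = n) (hex : ∃ x : G, csz x = n) :
    ∃ (p : ℕ) (_ : Fact p.Prime) (a : ℕ), n = p ^ a ∧ ∀ P : Sylow p G, (P : Subgroup G).Normal ∧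
      (∃ N : Subgroup G, N.Normal ∧ N.IsComplement' (P : Subgroup G) ∧ IsMulCommutative N ∧
        ∀ x ∈ N, ∀ y ∈ (P : Subgroup G), x * y = y * x) ∧
      ∃ A : Subgroup (P : Subgroup G), A.Normal ∧ IsMulCommutative A ∧ ∀ y : (P : Subgroup G), y ^ p ∈ A := by
  obtain ⟨p, hp, k, hk⟩ := two_sizes_pgroup hn h hex
  haveI : Fact p.Prime := ⟨hp⟩
  obtain ⟨x₀, hx₀⟩ := hex
  have hx₀Z : x₀ ∉ center G := by
    intro h1
    rw [csz_eq_one_iff.2 h1] at hx₀
    omega
  have hnd : n ∣ p ^ k := by
    rw [← hk, ← hx₀]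
    exact Subgroup.index_dvd_of_le (Subgroup.center_le_centralizer _)
  obtain ⟨a, _, ha⟩ := (Nat.dvd_prime_pow hp).1 hnd
  refine ⟨p, ⟨hp⟩, a, ha, ?_⟩
  intro P
  have hZp : ∀ x : G, x ^ p ^ k ∈ center G := by
    intro x; rw [← hk]; exact Subgroup.pow_index_mem _ _
  have hsup : (P : Subgroup G) ⊔ center G = ⊤ := by
    rw [← Subgroup.index_eq_one]
    have h1 : ((P : Subgroup G) ⊔ center G).index ∣ p ^ k := by
      rw [← hk]; exact Subgroup.index_dvd_of_le le_sup_right
    obtain ⟨j, _, hj⟩ := (Nat.dvd_prime_pow hp).1 h1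
    rcases Nat.eq_zero_or_pos j with h0 | h0
    · rw [hj, h0, pow_zero]
    · exfalso
      apply P.not_dvd_index
      refine dvd_trans ?_ (Subgroup.index_dvd_of_le (le_sup_left : (P : Subgroup G) ≤ (P : Subgroup G) ⊔ center G))
      rw [hj]; exact dvd_pow_self p h0.ne'
  have hPn : (P : Subgroup G).Normal := by
    refine ⟨fun x hx g => ?_⟩
    have hg : g ∈ (P : Subgroup G) ⊔ center G := by rw [hsup]; trivial
    obtain ⟨u, hu, z, hz, rfl⟩ := Subgroup.mem_sup_of_normal_right.1 hg
    have h1 : u * z * x * (u * z)⁻¹ = u * x * u⁻¹ := by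
      have h2 := (Subgroup.mem_center_iff.1 hz) x
      calc u * z * x * (u * z)⁻¹ = u * (z * x) * z⁻¹ * u⁻¹ := by group
        _ = u * x * u⁻¹ := by rw [← h2]; group
    rw [h1]
    exact (P : Subgroup G).mul_mem ((P : Subgroup G).mul_mem hu hx) ((P : Subgroup G).inv_mem hu)
  refine ⟨hPn, ?_, ?_⟩
  · obtain ⟨N, hN⟩ := Subgroup.exists_right_complement'_of_coprime P.card_coprime_index
    have hNcard : Nat.card N = (P : Subgroup G).index := hN.symm.index_eq_card.symm
    have hNZ : N ≤ center G := by
      intro x hx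
      have h1 : (orderOf x).Coprime (p ^ k) := by
        refine Nat.Coprime.coprime_dvd_left (Subgroup.orderOf_dvd_natCard N hx) ?_
        rw [hNcard]
        exact Nat.Coprime.pow_right k ((Nat.Prime.coprime_iff_not_dvd hp).2 P.not_dvd_index).symm
      obtain ⟨j, hj⟩ := exists_pow_eq_self_of_coprime h1.symm
      rw [← hj]
      exact pow_mem (hZp x) j
    refine ⟨N, ⟨fun x hx g => ?_⟩, hN.symm, ⟨⟨fun a b => Subtype.ext ?_⟩⟩, fun x hx y _ => ?_⟩
    · have h1 := (Subgroup.mem_center_iff.1 (hNZ hx)) g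
      rw [h1, mul_inv_cancel_right]; exact hx
    · exact ((Subgroup.mem_center_iff.1 (hNZ a.2)) b).symm
    · exact ((Subgroup.mem_center_iff.1 (hNZ hx)) y).symm
  · -- the abelian normal subgroup
    have hGZ : IsPGroup p (G ⧸ center G) := IsPGroup.of_card (n := k) hk
    haveI : Nontrivial (G ⧸ center G) := by
      by_contra hnt
      rw [not_nontrivial_iff_subsingleton] at hnt
      exact hx₀Z (by rw [QuotientGroup.subsingleton_iff.1 hnt]; trivial)
    -- v
    obtain ⟨v, hvZ, hvp, hvc⟩ : ∃ v : G, v ∉ center G ∧ v ^ p ∈ center G ∧ ∀ w : G, ⁅w, v⁆ ∈ center G := by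
      haveI := hGZ.center_nontrivial
      have hcp : IsPGroup p (center (G ⧸ center G)) := hGZ.to_subgroup _
      have hd : p ∣ Nat.card (center (G ⧸ center G)) := by
        obtain ⟨j, hj⟩ := IsPGroup.iff_card.1 hcp
        rcases Nat.eq_zero_or_pos j with h0 | h0
        · exfalso
          rw [h0, pow_zero, Nat.card_eq_one_iff_unique] at hj
          exact not_subsingleton _ hj.1
        · rw [hj]; exact dvd_pow_self p h0.ne'
      obtain ⟨⟨w, hw⟩, hw1⟩ := exists_prime_orderOf_dvd_card' p hd
      rw [Subgroup.orderOf_mk] at hw1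
      obtain ⟨v, rfl⟩ := QuotientGroup.mk'_surjective _ w
      refine ⟨v, ?_, ?_, ?_⟩
      · intro hv
        have h1 : QuotientGroup.mk' (center G) v = 1 := (QuotientGroup.eq_one_iff v).2 hv
        rw [h1, orderOf_one] at hw1
        exact hp.ne_one hw1.symm
      · rw [← QuotientGroup.eq_one_iff]
        change QuotientGroup.mk' (center G) (v ^ p) = 1
        rw [map_pow, ← hw1]
        exact pow_orderOf_eq_one _
      · intro u
        have h1 := (Subgroup.mem_center_iff.1 hw) (QuotientGroup.mk' _ u)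
        rw [← commutatorElement_eq_one_iff_mul_comm, ← map_commutatorElement] at h1
        exact (QuotientGroup.eq_one_iff _).1 h1
    -- claim 1
    have claim1 : ∀ w : G, w ^ p ∉ center G → v * w = w * v := by
      intro w hw
      have hwZ : w ∉ center G := fun h1 => hw (pow_mem h1 p)
      -- (v w)^p = v^p w^p c
      have hcc : ⁅w⁻¹, v⁻¹⁆ ∈ center G := comm_inv_inv_mem_center hvc w
      obtain ⟨c, hcZ, hpow⟩ : ∃ c ∈ center G, (v * w) ^ p = v ^ p * w ^ p * c := by
        refine ⟨⁅w⁻¹, v⁻¹⁆ ^ (p.choose 2), pow_mem hcc _, ?_⟩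
        apply pow_mul_class_two
        · rw [commutatorElement_def, inv_inv, inv_inv]; group
        · exact ((Subgroup.mem_center_iff.1 hcc) v).symm
        · exact ((Subgroup.mem_center_iff.1 hcc) w).symm
      have hvwp : (v * w) ^ p ∉ center G := by
        intro h1
        apply hw
        have h2 : w ^ p = (v ^ p)⁻¹ * (v * w) ^ p * c⁻¹ := by rw [hpow]; group
        rw [h2]
        exact mul_mem (mul_mem (inv_mem hvp) h1) (inv_mem hcZ)
      have hvwZ : v * w ∉ center G := fun h1 => hvwp (pow_mem h1 p)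
      have h1 : centralizer ({w} : Set G) = centralizer ({w ^ p} : Set G) := two_cent_eq h hwZ hw (cent_le_pow w p)
      have h2 : centralizer ({v * w} : Set G) = centralizer ({(v * w) ^ p} : Set G) := two_cent_eq h hvwZ hvwp (cent_le_pow _ p)
      have h3 : centralizer ({(v * w) ^ p} : Set G) = centralizer ({w ^ p} : Set G) := by
        ext g
        rw [mem_centralizer_singleton_iff', mem_centralizer_singleton_iff', hpow]
        have e1 := (Subgroup.mem_center_iff.1 hvp) g
        have e2 := (Subgroup.mem_center_iff.1 hcZ) g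
        constructor
        · intro e3
          have e4 : v ^ p * (w ^ p * g) * c = v ^ p * (g * w ^ p) * c := by
            calc v ^ p * (w ^ p * g) * c = v ^ p * w ^ p * (g * c) := by group
              _ = v ^ p * w ^ p * c * g := by rw [e2]; group
              _ = g * (v ^ p * w ^ p * c) := e3
              _ = (g * v ^ p) * w ^ p * c := by group
              _ = v ^ p * (g * w ^ p) * c := by rw [e1]; group
          exact mul_left_cancel (mul_right_cancel e4)
        · intro e3
          calc v ^ p * w ^ p * c * g = v ^ p * w ^ p * (c * g) := by group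
            _ = v ^ p * (w ^ p * g) * c := by rw [← e2]; group
            _ = (v ^ p * g) * w ^ p * c := by rw [e3]; group
            _ = g * (v ^ p * w ^ p * c) := by rw [← e1]; group
      have h4 : v * w ∈ centralizer ({w} : Set G) := by
        rw [h1, ← h3, ← h2]; exact mem_centralizer_singleton_iff'.2 rfl
      have h5 : w * (v * w) = v * w * w := mem_centralizer_singleton_iff'.1 h4
      have h6 : w * v * w = v * w * w := by rw [mul_assoc]; exact h5
      exact (mul_right_cancel h6).symm
    -- claim 2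
    have claim2 : ∀ w : G, w ^ p ∉ center G → ∀ g ∈ centralizer ({w} : Set G), ∀ l ∈ centralizer ({w} : Set G), g * l = l * g := by
      intro w hw
      have hwZ : w ∉ center G := fun h1 => hw (pow_mem h1 p)
      have hwp : centralizer ({w} : Set G) = centralizer ({w ^ p} : Set G) := two_cent_eq h hwZ hw (cent_le_pow w p)
      have hsub : ∀ y ∈ centralizer ({w} : Set G), y ^ p ∈ center G → centralizer ({w} : Set G) ≤ centralizer ({y} : Set G) := by
        intro y hy hyp
        have hc : Commute w y := mem_centralizer_singleton_iff'.1 hy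
        have h1 : (w * y) ^ p = w ^ p * y ^ p := hc.mul_pow p
        have h2 : (w * y) ^ p ∉ center G := by
          intro h3
          apply hw
          have h4 : w ^ p = (w * y) ^ p * (y ^ p)⁻¹ := by rw [h1]; group
          rw [h4]
          exact mul_mem h3 (inv_mem hyp)
        have h3 : w * y ∉ center G := fun h4 => h2 (pow_mem h4 p)
        have h4 : centralizer ({w * y} : Set G) = centralizer ({(w * y) ^ p} : Set G) := two_cent_eq h h3 h2 (cent_le_pow _ p)
        have h5 : centralizer ({(w * y) ^ p} : Set G) = centralizer ({w ^ p} : Set G) := by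
          ext g
          rw [mem_centralizer_singleton_iff', mem_centralizer_singleton_iff', h1]
          have e1 := (Subgroup.mem_center_iff.1 hyp) g
          constructor
          · intro e3
            have e4 : (w ^ p * g) * y ^ p = (g * w ^ p) * y ^ p := by
              calc (w ^ p * g) * y ^ p = w ^ p * (g * y ^ p) := by group
                _ = w ^ p * y ^ p * g := by rw [e1]; group
                _ = g * (w ^ p * y ^ p) := e3
                _ = (g * w ^ p) * y ^ p := by group
            exact mul_right_cancel e4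
          · intro e3
            calc w ^ p * y ^ p * g = w ^ p * (y ^ p * g) := by group
              _ = (w ^ p * g) * y ^ p := by rw [← e1]; group
              _ = g * (w ^ p * y ^ p) := by rw [e3]; group
        intro g hg
        have h6 : g ∈ centralizer ({w * y} : Set G) := by rw [h4, h5, ← hwp]; exact hg
        rw [mem_centralizer_singleton_iff'] at hg h6 ⊢
        have e1 : w * (y * g) = w * (g * y) := by
          calc w * (y * g) = w * y * g := by group
            _ = g * (w * y) := h6
            _ = (g * w) * y := by group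
            _ = w * (g * y) := by rw [← hg]; group
        exact mul_left_cancel e1
      have hall : ∀ y ∈ centralizer ({w} : Set G), centralizer ({w} : Set G) ≤ centralizer ({y} : Set G) := by
        intro y hy
        by_cases hyZ : y ∈ center G
        · intro g _
          exact mem_centralizer_singleton_iff'.2 ((Subgroup.mem_center_iff.1 hyZ) g).symm
        · -- largest j with y^(p^j) noncentral
          have hfin : ∃ j, y ^ p ^ j ∈ center G := ⟨k, hZp y⟩
          classical
          obtain ⟨j, hj⟩ : ∃ j, j = Nat.find hfin := ⟨_, rfl⟩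
          have hj1 : y ^ p ^ j ∈ center G := by rw [hj]; exact Nat.find_spec hfin
          have hj0 : j ≠ 0 := by
            rintro h0
            rw [h0, pow_zero, pow_one] at hj1
            exact hyZ hj1
          have hj2 : y ^ p ^ (j - 1) ∉ center G := by
            have := Nat.find_min hfin (m := j - 1) (by rw [← hj]; omega)
            exact this
          have hj3 : (y ^ p ^ (j - 1)) ^ p ∈ center G := by
            rw [← pow_mul, ← pow_succ, Nat.sub_add_cancel (Nat.one_le_iff_ne_zero.2 hj0)]
            exact hj1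
          have h1 := hsub _ (pow_mem hy (p ^ (j - 1))) hj3
          have h2 := two_cent_eq h hwZ hj2 h1
          have h3 := two_cent_eq h hyZ hj2 (cent_le_pow y (p ^ (j - 1)))
          rw [h2, ← h3]
      intro g hg l hl
      exact mem_centralizer_singleton_iff'.1 (hall g hg hl)
    by_cases hU : ∀ w : G, w ^ p ∈ center G
    · refine ⟨(center G).subgroupOf (P : Subgroup G), inferInstance, ⟨⟨fun a b => Subtype.ext (Subtype.ext ?_)⟩⟩, fun y => hU y⟩
      exact ((Subgroup.mem_center_iff.1 a.2) (b : (P : Subgroup G))).symm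
    · push Not at hU
      obtain ⟨w, hw⟩ := hU
      have hwZ : w ∉ center G := fun h1 => hw (pow_mem h1 p)
      have hvw := claim1 w hw
      have hvC : v ∈ centralizer ({w} : Set G) := mem_centralizer_singleton_iff'.2 hvw.symm
      have hCeq : centralizer ({w} : Set G) = centralizer ({v} : Set G) := by
        apply two_cent_eq h hwZ hvZ
        intro g hg
        exact mem_centralizer_singleton_iff'.2 (claim2 w hw v hvC g hg)
      have hCab := claim2 w hw
      rw [hCeq] at hCab
      refine ⟨(centralizer ({v} : Set G)).subgroupOf (P : Subgroup G), ⟨fun x hx g => ?_⟩,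
        ⟨⟨fun a b => Subtype.ext (Subtype.ext ?_)⟩⟩, fun y => ?_⟩
      · rw [Subgroup.mem_subgroupOf, mem_centralizer_singleton_iff'] at hx ⊢
        have hz := hvc (g : G)⁻¹
        have e1 : (g : G)⁻¹ * v * g = ⁅(g : G)⁻¹, v⁆ * v := by rw [commutatorElement_def]; group
        have e3 := (Subgroup.mem_center_iff.1 hz) (x : G)
        have e2 : ((g : G)⁻¹ * v * g) * x = x * ((g : G)⁻¹ * v * g) := by
          rw [e1]
          calc ⁅(g : G)⁻¹, v⁆ * v * x = ⁅(g : G)⁻¹, v⁆ * (v * x) := by group
            _ = (⁅(g : G)⁻¹, v⁆ * x) * v := by rw [hx]; group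
            _ = x * (⁅(g : G)⁻¹, v⁆ * v) := by rw [← e3]; group
        change v * ((g : G) * x * (g : G)⁻¹) = (g : G) * x * (g : G)⁻¹ * v
        calc v * ((g : G) * x * (g : G)⁻¹) = g * (((g : G)⁻¹ * v * g) * x) * (g : G)⁻¹ := by group
          _ = g * (x * ((g : G)⁻¹ * v * g)) * (g : G)⁻¹ := by rw [e2]
          _ = g * x * (g : G)⁻¹ * v := by group
      · exact hCab _ a.2 _ b.2
      · by_cases hy : (y : G) ^ p ∈ center G
        · change (y : G) ^ p ∈ centralizer ({v} : Set G)
          exact (Subgroup.center_le_centralizer _) hy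
        · change (y : G) ^ p ∈ centralizer ({v} : Set G)
          apply pow_mem
          exact mem_centralizer_singleton_iff'.2 (claim1 (y : G) hy)

end CfsgH2
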